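import Cfsg.Agent.H3.Derangement2
import Cfsg.Agent.H3.FrobCompl
import Cfsg.Agent.H5.PGroupRankOne
import Cfsg.Agent.H9.SylowIn
import Cfsg.Agent.L0.SC3Util

/-!
# Groups of operators in which all elements outside a normal subgroup act without fixed points
-/

set_option autoImplicit false
set_option linter.unusedSectionVars false

namespace Cfsg.Agent.H4.Der

open Subgroup MulAction H3 H9

theorem indep {A ι : Type*} [CommGroup A] [Finite A] [Fintype ι] (W : ι → Subgroup A)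
    (h : ∀ i j, i ≠ j → ∃ ψ : A →* A, (∀ l, ∀ w ∈ W l, ψ w ∈ W l) ∧ (∀ w ∈ W j, ψ w = 1) ∧
      ∀ w ∈ W i, ψ w = 1 → w = 1) : ∏ i, Nat.card (W i) ≤ Nat.card A := by
  classical
  have key : ∀ t : Finset ι, ∀ f : ι → A, (∀ i, f i ∈ W i) → ∏ i ∈ t, f i = 1 →
      ∀ i ∈ t, f i = 1 := fun t => by
    induction t using Finset.induction_on with
    | empty => simp
    | insert j t hj ih =>
      intro f hf e
      rw [Finset.prod_insert hj] at e
      have h1 : ∀ i ∈ t, f i = 1 := fun i hi => by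
        obtain ⟨ψ, h1, h2, h3⟩ := h i j (fun e => hj (e ▸ hi))
        refine h3 _ (hf i) (ih (fun l => ψ (f l)) (fun l => h1 l _ (hf l)) ?_ i hi)
        have := congrArg ψ e
        rwa [map_mul, h2 _ (hf j), one_mul, map_prod, map_one] at this
      rw [Finset.prod_eq_one h1, mul_one] at e
      simpa [e] using h1
  rw [← Nat.card_pi]
  refine Nat.card_le_card_of_injective (fun f => ∏ i, (f i : A)) fun f g e => funext fun i => ?_
  exact Subtype.ext (div_eq_one.mp (key Finset.univ (fun i => (f i : A) / g i)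
    (fun i => div_mem (f i).2 (g i).2) (by rw [Finset.prod_div_distrib]; exact div_eq_one.mpr e) i
    (Finset.mem_univ i)))

theorem bern (x : ℕ) : ∀ l, (2 + (l + 2) * x) ^ 2 ≤ 4 * (1 + x) ^ (l + 2)
  | 0 => le_of_eq (by ring)
  | l + 1 => by
    have := Nat.mul_le_mul_right (1 + x) (bern x l)
    rw [mul_assoc, ← pow_succ] at this
    refine le_trans ?_ this
    nlinarith [Nat.zero_le (l * x), Nat.zero_le (l * x * x), Nat.zero_le (l * l * x * x * x),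
      Nat.zero_le (l * x * x * x), Nat.zero_le (x * x * x), Nat.zero_le (x * x)]

variable {G : Type*} [Group G] [Finite G]

theorem mc {u v : G} : u ∈ centralizer ({v} : Set G) ↔ Commute u v := mem_centralizer_singleton_iff

theorem card_le_of_conj {H K : Subgroup G} (m : G) (h : ∀ u ∈ H, m * u * m⁻¹ ∈ K) :
    Nat.card H ≤ Nat.card K :=
  Nat.card_le_card_of_injective (fun u : H => (⟨_, h u u.2⟩ : K)) fun p q e =>
    Subtype.ext (by simpa using e)

theorem comm_conj {b v m : G} (h : Commute (m⁻¹ * b * m⁻¹⁻¹) v) : Commute b (m * v * m⁻¹) := by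
  simpa [mul_assoc] using h.conj m

theorem indep' {ι : Type*} [Fintype ι] {P : Subgroup G} (hab : ∀ u ∈ P, ∀ v ∈ P, Commute u v)
    (W : ι → Subgroup G) (hW : ∀ i, W i ≤ P)
    (h : ∀ i j, i ≠ j → ∃ b, (∀ u ∈ P, b * u * b⁻¹ ∈ P) ∧ (∀ l, ∀ w ∈ W l, b * w * b⁻¹ ∈ W l) ∧
      (∀ w ∈ W j, Commute b w) ∧ ∀ w ∈ W i, Commute b w → w = 1) :
    ∏ i, Nat.card (W i) ≤ Nat.card P := by
  let _ : CommGroup P := { mul_comm := fun u v => Subtype.ext (hab u u.2 v v.2) }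
  refine le_of_eq_of_le (Finset.prod_congr rfl fun i _ =>
    (Nat.card_congr (subgroupOfEquivOfLe (hW i)).toEquiv).symm) (indep _ fun i j ne => ?_)
  obtain ⟨b, h0, h1, h2, h3⟩ := h i j ne
  refine ⟨MonoidHom.mk' (fun u => ⟨_, h0 u u.2⟩ / u) fun u v => ?_,
    fun l w hw => div_mem (h1 l w hw) hw, fun w hw => div_eq_one.mpr (Subtype.ext ?_),
    fun w hw e => Subtype.ext (h3 w hw (mul_inv_eq_iff_eq_mul.mp
      (congrArg Subtype.val (div_eq_one.mp e))))⟩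
  · rw [div_mul_div_comm]
    exact congrArg (· / _) (Subtype.ext conj_mul.symm)
  · exact mul_inv_eq_iff_eq_mul.mpr (h2 w hw)

/-- The conjugation action of a subgroup. -/
@[reducible] def cact (M : Subgroup G) : MulAction M G :=
  MulAction.compHom G (MulAut.conj.comp M.subtype)

theorem stab_cact (M : Subgroup G) (v : G) :
    @stabilizer M G _ (cact M) v = (centralizer {v}).subgroupOf M :=
  Subgroup.ext fun _ => mul_inv_eq_iff_eq_mul.trans mc.symm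

theorem orb {M : Subgroup G} {v : G} {Ψ : Set G} (h : ∀ m ∈ M, m * v * m⁻¹ ∈ Ψ) :
    (centralizer {v}).relIndex M ≤ Ψ.ncard := by
  let _ := cact M
  rw [relIndex, ← stab_cact, index_stabilizer]
  exact Set.ncard_le_ncard (by rintro _ ⟨m, rfl⟩; exact h m m.2)

/-- The elements of `E` which have non-trivial fixed points on `P`. -/
def NF (P E : Subgroup G) : Set G := {x | x ∈ E ∧ x ≠ 1 ∧ ∃ u ∈ P, u ≠ 1 ∧ Commute x u}

/-- The basic hypotheses. -/
structure Lin (P M D : Subgroup G) : Prop where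
  nm : ∀ m ∈ M, ∀ u ∈ P, m * u * m⁻¹ ∈ P
  fp : ∀ m ∈ M, ∀ u ∈ P, u ≠ 1 → Commute m u → m ∈ D
  fa : ∀ m ∈ M, (∀ u ∈ P, Commute m u) → m = 1
  big : Nat.card P < (D.relIndex M + 1) ^ 2

theorem eq_of_big {k a b : ℕ} (h1 : k ∣ a - 1) (h2 : k ∣ a * b - 1) (h3 : a * b < (k + 1) ^ 2)
    (h4 : 0 < a * b) : a = 1 ∨ b = 1 := by
  by_contra hn
  obtain ⟨a, rfl⟩ := Nat.exists_eq_add_of_le' (Nat.pos_of_mul_pos_right h4)
  obtain ⟨b, rfl⟩ := Nat.exists_eq_add_of_le' (Nat.pos_of_mul_pos_left h4)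
  rw [show (a + 1) * (b + 1) - 1 = a * (b + 1) + b by rw [Nat.sub_eq_iff_eq_add h4]; ring] at h2
  have h5 := Nat.le_of_dvd (by omega) h1
  have h6 := Nat.le_of_dvd (by omega) ((Nat.dvd_add_right (h1.mul_right _)).mp h2)
  rw [Nat.add_sub_cancel] at h5
  nlinarith

namespace Lin

variable {P M D : Subgroup G} (h : Lin P M D)
include h

theorem mono {M' : Subgroup G} (h1 : M' ≤ M) (h2 : D.relIndex M' = D.relIndex M) : Lin P M' D :=
  ⟨fun m hm => h.nm m (h1 hm), fun m hm => h.fp m (h1 hm), fun m hm => h.fa m (h1 hm), h2 ▸ h.big⟩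

theorem idx {v : G} (hv : v ∈ P) (v1 : v ≠ 1) : (centralizer {v}).relIndex M =
    (centralizer {v}).relIndex (D ⊓ M) * D.relIndex M := by
  have e : centralizer {v} ⊓ M = centralizer {v} ⊓ (D ⊓ M) := le_antisymm
    (fun m hm => ⟨hm.1, h.fp m hm.2 v hv v1 (mc.mp hm.1), hm.2⟩) (inf_le_inf_left _ inf_le_right)
  rw [← inf_relIndex_right, e, ← relIndex_mul_relIndex _ (D ⊓ M) M inf_le_right inf_le_right,
    inf_relIndex_right, inf_relIndex_right]

theorem dvd {W : Subgroup G} (hW : W ≤ P) (hn : ∀ m ∈ M, ∀ u ∈ W, m * u * m⁻¹ ∈ W) :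
    D.relIndex M ∣ Nat.card W - 1 := by
  let _ := cact M
  have := dvd_ncard_of_invariant (G := M) (d := D.relIndex M) ((W : Set G) \ {1})
    (fun m u hu => ⟨hn m m.2 u hu.1, fun e => hu.2 (conj_eq_one_iff.mp e)⟩) fun u hu => by
      rw [stab_cact, ← relIndex, h.idx (hW hu.1) hu.2]
      exact dvd_mul_left _ _
  rwa [Set.ncard_sdiff_singleton_of_mem W.one_mem] at this

theorem irr {W : Subgroup G} (hW : W ≤ P) (hn : ∀ m ∈ M, ∀ u ∈ W, m * u * m⁻¹ ∈ W) :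
    W = ⊥ ∨ W = P := by
  have e := card_mul_relIndex_of_le hW
  exact (eq_of_big (h.dvd hW hn) (e ▸ h.dvd le_rfl h.nm) (e ▸ h.big) (e ▸ Nat.card_pos)).imp
    card_eq_one.mp fun e => le_antisymm hW (relIndex_eq_one.mp e)

theorem comm {p : ℕ} (hp : p.Prime) (hP : IsPGroup p P) : ∀ u ∈ P, ∀ v ∈ P, Commute u v := by
  by_cases e : P = ⊥
  · simp [e]
  obtain ⟨z, hz, z1, hc⟩ := exists_center_of_isPGroup hp e hP
  refine fun u hu v hv => ((h.irr (W := P ⊓ centralizer P) inf_le_left fun m hm u hu =>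
    ⟨h.nm m hm u hu.1, fun w hw => comm_conj (hu.2 _ (h.nm _ (inv_mem hm) w hw))⟩).resolve_left
      (fun e => z1 (mem_bot.mp (e.le ⟨hz, fun w hw => (hc w hw).symm⟩)))).ge hv |>.2 u hu

theorem low {E : Subgroup G} (hE : E ≤ D ⊓ M) {v : G} (hv : v ∈ P) (v1 : v ≠ 1) {Ψ : Set G}
    (hΨ : ∀ m ∈ M, m * v * m⁻¹ ∈ Ψ) : (centralizer {v}).relIndex E * D.relIndex M ≤ Ψ.ncard :=
  (Nat.mul_le_mul_right _ (relIndex_le_of_le_right hE (index_ne_zero_of_finite))).trans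
    (h.idx hv v1 ▸ orb hΨ)

theorem cnt {E : Subgroup G} (hE : E ≤ D ⊓ M) (hn : ∀ m ∈ M, ∀ x ∈ E, m * x * m⁻¹ ∈ E) {v : G}
    (hv : v ∈ P) (v1 : v ≠ 1) {c : ℕ}
    (hc : ∀ x ∈ NF P E, Nat.card (P ⊓ centralizer {x} : Subgroup G) ≤ c + 1) {s : ℕ}
    (hs : Nat.card (centralizer {v} ⊓ E : Subgroup G) = s + 1) :
    Nat.card E * D.relIndex M * s ≤ (s + 1) * ((NF P E).ncard * c) := by
  classical
  have := Fintype.ofFinite G
  have h1 := h.low hE hv v1 (Ψ := {u | u ∈ P ∧ u ≠ 1 ∧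
    s + 1 ≤ Nat.card (centralizer {u} ⊓ E : Subgroup G)}) fun m hm => ⟨h.nm m hm v hv,
      by simpa using v1, hs ▸ card_le_of_conj m fun x hx => ⟨mc.mpr ((mc.mp hx.1).conj m), hn m hm x hx.2⟩⟩
  have h2 := card_mul_relIndex_of_le (inf_le_right : centralizer {v} ⊓ E ≤ E)
  rw [inf_relIndex_right, hs] at h2
  have k : ∀ H : Subgroup G, Nat.card H = ((Finset.univ.filter (· ∈ H)).erase 1).card + 1 :=
    fun H => by
      rw [Finset.card_erase_add_one (by simp), Nat.card_eq_fintype_card, Fintype.card_subtype]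
  rw [Set.ncard_eq_toFinset_card'] at h1 ⊢
  have h3 := Finset.card_mul_le_card_mul (fun u x => Commute x u) (s := {u | u ∈ P ∧ u ≠ 1 ∧
    s + 1 ≤ Nat.card (centralizer {u} ⊓ E : Subgroup G)}.toFinset) (t := (NF P E).toFinset)
    (m := s) (n := c) (fun u hu => by
      obtain ⟨e1, e2, e3⟩ := Set.mem_toFinset.mp hu
      refine (Nat.le_of_succ_le_succ (k _ ▸ e3)).trans (Finset.card_le_card fun x hx => ?_)
      simp only [Finset.mem_erase, Finset.mem_filter, Finset.mem_univ, true_and, mem_inf, mc] at hx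
      exact (Finset.mem_bipartiteAbove _).mpr ⟨Set.mem_toFinset.mpr
        ⟨hx.2.2, hx.1, u, e1, e2, hx.2.1⟩, hx.2.1⟩) fun x hx => by
      refine le_trans (Finset.card_le_card fun u hu => ?_)
        (Nat.le_of_succ_le_succ (k _ ▸ hc x (Set.mem_toFinset.mp hx)))
      obtain ⟨e1, e2⟩ := (Finset.mem_bipartiteBelow _).mp hu
      obtain ⟨e3, e4, -⟩ := Set.mem_toFinset.mp e1
      simp [e3, e4, mc, e2.symm]
  rw [← h2, mul_assoc, mul_assoc]
  exact Nat.mul_le_mul_left _ (mul_assoc _ _ s ▸ (Nat.mul_le_mul_right s h1).trans h3)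

variable (hab : ∀ u ∈ P, ∀ v ∈ P, Commute u v)
include hab

theorem fpf {B : Subgroup G} (hB : B ≤ D ⊓ M) (hn : ∀ m ∈ M, ∀ x ∈ B, m * x * m⁻¹ ∈ B)
    (hc : ∀ x ∈ B, ∀ y ∈ B, Commute x y) : ∀ b ∈ B, ∀ u ∈ P, b * u = u * b → b = 1 ∨ u = 1 := by
  classical
  intro b0 hb0 u0 hu0 e0
  by_contra hne
  push Not at hne
  obtain ⟨v, ⟨hv, v1⟩, hmax⟩ := Set.exists_max_image {u | u ∈ P ∧ u ≠ 1}
    (fun u => Nat.card (centralizer {u} ⊓ B : Subgroup G)) (Set.toFinite _) ⟨u0, hu0, hne.2⟩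
  let W : G → Subgroup G := fun v => P ⊓ centralizer (centralizer {v} ⊓ B : Subgroup G)
  have w1 : ∀ u ∈ P, u ∈ W u := fun u hu => ⟨hu, fun x hx => mc.mp hx.1⟩
  have w2 : ∀ m ∈ M, ∀ v, ∀ u ∈ W v, m * u * m⁻¹ ∈ W (m * v * m⁻¹) := fun m hm v u hu =>
    ⟨h.nm m hm u hu.1, fun x hx => comm_conj (hu.2 _ ⟨mc.mpr (by
      simpa [mul_assoc] using (mc.mp hx.1).conj m⁻¹), hn _ (inv_mem hm) x hx.2⟩)⟩
  have w3 : ∀ m ∈ M, Nat.card (W (m * v * m⁻¹)) = Nat.card (W v) := fun m hm => le_antisymm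
    (card_le_of_conj m⁻¹ fun u hu => by simpa [mul_assoc] using w2 _ (inv_mem hm) _ u hu)
    (card_le_of_conj m (w2 m hm v))
  have w4 : ∀ m ∈ M, Nat.card (centralizer {v} ⊓ B : Subgroup G) ≤
      Nat.card (centralizer {m * v * m⁻¹} ⊓ B : Subgroup G) := fun m hm =>
    card_le_of_conj m fun x hx => ⟨mc.mpr ((mc.mp hx.1).conj m), hn m hm x hx.2⟩
  have w5 : ∀ m ∈ M, ∀ u ∈ P, u ≠ 1 → centralizer {m * v * m⁻¹} ⊓ B ≤ centralizer {u} ⊓ B →
      centralizer {m * v * m⁻¹} ⊓ B = centralizer {u} ⊓ B := fun m hm u hu u1 e =>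
    eq_of_le_of_card_ge e ((hmax u ⟨hu, u1⟩).trans (w4 m hm))
  have w6 : ∀ m ∈ M, m * v * m⁻¹ ≠ 1 := fun m _ => by simpa using v1
  let ι := {V : Subgroup G // ∃ m ∈ M, V = W (m * v * m⁻¹)}
  have := Fintype.ofFinite ι
  have h1 := indep' hab (fun i : ι => i.1) (by rintro ⟨_, m, -, rfl⟩; exact inf_le_left) (by
    rintro ⟨_, m, hm, rfl⟩ ⟨_, m', hm', rfl⟩ ne
    obtain ⟨b, e1, e2⟩ := SetLike.not_le_iff_exists.mp
      fun e : centralizer {m' * v * m'⁻¹} ⊓ B ≤ centralizer {m * v * m⁻¹} ⊓ B => ne (Subtype.ext (by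
        simp only [W, w5 m' hm' _ (h.nm m hm v hv) (w6 m hm) e]))
    refine ⟨b, h.nm b (hB e1.2).2, ?_, fun w hw => hw.2 b e1, fun w hw e => by_contra fun e3 =>
      e2 (w5 m hm w hw.1 e3 (fun x hx => ⟨mc.mpr (hw.2 x hx), hx.2⟩) ▸ ⟨mc.mpr e, e1.2⟩)⟩
    rintro ⟨_, m, hm, rfl⟩ w hw
    exact ⟨h.nm b (hB e1.2).2 w hw.1, fun x hx => ((hc x hx.2 b e1.2).mul_right
      (hw.2 x hx)).mul_right (hc x hx.2 b e1.2).inv_right⟩)
  rw [Finset.prod_congr rfl (g := fun _ => Nat.card (W v)) (by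
    rintro ⟨_, m, hm, rfl⟩ -; exact w3 m hm), Finset.prod_const, Finset.card_univ] at h1
  have h2 : ¬ ∀ m ∈ M, W (m * v * m⁻¹) = W v := fun e => by
    rcases h.irr (W := W v) inf_le_left (fun m hm u hu => e m hm ▸ w2 m hm v u hu) with e1 | e1
    · exact v1 (mem_bot.mp (e1.le (w1 v hv)))
    · have e2 := hmax u0 ⟨hu0, hne.2⟩
      rw [show centralizer {v} ⊓ B = ⊥ from eq_bot_iff.mpr fun x hx => h.fa x (hB hx.2).2
        fun u hu => (e1.ge hu).2 x hx, card_bot, card_le_one_iff_eq_bot] at e2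
      exact hne.1 (mem_bot.mp (e2.le ⟨mc.mpr e0, hb0⟩))
  have h3 : 2 ≤ (centralizer {v}).relIndex B := by
    have e1 : (centralizer {v}).relIndex B ≠ 0 := index_ne_zero_of_finite
    have e2 : (centralizer {v}).relIndex B ≠ 1 := fun e => h2 fun m hm => by
      have e3 := inf_eq_right.mpr (relIndex_eq_one.mp e)
      simp only [W, e3, eq_of_le_of_card_ge inf_le_right (e3 ▸ w4 m hm)]
    omega
  obtain ⟨l, hl⟩ : ∃ l, Fintype.card ι = l + 2 := by
    push Not at h2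
    obtain ⟨m, hm, e⟩ := h2
    exact Nat.exists_eq_add_of_le' (Fintype.one_lt_card_iff.mpr ⟨⟨_, m, hm, rfl⟩,
      ⟨W v, 1, one_mem _, by simp⟩, fun e' => e (congrArg Subtype.val e')⟩)
  obtain ⟨x, hx⟩ := Nat.exists_eq_add_of_le (Nat.card_pos (α := W v))
  have h4 := h.low hB hv v1 (Ψ := ⋃ i : ι, (i.1 : Set G) \ {1}) fun m hm =>
    Set.mem_iUnion.mpr ⟨⟨_, m, hm, rfl⟩, w1 _ (h.nm m hm v hv), w6 m hm⟩
  have h5 := h4.trans (Set.ncard_iUnion_le_of_fintype _)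
  rw [Finset.sum_congr rfl (g := fun _ => x) (by
    rintro ⟨_, m, hm, rfl⟩ -
    rw [Set.ncard_sdiff_singleton_of_mem (W _).one_mem]
    exact Nat.sub_eq_of_eq_add ((w3 m hm).trans (hx.trans (add_comm _ _)))), Finset.sum_const,
    Finset.card_univ, smul_eq_mul, hl] at h5
  have h6 := bern x l
  have h7 := h.big
  rw [hx, hl] at h1
  have h8 := (Nat.mul_le_mul_right _ h3).trans h5
  have h9 := Nat.pow_le_pow_left (Nat.add_le_add_left h8 2) 2
  nlinarith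

theorem pw {r : ℕ} (hr : r.Prime) {z x : G} (hz : z ∈ M) (hx : x ∈ M) (zr : z ^ r = 1) (z1 : z ≠ 1)
    (zf : ∀ ζ ∈ zpowers z, ∀ u ∈ P, ζ * u = u * ζ → ζ = 1 ∨ u = 1) (c : Commute x z)
    (hw : ∀ j : ℕ, ∃ w ∈ M, w * x * w⁻¹ = x * z ^ j) :
    Nat.card (P ⊓ centralizer {x} : Subgroup G) ^ r ≤ Nat.card P := by
  have := Fact.mk hr
  have h1 := indep' hab (fun j : Fin r => P ⊓ centralizer {x * z ^ j.val}) (fun _ => inf_le_left)
    fun i j ne => ⟨x * z ^ j.val, h.nm _ (mul_mem hx (pow_mem hz _)), fun l w hw =>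
      ⟨h.nm _ (mul_mem hx (pow_mem hz _)) w hw.1, mc.mpr ?_⟩, fun w hw => (mc.mp hw.2).symm,
      fun w hw e => (zf ((z ^ i.val)⁻¹ * z ^ j.val) (mul_mem (inv_mem (npow_mem_zpowers z _))
        (npow_mem_zpowers z _)) w hw.1 ?_).resolve_left fun e1 => ne (Fin.ext ?_)⟩
  · refine le_trans ?_ h1
    nth_rewrite 1 [← Finset.card_fin r]
    refine Finset.pow_card_le_prod _ _ _ fun j _ => ?_
    obtain ⟨w, hw, e⟩ := hw j.val
    exact card_le_of_conj w fun u hu => ⟨h.nm w hw u hu.1, mc.mpr (e ▸ (mc.mp hu.2).conj w)⟩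
  · have k : Commute (x * z ^ j.val) (x * z ^ l.val) := ((Commute.refl x).mul_right
      (c.pow_right _)).mul_left ((c.symm.pow_left _).mul_right ((Commute.refl z).pow_pow _ _))
    exact (k.mul_left (mc.mp hw.2)).mul_left k.inv_left
  · simpa [mul_assoc] using ((mc.mp hw.2).symm.inv_left.mul_left e).eq
  · rw [inv_mul_eq_one, pow_inj_mod, orderOf_eq_prime zr z1, Nat.mod_eq_of_lt i.2,
      Nat.mod_eq_of_lt j.2] at e1
    exact e1

end Lin

end Cfsg.Agent.H4.Der
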