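import Cfsg.Agent.H9.FrobChar
import Cfsg.Agent.H3.PermChar
import Cfsg.Agent.H3.Derangement
import Cfsg.Agent.H2.TICount
import Cfsg.Agent.L0.SC3Char

/-!
# Permutation groups with a regular abelian subgroup which is the centralizer of its elements
-/

set_option autoImplicit false
set_option linter.unusedSectionVars false

namespace Cfsg.Agent.H4.Der

open Subgroup MulAction Finset H3 H9 ComplexConjugate
open scoped Classical

variable {X : Type*} [Group X] [Fintype X]

theorem exists_nat_coeff {φ : X → ℂ} (h : IsCharacter X φ) :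
    ∃ m : IrrCharacter X → ℕ, ∀ χ : IrrCharacter X, classInner φ χ = m χ := by
  choose m hm using fun χ : IrrCharacter X => classInner_char_nat h (irr_isCharacter χ.2)
  exact ⟨m, hm⟩

theorem deg_le_norm [IsMulCommutative X] {φ : X → ℂ} (h : IsCharacter X φ) {a f : ℕ}
    (ha : classInner φ φ = a) (hf : φ 1 = f) : f ≤ a := by
  obtain ⟨m, hm⟩ := exists_nat_coeff h
  rw [classInner_eq_sum (char_isClassFunction h)] at ha
  rw [classFunction_apply (char_isClassFunction h)] at hf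
  simp only [hm, map_natCast, fun χ : IrrCharacter X => irr_one_eq_one_of_comm χ.2, mul_one] at ha hf
  rw [← show ∑ χ, m χ * m χ = a by exact_mod_cast ha, ← show ∑ χ, m χ = f by exact_mod_cast hf]
  exact sum_le_sum fun χ _ => Nat.le_mul_self _

theorem index_dvd_deg {K : Subgroup X} (hK : FrobKer K) {φ : X → ℂ} (h : IsCharacter X φ) {f : ℕ}
    (hf : φ 1 = f) (h0 : ∑ u : K, φ u = 0) : K.index ∣ f := by
  have := hK.normal
  obtain ⟨m, hm⟩ := exists_nat_coeff h
  have h1 : ∑ χ : IrrCharacter X, m χ * (if InKer K χ then Nat.card K * cdeg χ else 0) = 0 := by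
    have h2 : ∀ χ : IrrCharacter X, ∑ u : K, (χ : X → ℂ) u =
        ((if InKer K χ then Nat.card K * cdeg χ else 0 : ℕ) : ℂ) := fun χ => by
      have := sum_normal_mul K χ.2 1
      simp only [mul_one, ite_mul, one_mul, zero_mul, ← sum_filter, cdeg_eq] at this
      rw [sum_subgroup_eq_sum_filter K (fun g => (χ : X → ℂ) g), this]
      split_ifs <;> simp
    simp only [classFunction_apply (char_isClassFunction h), hm] at h0
    rw [sum_comm] at h0
    simp only [← mul_sum, h2] at h0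
    exact_mod_cast h0
  rw [classFunction_apply (char_isClassFunction h)] at hf
  simp only [hm, cdeg_eq] at hf
  rw [← show ∑ χ, m χ * cdeg χ = f by exact_mod_cast hf]
  refine dvd_sum fun χ _ => ?_
  by_cases e : InKer K χ
  · have := sum_eq_zero_iff.mp h1 χ (mem_univ _)
    simp only [e, if_true, mul_eq_zero, Nat.card_pos.ne', (cdeg_pos χ).ne', or_false] at this
    simp [this]
  · exact (hK.index_dvd_cdeg χ e).mul_left _

theorem ti_sum {P : Subgroup X} (hC : ∀ u ∈ P, u ≠ 1 → centralizer {u} = P) (F : X → ℝ)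
    (hF : ∀ g y, F (g * y * g⁻¹) = F y) :
    Nat.card (normalizer (P : Set X)) * ∑ y ∈ univ.filter (· ∈ H2.conjSet P), F y =
      Nat.card X * (∑ u : P, F u - F 1) := by
  have h1 : ∀ g : X, ∑ y : X, (if y ≠ 1 ∧ g * y * g⁻¹ ∈ P then F y else 0) =
      ∑ u : P, F u - F 1 := fun g => by
    rw [sum_subgroup_eq_sum_filter P F, ← sum_erase_eq_sub (by simp), ← sum_filter]
    refine sum_bij (fun y _ => g * y * g⁻¹) (by simp) (by simp) (fun u hu => ?_)
      (fun y _ => (hF g y).symm)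
    refine ⟨g⁻¹ * u * g, ?_, by group⟩
    simpa [mul_assoc, inv_mul_eq_one] using hu
  have h2 : ∀ y : X, ∑ g : X, (if y ≠ 1 ∧ g * y * g⁻¹ ∈ P then F y else 0) =
      if y ∈ H2.conjSet P then Nat.card (normalizer (P : Set X)) * F y else 0 := fun y => by
    split_ifs with hy
    · obtain ⟨y1, g0, hg0⟩ := hy
      rw [← sum_filter, sum_const, nsmul_eq_mul, Nat.card_eq_fintype_card, Fintype.card_subtype]
      congr 2
      refine card_bij (fun g _ => g * g0⁻¹) (fun g hg => ?_) (by simp) (fun n hn => ?_)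
      · refine mem_filter.mpr ⟨mem_univ _, H2.mem_normalizer_of_conj_mem hC
          (by simpa using y1) hg0 ?_⟩
        simpa [mul_assoc] using (mem_filter.mp hg).2.2
      · refine ⟨n * g0, mem_filter.mpr ⟨mem_univ _, y1, ?_⟩, by group⟩
        simpa [mul_assoc] using (mem_set_normalizer_iff.mp (mem_filter.mp hn).2 _).mp hg0
    · exact sum_eq_zero fun g _ => if_neg fun e => hy ⟨e.1, g, e.2⟩
  rw [mul_sum, sum_filter, ← sum_congr rfl fun y _ => h2 y, sum_comm, sum_congr rfl fun g _ => h1 g,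
    sum_const, nsmul_eq_mul, card_univ, Nat.card_eq_fintype_card (α := X)]

theorem ti_normal {Ω : Type*} [MulAction X Ω] [FaithfulSMul X Ω] [Finite Ω] [IsPretransitive X Ω]
    {P : Subgroup X} (hc : Nat.card P = Nat.card Ω) (hs : ∀ u ∈ P, u ≠ 1 → ∀ ω : Ω, u • ω ≠ ω)
    (hC : ∀ u ∈ P, u ≠ 1 → centralizer {u} = P)
    (hr : 3 ≤ Nat.card (orbitRel.Quotient X (Ω × Ω))) : normalizer (P : Set X) = ⊤ := by
  have hn : 0 < Nat.card Ω := hc ▸ Nat.card_pos
  have : Nonempty Ω := (Nat.card_pos_iff.mp hn).1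
  have : IsMulCommutative P := ⟨⟨fun u v => Subtype.ext (by
    by_cases e : (v : X) = 1
    · simp [e]
    · exact mem_centralizer_singleton_iff.mp ((hC v v.2 e).ge u.2))⟩⟩
  have hπ := isCharacter_perm (G := X) (Ω := Ω)
  have hX : (Nat.card X : ℂ) ≠ 0 := card_ne_zero'
  have hP : (Nat.card P : ℂ) ≠ 0 := card_ne_zero'
  obtain ⟨m, hm⟩ := exists_nat_coeff hπ
  have hd := fun g => classFunction_apply (char_isClassFunction hπ) g
  simp only [hm] at hd
  choose a ha using fun χ ψ : IrrCharacter X => classInner_char_nat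
    (isCharacter_res P (irr_isCharacter χ.2)) (isCharacter_res P (irr_isCharacter ψ.2))
  have h1 : ∀ χ, ∑ ψ, m ψ * a χ ψ = cdeg χ := fun χ => by
    have e1 : classInner (fun u : P => (χ : X → ℂ) u)
        (fun u : P => (Nat.card (fixedBy Ω (u : X)) : ℂ)) = cdeg χ := by
      rw [classInner, sum_eq_single 1 (fun u _ e => by
        rw [(card_fixedBy_eq_zero_iff _).mpr (hs u u.2 (by simpa using e))]; simp) (by simp)]
      simp only [OneMemClass.coe_one, card_fixedBy_one, ← hc, map_natCast, cdeg_eq]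
      field_simp
    have e2 : (fun u : P => (Nat.card (fixedBy Ω (u : X)) : ℂ)) =
        ∑ ψ : IrrCharacter X, (m ψ : ℂ) • fun u : P => (ψ : X → ℂ) u := by
      ext u
      simp only [hd, Finset.sum_apply, Pi.smul_apply, smul_eq_mul]
    rw [e2, classInner_sum_right] at e1
    simp only [classInner_smul_right, map_natCast, ha] at e1
    exact_mod_cast e1
  have h2 : ∀ χ, m χ ≠ 0 → m χ = 1 ∧ a χ χ = cdeg χ ∧ ∀ ψ, ψ ≠ χ → m ψ ≠ 0 → a χ ψ = 0 :=
    fun χ hχ => by
      have e1 := deg_le_norm (isCharacter_res P (irr_isCharacter χ.2)) (ha χ χ) (cdeg_eq χ)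
      have e2 := h1 χ
      have e3 := cdeg_pos χ
      rw [← add_sum_erase _ _ (mem_univ χ)] at e2
      have e4 : a χ χ ≤ m χ * a χ χ := Nat.le_mul_of_pos_left _ (Nat.pos_of_ne_zero hχ)
      refine ⟨Nat.eq_of_mul_eq_mul_right (m := a χ χ) (by omega) (by omega), by omega,
        fun ψ e5 e6 => ?_⟩
      exact (mul_eq_zero.mp (sum_eq_zero_iff.mp (show ∑ x ∈ univ.erase χ, m x * a χ x = 0 by omega)
        ψ (by simpa using e5))).resolve_left e6
  let τ : IrrCharacter X := ⟨1, isIrrCharacter_one'⟩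
  have s1 := sum_card_fixedBy_of_pretransitive (G := X) (Ω := Ω)
  have s2 := sum_card_fixedBy_sq (G := X) (Ω := Ω)
  have h3 : m τ = 1 := by
    have := hm τ
    simp only [classInner, τ, Pi.one_apply, map_one, mul_one, ← Nat.cast_sum, s1,
      inv_mul_cancel₀ hX] at this
    exact_mod_cast this.symm
  let I := (univ.filter fun χ => m χ ≠ 0).erase τ
  have mI : ∀ χ, χ ∈ I ↔ χ ≠ τ ∧ m χ ≠ 0 := fun χ => by simp [I]
  have h4 : ∀ F : IrrCharacter X → ℂ, ∑ χ, (m χ : ℂ) * F χ = F τ + ∑ χ ∈ I, F χ := fun F => by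
    rw [add_sum_erase _ F (by simp [h3]), sum_filter]
    refine sum_congr rfl fun χ _ => ?_
    split_ifs with e
    · rw [(h2 χ e).1]; simp
    · simp [not_not.mp e]
  have h5 : Nat.card (orbitRel.Quotient X (Ω × Ω)) = 1 + I.card := by
    have := classInner_eq_sum (f' := fun g => (Nat.card (fixedBy Ω g) : ℂ)) (char_isClassFunction hπ)
    simp only [hm, map_natCast, h4, h3] at this
    rw [sum_congr rfl fun χ hχ => show (m χ : ℂ) = 1 by rw [(h2 χ ((mI χ).mp hχ).2).1]; simp] at this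
    simp only [classInner, map_natCast, ← sq, ← Nat.cast_pow, ← Nat.cast_sum, s2] at this
    rw [Nat.cast_mul, mul_comm, mul_assoc, mul_inv_cancel₀ hX] at this
    simp only [mul_one, sum_const, nsmul_eq_mul] at this
    exact_mod_cast this
  have h6 : Nat.card Ω = 1 + ∑ χ ∈ I, cdeg χ := by
    have := hd 1
    rw [card_fixedBy_one, h4, show (τ : X → ℂ) 1 = 1 from rfl] at this
    simp only [cdeg_eq] at this
    exact_mod_cast this
  have hle : P ≤ normalizer (P : Set X) := le_normalizer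
  have hN := card_mul_relIndex_of_le hle
  have h7 : ∀ χ ∈ I, P.relIndex (normalizer (P : Set X)) ≤ cdeg χ := fun χ hχ => by
    refine Nat.le_of_dvd (cdeg_pos χ) (index_dvd_deg (K := P.subgroupOf _) ⟨inferInstance,
      fun u hu u1 x e => (hC u hu (by simpa using u1)).le (mem_centralizer_singleton_iff.mpr
        (congrArg Subtype.val e))⟩ (isCharacter_res _ (irr_isCharacter χ.2)) (cdeg_eq χ) ?_)
    have := ha χ τ
    rw [(h2 χ ((mI χ).mp hχ).2).2.2 τ ((mI χ).mp hχ).1.symm (by omega)] at this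
    simp only [classInner, τ, Pi.one_apply, map_one, mul_one, Nat.cast_zero, mul_eq_zero,
      inv_eq_zero, hP, false_or] at this
    rw [← this]
    exact (subgroupOfEquivOfLe hle).toEquiv.sum_comp fun u : P => (χ : X → ℂ) u
  generalize P.relIndex (normalizer (P : Set X)) = e at hN h7
  have hX' : (0 : ℝ) < Nat.card X := by exact_mod_cast Nat.card_pos
  have hN' : (0 : ℝ) < Nat.card (normalizer (P : Set X)) := by exact_mod_cast Nat.card_pos
  have h8 : ∀ χ ∈ I, ∀ ψ ∈ I, χ ≠ ψ → cdeg χ = e ∧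
      ∀ y, y ∉ H2.conjSet P → (χ : X → ℂ) y = (ψ : X → ℂ) y := fun χ hχ ψ hψ ne => by
    have k1 := sum_normSq_eq ((χ : X → ℂ) - (ψ : X → ℂ))
    have k2 := sum_normSq_eq ((fun u : P => (χ : X → ℂ) u) - fun u : P => (ψ : X → ℂ) u)
    have k3 := ti_sum hC (fun y => ‖((χ : X → ℂ) - (ψ : X → ℂ)) y‖ ^ 2) fun g y => by
      rw [isClassFunction_sub (char_isClassFunction (irr_isCharacter χ.2))
        (char_isClassFunction (irr_isCharacter ψ.2))]
    obtain ⟨-, c1⟩ := (mI χ).mp hχ
    obtain ⟨-, c2⟩ := (mI ψ).mp hψ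
    simp only [classInner_sub_left, classInner_sub_right, classInner_irr, ha, (h2 χ c1).2.1,
      (h2 ψ c2).2.1, (h2 χ c1).2.2 ψ ne.symm c2, (h2 ψ c2).2.2 χ ne c1, ne, ne.symm, if_true,
      if_false] at k1 k2
    have k4 : ‖((χ : X → ℂ) - (ψ : X → ℂ)) 1‖ ^ 2 = ((cdeg χ : ℝ) - cdeg ψ) ^ 2 := by
      rw [Pi.sub_apply, cdeg_eq, cdeg_eq, ← sq_abs ((cdeg χ : ℝ) - cdeg ψ), ← Real.norm_eq_abs,
        ← Complex.norm_real]
      simp
    rw [← sum_filter_add_sum_filter_not univ (· ∈ H2.conjSet P)] at k1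
    have k5 : 0 ≤ ∑ y ∈ univ.filter (¬ · ∈ H2.conjSet P), ‖((χ : X → ℂ) - (ψ : X → ℂ)) y‖ ^ 2 :=
      sum_nonneg fun _ _ => by positivity
    have k6 : cdeg χ + cdeg ψ < Nat.card P := by
      have := sum_le_sum_of_subset (f := cdeg) (show {χ, ψ} ⊆ I by simp [insert_subset_iff, hχ, hψ])
      rw [sum_pair ne] at this
      omega
    obtain ⟨b, hb⟩ := Nat.exists_eq_add_of_le (h7 χ hχ)
    obtain ⟨c, hc⟩ := Nat.exists_eq_add_of_le (h7 ψ hψ)
    simp only [Pi.sub_apply] at k1 k2 k3 k4 k5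
    rw [k2, k4, ← hN, hb, hc] at k3
    norm_num [-Nat.card_eq_fintype_card] at k1 k3
    have k0 : Nat.card X * ((b : ℝ) - c) ^ 2 - Nat.card X * (Nat.card P * (b + c)) = Nat.card P * e *
        ∑ y ∈ univ.filter (¬ · ∈ H2.conjSet P), ‖(χ : X → ℂ) y - (ψ : X → ℂ) y‖ ^ 2 := by
      linear_combination k3 - Nat.card P * e * k1
    have k7 : (Nat.card P : ℝ) * (b + c) ≤ (b - c) ^ 2 := by
      refine le_of_mul_le_mul_left ?_ hX'
      have : (0 : ℝ) ≤ Nat.card P * e := by positivity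
      linarith [mul_nonneg this k5]
    have k8 : b + c = 0 := by
      by_contra e1
      have e2 : (0 : ℝ) < b + c := by exact_mod_cast Nat.pos_of_ne_zero e1
      have e3 : (b + c : ℝ) < Nat.card P := by exact_mod_cast show b + c < Nat.card P by omega
      nlinarith [mul_nonneg (Nat.cast_nonneg (α := ℝ) b) (Nat.cast_nonneg c)]
    obtain ⟨rfl, rfl⟩ := Nat.add_eq_zero_iff.mp k8
    refine ⟨hb, fun y hy => ?_⟩
    rw [← hN, Nat.cast_mul] at hN'
    have k9 := (sum_eq_zero_iff_of_nonneg fun _ _ => by positivity).mp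
      (show ∑ y ∈ univ.filter (¬ · ∈ H2.conjSet P), ‖(χ : X → ℂ) y - (ψ : X → ℂ) y‖ ^ 2 = 0 from
        mul_left_cancel₀ hN'.ne' (by simpa using k0.symm)) y (by simpa using hy)
    simpa [sub_eq_zero] using k9
  obtain ⟨χ, hχ⟩ := card_pos.mp (show 0 < I.card by omega)
  have h9 : ∀ ψ ∈ I, cdeg ψ = e := fun ψ hψ => by
    obtain ⟨ψ', h', ne⟩ := exists_mem_ne (show 1 < I.card by omega) ψ
    exact (h8 ψ hψ ψ' h' ne.symm).1
  rw [sum_congr rfl h9, sum_const, smul_eq_mul] at h6
  have h10 : ∀ y, y ∉ H2.conjSet P → 1 ≤ Nat.card (fixedBy Ω y) := fun y hy => by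
    by_contra e1
    have e2 := hd y
    rw [h4, sum_congr rfl (g := fun _ => (χ : X → ℂ) y) fun ψ hψ => by
      by_cases e : ψ = χ
      · rw [e]
      · exact (h8 ψ hψ χ hχ e).2 y hy, show Nat.card (fixedBy Ω y) = 0 by omega] at e2
    simp only [τ, sum_const, nsmul_eq_mul, Pi.one_apply, Nat.cast_zero] at e2
    obtain ⟨z, hz⟩ := L0.SC3.exists_int_of_mul (irr_isCharacter χ.2) y
      (k := I.card) (m := -1) (by omega) (by push_cast; linear_combination -e2)
    rw [hz] at e2
    have e3 : (I.card : ℤ) ∣ 1 := ⟨-z, by exact_mod_cast (by push_cast; linear_combination -e2 :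
      (1 : ℂ) = ((I.card * -z : ℤ) : ℂ))⟩
    have := Int.le_of_dvd one_pos e3
    omega
  have h11 : ∀ y ∈ H2.conjSet P, Nat.card (fixedBy Ω y) = 0 := fun y ⟨y1, g, hg⟩ =>
    (card_fixedBy_eq_zero_iff _).mpr fun ω e => hs _ hg (by simpa using y1) (g • ω) (by
      rw [mul_smul, mul_smul, inv_smul_smul, e])
  have t1 := ti_sum hC (fun _ => 1) fun _ _ => rfl
  simp only [sum_const, nsmul_eq_mul, mul_one, card_univ, ← Nat.card_eq_fintype_card] at t1
  have s3 : ∑ y : X, ((Nat.card (fixedBy Ω y) : ℝ) - 1) = 0 := by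
    rw [sum_sub_distrib, ← Nat.cast_sum, s1]
    simp
  have s4 : ∑ y : X, ((Nat.card (fixedBy Ω y) : ℝ) - 1) *
      (Nat.card Ω - Nat.card (fixedBy Ω y)) = -(I.card * Nat.card X) := by
    have : ∀ w : ℝ, (w - 1) * (Nat.card Ω - w) = (Nat.card Ω + 1) * (w - 1) + 1 - w ^ 2 :=
      fun w => by ring
    simp only [this, sum_sub_distrib, sum_add_distrib, ← mul_sum, s3, ← Nat.cast_pow,
      ← Nat.cast_sum, s2, h5]
    simp
    ring
  rw [← sum_filter_add_sum_filter_not univ (· ∈ H2.conjSet P)] at s3 s4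
  rw [sum_congr rfl (g := fun _ => -1) fun y hy => by simp [h11 y (mem_filter.mp hy).2]] at s3
  rw [sum_congr rfl (g := fun _ => -(Nat.card Ω : ℝ)) fun y hy => by
    simp [h11 y (mem_filter.mp hy).2]] at s4
  simp only [sum_const, nsmul_eq_mul] at s3 s4
  have e0 : (0 : ℝ) < e := by exact_mod_cast h9 χ hχ ▸ cdeg_pos χ
  have hn' : (Nat.card Ω : ℝ) = 1 + I.card * e := by exact_mod_cast h6
  have t2 : (Nat.card Ω : ℝ) * (univ.filter (· ∈ H2.conjSet P)).card = I.card * Nat.card X := by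
    refine mul_left_cancel₀ e0.ne' ?_
    rw [← hN, Nat.cast_mul, hc] at t1
    linear_combination t1 + Nat.card X * hn'
  have s5 := (sum_eq_zero_iff_of_nonneg fun y hy => mul_nonneg
    (sub_nonneg.mpr (by exact_mod_cast h10 y (mem_filter.mp hy).2))
    (sub_nonneg.mpr (by exact_mod_cast card_fixedBy_le y))).mp
    (show ∑ y ∈ univ.filter (¬ · ∈ H2.conjSet P), ((Nat.card (fixedBy Ω y) : ℝ) - 1) *
      (Nat.card Ω - Nat.card (fixedBy Ω y)) = 0 by linear_combination s4 + t2)
  rw [sum_eq_single_of_mem (1 : X) (by simp [H2.conjSet]) (fun y hy y1 =>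
    (mul_eq_zero.mp (s5 y hy)).resolve_right fun e => y1 (eq_one_of_forall_smul (Ω := Ω) fun ω =>
      (Set.eq_of_subset_of_ncard_le (Set.subset_univ (fixedBy Ω y)) (by
        rw [Set.ncard_univ]
        exact_mod_cast (sub_eq_zero.mp e).le)).ge trivial)), card_fixedBy_one] at s3
  have t3 : (0 : ℝ) < Nat.card Ω - 1 := by
    have : (0 : ℝ) < I.card := by exact_mod_cast show 0 < I.card by omega
    nlinarith
  rw [hc] at t1
  have t4 : (Nat.card (normalizer (P : Set X)) : ℝ) * (Nat.card Ω - 1) =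
      Nat.card X * (Nat.card Ω - 1) := by
    linear_combination t1 + Nat.card (normalizer (P : Set X)) * s3
  exact eq_top_of_card_eq _ (by exact_mod_cast mul_right_cancel₀ t3.ne' t4)

end Cfsg.Agent.H4.Der
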