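import Cfsg.Agent.H4.DerA

/-!
# The normal subgroup acts without fixed points, too
-/

set_option autoImplicit false
set_option linter.unusedSectionVars false

namespace Cfsg.Agent.H4.Der

open Subgroup MulAction H3 H9

variable {G : Type*} [Group G] [Finite G]

theorem mem_two {x y : G} (xx : x ^ 2 = 1) (h : y ∈ zpowers x) : y = 1 ∨ y = x := by
  obtain ⟨i, rfl⟩ := mem_powers_iff_mem_zpowers.mpr h
  change x ^ i = 1 ∨ x ^ i = x
  rw [pow_eq_pow_mod _ xx]
  rcases Nat.mod_two_eq_zero_or_one i with e | e <;> simp [e]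

theorem four_le {H : Subgroup G} {x y : G} (hx : x ∈ H) (hy : y ∈ H) (xx : x ^ 2 = 1) (x1 : x ≠ 1)
    (y1 : y ≠ 1) (ne : y ≠ x) : 4 ≤ Nat.card H := by
  have := L0.SC3.two_mul_card_le (zpowers_le_of_mem hx) fun e => (mem_two xx (e hy)).elim y1 ne
  rwa [Nat.card_zpowers, orderOf_eq_prime xx x1] at this

theorem cover {D M M' : Subgroup G} [D.Normal] (h1 : M' ≤ M) (h2 : ∀ g ∈ M, ∃ l ∈ D, l * g ∈ M') :
    D.relIndex M' = D.relIndex M := by
  rw [← relIndex_sup_left M', ← relIndex_sup_left M]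
  refine congrArg _ (le_antisymm (sup_le_sup_left h1 _) (sup_le le_sup_left fun g hg => ?_))
  obtain ⟨l, hl, e⟩ := h2 g hg
  exact (mul_mem_cancel_left (mem_sup_left hl)).mp (mem_sup_right e)

/-- The elements of `R` which are central modulo `z`. -/
def zen (R : Subgroup G) (z : G) (hz : ∀ x ∈ R, Commute x z) : Subgroup G where
  carrier := {x | x ∈ R ∧ ∀ w ∈ R, w * x * w⁻¹ * x⁻¹ ∈ zpowers z}
  one_mem' := ⟨one_mem _, by simp⟩
  mul_mem' := fun {x y} hx hy => ⟨mul_mem hx.1 hy.1, fun w hw => by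
    obtain ⟨k, e⟩ := hy.2 w hw
    rw [show w * (x * y) * w⁻¹ * (x * y)⁻¹ = w * x * w⁻¹ * x⁻¹ * (x * (w * y * w⁻¹ * y⁻¹) * x⁻¹) by
      group, ← e, ((hz x hx.1).zpow_right k).eq, mul_inv_cancel_right]
    exact mul_mem (hx.2 w hw) ⟨k, rfl⟩⟩
  inv_mem' := fun {x} hx => ⟨inv_mem hx.1, fun w hw => by
    obtain ⟨k, e⟩ := hx.2 w hw
    rw [show w * x⁻¹ * w⁻¹ * x⁻¹⁻¹ = (x⁻¹ * (w * x * w⁻¹ * x⁻¹) * x)⁻¹ by group, ← e, mul_assoc,
      ← ((hz x hx.1).zpow_right k).eq, inv_mul_cancel_left]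
    exact inv_mem ⟨k, rfl⟩⟩

namespace Lin

variable {P M D : Subgroup G} (h : Lin P M D) (hab : ∀ u ∈ P, ∀ v ∈ P, Commute u v)
include h hab

theorem two {E : Subgroup G} (hE : E ≤ D ⊓ M) (hn : ∀ m ∈ M, ∀ x ∈ E, m * x * m⁻¹ ∈ E) {v : G}
    (hv : v ∈ P) (v1 : v ≠ 1)
    (hc : ∀ x ∈ NF P E, Nat.card (P ⊓ centralizer {x} : Subgroup G) ^ 2 ≤ Nat.card P) {t : ℕ}
    (hs : t + 2 ≤ Nat.card (centralizer {v} ⊓ E : Subgroup G))
    (hi : (t + 2) * (NF P E).ncard ≤ Nat.card E * (t + 1)) : False := by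
  obtain ⟨c, e⟩ : ∃ c, D.relIndex M = c + 1 :=
    Nat.exists_eq_add_one_of_ne_zero index_ne_zero_of_finite
  obtain ⟨j, hj⟩ := Nat.exists_eq_add_of_le hs
  have h1 := h.cnt hE hn hv v1 (c := c) (s := t + 1 + j) (fun x hx => e ▸ Nat.lt_succ_iff.mp
    (lt_of_pow_lt_pow_left₀ 2 (Nat.zero_le _) ((hc x hx).trans_lt h.big))) (by omega)
  have h2 : 0 < Nat.card E := Nat.card_pos
  have h3 : (NF P E).ncard ≤ Nat.card E := Set.ncard_le_ncard (t := (E : Set G)) fun x hx => hx.1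
  rw [e] at h1
  nlinarith [Nat.mul_le_mul_right c hi, Nat.mul_le_mul_right (j * c) h3, Nat.zero_le (Nat.card E * j),
    Nat.zero_le (Nat.card E * t)]

theorem core {r : ℕ} (hr : r.Prime) {R : Subgroup G} (hR : IsPGroup r R) (hE : R ≤ D ⊓ M)
    (hn : ∀ m ∈ M, ∀ x ∈ R, m * x * m⁻¹ ∈ R) : NF P R = ∅ := by
  have := Fact.mk hr
  refine Set.eq_empty_of_forall_notMem fun y ⟨hy, y1, u, hu, u1, cy⟩ => ?_
  have hP : P ≠ ⊥ := fun e => u1 (mem_bot.mp (e.le hu))
  have zn : ∀ E ≤ R, (∀ m ∈ M, ∀ x ∈ E, m * x * m⁻¹ ∈ E) → ∀ m ∈ M,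
      ∀ x ∈ E ⊓ centralizer (E : Set G), m * x * m⁻¹ ∈ E ⊓ centralizer (E : Set G) :=
    fun E _ hn m hm x hx => ⟨hn m hm x hx.1, fun w hw => comm_conj (hx.2 _ (hn _ (inv_mem hm) w hw))⟩
  have zf := fun E (h1 : E ≤ R) h2 => h.fpf hab (B := E ⊓ centralizer (E : Set G))
    (inf_le_left.trans (h1.trans hE)) (zn E h1 h2) fun x hx y hy => hy.2 x hx.1
  have zR := zf R le_rfl hn
  have zM : ∀ x ∈ R, x ∈ M := fun x hx => (hE hx).2
  by_cases hpp : H5.HasNormalPP r R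
  · obtain ⟨z, hz, y, hy, z1, zr, zc, yz, yr, hy'⟩ : ∃ z ∈ R, ∃ y ∈ R, z ≠ 1 ∧ z ^ r = 1 ∧
        (∀ x ∈ R, Commute x z) ∧ y ∉ zpowers z ∧ y ^ r = 1 ∧
        ∀ w ∈ R, w * y * w⁻¹ * y⁻¹ ∈ zpowers z := by
      obtain ⟨z, y, h1, h2, h3, h4, h5, h6⟩ := hpp
      refine ⟨z, z.2, y, y.2, by simpa using h1, congrArg Subtype.val h2,
        fun x hx => congrArg Subtype.val (mem_center_iff.mp h3 ⟨x, hx⟩),
        fun ⟨k, e⟩ => h4 ⟨k, Subtype.ext e⟩, congrArg Subtype.val h5, fun w hw => ?_⟩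
      obtain ⟨k, e⟩ := h6 ⟨w, hw⟩
      exact ⟨k, congrArg Subtype.val e⟩
    have zZ : zpowers z ≤ R ⊓ centralizer (R : Set G) := zpowers_le_of_mem ⟨hz, zc⟩
    have oz := orderOf_eq_prime zr z1
    have pr : ∀ ζ ∈ zpowers z, ζ ^ r = 1 := by
      rintro _ ⟨k, rfl⟩
      rw [← zpow_natCast, ← zpow_mul, mul_comm, zpow_mul, zpow_natCast, zr, one_zpow]
    have eR : zen R z zc ≤ R := fun x hx => hx.1
    have en : ∀ m ∈ M, ∀ x ∈ zen R z zc, m * x * m⁻¹ ∈ zen R z zc := fun m hm x hx =>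
      ⟨hn m hm x hx.1, fun w hw => by
        have e := hx.2 _ (hn _ (inv_mem hm) w hw)
        rw [show w * (m * x * m⁻¹) * w⁻¹ * (m * x * m⁻¹)⁻¹ =
          m * (m⁻¹ * w * m⁻¹⁻¹ * x * (m⁻¹ * w * m⁻¹⁻¹)⁻¹ * x⁻¹) * m⁻¹ by group]
        have e1 := zn R le_rfl hn m hm _ (zZ e)
        exact mem_zpowers_of_fpf (H := R ⊓ centralizer (R : Set G)) (fun x hx => h.nm x (zM x hx.1)) zR hP hr (zZ (mem_zpowers z)) e1
          z1 zr (by rw [conj_pow, pr _ e]; simp) (e1.2 z hz)⟩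
    have ez : z ∈ zen R z zc := ⟨hz, fun w hw => by simp [(zc w hw).eq]⟩
    have k1 : ∀ x ∈ NF P (zen R z zc), x ^ r = 1 ∧
        Nat.card (P ⊓ centralizer {x} : Subgroup G) ^ r ≤ Nat.card P := by
      rintro x ⟨hx, x1, u, hu, u1, c⟩
      refine ⟨(zR _ ⟨pow_mem hx.1 r, fun w hw => mul_inv_eq_iff_eq_mul.mp ?_⟩ u hu
        (c.pow_left r)).resolve_right u1, h.pw hab hr (zM z hz) (zM x hx.1) zr z1
          (fun ζ hζ => zR ζ (zZ hζ)) (zc x hx.1) fun j => ?_⟩
      · rw [← conj_pow, ← inv_mul_cancel_right (w * x * w⁻¹) x,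
          Commute.mul_pow ((zZ (hx.2 w hw)).2 x hx.1).symm, pr _ (hx.2 w hw), one_mul]
      · obtain ⟨w, hw, e⟩ : ∃ w ∈ R, w * x * w⁻¹ * x⁻¹ ≠ 1 := by
          by_contra e
          push Not at e
          exact (zR x ⟨hx.1, fun w hw => mul_inv_eq_iff_eq_mul.mp (mul_inv_eq_one.mp (e w hw))⟩
            u hu c).elim x1 u1
        obtain ⟨i, e1⟩ := mem_powers_iff_mem_zpowers.mpr ((zpowers_eq_of_prime_card
          (by rw [Nat.card_zpowers, oz]; exact hr) (hx.2 w hw) e).ge (npow_mem_zpowers z j))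
        refine ⟨w ^ i, pow_mem (zM w hw) i, ?_⟩
        rw [((zc x hx.1).pow_right j).eq, ← e1]
        have e2 : Commute w (w * x * w⁻¹ * x⁻¹) := (zZ (hx.2 w hw)).2 w hw
        clear e1
        induction i with
        | zero => simp
        | succ i ih =>
          calc _ = w * (w ^ i * x * (w ^ i)⁻¹) * w⁻¹ := by rw [pow_succ']; group
            _ = _ := by
              simp only [ih]
              rw [← mul_assoc, (e2.pow_right i).eq, pow_succ]; group
    obtain ⟨x, hx, x1, u, hu, u1, c⟩ : (NF P (zen R z zc)).Nonempty := by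
      by_contra e
      exact yz (mem_zpowers_of_fpf (H := zen R z zc) (fun x hx => h.nm x (zM x hx.1))
        (fun x hx u hu c => by_contra fun e' => e ⟨x, hx, fun e => e' (Or.inl e), u, hu,
          fun e => e' (Or.inr e), c⟩) hP hr ez ⟨hy, hy'⟩ z1 zr yr (zc y hy).symm)
    have hx' : x ∈ NF P (zen R z zc) := ⟨hx, x1, u, hu, u1, c⟩
    have k2 : ∀ w ∈ zen R z zc, w * x * w⁻¹ * x⁻¹ ∈ zpowers z := fun w hw => hx.2 w hw.1
    have k3 := zf _ eR en
    replace zc : ∀ x ∈ zen R z zc, Commute x z := fun x hx => zc x hx.1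
    generalize zen R z _ = E at *
    rcases hr.eq_two_or_odd' with rfl | r2
    · have c1 : ¬ E ≤ centralizer {x} ⊓ E := fun e =>
        (k3 x ⟨hx, fun w hw => mc.mp (e hw).1⟩ u hu c).elim x1 u1
      have c2 : ∀ w ∈ E, w ∉ centralizer {x} ⊓ E → w * x * w⁻¹ = z * x := fun w hw e =>
        mul_inv_eq_iff_eq_mul.mp ((mem_two zr (k2 w hw)).resolve_left fun e' =>
          e ⟨mc.mpr (mul_inv_eq_iff_eq_mul.mp (mul_inv_eq_one.mp e')), hw⟩)
      have c3 := L0.SC3.two_mul_card_le inf_le_right c1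
      have c4 := L0.SC3.card_le_two_mul inf_le_right fun a ha b hb e1 e2 =>
        (⟨mc.mpr (mul_inv_eq_iff_eq_mul.mp (by
          calc _ = a * (b * x * b⁻¹) * a⁻¹ := by group
            _ = a * z * a⁻¹ * (a * x * a⁻¹) := by rw [c2 b hb e2, conj_mul]
            _ = x := by
              rw [(zc a ha).eq, mul_inv_cancel_right, c2 a ha e1, ← mul_assoc, ← sq, zr, one_mul])),
          mul_mem ha hb⟩ : a * b ∈ centralizer {x} ⊓ E)
      have xC : x ∈ centralizer {x} ⊓ E := ⟨mc.mpr rfl, hx⟩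
      have c5 : 2 * (NF P E \ (centralizer {x} ⊓ E : Subgroup G)).ncard ≤
          Nat.card (centralizer {x} ⊓ E : Subgroup G) := by
        have e1 := Set.ncard_sdiff_add_ncard_of_subset (s := (centralizer {x} ⊓ E : Subgroup G))
          (t := (E : Set G)) fun w hw => hw.2
        have e2 := Set.ncard_union_eq (s := NF P E \ (centralizer {x} ⊓ E : Subgroup G))
          (t := (· * x) '' (NF P E \ (centralizer {x} ⊓ E : Subgroup G))) (Set.disjoint_left.mpr (by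
            rintro _ e1 ⟨w, e2, rfl⟩
            have e3 := (k1 _ e1.1).1
            have e4 := (k1 _ e2.1).1
            rw [sq] at e3 e4
            rw [← mul_assoc] at e3
            nth_rewrite 2 [eq_inv_of_mul_eq_one_left e4] at e3
            rw [c2 w e2.1.1 e2.2, mul_assoc, ← sq, (k1 x hx').1, mul_one] at e3
            exact z1 e3))
        have e3 := Set.ncard_le_ncard (t := (E : Set G) \ (centralizer {x} ⊓ E : Subgroup G))
          (Set.union_subset (s := NF P E \ (centralizer {x} ⊓ E : Subgroup G))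
            (fun w hw => ⟨hw.1.1, hw.2⟩) (t := (· * x) '' (NF P E \ (centralizer {x} ⊓ E : Subgroup G)))
            (by
              rintro _ ⟨w, e, rfl⟩
              exact ⟨mul_mem e.1.1 hx, fun e' => e.2 ((mul_mem_cancel_right xC).mp e')⟩))
        rw [e2, Set.ncard_image_of_injective _ (mul_left_injective x)] at e3
        change _ + Nat.card (centralizer {x} ⊓ E : Subgroup G) = Nat.card E at e1
        omega
      have c6 := Set.ncard_inter_add_ncard_sdiff_eq_ncard (NF P E) (centralizer {x} ⊓ E : Subgroup G)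
      by_cases c7 : ∃ v ∈ P, v ≠ 1 ∧ 4 ≤ Nat.card (centralizer {v} ⊓ E : Subgroup G)
      · obtain ⟨v, hv, v1, e⟩ := c7
        have c8 : (NF P E ∩ (centralizer {x} ⊓ E : Subgroup G)).ncard ≤
            Nat.card (centralizer {x} ⊓ E : Subgroup G) := Set.ncard_le_ncard Set.inter_subset_right
        exact h.two hab (eR.trans hE) en hv v1 (fun x hx => (k1 x hx).2) (t := 2) e (by omega)
      have zf : ∀ u ∈ P, Commute z u → u = 1 := fun u hu e =>
        (zR z (zZ (mem_zpowers z)) u hu e).resolve_left z1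
      have c8 : (NF P E ∩ (centralizer {x} ⊓ E : Subgroup G)).ncard ≤ ({x, x * z} : Set G).ncard :=
        Set.ncard_le_ncard fun w ⟨e1, e2⟩ => by
          by_contra e3
          simp only [Set.mem_insert_iff, Set.mem_singleton_iff, not_or] at e3
          have e4 : Commute w x := mc.mp e2.1
          have e5 := (k1 w e1).1
          have e6 := h.nm w (zM w (eR e2.2)) u hu
          have e7 := h.nm z (zM z hz) u hu
          have inv : ∀ w, w ^ 2 = 1 → w * u * w⁻¹ ∈ P → Commute w (u * (w * u * w⁻¹)) :=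
            fun w e1 e2 => mul_inv_eq_iff_eq_mul.mp (by
              calc _ = w * u * w⁻¹ * (w ^ 2 * u * (w ^ 2)⁻¹) := by rw [sq]; group
                _ = _ := by rw [e1, (hab u hu _ e2).eq]; simp)
          refine c7 ?_
          by_cases e8 : u * (w * u * w⁻¹) = 1
          · obtain ⟨-, w1, u', hu', u1', c'⟩ := e1
            refine ⟨u, hu, u1, four_le ⟨mc.mpr c, hx⟩ ⟨mc.mpr (mul_inv_eq_iff_eq_mul.mp ?_),
              mul_mem e2.2 ez⟩ (k1 x hx').1 x1 (fun e => u1' (zf u' hu' ?_)) fun e => e3.2 ?_⟩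
            · calc _ = w * (z * u * z⁻¹) * w⁻¹ := by group
                _ = u := by
                  rw [eq_inv_of_mul_eq_one_right (zf _ (mul_mem hu e7) (inv z zr e7)), ← conj_inv,
                    eq_inv_of_mul_eq_one_right e8, inv_inv]
            · exact eq_inv_of_mul_eq_one_right e ▸ c'.inv_left
            · rw [← e, mul_assoc, ← sq, zr, mul_one]
          · exact ⟨_, mul_mem hu e6, e8, four_le ⟨mc.mpr (c.mul_right
              ((e4.symm.mul_right c).mul_right e4.symm.inv_right)), hx⟩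
              ⟨mc.mpr (inv w e5 e6), e2.2⟩ (k1 x hx').1 x1 e1.2.1 e3.1⟩
      have c9 := Set.ncard_insert_le x {x * z}
      rw [Set.ncard_singleton] at c9
      have c10 := four_le xC ⟨mc.mpr (zc x hx).symm, ez⟩ (k1 x hx').1 x1 z1
        fun e => u1 (zf u hu (e ▸ c))
      exact h.two hab (eR.trans hE) en hu u1 (fun x hx => (k1 x hx).2) (t := 0)
        ((one_lt_card_iff_ne_bot _).mpr fun e => x1 (mem_bot.mp (e.le ⟨mc.mpr c, hx⟩))) (by omega)
    · have r3 : 3 ≤ r := by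
        have := hr.two_le
        obtain ⟨i, rfl⟩ := r2
        omega
      have c1 := card_le_of_le (zpowers_le_of_mem (show x ∈ centralizer {u} ⊓ E from ⟨mc.mpr c, hx⟩))
      rw [Nat.card_zpowers, orderOf_eq_prime (k1 x hx').1 x1] at c1
      obtain ⟨j, hj⟩ := Nat.exists_eq_add_of_le (r3.trans c1)
      have c2 := h.cnt (eR.trans hE) en hu u1 (c := 2 * D.relIndex M / 3) (s := 2 + j)
        (fun x hx => by
          have e1 := ((Nat.pow_le_pow_right Nat.card_pos r3).trans (k1 x hx).2).trans_lt h.big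
          by_contra e2
          have e3 := Nat.pow_le_pow_left (show 2 * D.relIndex M + 4 ≤
            3 * Nat.card (P ⊓ centralizer {x} : Subgroup G) by omega) 3
          rw [mul_pow] at e3
          nlinarith [Nat.zero_le (D.relIndex M ^ 3), Nat.zero_le (D.relIndex M ^ 2)]) (by omega)
      have c3 : (NF P E).ncard < Nat.card E := Set.ncard_lt_ncard (t := (E : Set G))
        ⟨fun x hx => hx.1, fun e => (e E.one_mem).2.1 rfl⟩
      have c4 : 0 < D.relIndex M := Nat.pos_of_ne_zero index_ne_zero_of_finite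
      have c5 := Nat.mul_le_mul_left ((3 + j) * (NF P E).ncard)
        (Nat.mul_div_le (2 * D.relIndex M) 3)
      have c6 := Nat.mul_le_mul_left (D.relIndex M) c3
      nlinarith [Nat.mul_le_mul_left j c6, Nat.zero_le (j * D.relIndex M),
        Nat.zero_le (j * D.relIndex M * Nat.card E)]
  rcases H5.cyclic_or_maxClass hR hpp with hc | ⟨rfl, n, a, x, ha, hi, hx, hc⟩
  · exact (h.fpf hab hE hn (fun x hx y hy => congrArg Subtype.val
      (hc.isMulCommutative.is_comm.comm (⟨x, hx⟩ : R) ⟨y, hy⟩)) y hy u hu cy).elim y1 u1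
  have o1 : orderOf (a ^ 2 ^ (n + 1)) = 2 := by
    rw [orderOf_pow_of_dvd (by positivity) (ha ▸ pow_dvd_pow 2 (by omega)), ha, pow_succ,
      Nat.mul_div_cancel_left _ (by positivity)]
  have k0 : ∀ w : R, w ∈ zpowers a → w * a ^ 2 ^ n * w⁻¹ = a ^ 2 ^ n := by
    rintro _ ⟨k, rfl⟩
    rw [(((Commute.refl a).zpow_left k).pow_right _).eq, mul_inv_cancel_right]
  have e0 : a ^ 2 ^ n * a ^ 2 ^ n = a ^ 2 ^ (n + 1) := by rw [← pow_add, pow_succ 2, mul_two]
  have zz : (a ^ 2 ^ (n + 1)) ^ 2 = 1 := orderOf_dvd_iff_pow_eq_one.mp o1.dvd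
  have k1 : ∀ w : R, w ∉ zpowers a → w * a ^ 2 ^ n * w⁻¹ = (a ^ 2 ^ n)⁻¹ := fun w hw => by
    have e : x * a ^ 2 ^ n * x⁻¹ = (a ^ 2 ^ n)⁻¹ := by
      rw [← conj_pow]
      rcases hc with e | e | ⟨e1, e, -⟩
      · rw [e.1, inv_pow]
      · rw [e.1, inv_pow]
      · obtain ⟨n, rfl⟩ := Nat.exists_eq_add_of_le' e1
        rw [e, eq_inv_iff_mul_eq_one, ← pow_mul, ← pow_add, ← Nat.succ_mul, Nat.succ_eq_add_one,
          Nat.sub_add_cancel Nat.one_le_two_pow, ← orderOf_dvd_iff_pow_eq_one, ha, ← pow_add]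
        exact pow_dvd_pow 2 (by omega)
    calc _ = x * (x⁻¹ * w * a ^ 2 ^ n * (x⁻¹ * w)⁻¹) * x⁻¹ := by group
      _ = _ := by rw [k0 _ ((mul_mem_iff_of_index_two hi).mpr (by simp [hx, hw])), e]
  have k2 : ∀ w : R, Commute w (a ^ 2 ^ (n + 1)) := fun w => mul_inv_eq_iff_eq_mul.mp (by
    rw [← e0, ← conj_mul]
    by_cases e : w ∈ zpowers a
    · rw [k0 w e]
    · rw [k1 w e, ← mul_inv_rev, e0, inv_eq_iff_mul_eq_one, ← sq, zz])
  have z1 : ((a ^ 2 ^ (n + 1) : R) : G) ≠ 1 := fun e => by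
    rw [show a ^ 2 ^ (n + 1) = 1 from Subtype.ext e, orderOf_one] at o1
    omega
  have zZ : ((a ^ 2 ^ (n + 1) : R) : G) ∈ R ⊓ centralizer (R : Set G) :=
    ⟨Subtype.property _, fun w hw => congrArg Subtype.val (k2 ⟨w, hw⟩)⟩
  have k3 : ∀ w : R, (w : G) ∈ NF P R → w ∉ zpowers a := fun w ⟨_, w1, u, hu, u1, c⟩ e => by
    obtain ⟨i, hi⟩ := (IsPGroup.iff_orderOf.mp hR) w
    have e1 : 2 ∣ orderOf w := hi ▸ dvd_pow_self 2 fun e => w1 (by
      rw [e, pow_zero, orderOf_eq_one_iff] at hi; simp [hi])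
    obtain ⟨j, hj⟩ := exists_orderOf_eq_of_dvd_orderOf e1
    obtain ⟨l, hl⟩ := mem_powers_iff_mem_zpowers.mpr (pow_mem e j)
    have e2 := orderOf_dvd_iff_pow_eq_one.mp hj.dvd
    rw [← hl, ← pow_mul, ← orderOf_dvd_iff_pow_eq_one, ha, pow_succ] at e2
    obtain ⟨l, rfl⟩ := Nat.dvd_of_mul_dvd_mul_right two_pos e2
    rcases mem_two zz (y := w ^ j) (hl ▸ ⟨l, (zpow_natCast _ l).trans (pow_mul a _ l).symm⟩) with e3 | e3
    · simp [e3] at hj
    · exact (zR _ zZ u hu (e3 ▸ c.pow_left j)).elim z1 u1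
  have zz' : ((a ^ 2 ^ (n + 1) : R) : G) ^ 2 = 1 := congrArg Subtype.val zz
  refine h.two hab hE hn hu u1 (fun w hw => h.pw hab hr (zM _ zZ.1) (zM w hw.1) zz' z1
    (fun ζ hζ => zR ζ (zpowers_le_of_mem zZ hζ)) (zZ.2 w hw.1) fun j => ?_) (t := 0)
    ((one_lt_card_iff_ne_bot _).mpr fun e => y1 (mem_bot.mp (e.le ⟨mc.mpr cy, hy⟩))) ?_
  · rw [pow_eq_pow_mod _ zz']
    rcases Nat.mod_two_eq_zero_or_one j with e | e <;> rw [e]
    · exact ⟨1, one_mem _, by simp⟩
    · refine ⟨_, zM _ (a ^ 2 ^ n).2, congrArg Subtype.val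
        (show a ^ 2 ^ n * ⟨w, hw.1⟩ * (a ^ 2 ^ n)⁻¹ = ⟨w, hw.1⟩ * (a ^ 2 ^ (n + 1)) ^ 1 from ?_)⟩
      rw [pow_one, (k2 _).eq, ← e0, mul_assoc, mul_assoc, mul_right_inj, ← mul_inv_eq_iff_eq_mul,
        ← conj_inv, k1 _ (k3 _ hw), inv_inv]
  · have e1 := Set.ncard_sdiff_add_ncard_of_subset (s := (zpowers a).map R.subtype) (t := (R : Set G))
      (map_subtype_le _)
    have e2 := Set.ncard_le_ncard (s := NF P R) (t := (R : Set G) \ (zpowers a).map R.subtype)
      fun w hw => ⟨hw.1, fun e => k3 ⟨w, hw.1⟩ hw ((mem_map_iff_mem R.subtype_injective).mp e)⟩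
    have e3 := (zpowers a).index_mul_card
    change _ + Nat.card ((zpowers a).map R.subtype) = Nat.card R at e1
    rw [card_map_of_injective R.subtype_injective] at e1
    rw [hi] at e3
    omega

theorem semi [D.Normal] {y u : G} (hy : y ∈ D ⊓ M) (hu : u ∈ P) (c : Commute y u) :
    y = 1 ∨ u = 1 := by
  by_contra hn
  push Not at hn
  obtain ⟨x, hx, hr⟩ := exists_prime_orderOf_mem (H := zpowers y) (by simpa using hn.1)
  have := Fact.mk hr
  obtain ⟨R, hR, xR⟩ := exists_isSylowIn_ge ((zpowers_le_of_mem hx).trans (zpowers_le_of_mem hy))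
    (IsPGroup.of_card (p := orderOf x) (n := 1) (by simp))
  have h' := h.mono (M' := M ⊓ normalizer (R : Set G)) inf_le_left (cover inf_le_left fun g hg => by
    obtain ⟨l, hl, e⟩ := hR.frattini (mem_normalizer_fintype (x := g) fun n hn =>
      ⟨Normal.conj_mem inferInstance n hn.1 g, M.mul_mem (M.mul_mem hg hn.2) (M.inv_mem hg)⟩)
    exact ⟨l, hl.1, mul_mem hl.2 hg, e⟩)
  obtain ⟨k, rfl⟩ := hx
  exact (h'.core hab hr hR.isPGroup (fun x hx => ⟨(hR.le hx).1, (hR.le hx).2, le_normalizer hx⟩)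
    fun m hm x hx => (mem_normalizer_iff.mp hm.2 x).mp hx).subset
      ⟨xR (mem_zpowers _), ne_one_of_orderOf_prime hr, u, hu, hn.2, c.zpow_left k⟩

end Lin

end Cfsg.Agent.H4.Der
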