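import Cfsg.Agent.H4.DerB
import Cfsg.Agent.H4.DerC

/-!
# The index of the subgroup generated by the derangements
-/

set_option autoImplicit false
set_option linter.unusedSectionVars false

namespace Cfsg.Agent.H4.Der

open Subgroup MulAction H3 H9

variable {G Ω : Type*} [Group G] [Finite G] [MulAction G Ω] [Finite Ω]

theorem ncard_orbit (H : Subgroup G) (ω : Ω) :
    (orbit H ω).ncard = (stabilizer G ω).relIndex H := by
  rw [← index_stabilizer]
  rfl

variable {D : Subgroup G} (hD : ∀ g : G, Nat.card (fixedBy Ω g) ≠ 1 → g ∈ D)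
include hD

theorem dvd_inv {M : Subgroup G} {c : Ω} (hc : M ≤ stabilizer G c) {Ψ : Set Ω} (h1 : c ∈ Ψ)
    (h2 : ∀ m ∈ M, ∀ ω ∈ Ψ, m • ω ∈ Ψ) : D.relIndex M ∣ Ψ.ncard - 1 := by
  rw [← Set.ncard_sdiff_singleton_of_mem h1]
  refine dvd_ncard_of_invariant (G := M) _ (fun g b hb => ⟨h2 g g.2 b hb.1, fun e => hb.2 ?_⟩)
    fun b hb => index_dvd_of_le fun g hg => hD g ?_
  · exact (smul_left_cancel_iff (g : G)).mp (e.trans (hc g.2).symm)
  · have := two_le_card_fixedBy (Ne.symm hb.2) (hc g.2) hg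
    omega

variable [FaithfulSMul G Ω] [D.Normal] [IsPretransitive D Ω] (big : Nat.card Ω < (D.index + 1) ^ 2)
include big

theorem exists_regular (hΩ : 2 ≤ Nat.card Ω) : ∃ (p : ℕ) (P : Subgroup G), p.Prime ∧
    IsSylowIn p P D ∧ Nat.card P = Nat.card Ω ∧ IsPretransitive P Ω := by
  obtain ⟨p, hp, hpn⟩ := Nat.exists_prime_and_dvd (show Nat.card Ω ≠ 1 by omega)
  have := Fact.mk hp
  obtain ⟨c⟩ := (Nat.card_pos_iff.mp (show 0 < Nat.card Ω by omega)).1
  have h0 : ∀ ω : Ω, Nat.card (stabilizer G ω ⊓ D : Subgroup G) * Nat.card Ω = Nat.card D :=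
    fun ω => by
      rw [← card_mul_relIndex_of_le (inf_le_right : stabilizer G ω ⊓ D ≤ D), inf_relIndex_right,
        ← ncard_orbit, orbit_eq_univ, Set.ncard_univ]
  obtain ⟨Q, hQ⟩ := exists_isSylowIn p (stabilizer G c ⊓ D)
  have cov : ∀ {M : Subgroup G}, (∀ g, ∃ l ∈ D, l * g ∈ M) → D.relIndex M = D.index := fun h =>
    (cover le_top fun g _ => h g).trans (relIndex_top_right D)
  have h1 : ∀ g, ∃ l ∈ D, l * g ∈ stabilizer G c ⊓ normalizer (Q : Set G) := fun g => by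
    obtain ⟨x, hx, y, hy, rfl⟩ := exists_mul_stabilizer (N := D) c g
    obtain ⟨l, hl, e⟩ := hQ.frattini (mem_normalizer_fintype (x := y) fun n hn =>
      ⟨(stabilizer G c).mul_mem ((stabilizer G c).mul_mem hy hn.1) ((stabilizer G c).inv_mem hy),
        Normal.conj_mem inferInstance n hn.2 y⟩)
    exact ⟨l * x⁻¹, mul_mem hl.2 (inv_mem hx), by
      rw [mul_assoc, inv_mul_cancel_left]; exact ⟨mul_mem hl.1 hy, e⟩⟩
  have h2 : ∀ g ∈ normalizer (Q : Set G), ∀ ω ∈ {ω : Ω | Q ≤ stabilizer G ω},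
      g • ω ∈ {ω : Ω | Q ≤ stabilizer G ω} := fun g hg ω hω q hq => by
    rw [mem_stabilizer_iff, ← mul_smul, ← mul_inv_cancel_left g (q * g), mul_smul, ← mul_assoc,
      hω ((mem_normalizer_iff''.mp hg q).mp hq)]
  have c0 : c ∈ {ω : Ω | Q ≤ stabilizer G ω} := hQ.le.trans inf_le_left
  have h3 := cov h1 ▸ dvd_inv hD inf_le_left c0 fun m hm => h2 m hm.2
  have QD : Q ≤ D := hQ.le.trans inf_le_right
  obtain ⟨P, hP, QP⟩ := exists_isSylowIn_ge (L := D ⊓ normalizer (Q : Set G))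
    (le_inf QD le_normalizer) hQ.isPGroup
  have PD := hP.le.trans inf_le_left
  have h4 : ∀ ω ∈ {ω : Ω | Q ≤ stabilizer G ω}, (orbit P ω).ncard = Q.relIndex P := fun ω hω => by
    have e : IsSylowIn p Q (stabilizer G ω ⊓ D) := ⟨le_inf hω QD, hQ.isPGroup, by
      have e1 := card_mul_relIndex_of_le (le_inf hω QD : Q ≤ stabilizer G ω ⊓ D)
      rw [Nat.eq_of_mul_eq_mul_right (by omega) ((h0 ω).trans (h0 c).symm),
        ← card_mul_relIndex_of_le hQ.le] at e1
      exact Nat.eq_of_mul_eq_mul_left Nat.card_pos e1 ▸ hQ.not_dvd⟩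
    rw [ncard_orbit, ← inf_relIndex_right, e.eq_of_le (hP.isPGroup.to_le inf_le_right)
      (inf_le_inf_left _ PD) (le_inf hω QP)]
  have h5 : D.relIndex (normalizer (Q : Set G) ⊓ normalizer (P : Set G)) = D.index := cov fun g => by
    obtain ⟨l, hl, e⟩ := h1 g
    obtain ⟨l', hl', e'⟩ := hP.frattini (mem_normalizer_fintype (x := l * g) fun n hn =>
      ⟨Normal.conj_mem inferInstance n hn.1 _, Subgroup.mul_mem _ (Subgroup.mul_mem _ e.2 hn.2)
        (Subgroup.inv_mem _ e.2)⟩)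
    exact ⟨l' * l, mul_mem hl'.1 hl, by rw [mul_assoc]; exact ⟨mul_mem hl'.2 e.2, e'⟩⟩
  have h6 : D.index ∣ Q.relIndex P - 1 := (Nat.dvd_iff_prime_pow_dvd_dvd _ _).mpr fun r j hr hj => by
    rcases j with _ | j
    · simp
    have := Fact.mk hr
    obtain ⟨R, hR⟩ := exists_isSylowIn r (normalizer (Q : Set G) ⊓ normalizer (P : Set G))
    obtain ⟨ω, hω, e⟩ : ∃ ω ∈ {ω : Ω | Q ≤ stabilizer G ω}, R ≤ stabilizer G ω := by
      by_contra e
      have e1 := dvd_ncard_of_invariant (G := R) (d := r) _ (fun g => h2 g (hR.le g.2).1)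
        fun ω hω => by
          obtain ⟨i, hi⟩ := hR.isPGroup.index (stabilizer R ω)
          exact hi ▸ dvd_pow_self r fun e2 => e ⟨ω, hω, fun g hg => (index_eq_one.mp
            (hi.trans (by rw [e2, pow_zero]))).ge (mem_top (⟨g, hg⟩ : R))⟩
      have e2 := (Set.ncard_pos (Set.toFinite _)).mpr ⟨c, c0⟩
      have := Nat.dvd_sub e1 (((dvd_pow_self r j.succ_ne_zero).trans hj).trans h3)
      rw [Nat.sub_sub_self e2, Nat.dvd_one] at this
      exact hr.ne_one this
    have e1 := h4 ω hω ▸ dvd_inv hD e (mem_orbit_self (M := P) ω) (by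
      rintro m hm _ ⟨u, rfl⟩
      refine ⟨⟨_, (mem_normalizer_iff.mp (hR.le hm).2 u).mp u.2⟩, ?_⟩
      change (m * u * m⁻¹) • ω = m • (u : G) • ω
      rw [mul_smul, mul_smul, e (inv_mem hm)])
    refine Dvd.dvd.trans ?_ e1
    have e2 := relIndex_dvd_of_le_left (normalizer (Q : Set G) ⊓ normalizer (P : Set G))
      (inf_le_left : D ⊓ R ≤ D)
    rw [h5, ← relIndex_mul_relIndex _ R _ inf_le_right hR.le, inf_relIndex_right] at e2
    exact (((Nat.Prime.coprime_iff_not_dvd hr).mpr hR.not_dvd).pow_left _).dvd_of_dvd_mul_right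
      (hj.trans e2)
  have h7 : Q.relIndex P ≠ 1 := fun e => by
    obtain ⟨S, hS, QS⟩ := exists_isSylowIn_ge QD hQ.isPGroup
    obtain ⟨x, e1, e2, e3⟩ := H7.exists_mem_normalizer_of_lt hS.isPGroup.isNilpotent
      (lt_of_le_not_ge QS fun e1 => hS.not_dvd (by
        rw [le_antisymm e1 QS, ← relIndex_mul_relIndex _ _ _ hQ.le inf_le_right, inf_relIndex_right,
          ← ncard_orbit, orbit_eq_univ, Set.ncard_univ]
        exact hpn.mul_left _))
    obtain rfl := le_antisymm (relIndex_eq_one.mp e) QP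
    exact e2 ((hP.eq_of_le (hS.isPGroup.to_le inf_le_left) (inf_le_inf_right _ hS.le)
      (le_inf QS le_normalizer)).le ⟨e1, e3⟩)
  obtain ⟨b, hb⟩ : Q.relIndex P ∣ Nat.card Ω := by
    obtain ⟨i, hi⟩ := hP.isPGroup.index (Q.subgroupOf P)
    have e := card_dvd_of_le PD
    rw [← h0 c, ← card_mul_relIndex_of_le hQ.le, ← card_mul_relIndex_of_le QP, mul_assoc,
      Nat.mul_dvd_mul_iff_left Nat.card_pos, relIndex, hi] at e
    rw [relIndex, hi]
    exact (((Nat.Prime.coprime_iff_not_dvd hp).mpr hQ.not_dvd).pow_left _).dvd_of_dvd_mul_left e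
  have h8 := cov (M := stabilizer G c) (fun g => let ⟨l, h, e⟩ := h1 g; ⟨l, h, e.1⟩) ▸
    dvd_inv hD le_rfl (Set.mem_univ c) fun _ _ _ _ => trivial
  rw [Set.ncard_univ] at h8
  obtain rfl := (eq_of_big h6 (hb ▸ h8) (hb ▸ big) (by omega)).resolve_left h7
  have h9 : orbit P c = Set.univ := Set.eq_of_subset_of_ncard_le (Set.subset_univ _) (by
    rw [h4 c c0, Set.ncard_univ, hb, mul_one])
  obtain rfl : Q = ⊥ := eq_bot_iff.mpr fun q hq => eq_one_of_forall_smul (Ω := Ω) fun ω => by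
    obtain ⟨u, rfl⟩ := h9.ge (Set.mem_univ ω)
    exact h2 u (hP.le u.2).2 c c0 hq
  refine ⟨p, P, hp, by rwa [normalizer_eq_top, inf_top_eq] at hP, by rw [hb, relIndex_bot_left, mul_one],
    (isPretransitive_iff_orbit_eq_univ c).mpr h9⟩

theorem exists_normal (hΩ : 2 ≤ Nat.card Ω) (hr : 2 ≤ D.index →
    3 ≤ Nat.card (orbitRel.Quotient D (Ω × Ω))) :
    ∃ P : Subgroup G, P.Normal ∧ IsMulCommutative P ∧ P ≠ ⊥ := by
  obtain ⟨p, P, hp, hP, hc, ht⟩ := exists_regular hD big hΩ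
  have := Fact.mk hp
  obtain ⟨c⟩ := (Nat.card_pos_iff.mp (show 0 < Nat.card Ω by omega)).1
  have hs : ∀ u ∈ P, u ≠ 1 → ∀ ω : Ω, u • ω ≠ ω := fun u hu u1 ω e => u1 (eq_one_of_regular
    (card_eq_one.mp (Nat.eq_of_mul_eq_mul_right (m := Nat.card Ω) (by omega) (by
      rw [← card_eq_card_stabilizer_mul, hc, one_mul]))) hu e)
  have h1 : ∀ g ∈ normalizer (P : Set G), ∃ v ∈ P,
      v⁻¹ * g ∈ stabilizer G c ⊓ normalizer (P : Set G) := fun g hg => by
    obtain ⟨x, hx, y, hy, rfl⟩ := exists_mul_stabilizer (N := P) c g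
    exact ⟨x, hx, by rw [inv_mul_cancel_left]; exact hy,
      Subgroup.mul_mem _ (Subgroup.inv_mem _ (le_normalizer hx)) hg⟩
  have h2 : ∀ g, ∃ l ∈ D, l * g ∈ stabilizer G c ⊓ normalizer (P : Set G) := fun g => by
    obtain ⟨l, hl, e⟩ := hP.frattini (g := g) (by simp [normalizer_eq_top])
    obtain ⟨v, hv, e⟩ := h1 _ e
    exact ⟨v⁻¹ * l, mul_mem (inv_mem (hP.le hv)) hl, mul_assoc _ l g ▸ e⟩
  have h : Lin P (stabilizer G c ⊓ normalizer (P : Set G)) D :=
    ⟨fun m hm u hu => (mem_normalizer_iff.mp hm.2 u).mp hu, fun m hm u hu u1 e => hD m (by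
      have := two_le_card_fixedBy (hs u hu u1 c) (by rw [← mul_smul, e.eq, mul_smul, hm.1]) hm.1
      omega), fun m hm e => eq_one_of_commute_transitive (N := P) hm.1 e, by
      rwa [cover le_top fun g _ => h2 g, relIndex_top_right, hc]⟩
  have hab := h.comm hp hP.isPGroup
  refine ⟨P, ?_, ⟨⟨fun u v => Subtype.ext (hab u u.2 v v.2)⟩⟩, fun e => by simp [e] at hc; omega⟩
  by_cases hk : 2 ≤ D.index
  swap
  · have e1 : D.index ≠ 0 := index_ne_zero_of_finite
    have e2 := card_dvd_of_injective (toPermHom G Ω) toPerm_injective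
    rw [← P.index_mul_card, hc, Nat.card_perm] at e2
    rw [show D.index = 1 by omega] at big
    refine ((Nat.dvd_prime Nat.prime_two).mp ?_).elim normal_of_index_eq_one normal_of_index_eq_two
    interval_cases e : Nat.card Ω
    · exact (dvd_mul_right _ _).trans e2
    · exact Nat.dvd_of_mul_dvd_mul_right three_pos e2
  have hC : ∀ u ∈ P, u ≠ 1 → D ⊓ centralizer {u} = P := fun u hu u1 => by
    have le : P ≤ D ⊓ centralizer {u} := fun v hv => ⟨hP.le hv, mc.mpr (hab v hv u hu)⟩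
    let S := (hP.of_le le inf_le_left).toSylow
    have hS : normalizer (S.1 : Set (D ⊓ centralizer {u} : Subgroup G)) ≤
        centralizer (S.1 : Set (D ⊓ centralizer {u} : Subgroup G)) :=
      fun g hg x hx => by
        obtain ⟨v, hv, e⟩ := h1 g (mem_normalizer_fintype fun y hy =>
          (mem_normalizer_iff.mp hg ⟨y, le hy⟩).mp hy)
        have e1 := (h.semi hab ⟨D.mul_mem (D.inv_mem (hP.le hv)) g.2.1, e⟩ hu
          ((hab v hv u hu).inv_left.mul_left (mc.mp g.2.2))).resolve_right u1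
        exact Subtype.ext (hab x hx g (inv_mul_eq_one.mp e1 ▸ hv))
    have hK := MonoidHom.ker_transferSylow_isComplement' S hS
    have : IsPretransitive (D ⊓ centralizer {u} : Subgroup G) Ω := ⟨fun a b => by
      obtain ⟨v, e⟩ := exists_smul_eq P a b
      exact ⟨⟨v, le v.2⟩, e⟩⟩
    have e1 : (MonoidHom.transferSylow S hS).ker = ⊥ := eq_bot_iff.mpr fun y hy =>
      eq_one_of_forall_smul (Ω := Ω) fun ω => by
        have e2 := (IsBlock.orbit_of_normal (N := (MonoidHom.transferSylow S hS).ker) ω).ncard_dvd_card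
          (nonempty_orbit ω)
        obtain ⟨i, hi⟩ := hP.isPGroup.exists_card_eq
        rw [← index_stabilizer, ← hc, hi] at e2
        exact (index_eq_one.mp (Nat.eq_one_of_dvd_coprimes (((Nat.Prime.coprime_iff_not_dvd hp).mpr
          (MonoidHom.not_dvd_card_ker_transferSylow S hS)).pow_left i) e2
          (index_dvd_card _))).ge (mem_top ⟨y, hy⟩)
    rw [e1, isComplement'_bot_left] at hK
    exact le_antisymm (subgroupOf_eq_top.mp hK) le
  have := Fintype.ofFinite D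
  have h3 := ti_normal (X := D) (Ω := Ω) (P := P.subgroupOf D)
    ((Nat.card_congr (subgroupOfEquivOfLe hP.le).toEquiv).trans hc)
    (fun u hu u1 => hs u hu (by simpa using u1)) (fun u hu u1 => Subgroup.ext fun x => by
      rw [mem_subgroupOf, ← hC u hu (by simpa using u1), mem_inf, mc, mc]
      simp [Commute, SemiconjBy, Subtype.ext_iff]) (hr hk)
  refine normalizer_eq_top_iff.mp (eq_top_iff.mpr fun g _ => ?_)
  obtain ⟨l, hl, e⟩ := h2 g
  refine (mul_mem_cancel_left (mem_normalizer_fintype fun y hy => ?_)).mp e.2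
  exact (mem_normalizer_iff.mp (h3.ge (mem_top ⟨l, hl⟩)) ⟨y, hP.le hy⟩).mp hy

end Cfsg.Agent.H4.Der
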