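import Cfsg.Agent.H4.J1
import Cfsg.Agent.H4.Small

/-! Explicit elements of the first Janko group. -/

set_option autoImplicit false

namespace Cfsg.Agent.H4.J1F

open Cfsg.Spor Cfsg.Agent.H4.J1

/-- The coding of `J1`. -/
def KH : Coding J1 (Matrix (Fin 7) (Fin 7) (ZMod 11)) where
  ι := (Units.coeHom _).comp J1.subtype
  inj := Units.val_injective.comp Subtype.val_injective
  dec := decM 7 11 21 4
  mul := mMul
  dec_mul := K.dec_mul

/-- The value of a word. -/
def ev {G : Type*} [Group G] (gs : List G) (l : List ℕ) : G := (l.map (gs.getD · 1)).prod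

/-- The code of a word. -/
noncomputable def evc (cs : List ℕ) (l : List ℕ) : ℕ := mword mMul (l.map (cs.getD · mOne)) mOne

/-- The code of a power. -/
noncomputable def pw (c k : ℕ) : ℕ := mword mMul (List.replicate k c) mOne

theorem ev_mem {G : Type*} [Group G] {gs : List G} {S : Subgroup G} (h : ∀ g ∈ gs, g ∈ S)
    (l : List ℕ) : ev gs l ∈ S := by
  refine S.list_prod_mem fun x hx => ?_
  obtain ⟨i, -, rfl⟩ := List.mem_map.mp hx
  rcases lt_or_ge i gs.length with hi | hi
  · rw [List.getD_eq_getElem _ _ hi]; exact h _ (List.getElem_mem hi)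
  · rw [List.getD_eq_default _ _ hi]; exact S.one_mem

theorem R1 : KH.R mOne 1 := R_one

theorem R_of {c c' : ℕ} {g : J1} (h : KH.R c g) (e : c = c') : KH.R c' g := e ▸ h

theorem R_mul {c c' : ℕ} {g g' : J1} (h : KH.R c g) (h' : KH.R c' g') :
    KH.R (mMul c c') (g * g') := h.mul h'

theorem R_pw {c : ℕ} {g : J1} (h : KH.R c g) (k : ℕ) : KH.R (pw c k) (g ^ k) :=
  Coding.R.pow R1 h k

theorem eq_of {c c' : ℕ} {g g' : J1} (h : KH.R c g) (h' : KH.R c' g') (e : c = c') : g = g' :=
  (R_of h e).unique h'

theorem ne_of {c c' : ℕ} {g g' : J1} (h : KH.R c g) (h' : KH.R c' g')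
    (e : decM 7 11 21 4 c ≠ decM 7 11 21 4 c') : g ≠ g' := by
  rintro rfl
  exact e (h.trans h'.symm)

theorem R_ev {cs : List ℕ} {gs : List J1} (h : List.Forall₂ KH.R cs gs) (l : List ℕ) :
    KH.R (evc cs l) (ev gs l) := by
  have hg : ∀ i, KH.R (cs.getD i mOne) (gs.getD i 1) := by
    induction h with
    | nil => intro i; simpa using R1
    | cons hr _ ih =>
      intro i
      cases i with
      | zero => simpa using hr
      | succ i => simpa using ih i
  have : ∀ (c : ℕ) (g : J1), KH.R c g →
      KH.R (mword mMul (l.map (cs.getD · mOne)) c) (g * ev gs l) := by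
    induction l with
    | nil => intro c g hc; simpa [mword, ev] using hc
    | cons i l ih =>
      intro c g hc
      have e : mword mMul ((i :: l).map (cs.getD · mOne)) c =
        force (mMul c (cs.getD i mOne)) (mword mMul (l.map (cs.getD · mOne))) := rfl
      have e2 : ev gs (i :: l) = gs.getD i 1 * ev gs l := by simp [ev]
      rw [e, force_eq, e2, ← mul_assoc]
      exact ih _ _ (R_mul hc (hg i))
  have h1 := this mOne 1 R1
  rwa [one_mul] at h1

/-- The first generator. -/
def ex : J1 := ⟨jankoX, Subgroup.subset_closure (by simp)⟩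

/-- The second generator. -/
def ey : J1 := ⟨jankoY, Subgroup.subset_closure (by simp)⟩

theorem Rx : KH.R g0_0 ex := R_X

theorem Ry : KH.R g0_1 ey := R_Y

theorem Rxy : List.Forall₂ KH.R [g0_0, g0_1] [ex, ey] := .cons Rx (.cons Ry .nil)

theorem eq_top_of {S : Subgroup J1} (hx : ex ∈ S) (hy : ey ∈ S) : S = ⊤ := by
  have h := Subgroup.closure_closure_coe_preimage (k := ({jankoX, jankoY} : Set _))
  refine eq_top_iff.mpr (h.ge.trans ((Subgroup.closure_le _).mpr ?_))
  rintro ⟨z, hz⟩ (rfl | rfl)
  exacts [hx, hy]

/-- A code. -/
def ca : ℕ := nat_lit 3923986081673673069736034797009051881761312333719501272838649812120810899899174795736152904832510383845801116699252749249551889242624125768119618191551369594046083163881654564683039045284904516473820273030325196078603840327895673444083127829649408335254313539026729932690236515231772627028563460105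

/-- A code. -/
def cg : ℕ := nat_lit 13715323251925769076456130934784287196776839740204414938699413930909007438467252297409184300721622418702695554022172812648479098464577466788426297274618989273783140353756042873640184262743153566546057124700479084821985633417347990912776853514307950605085992263691135508694895141143254844457844092646195206

/-- A code. -/
def cu : ℕ := nat_lit 21944501507152870562783197900946323605136107194968937149259068112354988214427735083861574125797398946030341549905070404780630009300733594399005450138168847099592694837118302981199421539814417662326918757269844261474772358900900971348727315460797999493396792233749597274514738709318897730606330663263010819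

/-- A code. -/
def cr : ℕ := nat_lit 24687571389514393844351075880197047819463792246337344776777049189207120255818675340816257489352798423253451534233996448165712331209029312766251298539307623780462800403195882903442815778545895019341606509335866899185907516291434661953264797621680929108866439230528233789930566732046915957341383262468046854

/-- A code. -/
def cs1 : ℕ := nat_lit 13715318019948900650458978811506784072958759806782519032120350726819613047019397142778005768849500196142700306757371055137187786808620463831499164936229361459662456540690059936303434840793676586039808294136789667075434474078544512789260153235015669244977986433976771815249918629059641882036246505569910794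

/-- A code. -/
def cs2 : ℕ := nat_lit 6237001859507420814946312041518452551765067264598914597444425065794299873700767165451689056696352793268437464451279197011503578770228107168140284313664455486066742320476424321132543687355975137903397484422685029005987032632072157093727449023441786966818073032229619569609417265437339759411209

/-- A code. -/
def ch : ℕ := nat_lit 2615994047516991878394351363456257708936665446393893158089787892529216926850486667002465961842872522354264718340915256224469891369191864356209477061100755370586143542124372172893592087312950515851631274720250718303917359359449005373582263903645385030411438618570869290924482167336330919959068672003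

/-- A code. -/
def ct : ℕ := nat_lit 8229187411186309382145472467233811546017296335092563133021809518506304059293111735693291336306022337872224877646841431468914426586854017613408090394129900064356285281483736567419002301035561876973421108893591939426350789226665573027879060055854062168505066408633389793214214138566352360222655322173472777

/-- A code. -/
def cw : ℕ := nat_lit 16458380054348239790689444904878771374350027748426169948627115405992455818084797923424488952558988115621656112070396919447699981060934657068548770150078940632007041120915855337518279156754199963517058159893752074275294372889975898435898128362393087896948919554306586292805700404779397263450061053406216200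

/-- A code. -/
def cb : ℕ := nat_lit 21944504123141928474837591159339464249423781646115901241350478880539772538875573897325714937981658955598478692389770366761684047788933475746188684512819903641171482929598794161187964209111681696869375025289101637178271886304552527947450866110680392342623305360705765405627725881928544334692295862437019651

/-- A code. -/
def cc : ℕ := nat_lit 16458382670337297704528259729762237246804076801516922566611660212318173187748032340329352237678425312419291364507416421426021680897592920185663416225361880419218089133932261708672839304032605505785363836080245240880538971642235610796000247425529018931608021432886379669128537816591285573523660207019786249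

/-- An element. -/
def ea : J1 := ev [ex, ey] [0, 1, 1]

theorem Ra : KH.R ca ea := R_of (R_ev Rxy _) (by decide +kernel)

/-- An element. -/
def eg : J1 := ev [ex, ey] [0, 0, 1, 0, 0, 1, 0, 0, 1, 1, 0, 1, 1, 0, 0, 0, 0]

theorem Rg : KH.R cg eg := R_of (R_ev Rxy _) (by decide +kernel)

/-- An element. -/
def eu : J1 := ev [ex, ey] [0, 1, 0, 0, 1, 0, 1, 0, 0, 1, 0, 1, 0, 0, 0, 0]

theorem Ru : KH.R cu eu := R_of (R_ev Rxy _) (by decide +kernel)

/-- An element. -/
def er : J1 := ev [ex, ey] [0, 0, 1, 0, 0, 0, 1, 0, 0, 1, 1, 0, 0, 0, 1, 0, 1, 1, 0]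

theorem Rr : KH.R cr er := R_of (R_ev Rxy _) (by decide +kernel)

/-- An element. -/
def es1 : J1 := ev [ex, ey] [0, 0, 0, 0, 0, 0, 1, 1, 0, 1, 1]

theorem Rs1 : KH.R cs1 es1 := R_of (R_ev Rxy _) (by decide +kernel)

/-- An element. -/
def es2 : J1 := ev [ex, ey] [0, 0, 1, 1, 0, 1, 0, 1, 0, 1, 0]

theorem Rs2 : KH.R cs2 es2 := R_of (R_ev Rxy _) (by decide +kernel)


theorem Rh : KH.R ch (eg ^ 2) := R_of (R_pw Rg 2) (by decide +kernel)

theorem Rt : KH.R ct (eg ^ 5) := R_of (R_pw Rg 5) (by decide +kernel)

/-- An involution inverting `eg ^ 2`. -/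
def ew : J1 := ev [eu, eg ^ 2] [0, 0, 1, 1, 0, 0, 1, 1, 0]

theorem Rw : KH.R cw ew := R_of (R_ev (.cons Ru (.cons Rh .nil)) _) (by decide +kernel)

theorem Rb : KH.R cb (er * ea * er ^ 2) := R_of (R_mul (R_mul Rr Ra) (R_pw Rr 2)) (by decide +kernel)

theorem Rc : KH.R cc (ew * ea * ew) := R_of (R_mul (R_mul Rw Ra) Rw) (by decide +kernel)

theorem a11 : ea ^ 11 = 1 := eq_of (R_pw Ra 11) R1 (by decide +kernel)

theorem a1 : ea ≠ 1 := ne_of Ra R1 (by decide +kernel)

theorem g10 : eg ^ 10 = 1 := eq_of (R_pw Rg 10) R1 (by decide +kernel)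

theorem g5 : eg ^ 5 ≠ 1 := ne_of Rt R1 (by decide +kernel)

theorem g2 : eg ^ 2 ≠ 1 := ne_of Rh R1 (by decide +kernel)

theorem ga : eg * ea = ea ^ 2 * eg := eq_of (R_mul Rg Ra) (R_mul (R_pw Ra 2) Rg) (by decide +kernel)

theorem u3 : eu ^ 3 = 1 := eq_of (R_pw Ru 3) R1 (by decide +kernel)

theorem uh : (eu * eg ^ 2) ^ 2 = 1 := eq_of (R_pw (R_mul Ru Rh) 2) R1 (by decide +kernel)

theorem tu : eg ^ 5 * eu = eu * eg ^ 5 := eq_of (R_mul Rt Ru) (R_mul Ru Rt) (by decide +kernel)

theorem w2 : ew ^ 2 = 1 := eq_of (R_pw Rw 2) R1 (by decide +kernel)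

theorem w1 : ew ≠ 1 := ne_of Rw R1 (by decide +kernel)

theorem wh : ew * eg ^ 2 * ew * eg ^ 2 = 1 :=
  eq_of (R_mul (R_mul (R_mul Rw Rh) Rw) Rh) R1 (by decide +kernel)

theorem r3 : er ^ 3 = 1 := eq_of (R_pw Rr 3) R1 (by decide +kernel)

theorem r1 : er ≠ 1 := ne_of Rr R1 (by decide +kernel)

theorem rh : er * eg ^ 2 = eg ^ 2 * er := eq_of (R_mul Rr Rh) (R_mul Rh Rr) (by decide +kernel)

theorem s1t : es1 * eg ^ 5 = ew * es1 := eq_of (R_mul Rs1 Rt) (R_mul Rw Rs1) (by decide +kernel)

theorem s2t : es2 * eg ^ 5 = eg ^ 5 * ew * es2 :=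
  eq_of (R_mul Rs2 Rt) (R_mul (R_mul Rt Rw) Rs2) (by decide +kernel)

theorem x1 : ev [ea, er * ea * er ^ 2] [0, 0, 0, 1, 0, 0, 1, 1, 1, 1, 0, 1, 0, 0, 1, 0] = ex :=
  eq_of (R_ev (.cons Ra (.cons Rb .nil)) _) Rx (by decide +kernel)

theorem y1 : ev [ea, er * ea * er ^ 2] [1, 0, 1, 1, 0, 1, 1, 0, 1, 0, 1, 1, 1, 1] = ey :=
  eq_of (R_ev (.cons Ra (.cons Rb .nil)) _) Ry (by decide +kernel)

theorem x2 : ev [ea, eg, ew * ea * ew] [0, 0, 2, 2, 2, 0, 0] = ex :=
  eq_of (R_ev (.cons Ra (.cons Rg (.cons Rc .nil))) _) Rx (by decide +kernel)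

theorem y2 : ev [ea, eg, ew * ea * ew] [1, 2, 0, 2, 2, 0, 1, 1, 1, 2] = ey :=
  eq_of (R_ev (.cons Ra (.cons Rg (.cons Rc .nil))) _) Ry (by decide +kernel)

theorem aw7 : (ea * ew) ^ 7 = 1 := eq_of (R_pw (R_mul Ra Rw) 7) R1 (by decide +kernel)

theorem n1 (k : ℕ) (hk : k ∈ [1, 2, 3, 4]) : (ea * (ew * (eg ^ 2) ^ k)) ^ 7 ≠ 1 :=
  ne_of (R_pw (R_mul Ra (R_mul Rw (R_pw Rh k))) 7) R1 (by revert k; decide +kernel)

theorem n2 (k : ℕ) (hk : k ∈ [0, 1, 2, 3, 4]) :
    (ea * (eg ^ 5 * (ew * (eg ^ 2) ^ k))) ^ 7 ≠ 1 :=
  ne_of (R_pw (R_mul Ra (R_mul Rt (R_mul Rw (R_pw Rh k)))) 7) R1 (by revert k; decide +kernel)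

end Cfsg.Agent.H4.J1F
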