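import Cfsg.Agent.H4.J1F1

/-! Order, involutions and centralizers in the first Janko group. -/

set_option autoImplicit false

namespace Cfsg.Agent.H4.J1F

open Cfsg.Spor Cfsg.Agent.H4.J1 Cfsg.Agent.H4.Small Subgroup

theorem exists_finset_Fc {G M : Type*} [Group G] [Monoid M] (K : Coding G M) (Ls : List MLevel) :
    ∃ s : Finset G, s.card ≤ (Ls.map (·.m)).prod ∧ ∀ g, K.Fc Ls g → g ∈ s := by
  classical
  induction Ls with
  | nil => exact ⟨{1}, by simp, fun g hg => by simpa using (show g = 1 from hg)⟩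
  | cons L Ls ih =>
    obtain ⟨s, hs, hm⟩ := ih
    let t : ℕ → G := fun i => if h : ∃ t, K.R (L.T.get i) t then h.choose else 1
    refine ⟨((Finset.range L.m) ×ˢ s).image fun p => t p.1 * p.2, ?_, ?_⟩
    · refine Finset.card_image_le.trans ?_
      rw [Finset.card_product, Finset.card_range, List.map_cons, List.prod_cons]
      exact Nat.mul_le_mul_left _ hs
    · rintro g ⟨i, hi, τ, h, hτ, hh, rfl⟩
      refine Finset.mem_image.mpr ⟨(i, h), Finset.mem_product.mpr ⟨Finset.mem_range.mpr hi,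
        hm h hh⟩, ?_⟩
      have he : ∃ t, K.R (L.T.get i) t := ⟨τ, hτ⟩
      have : t i = τ := by
        simp only [t, dif_pos he]
        exact he.choose_spec.unique hτ
      rw [this]

theorem card_le : Nat.card J1 ≤ 175560 := by
  classical
  have hF : List.Forall₂ KH.R L0.S [ex, ey] := Rxy
  have hG := Coding.good (K := KH) R1 ms (Coding.In_top_of_forall₂ hF)
  have htop : KH.Gr (mgens [L0, L1, L2, L3]) = ⊤ := by
    show KH.Gr L0.S = ⊤
    rw [Coding.Gr_eq_closure hF]
    exact eq_top_of (subset_closure (by simp)) (subset_closure (by simp))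
  obtain ⟨s, hs, hm⟩ := exists_finset_Fc KH [L0, L1, L2, L3]
  have h1 : ([L0, L1, L2, L3].map (·.m)).prod = 175560 := by decide +kernel
  have := Fintype.ofFinite J1
  rw [Nat.card_eq_fintype_card, ← h1]
  refine le_trans ?_ hs
  exact Finset.card_le_card fun g _ => hm g (hG.fac g (htop ▸ mem_top g))

theorem oa : orderOf ea = 11 :=
  haveI : Fact (Nat.Prime 11) := ⟨by norm_num⟩
  orderOf_eq_prime a11 a1

theorem og : orderOf eg = 10 := by
  refine orderOf_eq_of_pow_and_pow_div_prime (by norm_num) g10 fun p hp hd => ?_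
  have h : p ∈ Nat.primeFactors 10 := Nat.mem_primeFactors.mpr ⟨hp, hd, by norm_num⟩
  have h2 : Nat.primeFactors 10 = {2, 5} := by decide +kernel
  rw [h2, Finset.mem_insert, Finset.mem_singleton] at h
  rcases h with rfl | rfl
  exacts [g5, g2]

theorem t2 : (eg ^ 5) ^ 2 = 1 := by rw [← pow_mul]; exact g10

theorem ot : orderOf (eg ^ 5) = 2 := orderOf_eq_prime t2 g5

theorem ow : orderOf ew = 2 := orderOf_eq_prime w2 w1

theorem or3 : orderOf er = 3 := orderOf_eq_prime r3 r1

theorem exists_iota : ∃ φ : alternatingGroup (Fin 5) →* J1, φ a3 = eu ∧ φ a5 = eg ^ 2 :=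
  exists_hom_alt5 u3 (by rw [← pow_mul]; exact g10) uh

/-- The embedding of `Alt(5)`. -/
noncomputable def io : alternatingGroup (Fin 5) →* J1 := exists_iota.choose

theorem io3 : io a3 = eu := exists_iota.choose_spec.1

theorem io5 : io a5 = eg ^ 2 := exists_iota.choose_spec.2

/-- The involution of `Alt(5)` mapped to `ew`. -/
def w0 : alternatingGroup (Fin 5) := a3 * a3 * a5 * a5 * a3 * a3 * a5 * a5 * a3

theorem iow : io w0 = ew := by
  simp only [w0, map_mul, io3, io5, ew, ev, List.map, List.getD_cons_zero, List.getD_cons_succ,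
    List.prod_cons, List.prod_nil, mul_one, mul_assoc]

theorem io_inj : Function.Injective io := by
  have hs : IsSimpleGroup (alternatingGroup (Fin 5)) := alternatingGroup.isSimpleGroup (by simp)
  rcases (MonoidHom.normal_ker io).eq_bot_or_eq_top with h | h
  · exact (MonoidHom.ker_eq_bot_iff io).mp h
  · have : a5 ∈ io.ker := h ▸ mem_top _
    rw [MonoidHom.mem_ker, io5] at this
    exact absurd this g2

theorem io_comm (c : alternatingGroup (Fin 5)) : Commute (eg ^ 5) (io c) := by
  have h : closure {a3, a5} ≤ (centralizer {eg ^ 5}).comap io := by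
    rw [closure_le]
    rintro z (rfl | rfl)
    · simp only [SetLike.mem_coe, mem_comap, io3, mem_centralizer_singleton_iff]
      exact tu.symm
    · simp only [SetLike.mem_coe, mem_comap, io5, mem_centralizer_singleton_iff]
      exact (Commute.refl eg).pow_pow 2 5
  rw [closure_a35] at h
  exact (mem_centralizer_singleton_iff.mp (h (mem_top c))).symm

theorem io_ne (c : alternatingGroup (Fin 5)) : io c ≠ eg ^ 5 := by
  intro h
  have h3 : c * a3 = a3 * c := io_inj (by rw [map_mul, map_mul, h]; exact io_comm a3)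
  have h5 : c * a5 = a5 * c := io_inj (by rw [map_mul, map_mul, h]; exact io_comm a5)
  have key : ∀ c : Equiv.Perm (Fin 5), c * a3.1 = a3.1 * c → c * a5.1 = a5.1 * c → c = 1 := by
    decide +kernel
  have : c = 1 := Subtype.ext (key c.1 (congrArg Subtype.val h3) (congrArg Subtype.val h5))
  rw [this, map_one] at h
  exact g5 h.symm

theorem mem_zt {z : J1} (hz : z ∈ zpowers (eg ^ 5)) : z = 1 ∨ z = eg ^ 5 := by
  obtain ⟨k, hk, rfl⟩ := (mem_zpowers_iff_mem_range_orderOf.mp hz |> Finset.mem_image.mp)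
  rw [ot, Finset.mem_range] at hk
  interval_cases k <;> simp

/-- The embedding of `2 × Alt(5)`. -/
noncomputable def psi : zpowers (eg ^ 5) × alternatingGroup (Fin 5) →* J1 :=
  (zpowers (eg ^ 5)).subtype.noncommCoprod io fun z c => by
    rcases mem_zt z.2 with h | h
    · rw [coe_subtype, h]; exact Commute.one_left _
    · rw [coe_subtype, h]; exact io_comm c

theorem psi_apply (p : zpowers (eg ^ 5) × alternatingGroup (Fin 5)) : psi p = p.1.1 * io p.2 := rfl

theorem psi_inj : Function.Injective psi := by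
  rw [injective_iff_map_eq_one]
  rintro ⟨z, c⟩ h
  rw [psi_apply] at h
  rcases mem_zt z.2 with h1 | h1
  · simp only [h1, one_mul] at h
    exact Prod.ext (Subtype.ext h1) (io_inj (h.trans (map_one io).symm))
  · simp only [h1] at h
    refine absurd ?_ (io_ne c⁻¹)
    rw [map_inv]
    exact (eq_inv_of_mul_eq_one_left h).symm

theorem card_psi : Nat.card psi.range = 120 := by
  rw [← Nat.card_congr (MonoidHom.ofInjective psi_inj).toEquiv, Nat.card_prod, Nat.card_zpowers, ot,
    card_alt5]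

theorem card_J1 : Nat.card J1 = 175560 := by
  have h1 : 120 ∣ Nat.card J1 := card_psi ▸ card_subgroup_dvd_card _
  obtain ⟨g7, h7⟩ := seven_mem
  obtain ⟨g19, h19⟩ := nineteen_mem
  have d7 : 7 ∣ Nat.card J1 := h7.symm.dvd.trans (_root_.orderOf_dvd_natCard g7)
  have d19 : 19 ∣ Nat.card J1 := h19.symm.dvd.trans (_root_.orderOf_dvd_natCard g19)
  have d11 : 11 ∣ Nat.card J1 := oa.symm.dvd.trans (_root_.orderOf_dvd_natCard ea)
  have h2 : 175560 ∣ Nat.card J1 :=
    (Nat.Coprime.mul_dvd_of_dvd_of_dvd (by norm_num) (Nat.Coprime.mul_dvd_of_dvd_of_dvd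
      (by norm_num) (Nat.Coprime.mul_dvd_of_dvd_of_dvd (by norm_num) h1 d7) d11) d19 :
      120 * 7 * 11 * 19 ∣ _)
  exact le_antisymm card_le (Nat.le_of_dvd Nat.card_pos h2)

theorem not_dvd_cent {z : J1} {p q : ℕ} (hz : orderOf z = q) (hp : p.Prime) (hpq : q.Coprime p)
    (hn : q * p ∉ [1, 2, 3, 5, 6, 7, 10, 11, 15, 19]) : ¬ p ∣ Nat.card (centralizer {z}) := by
  intro h
  have : Fact p.Prime := ⟨hp⟩
  obtain ⟨y, hy⟩ := exists_prime_orderOf_dvd_card' p h
  have hc : Commute z y.1 := (mem_centralizer_singleton_iff.mp y.2).symm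
  rw [← orderOf_coe] at hy
  have h2 := hc.orderOf_mul_eq_mul_orderOf_of_coprime (by rw [hz, hy]; exact hpq)
  rw [hz, hy] at h2
  exact hn (h2 ▸ orderOf_mem _)

theorem cent_t : centralizer {eg ^ 5} = psi.range := by
  symm
  refine eq_of_le_of_card_ge ?_ ?_
  · rintro _ ⟨⟨z, c⟩, rfl⟩
    rw [mem_centralizer_singleton_iff, psi_apply]
    rcases mem_zt z.2 with h | h
    · simp only [h, one_mul]; exact (io_comm c).symm
    · simp only [h]; exact ((Commute.refl _).mul_left (io_comm c).symm)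
  · rw [card_psi]
    have h : Nat.card (centralizer {eg ^ 5}) ∣ 120 * (7 * 11 * 19) := by
      have := card_subgroup_dvd_card (centralizer {eg ^ 5})
      rwa [card_J1] at this
    have c7 := (Nat.Prime.coprime_iff_not_dvd (by norm_num)).mpr
      (not_dvd_cent (p := 7) ot (by norm_num) (by norm_num) (by decide))
    have c11 := (Nat.Prime.coprime_iff_not_dvd (by norm_num)).mpr
      (not_dvd_cent (p := 11) ot (by norm_num) (by norm_num) (by decide))
    have c19 := (Nat.Prime.coprime_iff_not_dvd (by norm_num)).mpr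
      (not_dvd_cent (p := 19) ot (by norm_num) (by norm_num) (by decide))
    exact Nat.le_of_dvd (by norm_num)
      (((c7.mul_left c11).mul_left c19).symm.dvd_of_dvd_mul_right h)

theorem cent {y : J1} (h : Commute y (eg ^ 5)) : ∃ c, y = io c ∨ y = eg ^ 5 * io c := by
  have hy : y ∈ centralizer {eg ^ 5} := mem_centralizer_singleton_iff.mpr h
  rw [cent_t] at hy
  obtain ⟨⟨z, c⟩, rfl⟩ := hy
  refine ⟨c, ?_⟩
  rw [psi_apply]
  rcases mem_zt z.2 with h | h
  · left; simp only [h, one_mul]
  · right; simp only [h]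

theorem cent_a : centralizer {ea} = zpowers ea := by
  symm
  refine eq_of_le_of_card_ge ?_ ?_
  · rw [zpowers_le, mem_centralizer_singleton_iff]
  · rw [Nat.card_zpowers, oa]
    have h : Nat.card (centralizer {ea}) ∣ 11 * (2 ^ 3 * 3 * 5 * 7 * 19) := by
      have := card_subgroup_dvd_card (centralizer {ea})
      rwa [card_J1] at this
    have c2 := (Nat.Prime.coprime_iff_not_dvd (by norm_num)).mpr
      (not_dvd_cent (p := 2) oa (by norm_num) (by norm_num) (by decide))
    have c3 := (Nat.Prime.coprime_iff_not_dvd (by norm_num)).mpr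
      (not_dvd_cent (p := 3) oa (by norm_num) (by norm_num) (by decide))
    have c5 := (Nat.Prime.coprime_iff_not_dvd (by norm_num)).mpr
      (not_dvd_cent (p := 5) oa (by norm_num) (by norm_num) (by decide))
    have c7 := (Nat.Prime.coprime_iff_not_dvd (by norm_num)).mpr
      (not_dvd_cent (p := 7) oa (by norm_num) (by norm_num) (by decide))
    have c19 := (Nat.Prime.coprime_iff_not_dvd (by norm_num)).mpr
      (not_dvd_cent (p := 19) oa (by norm_num) (by norm_num) (by decide))
    exact Nat.le_of_dvd (by norm_num)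
      ((((((c2.pow_left 3).mul_left c3).mul_left c5).mul_left c7).mul_left
        c19).symm.dvd_of_dvd_mul_right h)

theorem conj_into {u : J1} (hu : orderOf u = 2) : ∃ y : J1, Commute (y⁻¹ * u * y) (eg ^ 5) := by
  have hP : IsPGroup 2 (zpowers u) := IsPGroup.of_card (n := 1) (by rw [Nat.card_zpowers, hu]; rfl)
  have hi : (centralizer {eg ^ 5}).index = 1463 := by
    have := (centralizer {eg ^ 5}).index_mul_card
    rw [cent_t, card_psi, card_J1, ← cent_t] at this
    omega
  obtain ⟨q, hq⟩ := hP.nonempty_fixed_point_of_prime_not_dvd_card (J1 ⧸ centralizer {eg ^ 5})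
    (by rw [← index, hi]; norm_num)
  obtain ⟨y, rfl⟩ := QuotientGroup.mk_surjective q
  have h := hq ⟨u, mem_zpowers u⟩
  have h2 : ((u * y : J1) : J1 ⧸ centralizer {eg ^ 5}) = y := h
  rw [eq_comm, QuotientGroup.eq, mem_centralizer_singleton_iff] at h2
  exact ⟨y, by rw [mul_assoc]; exact h2⟩

theorem alt_inv (c : alternatingGroup (Fin 5)) (h : c * c = 1) :
    c = 1 ∨ ∃ d, d * w0 * d⁻¹ = c := by
  have key : ∀ c : Equiv.Perm (Fin 5), Equiv.Perm.sign c = 1 → c * c = 1 → c = 1 ∨
      ∃ i < 3, ∃ j < 5, ∃ k < 3, ∃ l < 5,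
        (a5.1 ^ l * a3.1 ^ k * a5.1 ^ j * a3.1 ^ i) * w0.1 = c * (a5.1 ^ l * a3.1 ^ k * a5.1 ^ j * a3.1 ^ i) := by
    decide +kernel
  rcases key c.1 c.2 (congrArg Subtype.val h) with h1 | ⟨i, -, j, -, k, -, l, -, h1⟩
  · exact Or.inl (Subtype.ext h1)
  · refine Or.inr ⟨a5 ^ l * a3 ^ k * a5 ^ j * a3 ^ i, ?_⟩
    rw [mul_inv_eq_iff_eq_mul]
    exact Subtype.ext h1

theorem cls {u : J1} (hu : orderOf u = 2) : ∃ y : J1, y * eg ^ 5 * y⁻¹ = u := by
  obtain ⟨y, hy⟩ := conj_into hu
  have hu2 : u * u = 1 := by rw [← pow_two, ← hu, pow_orderOf_eq_one]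
  have hu1 : u ≠ 1 := by rintro rfl; simp at hu
  have hv2 : (y⁻¹ * u * y) * (y⁻¹ * u * y) = 1 := by
    calc _ = y⁻¹ * (u * u) * y := by group
      _ = 1 := by rw [hu2]; group
  have hv1 : y⁻¹ * u * y ≠ 1 := fun h => hu1 (by
    calc u = y * (y⁻¹ * u * y) * y⁻¹ := by group
      _ = 1 := by rw [h]; group)
  suffices ∃ z : J1, z * eg ^ 5 * z⁻¹ = y⁻¹ * u * y by
    obtain ⟨z, hz⟩ := this
    exact ⟨y * z, by
      calc _ = y * (z * eg ^ 5 * z⁻¹) * y⁻¹ := by group
        _ = u := by rw [hz]; group⟩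
  generalize y⁻¹ * u * y = v at hy hv1 hv2
  obtain ⟨c, rfl | rfl⟩ := cent hy
  · rcases alt_inv c (io_inj (by rw [map_mul, hv2, map_one])) with rfl | ⟨d, rfl⟩
    · exact absurd (map_one io) hv1
    · refine ⟨io d * es1, ?_⟩
      rw [map_mul, map_mul, map_inv, iow, mul_assoc (io d), s1t]
      group
  · have h1 : io c * io c = 1 := by
      rw [← hv2, (io_comm c).symm.mul_mul_mul_comm, ← pow_two (eg ^ 5), t2, one_mul]
    rcases alt_inv c (io_inj (by rw [map_mul, h1, map_one])) with rfl | ⟨d, rfl⟩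
    · exact ⟨1, by simp⟩
    · refine ⟨io d * es2, ?_⟩
      rw [map_mul, map_mul, map_inv, iow, mul_assoc (io d), s2t, ← mul_assoc (eg ^ 5),
        ← mul_assoc (eg ^ 5), (io_comm d).eq]
      group

end Cfsg.Agent.H4.J1F
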