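import Cfsg.Agent.H4.J1F2
import Cfsg.Agent.H9.O11Def

/-! Piece JF of S3403: the raw facts on a copy of the first Janko group. -/

set_option autoImplicit false

namespace Cfsg.Agent.H4.J1F

open Cfsg.Spor Cfsg.Agent.H4.J1 Cfsg.Agent.H4.Small Subgroup

theorem r_inv : er⁻¹ = er ^ 2 := by
  rw [inv_eq_iff_mul_eq_one, ← pow_succ', r3]

theorem w_inv : ew⁻¹ = ew := by
  rw [inv_eq_iff_mul_eq_one, ← pow_two, w2]

theorem ga' : eg * ea * eg⁻¹ = ea ^ 2 := by rw [ga]; group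

theorem wh' : ew * eg ^ 2 * ew⁻¹ = (eg ^ 2)⁻¹ := by
  rw [w_inv]; exact eq_inv_of_mul_eq_one_left wh

theorem gen1 : Subgroup.closure {ea, er * ea * er⁻¹} = ⊤ := by
  rw [r_inv]
  have h : ∀ z ∈ [ea, er * ea * er ^ 2], z ∈ Subgroup.closure {ea, er * ea * er ^ 2} := fun z hz =>
    subset_closure (by simpa using hz)
  exact eq_top_of (x1 ▸ ev_mem h _) (y1 ▸ ev_mem h _)

theorem gen2 : Subgroup.closure {ea, eg, ew * ea * ew⁻¹} = ⊤ := by
  rw [w_inv]
  have h : ∀ z ∈ [ea, eg, ew * ea * ew], z ∈ Subgroup.closure {ea, eg, ew * ea * ew} := fun z hz =>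
    subset_closure (by simpa using hz)
  exact eq_top_of (x2 ▸ ev_mem h _) (y2 ▸ ev_mem h _)

theorem alt_inverts (c : alternatingGroup (Fin 5)) (h : c * a5 * c⁻¹ = a5⁻¹) :
    ∃ k < 5, c = w0 * a5 ^ k := by
  have key : ∀ c : Equiv.Perm (Fin 5), Equiv.Perm.sign c = 1 → c * a5.1 * c⁻¹ = a5.1⁻¹ →
      ∃ k < 5, c = w0.1 * a5.1 ^ k := by
    decide +kernel
  obtain ⟨k, hk, h1⟩ := key c.1 c.2 (congrArg Subtype.val h)
  exact ⟨k, hk, Subtype.ext h1⟩

theorem endo_id (φ : J1 →* J1) (ha : φ ea = ea) (hg : φ eg = eg) (x : J1) : φ x = x := by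
  have hw : φ ew = ew := by
    have h1 : Commute (φ ew) (eg ^ 5) := by
      have := (io_comm w0).symm.map φ
      rwa [iow, map_pow, hg] at this
    have h2 : φ ew * eg ^ 2 * (φ ew)⁻¹ = (eg ^ 2)⁻¹ := by
      have := congrArg φ wh'
      simpa only [map_mul, map_inv, map_pow, hg] using this
    have h3 : (ea * φ ew) ^ 7 = 1 := by
      have := congrArg φ aw7
      simpa only [map_mul, map_pow, ha, map_one] using this
    obtain ⟨c, hc | hc⟩ := cent h1
    · obtain ⟨k, hk, rfl⟩ := alt_inverts c (io_inj (by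
        rw [map_mul, map_mul, map_inv, map_inv, io5, ← hc, h2]))
      rw [map_mul, map_pow, iow, io5] at hc
      rw [hc] at h3
      by_cases h0 : k = 0
      · rw [hc, h0, pow_zero, mul_one]
      · exact absurd h3 (n1 k (by simp only [List.mem_cons, List.not_mem_nil]; omega))
    · obtain ⟨k, hk, rfl⟩ := alt_inverts c (io_inj (by
        rw [map_mul, map_mul, map_inv, map_inv, io5]
        have h4 : (eg ^ 5)⁻¹ * (eg ^ 2)⁻¹ * eg ^ 5 = (eg ^ 2)⁻¹ := by group
        rw [← h4, ← h2, hc]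
        group))
      rw [map_mul, map_pow, iow, io5] at hc
      rw [hc] at h3
      exact absurd h3 (n2 k (by simp only [List.mem_cons, List.not_mem_nil]; omega))
  have h : Subgroup.closure {ea, eg, ew * ea * ew⁻¹} ≤ φ.eqLocus (MonoidHom.id _) := by
    rw [closure_le]
    rintro z (rfl | rfl | rfl)
    · exact ha
    · exact hg
    · show φ _ = _
      rw [map_mul, map_mul, map_inv, hw, ha]; rfl
  rw [gen2] at h
  exact h (mem_top x)

theorem conj_g (j : ℕ) : ea ^ j * eg * (ea ^ j)⁻¹ = eg * ea ^ (5 * j) := by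
  have h1 : ea * eg * ea⁻¹ = eg * ea ^ 5 := by
    have h2 : eg * ea ^ 6 * eg⁻¹ = ea := by
      rw [← conj_pow, ga', ← pow_mul, show 2 * 6 = 11 + 1 from rfl, pow_succ, a11, one_mul]
    calc ea * eg * ea⁻¹ = (eg * ea ^ 6 * eg⁻¹) * eg * ea⁻¹ := by rw [h2]
      _ = eg * ea ^ 5 := by group
  induction j with
  | zero => simp
  | succ j ih =>
    calc ea ^ (j + 1) * eg * (ea ^ (j + 1))⁻¹ = ea * (ea ^ j * eg * (ea ^ j)⁻¹) * ea⁻¹ := by group
      _ = (ea * eg * ea⁻¹) * ea ^ (5 * j) := by rw [ih]; group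
      _ = eg * ea ^ (5 * (j + 1)) := by rw [h1]; group

theorem endo (φ : J1 →* J1) (ha : φ ea = ea) : ∃ j : ℕ, ∀ x, φ x = ea ^ j * x * (ea ^ j)⁻¹ := by
  have h1 : φ eg * ea * (φ eg)⁻¹ = ea ^ 2 := by
    have := congrArg φ ga'
    simpa only [map_mul, map_inv, map_pow, ha] using this
  have h2 : eg⁻¹ * φ eg ∈ centralizer {ea} := by
    rw [mem_centralizer_singleton_iff]
    calc eg⁻¹ * φ eg * ea = eg⁻¹ * (φ eg * ea * (φ eg)⁻¹) * φ eg := by group
      _ = ea * (eg⁻¹ * φ eg) := by rw [h1, ← ga']; group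
  rw [cent_a] at h2
  obtain ⟨i, -, hi⟩ := Finset.mem_image.mp (mem_zpowers_iff_mem_range_orderOf.mp h2)
  have h3 : φ eg = ea ^ (9 * i) * eg * (ea ^ (9 * i))⁻¹ := by
    rw [conj_g, show 5 * (9 * i) = 11 * (4 * i) + i by ring, pow_add, pow_mul, a11, one_pow,
      one_mul, hi]
    group
  refine ⟨9 * i, fun x => ?_⟩
  have h4 := endo_id ((MulAut.conj (ea ^ (9 * i))⁻¹).toMonoidHom.comp φ)
    (by simp only [MonoidHom.comp_apply, MulEquiv.coe_toMonoidHom, MulAut.conj_apply, ha]; group)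
    (by simp only [MonoidHom.comp_apply, MulEquiv.coe_toMonoidHom, MulAut.conj_apply, h3]; group) x
  simp only [MonoidHom.comp_apply, MulEquiv.coe_toMonoidHom, MulAut.conj_apply] at h4
  calc φ x = ea ^ (9 * i) * ((ea ^ (9 * i))⁻¹ * φ x * (ea ^ (9 * i))⁻¹⁻¹) * (ea ^ (9 * i))⁻¹ := by
        group
    _ = _ := by rw [h4]

end Cfsg.Agent.H4.J1F

namespace Cfsg.Agent.H9.O11

open Cfsg.Spor Cfsg.Agent.H4 Cfsg.Agent.H4.J1F Cfsg.Agent.H4.Small Subgroup

theorem jf_of_iso {G : Type*} [Group G] {X : Subgroup G} (h : Cfsg.Spor.IsoJ1 X) : JF X := by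
  obtain ⟨e⟩ := h
  let f : J1 →* G := X.subtype.comp e.symm.toMonoidHom
  have hf : Function.Injective f := Subtype.val_injective.comp e.symm.injective
  have hm : ∀ x, f x ∈ X := fun x => (e.symm x).2
  have hs : ∀ x ∈ X, ∃ z, f z = x := fun x hx => ⟨e ⟨x, hx⟩, by simp [f]⟩
  have hr : (⊤ : Subgroup J1).map f = X := by
    ext x
    exact ⟨by rintro ⟨z, -, rfl⟩; exact hm z, fun hx => by
      obtain ⟨z, rfl⟩ := hs x hx; exact ⟨z, mem_top z, rfl⟩⟩
  have ho : ∀ x, orderOf (f x) = orderOf x := orderOf_injective f hf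
  refine ⟨f ea, f eg, f ew, f er, f.comp io, ?_⟩
  refine ⟨(Nat.card_congr e.toEquiv).trans card_J1, ?_, hm _, hm _, hm _, fun c => hm _,
    (ho _).trans oa, (ho _).trans og, ?_, hf.comp io_inj, fun c => ?_, ⟨a5, ?_⟩, ⟨w0, ?_⟩,
    (ho _).trans ow, ?_, (ho _).trans or3, ?_, ?_, ?_, ?_, ?_, ?_, ⟨e⟩⟩
  · intro x hx
    obtain ⟨z, rfl⟩ := hs x hx
    rw [ho]; exact J1.orderOf_mem z
  · simpa only [map_mul, map_inv, map_pow] using congrArg f ga'
  · rw [← map_pow]; exact (io_comm c).map f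
  · rw [MonoidHom.comp_apply, io5, map_pow]
  · rw [MonoidHom.comp_apply, iow]
  · simpa only [map_mul, map_inv, map_pow] using congrArg f wh'
  · rw [← map_pow]; exact Commute.map (show Commute er (eg ^ 2) from rh) f
  · intro u hu h2
    obtain ⟨z, rfl⟩ := hs u hu
    obtain ⟨y, hy⟩ := cls ((ho z).symm.trans h2)
    exact ⟨f y, hm y, by simpa only [map_mul, map_inv, map_pow] using congrArg f hy⟩
  · intro y hy hc
    obtain ⟨z, rfl⟩ := hs y hy
    rw [← map_pow] at hc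
    obtain ⟨c, h1 | h1⟩ := cent (Commute.of_map hf hc)
    · exact ⟨c, Or.inl (congrArg f h1)⟩
    · exact ⟨c, Or.inr (by simpa only [map_mul, map_pow, MonoidHom.comp_apply] using congrArg f h1)⟩
  · rw [← hr, ← gen1, MonoidHom.map_closure, Set.image_pair, map_mul, map_mul, map_inv]
  · rw [← hr, ← gen2, MonoidHom.map_closure, Set.image_insert_eq, Set.image_pair, map_mul, map_mul,
      map_inv]
  · intro y hy hc
    have hy' : ∀ x : X, y * x * y⁻¹ ∈ X := fun x => (mem_normalizer_iff.mp hy x).mp x.2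
    let c : X →* X := ((MulAut.conj y).toMonoidHom.comp X.subtype).codRestrict X hy'
    let φ : J1 →* J1 := e.toMonoidHom.comp (c.comp e.symm.toMonoidHom)
    have hφ : ∀ x, f (φ x) = y * f x * y⁻¹ := fun x => by simp [f, φ, c]
    obtain ⟨j, hj⟩ := endo φ (hf (by rw [hφ, hc.eq]; group))
    refine ⟨j, (f ea ^ j)⁻¹ * y, ?_, by group⟩
    rw [mem_centralizer_iff]
    intro x hx
    obtain ⟨z, rfl⟩ := hs x hx
    have h1 := hφ z
    rw [hj, map_mul, map_mul, map_inv, map_pow] at h1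
    calc f z * ((f ea ^ j)⁻¹ * y) = (f ea ^ j)⁻¹ * (f ea ^ j * f z * (f ea ^ j)⁻¹) * y := by group
      _ = (f ea ^ j)⁻¹ * y * f z := by rw [h1]; group

end Cfsg.Agent.H9.O11
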