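import Cfsg.Agent.H5.MwB

/-! Principal blocks of prime defect with inertial index two. -/

set_option autoImplicit false

namespace Cfsg.Agent.H4.MwE2

open Cfsg Cfsg.Agent.H3 Cfsg.Agent.H2.D1 Cfsg.Agent.H5 Cfsg.Agent.H5.MW Finset Subgroup
open scoped ComplexConjugate

variable {G : Type*} [Group G] [Finite G] {p : ℕ} [hp : Fact p.Prime] {x : G}

open Classical in
theorem shape [NS G] (h : Ctx p x) {e lo : ℕ} (B : Blk p x e lo) (he : e = 2) (h7 : 7 ≤ p) :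
    ∃ (χ θ : IrrCharacter G) (a : ℤ) (t : ℕ), (a = 1 ∨ a = -1) ∧ 2 * t + 1 = p ∧ θ ≠ χ ∧
      B.R = {θ, χ} ∧ B.ent χ = (a, dg χ, 1) ∧ B.ent θ = (-a, dg θ, t) ∧
      (dg θ : ℤ) = dg χ - a ∧ okm p lo (dg χ) ((p - 1) * a) a a = true ∧
      okm p lo (dg θ) (-2 * a) 0 (-a) = true := by
  subst he
  have hd : ∀ χ ∈ B.R, (B.ent χ).2.1 = dg χ := fun χ hχ => by
    have := (B.deg χ hχ).symm.trans (dg_eq χ)
    exact_mod_cast this
  have h2 : ∀ χ ∈ B.R, 2 ≤ dg χ := fun χ hχ => two_le_deg (B.mem χ hχ).2 (dg_eq χ)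
  have hl : ∑ χ ∈ B.R, (B.ent χ).1 * dg χ = 1 := by
    have := B.lin h (IsPReg.one p)
    simp only [dg_eq] at this
    exact_mod_cast this
  rcases B.enum with ⟨h1, -⟩ | ⟨θ, h1, t, b, ε, m, -, h3, hε, h4, h5, h6, h8, h9, h10, h11, h12⟩
  · omega
  have hθ : θ ∈ B.R := (h4 θ).2 (Or.inl rfl)
  have e2 : B.R = insert θ B.N := by ext χ; simp [h4]
  have e3 : ∀ χ ∈ B.N, 1 ≤ (B.ent χ).1 ^ 2 := fun χ hχ =>
    Int.add_one_le_of_lt (sq_pos_of_ne_zero (B.opt χ hχ).2.1)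
  have e4 : (#B.N : ℤ) ≤ ∑ χ ∈ B.N, (B.ent χ).1 ^ 2 := by
    simpa using card_nsmul_le_sum B.N _ 1 e3
  have e5 : B.N.Nonempty := by
    rw [nonempty_iff_ne_empty]
    intro e
    rw [e2, e, sum_insert (notMem_empty _), sum_empty, add_zero] at hl
    have := Int.eq_one_of_mul_eq_one_left (by positivity) hl
    have := h2 θ hθ
    omega
  have e6 : (1 : ℤ) ≤ #B.N := by exact_mod_cast e5.card_pos
  have t3 : (3 : ℤ) ≤ t := by omega
  have e7 := sq_nonneg (b + ε)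
  obtain rfl : b = 0 := by
    by_contra b0
    have : 1 ≤ b ^ 2 := Int.add_one_le_of_lt (sq_pos_of_ne_zero b0)
    push_cast at h12
    nlinarith
  have e8 : ε ^ 2 = 1 := by rcases hε with rfl | rfl <;> norm_num
  have e9 : ∑ χ ∈ B.N, (B.ent χ).1 ^ 2 = 1 := by
    push_cast at h12
    simp only [zero_add] at h12
    linarith
  obtain ⟨χ, hχ⟩ := card_eq_one.1 (show #B.N = 1 by omega)
  have hN : χ ∈ B.N := hχ ▸ mem_singleton_self χ
  have hR : χ ∈ B.R := (h4 χ).2 (Or.inr hN)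
  have hne : θ ≠ χ := fun e => h1 (e ▸ hN)
  rw [hχ, sum_singleton] at e9
  rw [hχ] at e2
  rw [e2, sum_pair hne, h5] at hl
  obtain ⟨o1, -, m', o2, o3, o4⟩ := B.opt χ hN
  have ha : (B.ent χ).1 = 1 ∨ (B.ent χ).1 = -1 := sq_eq_one_iff.1 e9
  have d1 := h2 θ hθ
  have d2 := h2 χ hR
  have hεa : ε = -(B.ent χ).1 := by
    rcases hε with rfl | rfl <;> rcases ha with e | e <;> rw [e] at hl ⊢ <;> omega
  refine ⟨χ, θ, (B.ent χ).1, t, ha, h3, hne, e2, Prod.ext rfl (Prod.ext (hd χ hR) o1),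
    Prod.ext (by rw [h5, hεa]; simp) (Prod.ext (hd θ hθ) h6), ?_,
    okm_sound (hd χ hR ▸ o2) o3 o4 o4, okm_sound (m := m) ?_ h9 h10 ?_⟩
  · rw [hεa] at hl
    rcases ha with e | e <;> rw [e] at hl ⊢ <;> omega
  · rw [← hd θ hθ, h8, hεa]; push_cast; ring
  · rw [← hεa]; simpa using h11

theorem index_eq (h : Ctx p x) (he : Nat.card h.H = 2) :
    (centralizer ({x} : Set G)).index = 2 * Nat.card (Sylow p G) := by
  have h1 := (centralizer ({x} : Set G)).index_mul_card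
  rw [h.card_C, ← h.card_eq, he] at h1
  have h2 : 0 < p * Nat.card h.K := Nat.mul_pos hp.out.pos Nat.card_pos
  exact Nat.eq_of_mul_eq_mul_right h2 (by rw [h1]; ring)

theorem mu_zero (h : Ctx p x) {χ : IrrCharacter G} {a : ℤ}
    (hv : ∀ u ∈ zpowers x, u ≠ 1 → (χ : G → ℂ) u = -a) :
    (dg χ : ℤ) - (p - 1) * a = p * h.mu χ 0 := by
  have h1 := h.mu_spec χ 0
  rw [sum_zmod, sum_congr rfl fun u _ => by rw [hv _ (pow_mem (mem_zpowers x) _) (h.pw_ne u)]] at h1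
  simp only [mul_zero, neg_zero, ψ_zero, mul_one, ZMod.val_zero, pow_zero, dg_eq, sum_const,
    card_univ, ZMod.card_units, nsmul_eq_mul, Nat.cast_pred hp.out.pos] at h1
  refine Int.cast_injective (α := ℂ) ?_
  push_cast
  linear_combination h1

theorem isSquare_of {k : ℕ} {y z : ℤ} (hy : y ≠ 0) (h : k * y ^ 2 = z ^ 2) : IsSquare k := by
  obtain ⟨w, rfl⟩ : y ∣ z := (Int.pow_dvd_pow_iff two_ne_zero).1 ⟨k, by rw [← h]; ring⟩
  have h1 : (k : ℤ) = w ^ 2 := mul_right_cancel₀ (pow_ne_zero 2 hy) (by rw [h]; ring)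
  refine ⟨w.natAbs, ?_⟩
  zify
  rw [h1, abs_mul_abs_self, sq]

open Classical in
theorem inv_eq [NS G] (h : Ctx p x) (he : Nat.card h.H = 2) {e lo : ℕ} (B : Blk p x e lo)
    {χ θ : IrrCharacter G} {a : ℤ} {t : ℕ} (ha : a = 1 ∨ a = -1) (hne : θ ≠ χ)
    (hR : B.R = {θ, χ}) (h1 : B.ent χ = (a, dg χ, 1)) (h2 : B.ent θ = (-a, dg θ, t))
    (hd : (dg θ : ℤ) = dg χ - a) {s : G} (hs : s * s = 1) (s1 : s ≠ 1) :
    yv s χ = yv s θ + a ∧ |yv s θ| < dg θ ∧
      1 + (yv s θ + a) ^ 2 + t * yv s θ ^ 2 ≤ Nat.card (centralizer ({s} : Set G)) ∧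
      ∃ I : ℕ, 0 < I ∧ (∃ v, IsConj s v ∧ v * x * v⁻¹ = x⁻¹) ∧
        2 * Nat.card (Sylow p G) * Nat.card h.K ^ 2 * (dg θ - yv s θ) ^ 2 =
          dg χ * dg θ * (Nat.card (centralizer ({s} : Set G)) * I : ℤ) ^ 2 := by
  have sr := h.isPReg hs
  have hθ : θ ∈ B.R := by simp [hR]
  have a2 : (a : ℂ) ^ 2 = 1 := by rcases ha with rfl | rfl <;> norm_num
  have e1 : yv s χ = yv s θ + a := by
    have := B.lin h sr
    rw [hR, sum_pair hne, h1, h2, yv_spec hs, yv_spec hs] at this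
    refine Int.cast_injective (α := ℂ) ?_
    push_cast at this ⊢
    linear_combination (a : ℂ) * this - (yv s χ - yv s θ : ℂ) * a2
  have e2 : |yv s θ| < dg θ := by
    obtain ⟨k, k1, k2, k3⟩ := inv_val (B.mem θ hθ).2 (dg_eq θ) hs s1
    rw [yv_eq k3, abs_lt]
    omega
  refine ⟨e1, e2, ?_, ?_⟩
  · have := B.col_le sr
    rw [hR, sum_pair hne, h1, h2] at this
    simp only [yv_spec hs, Complex.norm_intCast, sq_abs, e1, Nat.cast_one, one_mul] at this
    have h3 : ((1 + (yv s θ + a) ^ 2 + t * yv s θ ^ 2 : ℤ) : ℝ) ≤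
        ((Nat.card (centralizer ({s} : Set G)) : ℤ) : ℝ) := by
      push_cast at this ⊢
      linarith
    exact_mod_cast h3
  obtain ⟨I, -, I2, I3⟩ := h.inv_formula hs
  have h3 := I3 x (mem_zpowers x) h.ne_one
  rw [B.sum' _ (fun χ ψ e => by simp only [e s sr, e 1 (IsPReg.one p)]) x (mem_zpowers x)
    h.ne_one, hR, sum_pair hne, h1, h2, ← h.card_eq, he] at h3
  simp only [yv_spec hs χ, yv_spec hs θ, dg_eq, e1, Pi.one_apply] at h3
  have p0 : (p : ℂ) ≠ 0 := by exact_mod_cast hp.out.ne_zero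
  have d0 : (dg χ : ℂ) ≠ 0 := by exact_mod_cast (dg_pos χ).ne'
  have d1 : (dg θ : ℂ) ≠ 0 := by exact_mod_cast (dg_pos θ).ne'
  have hd' : (dg χ : ℂ) = dg θ + a := by
    have : ((dg θ : ℤ) : ℂ) = ((dg χ - a : ℤ) : ℂ) := by rw [hd]
    push_cast at this
    linear_combination -this
  have e3 : 2 * Nat.card (Sylow p G) * Nat.card h.K ^ 2 * (dg θ - yv s θ) ^ 2 =
      dg χ * dg θ * (Nat.card (centralizer ({s} : Set G)) * I : ℤ) ^ 2 := by
    refine Int.cast_injective (α := ℂ) (mul_left_cancel₀ p0 ?_)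
    have e4 : (dg χ * dg θ : ℂ) * (1 * 1 / 1 - (((-a : ℤ) : ℂ) * (yv s θ * yv s θ / dg θ) +
        a * ((yv s θ + a : ℤ) * (yv s θ + a : ℤ) / dg χ))) = (dg θ - yv s θ) ^ 2 := by
      field_simp
      push_cast
      rw [hd']
      linear_combination (yv s θ ^ 2 - 2 * yv s θ * dg θ - a * dg θ : ℂ) * a2
    push_cast at h3 e4 ⊢
    linear_combination (dg χ * dg θ : ℂ) * h3 -
      (Nat.card (Sylow p G) * p * 2 * Nat.card h.K * Nat.card h.K : ℂ) * e4
  have I0 : I ≠ 0 := by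
    rintro rfl
    have k0 : 0 < Nat.card h.K := Nat.card_pos
    have n0 : 0 < Nat.card (Sylow p G) := Nat.card_pos
    have : (0 : ℤ) < dg θ - yv s θ := by have := (abs_lt.1 e2).2; omega
    simp only [Nat.cast_zero, mul_zero, ne_eq, OfNat.ofNat_ne_zero, not_false_eq_true,
      zero_pow] at e3
    exact absurd e3 (by positivity)
  refine ⟨I, Nat.pos_of_ne_zero I0, ?_, e3⟩
  by_contra! e
  exact I0 (I2.2 e)

theorem e2_sound [NS G] (h : Ctx p x) (he : Nat.card h.H = 2) (h7 : 7 ≤ p) {n : ℕ}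
    (hn : n ∣ 244823040) (hG : Nat.card G ∣ n) :
    e2 n p (Nat.card (Sylow p G)) (Nat.card h.K) = true := by
  classical
  obtain ⟨B⟩ := h.exists_blk
  obtain ⟨χ, θ, a, t, ha, ht, hne, hR, h1, h2, hd, k1, k2⟩ := shape h B he h7
  have hθ : θ ∈ B.R := by simp [hR]
  have hχ : χ ∈ B.R := by simp [hR]
  have hv : ∀ u ∈ zpowers x, u ≠ 1 → (χ : G → ℂ) u = -a := fun u hu u1 => by
    have := B.val χ hχ (by rw [h1]) u hu u1
    rwa [h1] at this
  have hd' : ((dg χ : ℤ) - a).toNat = dg θ := by rw [← hd, Int.toNat_natCast]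
  have p0 : (0 : ℤ) < p := by exact_mod_cast hp.out.pos
  have A : e2a n p (Nat.card (Sylow p G)) (bif Nat.card h.K == 1 then 0 else 2) (dg χ) a = true := by
    obtain ⟨s, hs⟩ := exists_prime_orderOf_dvd_card' (G := G) 2 (by
      rw [← h.card_eq, he]; exact ⟨Nat.card (Sylow p G) * p * Nat.card h.K, by ring⟩)
    have s1 : s ≠ 1 := by rintro rfl; simp at hs
    have s2 : s * s = 1 := by rw [← sq, ← hs, pow_orderOf_eq_one]
    obtain ⟨-, e2, -, I, -, ⟨v, v1, v2⟩, e3⟩ := inv_eq h he B ha hne hR h1 h2 hd s2 s1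
    have q1 : dg χ ∣ 2 * Nat.card (Sylow p G) := by
      have := MT.dvd_of_central χ {()} (fun _ => x) (fun _ _ => index_eq h he) (dg_eq χ)
        (a := -a) (by simpa using hv x (mem_zpowers x) h.ne_one)
      have := Int.natAbs_dvd_natAbs.2 this
      rcases ha with rfl | rfl <;> simpa [Int.natAbs_mul] using this
    have q2 : IsSquare (2 * Nat.card (Sylow p G) * dg χ * dg θ) := by
      refine isSquare_of (y := Nat.card h.K * (dg θ - yv s θ))
        (z := dg χ * dg θ * (Nat.card (centralizer ({s} : Set G)) * I)) (mul_ne_zero ?_ ?_) ?_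
      · exact_mod_cast Nat.card_pos.ne'
      · have := (abs_lt.1 e2).2; omega
      · push_cast
        linear_combination (dg χ * dg θ : ℤ) * e3
    obtain ⟨c, rfl⟩ := isConj_iff.1 v1
    obtain ⟨k, -, -, k3⟩ := inv_val (B.mem χ hχ).2 (dg_eq χ) (t := c * s * c⁻¹)
      (by rw [_root_.conj_mul, s2]; simp) (by simpa using s1)
    have q3 := abs_le_mu h χ v2 k3
    simp only [e2a, hd', k1, k2, Nat.mod_eq_zero_of_dvd q1, sqm_sound q2,
      Nat.mod_eq_zero_of_dvd ((dg_dvd θ).trans hG), beq_self_eq_true, Bool.true_and,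
      List.any_eq_true, beq_iff_eq, mu_zero h hv, Int.mul_ediv_cancel_left _ p0.ne',
      Int.toNat_natCast]
    refine ⟨_, mem_irange (a := dg χ - 4 * k) ?_, by omega⟩
    zify
    exact q3
  have C : e2c p (Nat.card (Sylow p G)) (Nat.card h.K) (dg χ) a = true := by
    simp only [e2c, Bool.or_eq_true, beq_iff_eq, List.any_eq_true, Bool.and_eq_true,
      decide_eq_true_eq, hd', ← hd]
    refine or_iff_not_imp_left.2 fun e => ?_
    obtain ⟨s, hs⟩ := exists_prime_orderOf_dvd_card' (G := h.K) 2 (by omega)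
    rw [← orderOf_coe] at hs
    have s1 : (s : G) ≠ 1 := fun e => by simp [e] at hs
    have s2 : (s : G) * s = 1 := by rw [← sq, ← hs, pow_orderOf_eq_one]
    obtain ⟨-, e2, e4, I, I0, -, e3⟩ := inv_eq h he B ha hne hR h1 h2 hd s2 s1
    refine ⟨yv (s : G) θ, mem_irange ?_, Int.emod_eq_zero_of_dvd
      (four_p h (B.mem θ hθ).1 s2 s.2 (yv_spec s2 θ)), ?_⟩
    · zify
      exact e2.le
    · rw [e3, show (p - 1) / 2 = t by omega]
      have q0 : (0 : ℤ) ≤ 1 + (yv (s : G) θ + a) ^ 2 + t * yv (s : G) θ ^ 2 := by positivity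
      have q1 : (Nat.card (centralizer ({(s : G)} : Set G)) : ℤ) ≤
          Nat.card (centralizer ({(s : G)} : Set G)) * I :=
        le_mul_of_one_le_right (by positivity) (by exact_mod_cast I0)
      have q2 := pow_le_pow_left₀ q0 (e4.trans q1) 2
      rw [mul_assoc, mul_comm]
      exact mul_le_mul_of_nonneg_left q2 (by positivity)
  simp only [e2, List.any_eq_true, Bool.or_eq_true, Bool.and_eq_true]
  refine ⟨dg χ, mem_dg' hn ((dg_dvd χ).trans hG) (two_le_deg (B.mem χ hχ).2 (dg_eq χ)) ?_, ?_⟩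
  · rw [← sq]
    exact (dg_sq_le χ).trans (Nat.le_of_dvd (Nat.pos_of_dvd_of_pos hn (by norm_num)) hG)
  · rcases ha with rfl | rfl
    exacts [Or.inl ⟨A, C⟩, Or.inr ⟨A, C⟩]

end Cfsg.Agent.H4.MwE2
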