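import Cfsg.Agent.H4.O11J1

/-! Piece `J` of S3403: a principal `5`-block with inertial index two. -/

set_option autoImplicit false

namespace Cfsg.Agent.H4.O11J

open Cfsg Cfsg.Agent.H3 Cfsg.Agent.H2.D1 Finset Subgroup
open scoped ComplexConjugate

instance instFact5J : Fact (Nat.Prime 5) := ⟨by norm_num⟩

variable {G : Type*} [Group G] [Finite G] {x : G}

open Classical in
theorem shape5 (h : Ctx 5 x) {e lo : ℕ} (B : Blk 5 x e lo) (he : e = 2) :
    ∃ (χ θ : IrrCharacter G) (a : ℤ), (a = 1 ∨ a = -1) ∧ θ ≠ χ ∧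
      B.R = {θ, χ} ∧ B.ent χ = (a, dg χ, 1) ∧ (B.ent θ).1 = -a ∧ (dg θ : ℤ) = dg χ - a := by
  subst he
  have hd : ∀ χ ∈ B.R, (B.ent χ).2.1 = dg χ := fun χ hχ => by
    have := (B.deg χ hχ).symm.trans (dg_eq χ)
    exact_mod_cast this
  have hl : ∑ χ ∈ B.R, (B.ent χ).1 * dg χ = 1 := by
    have := B.lin h (IsPReg.one 5)
    simp only [dg_eq] at this
    exact_mod_cast this
  rcases B.enum with ⟨h1, -⟩ | ⟨θ, h1, t, b, ε, m, -, h3, hε, h4, h5, -, -, -, -, -, h12⟩
  · omega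
  obtain rfl : t = 2 := by omega
  have e2 : B.R = insert θ B.N := by ext χ; simp [h4]
  have e3 : ∀ χ ∈ B.N, 1 ≤ (B.ent χ).1 ^ 2 := fun χ hχ =>
    Int.add_one_le_of_lt (sq_pos_of_ne_zero (B.opt χ hχ).2.1)
  have e4 : (#B.N : ℤ) ≤ ∑ χ ∈ B.N, (B.ent χ).1 ^ 2 := by
    simpa using card_nsmul_le_sum B.N _ 1 e3
  have e5 : (0 : ℤ) ≤ #B.N := by positivity
  push_cast at h12 h5
  have hb : b = 0 ∨ b = -ε := by
    have b1 : -2 < b := by nlinarith [sq_nonneg (b + ε)]
    have b2 : b < 2 := by nlinarith [sq_nonneg (b + ε)]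
    rcases hε with rfl | rfl <;> interval_cases b <;> omega
  have e9 : ∑ χ ∈ B.N, (B.ent χ).1 ^ 2 = 1 := by
    rcases hb with rfl | rfl <;> rcases hε with rfl | rfl <;> norm_num at h12 <;> omega
  have e6 : (B.ent θ).1 = 1 ∨ (B.ent θ).1 = -1 := by
    rcases hb with rfl | rfl <;> rcases hε with rfl | rfl <;> omega
  have e7 : B.N.Nonempty := by
    rw [nonempty_iff_ne_empty]
    intro e
    simp [e] at e9
  obtain ⟨χ, hχ⟩ := card_eq_one.1 (show #B.N = 1 by have := e7.card_pos; omega)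
  have hN : χ ∈ B.N := hχ ▸ mem_singleton_self χ
  have hR : χ ∈ B.R := (h4 χ).2 (Or.inr hN)
  have hne : θ ≠ χ := fun e => h1 (e ▸ hN)
  rw [hχ, sum_singleton] at e9
  rw [hχ] at e2
  rw [e2, sum_pair hne] at hl
  have ha : (B.ent χ).1 = 1 ∨ (B.ent χ).1 = -1 := sq_eq_one_iff.1 e9
  have d1 := dg_pos θ
  have d2 := dg_pos χ
  refine ⟨χ, θ, (B.ent χ).1, ha, hne, e2, Prod.ext rfl (Prod.ext (hd χ hR) (B.opt χ hN).1), ?_, ?_⟩
    <;> rcases e6 with e | e <;> rcases ha with e' | e' <;> rw [e, e'] at hl <;> omega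

theorem arith {q d f s : ℕ} (hq : 11 ≤ q) (hd : 0 < d) (h1 : q ∣ d ∨ q ∣ d + 1)
    (he : d * (d + 1) = q * f) (h7 : 11 * q + 1 = f * (s * s)) : False := by
  have q0 : 0 < q := by omega
  rcases h1 with ⟨c, rfl⟩ | ⟨c, hc⟩
  · have h8 : f = c * (q * c + 1) := Nat.eq_of_mul_eq_mul_left q0 (by rw [← he]; ring)
    have h9 : 11 * q + 1 = c * (c * (s * s)) * q + c * (s * s) := by rw [h7, h8]; ring
    have c0 : 0 < c := Nat.pos_of_mul_pos_left hd
    have h10 : c * (s * s) ≤ c * (c * (s * s)) := Nat.le_mul_of_pos_left _ c0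
    have h11 : c * (s * s) = 1 → c * (c * (s * s)) = 1 := fun e => by
      rw [e, Nat.eq_one_of_mul_eq_one_right e]
    generalize c * (c * (s * s)) = U at *
    generalize c * (s * s) = Y at *
    rcases lt_trichotomy U 11 with k | k | k
    · have := Nat.mul_le_mul_right q (show U ≤ 10 by omega)
      omega
    · subst k; omega
    · have := Nat.mul_le_mul_right q (show 12 ≤ U by omega)
      omega
  · have c0 : 0 < c := Nat.pos_of_mul_pos_left (show 0 < q * c by omega)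
    have h8 : f = c * d := Nat.eq_of_mul_eq_mul_left q0 (by rw [← he, hc]; ring)
    have h9 : 11 * q + 1 + c * (s * s) = c * (c * (s * s)) * q := by
      rw [h7, h8]
      calc _ = c * (s * s) * (d + 1) := by ring
        _ = _ := by rw [hc]; ring
    have h10 : c * (s * s) ≤ c * (c * (s * s)) := Nat.le_mul_of_pos_left _ c0
    have h11 : c * (c * (s * s)) ≤ 11 ∨ 16 ≤ c * (c * (s * s)) := by
      rw [show c * (c * (s * s)) = (c * s) * (c * s) by ring]
      rcases le_or_gt (c * s) 3 with k | k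
      · left; nlinarith
      · right; nlinarith
    generalize c * (c * (s * s)) = U at *
    generalize c * (s * s) = Y at *
    rcases h11 with k | k
    · have := Nat.mul_le_mul_right q k
      omega
    · obtain ⟨V, rfl⟩ := Nat.exists_eq_add_of_le k
      have := Nat.mul_le_mul_left (V + 5) hq
      rw [show (16 + V) * q = 11 * q + (V + 5) * q by ring] at h9
      omega

theorem card_H (h : Ctx 5 x) {w : G} (wh : w * x * w⁻¹ = x⁻¹) (nc : ∀ g : G, g * x * g⁻¹ ≠ x ^ 2) :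
    Nat.card h.H = 2 ∧ h.H ≠ ⊤ := by
  have h1 : h.H ≠ ⊤ := fun e => by
    have : (Units.mkOfMulEqOne (2 : ZMod 5) 3 (by decide)) ∈ h.H := e ▸ mem_top _
    obtain ⟨g, hg⟩ := isConj_iff.1 this
    exact nc g hg
  have h2 := orderOf_dvd_natCard _ (h.neg_one_mem wh)
  rw [h.orderOf_neg_one] at h2
  have h3 := h.card_H_mul
  have h4 := index_eq_one.not.2 h1
  obtain ⟨c, hc⟩ := h2
  refine ⟨?_, h1⟩
  rw [hc] at h3 ⊢
  have h5 : c * h.H.index = 2 := by linarith
  have h6 : c ∣ 2 := ⟨_, h5.symm⟩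
  rcases (Nat.dvd_prime Nat.prime_two).1 h6 with rfl | rfl <;> omega

theorem degs (h : Ctx 5 x) {w : G} (w2 : w * w = 1) (wh : w * x * w⁻¹ = x⁻¹)
    (nc : ∀ g : G, g * x * g⁻¹ ≠ x ^ 2) : ∃ (A B : IrrCharacter G) (d I : ℕ) (y : ℤ), 0 < d ∧
      A.1 1 = d ∧ B.1 1 = (d + 1 : ℕ) ∧ (∀ g, IsPReg 5 g → B.1 g = 1 + A.1 g) ∧
      d * (d + 1) ∣ (centralizer {x}).index ∧
      {v | IsConj w v ∧ v * x * v⁻¹ = x⁻¹}.ncard = 5 * I ∧
      ((centralizer {x}).index : ℤ) * y ^ 2 =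
        d * (d + 1) * (Nat.card (centralizer ({w} : Set G)) * I) ^ 2 := by
  classical
  obtain ⟨he, hH⟩ := card_H h wh nc
  obtain ⟨B⟩ := h.blk_two (lo := 0) (fun _ _ _ _ => Nat.zero_le _) hH
  obtain ⟨χ, θ, a, ha, hne, hR, h1, h2, hd⟩ := shape5 h B he
  have hχ : χ ∈ B.R := by simp [hR]
  have a2 : (a : ℂ) ^ 2 = 1 := by rcases ha with rfl | rfl <;> norm_num
  have hl : ∀ g, IsPReg 5 g → χ.1 g = θ.1 g + a := fun g hg => by
    have := B.lin h hg
    rw [hR, sum_pair hne, h1, h2] at this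
    push_cast at this
    linear_combination (a : ℂ) * this - (χ.1 g - θ.1 g) * a2
  have sr := h.isPReg w2
  have d0 : (dg χ : ℂ) ≠ 0 := by exact_mod_cast (dg_pos χ).ne'
  have d1 : (dg θ : ℂ) ≠ 0 := by exact_mod_cast (dg_pos θ).ne'
  have hd' : (dg χ : ℂ) = dg θ + a := by rw [← dg_eq, ← dg_eq, hl 1 (IsPReg.one 5)]
  have q1 : dg χ ∣ (centralizer {x}).index := by
    have k := isIntegral_centralChar χ.2 x
    rw [B.val χ hχ (by rw [h1]) x (mem_zpowers x) h.ne_one, h1, dg_eq] at k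
    have := int_dvd_of_isIntegral_div (a := (centralizer {x}).index * -a) (b := dg χ)
      (by exact_mod_cast (dg_pos χ).ne') (by simpa using k)
    have := Int.natAbs_dvd_natAbs.2 this
    rcases ha with rfl | rfl <;> simpa [Int.natAbs_mul] using this
  have q2 : dg θ ∣ (centralizer {x}).index := by
    by_cases e1 : dg θ = 1
    · rw [e1]; exact one_dvd _
    let P : IrrCharacter G → Prop := fun ψ => ψ.1 1 = θ.1 1
    have k := B.sum' (fun ψ => if P ψ then 1 else 0)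
      (fun ψ ψ' e => by simp only [P, e 1 (IsPReg.one 5)]) x (mem_zpowers x) h.ne_one
    have p1 : ¬ P triv := fun e => e1 (by
      have : ((dg θ : ℕ) : ℂ) = 1 := by rw [← dg_eq, ← e]; rfl
      exact_mod_cast this)
    have p2 : ¬ P χ := fun e => by
      have : (dg χ : ℂ) = dg θ := by rw [← dg_eq, ← dg_eq]; exact e
      have : dg χ = dg θ := by exact_mod_cast this
      omega
    rw [hR, sum_pair hne, if_neg p1, if_neg p2, if_pos rfl, h2] at k
    have k2 : ∑ ψ ∈ (B0 5 G).filter P, ψ.1 x = a := by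
      have := congrArg conj k
      simpa [sum_filter, apply_ite conj] using this
    have k3 := IsIntegral.sum (s := (B0 5 G).filter P)
      (fun ψ => ((centralizer {x}).index : ℂ) * ψ.1 x / ψ.1 1)
      fun ψ _ => isIntegral_centralChar ψ.2 x
    rw [sum_congr rfl fun ψ hψ => by rw [show ψ.1 1 = θ.1 1 from (mem_filter.1 hψ).2], ← sum_div,
      ← mul_sum, k2, dg_eq] at k3
    have := int_dvd_of_isIntegral_div (a := (centralizer {x}).index * a) (b := dg θ)
      (by exact_mod_cast (dg_pos θ).ne') (by simpa using k3)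
    have := Int.natAbs_dvd_natAbs.2 this
    rcases ha with rfl | rfl <;> simpa [Int.natAbs_mul] using this
  obtain ⟨I, I1, I3⟩ := inv_formula' h w2
  have h3 := I3 x (mem_zpowers x) h.ne_one
  rw [B.sum' _ (fun χ ψ e => by simp only [e w sr, e 1 (IsPReg.one 5)]) x (mem_zpowers x)
    h.ne_one, hR, sum_pair hne, h1, h2, ← (centralizer {x}).index_mul_card, h.card_C] at h3
  simp only [hl w sr, yv_spec w2 θ, dg_eq, Pi.one_apply] at h3
  have e3 : ((centralizer {x}).index : ℤ) * (Nat.card h.K * (dg θ - yv w θ)) ^ 2 =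
      dg χ * dg θ * (Nat.card (centralizer ({w} : Set G)) * I : ℤ) ^ 2 := by
    refine Int.cast_injective (α := ℂ) (mul_left_cancel₀ (show (5 : ℂ) ≠ 0 by norm_num) ?_)
    have e4 : (dg χ * dg θ : ℂ) * (1 * 1 / 1 - (((-a : ℤ) : ℂ) * (yv w θ * yv w θ / dg θ) +
        a * ((yv w θ + a) * (yv w θ + a) / dg χ))) = (dg θ - yv w θ) ^ 2 := by
      field_simp
      push_cast
      rw [hd']
      linear_combination (yv w θ ^ 2 - 2 * yv w θ * dg θ - a * dg θ : ℂ) * a2
    push_cast at h3 e4 ⊢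
    linear_combination (dg χ * dg θ : ℂ) * h3 -
      ((centralizer {x}).index * 5 * Nat.card h.K * Nat.card h.K : ℂ) * e4
  rcases ha with rfl | rfl
  · have e : dg χ = dg θ + 1 := by omega
    refine ⟨θ, χ, dg θ, I, Nat.card h.K * (dg θ - yv w θ), dg_pos θ, dg_eq θ, e ▸ dg_eq χ, fun g hg => by
      rw [hl g hg]; push_cast; ring, Nat.Coprime.mul_dvd_of_dvd_of_dvd (by simp) q2 (e ▸ q1), I1, ?_⟩
    rw [e3, e]; push_cast; ring
  · have e : dg θ = dg χ + 1 := by omega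
    refine ⟨χ, θ, dg χ, I, Nat.card h.K * (dg θ - yv w θ), dg_pos χ, dg_eq χ, e ▸ dg_eq θ, fun g hg => by
      rw [hl g hg]; push_cast; ring, Nat.Coprime.mul_dvd_of_dvd_of_dvd (by simp) q1 (e ▸ q2), I1, ?_⟩
    rw [e3, e]; push_cast; ring

theorem dnk {h w : G} {R Z : Subgroup G} {q : ℕ} (oh : orderOf h = 5) (w2 : w * w = 1)
    (wh : w * h * w⁻¹ = h⁻¹) (nc : ∀ g : G, g * h * g⁻¹ ≠ h ^ 2)
    (hZ : ∀ v, v * v = 1 → v * h * v⁻¹ = h⁻¹ → w * v ∈ Z) (cZ : Nat.card Z ≤ 10)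
    (hR : Group.IsNilpotent R) (cR : Nat.card R = q)
    (cM : Nat.card G = q * (11 * q + 1) * Nat.card (centralizer ({h} : Set G)))
    (n25 : ¬ 25 ∣ Nat.card (centralizer ({h} : Set G)))
    (cop : q.Coprime (Nat.card (centralizer ({h} : Set G))))
    (hw : ∀ r ∈ R, ∀ g : G, Commute r (g * w * g⁻¹) → r = 1) (q5 : q % 10 = 1) : q = 1 := by
  classical
  have H : Ctx 5 h := ⟨by norm_num, oh, fun e => n25 (by
    rw [cM] at e
    refine Nat.Coprime.dvd_of_dvd_mul_left (k := 5 ^ 2) (Nat.Coprime.pow_left 2 ?_) e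
    rw [Nat.Prime.coprime_iff_not_dvd Nat.prime_five, Nat.prime_five.dvd_mul]
    omega)⟩
  have hi : (centralizer ({h} : Set G)).index = q * (11 * q + 1) :=
    Nat.eq_of_mul_eq_mul_right Nat.card_pos (by rw [index_mul_card, cM])
  obtain ⟨A, B, d, I, y, hd, hA, hB, hAB, ⟨s, hs⟩, I1, e⟩ := degs H w2 wh nc
  rw [hi] at e hs
  have qn : q.Coprime (11 * q + 1) := by simp
  have n5 : ∀ p : ℕ, p.Prime → p ∣ q →
      ¬ p ∣ (11 * q + 1) * Nat.card (centralizer ({h} : Set G)) := fun p hp h1 h2 =>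
    hp.one_lt.ne' (Nat.eq_one_of_dvd_coprimes (qn.mul_right cop) h1 h2)
  have I2 : I = 1 ∨ I = 2 := by
    have k1 : {v | IsConj w v ∧ v * h * v⁻¹ = h⁻¹}.ncard ≤ Nat.card Z := by
      rw [← SetLike.coe_sort_coe, Nat.card_coe_set_eq]
      refine Set.ncard_le_ncard_of_injOn (w * ·) (fun v hv => hZ v ?_ hv.2)
        (fun a _ b _ e => mul_left_cancel e) (Set.toFinite _)
      obtain ⟨c, rfl⟩ := isConj_iff.1 hv.1
      rw [_root_.conj_mul, w2]; simp
    have k2 : 0 < {v | IsConj w v ∧ v * h * v⁻¹ = h⁻¹}.ncard :=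
      (Set.ncard_pos (Set.toFinite _)).2 ⟨w, IsConj.refl w, wh⟩
    omega
  have cw : q.Coprime (Nat.card (centralizer ({w} : Set G)) * I) := by
    refine Nat.Coprime.mul_right (Nat.coprime_of_dvd fun p hp p1 p2 => ?_) (by
      rcases I2 with rfl | rfl
      · simp
      · rw [Nat.coprime_two_right, Nat.odd_iff]; omega)
    have := Fact.mk hp
    obtain ⟨z, hz, oz⟩ := H7.exists_orderOf_eq_prime hp p2
    have hP : IsPGroup p (zpowers z) := IsPGroup.of_card (n := 1) (by rw [Nat.card_zpowers, oz, pow_one])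
    obtain ⟨c, hc⟩ := hP.nonempty_fixed_point_of_prime_not_dvd_card (G ⧸ R) (by
      have k := R.card_mul_index
      rw [cM, cR, mul_assoc] at k
      rw [← index, Nat.eq_of_mul_eq_mul_left (cR ▸ Nat.card_pos) k]
      exact n5 p hp p1)
    obtain ⟨g, rfl⟩ := QuotientGroup.mk_surjective c
    have h2 : ((z * g : G) : G ⧸ R) = g := hc ⟨z, mem_zpowers z⟩
    rw [eq_comm, QuotientGroup.eq] at h2
    have h3 := hw _ h2 g⁻¹ (by
      have := mem_centralizer_singleton_iff.1 hz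
      show _ = _
      calc _ = g⁻¹ * (z * w) * g := by group
        _ = _ := by rw [this]; group)
    rw [show z = 1 by rwa [inv_mul_eq_one, right_eq_mul] at h3] at oz
    exact hp.ne_one (by simpa using oz.symm)
  have c0 : 0 < Nat.card (centralizer ({w} : Set G)) * I := Nat.mul_pos Nat.card_pos (by omega)
  rw [← Nat.cast_mul (Nat.card _) I] at e
  generalize Nat.card (centralizer ({w} : Set G)) * I = c at cw c0 e
  by_contra q1
  have hq : 11 ≤ q := by omega
  have q0 : 0 < q := by omega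
  have e1 : q * (11 * q + 1) * y.natAbs ^ 2 = d * (d + 1) * c ^ 2 := by
    zify
    rw [sq_abs]
    exact_mod_cast e
  obtain ⟨f, hf⟩ : q ∣ d * (d + 1) := (cw.pow_right 2).dvd_of_dvd_mul_right
    ⟨(11 * q + 1) * y.natAbs ^ 2, by rw [← e1]; ring⟩
  have e2 : s * y.natAbs ^ 2 = c ^ 2 := Nat.eq_of_mul_eq_mul_left
    (show 0 < d * (d + 1) by positivity) (by rw [← e1, hs]; ring)
  obtain ⟨u, hu⟩ : y.natAbs ∣ c := (Nat.pow_dvd_pow_iff two_ne_zero).1 ⟨s, by rw [← e2]; ring⟩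
  have e3 : s = u * u := Nat.eq_of_mul_eq_mul_right (pow_pos (Nat.pos_of_mul_pos_right (hu ▸ c0)) 2)
    (by rw [e2, hu]; ring)
  have cop' : d.Coprime (d + 1) := by simp
  refine arith hq hd ?_ hf (s := u) (Nat.eq_of_mul_eq_mul_left q0 (by rw [hs, hf, e3]; ring))
  by_contra k
  push Not at k
  obtain ⟨p, hp, p1, p2⟩ := Nat.Prime.not_coprime_iff_dvd.mp fun e : q.Coprime d =>
    k.2 (e.dvd_of_dvd_mul_left ⟨f, hf⟩)
  obtain ⟨r, hr, r1, r2⟩ := Nat.Prime.not_coprime_iff_dvd.mp fun e : q.Coprime (d + 1) =>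
    k.1 (e.dvd_of_dvd_mul_right ⟨f, hf⟩)
  have pr : p ≠ r := fun e => hp.one_lt.ne' (Nat.eq_one_of_dvd_coprimes cop' p2 (e ▸ r2))
  obtain ⟨u, hu, ou⟩ := H7.exists_orderOf_eq_prime hp (cR ▸ p1 : p ∣ Nat.card R)
  obtain ⟨v, hv, ov⟩ := H7.exists_orderOf_eq_prime hr (cR ▸ r1 : r ∣ Nat.card R)
  have co : (orderOf u).Coprime (orderOf v) := by rw [ou, ov]; exact (Nat.coprime_primes hp hr).mpr pr
  have uv : Commute u v := (H7.comm_of_mem_cent (H7.le_cent_of_nil_of_coprime hR (zpowers_le.mpr hu)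
    (zpowers_le.mpr hv) (by rwa [Nat.card_zpowers, Nat.card_zpowers]) (mem_zpowers u))
    (mem_zpowers v)).symm
  have o := uv.orderOf_mul_eq_mul_orderOf_of_coprime co
  rw [ou, ov] at o
  have z1 := irr_eq_zero_of_defect_zero hp A.2 hA (g := u * v) (fun m hm e => by
    have : (11 * q + 1) * Nat.card (centralizer ({h} : Set G)) * (d + 1) = f * m :=
      Nat.eq_of_mul_eq_mul_left q0 (by rw [← mul_assoc q f, ← hf, mul_right_comm d, ← hm, cM]; ring)
    rcases hp.dvd_mul.mp (this ▸ e.mul_left f) with e | e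
    · exact n5 p hp p1 e
    · exact hp.one_lt.ne' (Nat.eq_one_of_dvd_coprimes cop' p2 e)) (o ▸ Dvd.intro _ rfl)
  have z2 := irr_eq_zero_of_defect_zero hr B.2 hB (g := u * v) (fun m hm e => by
    have : (11 * q + 1) * Nat.card (centralizer ({h} : Set G)) * d = f * m :=
      Nat.eq_of_mul_eq_mul_left q0 (by rw [← mul_assoc q f, ← hf, mul_assoc d, ← hm, cM]; ring)
    rcases hr.dvd_mul.mp (this ▸ e.mul_left f) with e | e
    · exact n5 r hr r1 e
    · exact hr.one_lt.ne' (Nat.eq_one_of_dvd_coprimes cop' e r2)) (o ▸ Dvd.intro_left _ rfl)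
  have := hAB (u * v) ((isPReg_iff_not_dvd Nat.prime_five).2 fun e => by
    have := e.trans (cR ▸ H7.orderOf_dvd_card_of_mem (mul_mem hu hv))
    omega)
  rw [z1, z2] at this
  simp at this

end Cfsg.Agent.H4.O11J
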