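import Cfsg.Agent.H4.O11J2
import Cfsg.Agent.H9.O11J
import Cfsg.Agent.H3.FrobCompl
import Cfsg.Agent.H9.FpfNilpotent

/-! Piece `J` of S3403: the fixed points of an involution. -/

set_option autoImplicit false
set_option linter.unusedSectionVars false

namespace Cfsg.Agent.H4.O11J

open Subgroup MulAction Cfsg.Agent.H7 Cfsg.Agent.H9.O11
open MulAut (conj)
open scoped Pointwise

variable {G : Type*} [Group G] [Finite G] {X : Subgroup G} {Ω : Type*} [MulAction G Ω]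
  {A : Ω → Subgroup G} {α γ δ γ' : Ω} {a g w r u z c k : G} {ι : alternatingGroup (Fin 5) →* G}

omit [Finite G] in
theorem card_subgroupOf (H M : Subgroup G) : Nat.card (H.subgroupOf M) = Nat.card ↥(M ⊓ H) := by
  rw [← inf_subgroupOf_left]
  exact Nat.card_congr (subgroupOfEquivOfLe inf_le_left).toEquiv

theorem dnk' {M R Z : Subgroup G} {h w : G} (hM : h ∈ M) (wM : w ∈ M) (RM : R ≤ M)
    (oh : orderOf h = 5) (w2 : w * w = 1) (wh : w * h * w⁻¹ = h⁻¹)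
    (nc : ∀ g ∈ M, g * h * g⁻¹ ≠ h ^ 2)
    (hZ : ∀ v ∈ M, v * v = 1 → v * h * v⁻¹ = h⁻¹ → w * v ∈ Z) (cZ : Nat.card Z ≤ 10)
    (hR : Group.IsNilpotent R)
    (cM : Nat.card M = Nat.card R * (11 * Nat.card R + 1) * Nat.card ↥(M ⊓ C₁[h]))
    (n25 : ¬ 25 ∣ Nat.card ↥(M ⊓ C₁[h])) (cop : (Nat.card R).Coprime (Nat.card ↥(M ⊓ C₁[h])))
    (hw : ∀ r ∈ R, ∀ g ∈ M, Commute r (g * w * g⁻¹) → r = 1) (q5 : Nat.card R % 10 = 1) :
    Nat.card R = 1 := by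
  have e : centralizer ({⟨h, hM⟩} : Set M) = C₁[h].subgroupOf M := by
    ext y
    rw [mem_centralizer_singleton_iff, mem_subgroupOf, mem_cent1_iff, Subtype.ext_iff]
    rfl
  refine dnk (G := M) (h := ⟨h, hM⟩) (w := ⟨w, wM⟩) (R := R.subgroupOf M) (Z := Z.subgroupOf M)
    (by rw [← orderOf_coe, oh]) (Subtype.ext w2) (Subtype.ext wh)
    (fun g e => nc g g.2 (congrArg Subtype.val e))
    (fun v h1 h2 => hZ v v.2 (congrArg Subtype.val h1) (congrArg Subtype.val h2))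
    ((card_subgroupOf Z M).le.trans ((card_le_of_le inf_le_right).trans cZ))
    (Group.nilpotent_of_mulEquiv (subgroupOfEquivOfLe RM).symm)
    (Nat.card_congr (subgroupOfEquivOfLe RM).toEquiv) (by rw [e, card_subgroupOf, cM])
    (by rwa [e, card_subgroupOf]) (by rwa [e, card_subgroupOf])
    (fun r hr g hc => Subtype.ext (hw r hr g g.2 (hc.map M.subtype))) q5

section
variable (H : JC A X)
include H

theorem ln : Ln X := .inr H.jf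

theorem bot : ∀ z ∈ X, z ∈ C[X] → z = 1 := let ⟨_, h⟩ := H.pt; H.geo.bot (ln H) h

theorem norm_of (h : γ ≠ δ) (h1 : A γ ≤ X) (h2 : A δ ≤ X) (h3 : A (z • γ) ≤ X)
    (h4 : A (z • δ) ≤ X) : z ∈ N[X] :=
  H.uniq z _ _ (fun e => h (smul_left_cancel z e)) h3 h4 (H.geo.smul_le_smul.2 h1)
    (H.geo.smul_le_smul.2 h2)

theorem split (hz : z ∈ N[X]) : ∃ x ∈ X, ∃ k ∈ C[X], x * k = z :=
  let ⟨_, h⟩ := H.pt; mem_XK.1 (H.geo.J_mem H.jf h hz)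

theorem inv_mem' (hu : u ∈ N[X]) (u2 : u * u = 1) : u ∈ X := by
  obtain ⟨x, hx, k, hk, rfl⟩ := split H hu
  have h1 := orderOf_dvd_of_pow_eq_one (split_pow (bot H) hx hk (sq (x * k) ▸ u2)).2
  have h2 := (H.odd.of_dvd_nat (orderOf_dvd_card_of_mem hk)).coprime_two_right
  rwa [orderOf_eq_one_iff.1 (Nat.eq_one_of_dvd_coprimes h2 dvd_rfl h1), mul_one]

theorem on_line (h : A γ ≤ conj c • X) : A (c⁻¹ • γ) ≤ X :=
  (H.geo.smul_le_smul (g := c)).1 (by rwa [smul_inv_smul])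

theorem inv_line (h : γ ≠ δ) (u2 : u * u = 1) (hu : (u • γ = γ ∧ u • δ = δ) ∨ u • γ = δ)
    (h1 : A (c⁻¹ • γ) ≤ X) (h2 : A (c⁻¹ • δ) ≤ X) : c⁻¹ * u * c ∈ X := by
  refine inv_mem' H (norm_of H (fun e => h (smul_left_cancel _ e)) h1 h2 ?_ ?_) (by
    calc _ = c⁻¹ * (u * u) * c := by group
      _ = 1 := by rw [u2]; group) <;> rw [mul_smul, mul_smul, smul_inv_smul] <;>
    rcases hu with ⟨e1, e2⟩ | e
  · rwa [e1]
  · rwa [e]
  · rwa [e2]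
  · rwa [← e, smul_smul u u, u2, one_smul]

theorem inv_cent (u2 : u * u = 1) (hc : u ∈ C[A γ]) : u = 1 := by
  obtain ⟨α, hα⟩ := H.pt
  obtain ⟨β, h1, hβ⟩ := H.geo.exists_second (ln H) hα
  obtain ⟨c, hc'⟩ : ∃ c : G, c⁻¹ * u * c ∈ X := by
    by_cases e1 : u • α = α
    · by_cases e2 : u • β = β
      · exact ⟨1, inv_line H h1 u2 (.inl ⟨e2, e1⟩) (by simpa) (by simpa)⟩
      · obtain ⟨c, k1, k2⟩ := H.lin β _ (Ne.symm e2)
        exact ⟨c, inv_line H (Ne.symm e2) u2 (.inr rfl) (on_line H k1) (on_line H k2)⟩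
    · obtain ⟨c, k1, k2⟩ := H.lin α _ (Ne.symm e1)
      exact ⟨c, inv_line H (Ne.symm e1) u2 (.inr rfl) (on_line H k1) (on_line H k2)⟩
  have k := bot H _ hc' (H.geo.inv_in_K H.jf hα (le_norm_self _ hc') (by
    calc _ = c⁻¹ * (u * u) * c := by group
      _ = 1 := by rw [u2]; group) (δ := c⁻¹ • γ) (by simpa using H.geo.cent_smul hc c⁻¹))
  calc u = c * (c⁻¹ * u * c) * c⁻¹ := by group
    _ = 1 := by rw [k]; group

variable (J : JR X a g w r ι) (e : A α = zpowers a)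
include J e

theorem pα : A α ≤ X := e ▸ zpowers_le_of_mem J.ma

theorem h_fix : g ^ 2 • α = α := pow_mem (mem_stabilizer_iff.2 (H.geo.g_fix J e)) 2

theorem h_nc : g ^ 2 ∉ C[A α] :=
  H.geo.not_cent (ln H) (pα H J e) (pow_mem J.mg 2) (ne_one_of_ord J.oh) (by rw [J.oh]; omega)

theorem t_nc : g ^ 5 ∉ C[A α] :=
  H.geo.not_cent (ln H) (pα H J e) (pow_mem J.mg 5) (ne_one_of_ord J.ot) (by rw [J.ot]; omega)

omit H e in
theorem w_nc : ¬ Commute w (g ^ 2) := fun c => by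
  have k := J.wh
  rw [c.eq, mul_inv_cancel_right, eq_inv_iff_mul_eq_one, ← sq, ← orderOf_dvd_iff_pow_eq_one,
    J.oh] at k
  omega

omit H e in
theorem w_norm : w ∈ N[zpowers (g ^ 2)] := mem_norm_of_conj_smul_le (by
  rw [conj_smul_zpowers, J.wh]; exact zpowers_le_of_mem (inv_mem (mem_zpowers _)))

theorem β_ne : w • α ≠ α := fun k =>
  w_nc J (H.geo.commute_of_fix (h_fix H J e) J.oh (h_nc H J e) k (w_norm J))

theorem pβ : A (w • α) ≤ X := H.geo.smul_le' J.mw (pα H J e)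

omit H e in
theorem ww (γ : Ω) : w • w • γ = γ := by rw [smul_smul, sq_of_ord J.ow, one_smul]

theorem t_fixβ : g ^ 5 • w • α = w • α := by
  rw [smul_smul, J.tw.eq, mul_smul, H.geo.t_fix J e]

theorem fix_gen (hγ : g ^ 5 • γ = γ) (hγ' : g ^ 2 • γ = γ) : γ = α ∨ γ = w • α := by
  refine H.geo.fix_g J e (H.hfix _ (pow_mem J.mg 2) J.oh γ hγ') ?_
  rw [J.g_eq, mul_smul, (pow_mem (mem_stabilizer_iff.2 hγ') 3 :), hγ]

/-- elements of `C(t)` normalizing `⟨h⟩` -/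
theorem norm_h (hz : z ∈ C₁[g ^ 5]) (hn : z ∈ N[zpowers (g ^ 2)]) :
    (z • α = α ∧ Commute z (g ^ 2)) ∨ (z • α = w • α ∧ z * g ^ 2 * z⁻¹ = (g ^ 2)⁻¹) := by
  have k1 : g ^ 5 • z • α = z • α := by
    rw [smul_smul, ← mem_cent1_iff.1 hz, mul_smul, H.geo.t_fix J e]
  have k2 : g ^ 2 • z • α = z • α := by
    have : (z⁻¹ * g ^ 2 * z) • α = α := zpowers_le_of_mem (H := stabilizer G α) (h_fix H J e)
      (conj_mem_of_norm' hn (mem_zpowers _))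
    rwa [mul_smul, mul_smul, inv_smul_eq_iff] at this
  rcases fix_gen H J e k1 k2 with k | k
  · exact .inl ⟨k, H.geo.commute_of_fix (h_fix H J e) J.oh (h_nc H J e) k hn⟩
  · have c := H.geo.commute_of_fix (h_fix H J e) J.oh (h_nc H J e) (g := w * z)
      (by rw [mul_smul, k, ww J]) (mul_mem (w_norm J) hn)
    refine .inr ⟨k, ?_⟩
    calc _ = w⁻¹ * (w * z * g ^ 2) * z⁻¹ := by group
      _ = w * g ^ 2 * w⁻¹ := by rw [c.eq, inv_of_ord J.ow]; group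
      _ = _ := J.wh

theorem D_fix (hz : z ∈ C₁[g ^ 5] ⊓ C₁[g ^ 2]) : z • α = α := by
  rcases norm_h H J e hz.1 (cent_le_norm _ (by rw [cent_zpowers]; exact hz.2)) with k | k
  · exact k.1
  · have := k.2
    rw [mem_cent1_iff.1 hz.2, mul_inv_cancel_right, eq_inv_iff_mul_eq_one, ← sq,
      ← orderOf_dvd_iff_pow_eq_one, J.oh] at this
    omega

theorem h_fixβ : g ^ 2 • w • α = w • α := by
  have : g ^ 2 * w = w * (g ^ 2)⁻¹ := by
    rw [← J.wh, inv_of_ord J.ow, ← mul_assoc, ← mul_assoc, sq_of_ord J.ow, one_mul]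
  rw [smul_smul, this, mul_smul, inv_smul_eq_iff.2 (h_fix H J e).symm]

theorem D_norm (hz : z ∈ C₁[g ^ 5] ⊓ C₁[g ^ 2]) : z ∈ N[X] :=
  norm_of H (β_ne H J e) (pβ H J e) (pα H J e) (H.hfix _ (pow_mem J.mg 2) J.oh _ (by
    rw [smul_smul, ← mem_cent1_iff.1 hz.2, mul_smul, h_fixβ H J e]))
    (by rw [D_fix H J e hz]; exact pα H J e)

omit e in
theorem split_t (hz : z ∈ C₁[g ^ 5]) (hn : z ∈ N[X]) :
    ∃ x ∈ X, ∃ k ∈ C[X], x * k = z ∧ Commute x (g ^ 5) := by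
  obtain ⟨x, hx, k, hk, rfl⟩ := split H hn
  exact ⟨x, hx, k, hk, rfl, mem_cent1_iff.1 ((mul_mem_cancel_right
    (cent_le_cent1 (pow_mem J.mg 5) hk)).1 hz)⟩

theorem comm_h (hz : z ∈ C₁[g ^ 5]) (hα : z • α = α) (hn : z ∈ N[X]) : z ∈ C₁[g ^ 2] := by
  obtain ⟨x, hx, k, hk, rfl, c⟩ := split_t H J hz hn
  rw [mul_smul, H.geo.fix_of_centX (pα H J e) hk] at hα
  have h2 := pow_mem J.mg 2
  have c2 : Commute (g ^ 2) (g ^ 5) := Commute.pow_pow_self g 2 5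
  have k1 := H.geo.eq_one_of_comm (H.geo.cent_pt (ln H) (pα H J e)
    (mul_mem (inv_mem (mul_mem h2 hx)) (mul_mem hx h2)) (H.geo.comm_cent hα (h_fix H J e)))
    (t_nc H J e) ((c2.mul_left c).inv_left.mul_left (c.mul_left c2))
  exact mul_mem (mem_cent1_iff.2 (inv_mul_eq_one.1 k1).symm) (cent_le_cent1 h2 hk)

theorem D_le : C₁[g ^ 5] ⊓ C₁[g ^ 2] ≤ zpowers g ⊔ C[X] := fun z hz => by
  obtain ⟨x, hx, k, hk, rfl, c⟩ := split_t H J hz.1 (D_norm H J e hz)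
  exact mul_mem_sup (J.cent_g hx c (mem_cent1_iff.1 ((mul_mem_cancel_right
    (cent_le_cent1 (pow_mem J.mg 2) hk)).1 hz.2))) hk

theorem conj_t (hu : u ∈ X) (ou : orderOf u = 2) (hα : u • α = α) :
    ∃ b ∈ A α, b * g ^ 5 * b⁻¹ = u := by
  have hs := H.geo.cent_pt (ln H) (pα H J e) (mul_mem (inv_mem (pow_mem J.mg 5)) hu)
    (H.geo.mul_mem_cent hα (H.geo.t_fix J e) (sq_of_ord ou) (sq_of_ord J.ot)
      (H.geo.not_cent (ln H) (pα H J e) hu (ne_one_of_ord ou) (by omega)) (t_nc H J e))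
  obtain ⟨s, rfl⟩ : ∃ s, u = g ^ 5 * s := ⟨(g ^ 5)⁻¹ * u, by group⟩
  rw [inv_mul_cancel_left] at hs
  have k1 : (g ^ 5)⁻¹ * s * (g ^ 5)⁻¹⁻¹ = s⁻¹ := by
    rw [inv_inv, inv_of_ord J.ot, eq_inv_iff_mul_eq_one, mul_assoc, sq_of_ord ou]
  refine ⟨s ^ 5, pow_mem hs 5, ?_⟩
  calc _ = g ^ 5 * ((g ^ 5)⁻¹ * s ^ 5 * (g ^ 5)⁻¹⁻¹) * (s ^ 5)⁻¹ := by group
    _ = g ^ 5 * s * (s ^ 11)⁻¹ := by rw [← conj_pow, k1]; group
    _ = _ := by rw [H.geo.pow11 hs, inv_one, mul_one]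

theorem line (hδ : g ^ 5 • δ = δ) (h1 : δ ≠ α) :
    ∃ c ∈ C₁[g ^ 5] ⊓ C[A α], A (c⁻¹ • δ) ≤ X := by
  obtain ⟨c0, k1, k2⟩ := H.lin α δ h1.symm
  obtain ⟨c, hc, k3⟩ := H.qtr c0 α (pα H J e) k1
  rw [← k3] at k1 k2
  have k4 := inv_line H h1.symm (sq_of_ord J.ot) (.inl ⟨H.geo.t_fix J e, hδ⟩) (on_line H k1)
    (on_line H k2)
  obtain ⟨b, hb, k5⟩ := conj_t H J e k4 (by
    rw [← J.ot, ← orderOf_cj c⁻¹ (g ^ 5), inv_inv]) (by
    rw [mul_smul, mul_smul, H.geo.fix_of_cent hc, H.geo.t_fix J e, H.geo.fix_of_cent (inv_mem hc)])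
  refine ⟨c * b, ⟨mem_cent1_iff.2 (mul_inv_eq_iff_eq_mul.1 ?_), mul_mem hc (H.geo.le_cent α hb)⟩, ?_⟩
  · calc _ = c * (b * g ^ 5 * b⁻¹) * c⁻¹ := by group
      _ = _ := by rw [k5]; group
  · rw [mul_inv_rev, mul_smul]
    exact H.geo.smul_le' (inv_mem (pα H J e hb)) (on_line H k2)

theorem final (hF : ∀ δ : Ω, g ^ 5 • δ = δ → A δ ≤ X) : False := by
  obtain ⟨γ, hγ⟩ := H.out
  have h1 : γ ≠ g ^ 5 • γ := fun k => hγ (hF γ k.symm)
  obtain ⟨c, k1, k2⟩ := H.lin γ _ h1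
  have k3 := inv_line H h1 (sq_of_ord J.ot) (.inr rfl) (on_line H k1) (on_line H k2)
  obtain ⟨y, hy, k4⟩ := J.cls _ k3 (by rw [← J.ot, ← orderOf_cj c⁻¹ (g ^ 5), inv_inv])
  have k5 : g ^ 5 * (c * y) = c * y * g ^ 5 := by
    calc _ = c * (c⁻¹ * g ^ 5 * c) * y := by group
      _ = _ := by rw [← k4]; group
  have k6 : c * y ∈ N[X] := norm_of H (β_ne H J e) (pβ H J e) (pα H J e)
    (hF _ (by rw [smul_smul, k5, mul_smul, t_fixβ H J e]))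
    (hF _ (by rw [smul_smul, k5, mul_smul, H.geo.t_fix J e]))
  rw [conj_smul_of_norm ((mul_mem_cancel_right (le_norm_self _ hy)).1 k6)] at k1
  exact hγ k1

theorem K_le : C[X] ≤ C₁[g ^ 5] ⊓ C[A α] :=
  le_inf (cent_le_cent1 (pow_mem J.mg 5)) (cent_anti (pα H J e))

theorem mem_K (hc : c ∈ C₁[g ^ 5] ⊓ C[A α]) (hn : c ∈ N[X]) : c ∈ C[X] := by
  obtain ⟨b, hb, k, hk, rfl⟩ := H.geo.f2 (ln H) (pα H J e) hn hc.2
  rwa [H.geo.eq_one_of_comm hb (t_nc H J e) (mem_cent1_iff.1 ((mul_mem_cancel_right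
    (cent_le_cent1 (pow_mem J.mg 5) hk)).1 hc.1)), one_mul]

theorem ti (hc : c ∈ C₁[g ^ 5] ⊓ C[A α]) (hk : k ∈ C[X]) (hk' : c⁻¹ * k * c ∈ C[X]) (k1 : k ≠ 1) :
    c ∈ C[X] := by
  refine mem_K H J e hc (norm_of H (β_ne H J e) (pβ H J e) (pα H J e) (H.kfix k hk k1 _ ?_)
    (by rw [H.geo.fix_of_cent hc.2]; exact pα H J e))
  have := H.geo.fix_of_centX (pβ H J e) hk'
  rwa [mul_smul, mul_smul, inv_smul_eq_iff] at this

theorem fix_X : {γ | A γ ≤ X ∧ g ^ 5 • γ = γ}.ncard = 12 ∧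
    ∀ γ, A γ ≤ X → g ^ 5 • γ = γ → ∃ x ∈ C₁[g ^ 5], x • α = γ := by
  have k1 : ∀ γ, A γ ≤ X → g ^ 5 • γ = γ → ∃ x ∈ X, Commute x (g ^ 5) ∧ x • α = γ := by
    intro γ h1 h2
    obtain ⟨x, hx, rfl⟩ := H.geo.conj_in (ln H) (pα H J e) h1
    obtain ⟨b, hb, k⟩ := conj_t H J e (mul_mem (mul_mem (inv_mem hx) (pow_mem J.mg 5)) hx)
      (by rw [← J.ot, ← orderOf_cj x⁻¹ (g ^ 5), inv_inv]) (by rw [mul_smul, mul_smul, h2, inv_smul_smul])
    refine ⟨x * b, mul_mem hx (pα H J e hb), mul_inv_eq_iff_eq_mul.1 ?_,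
      by rw [mul_smul, H.geo.fix_of_mem hb]⟩
    calc _ = x * (b * g ^ 5 * b⁻¹) * x⁻¹ := by group
      _ = _ := by rw [k]; group
  refine ⟨?_, fun γ h1 h2 => let ⟨x, _, h3, h4⟩ := k1 γ h1 h2; ⟨x, mem_cent1_iff.2 h3, h4⟩⟩
  have k2 := ncard_orbit ι.range α
  have k3 : {β | ∃ x ∈ ι.range, x • α = β} = {γ | A γ ≤ X ∧ g ^ 5 • γ = γ} := by
    ext γ
    constructor
    · rintro ⟨_, ⟨c, rfl⟩, rfl⟩
      exact ⟨H.geo.smul_le' (J.mι c) (pα H J e), by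
        rw [smul_smul, (J.cι c).eq, mul_smul, H.geo.t_fix J e]⟩
    · rintro ⟨h1, h2⟩
      obtain ⟨x, hx, h3, rfl⟩ := k1 γ h1 h2
      obtain ⟨c, rfl | rfl⟩ := J.cent x hx h3
      · exact ⟨_, ⟨c, rfl⟩, rfl⟩
      · exact ⟨_, ⟨c, rfl⟩, by rw [(J.cι c).eq, mul_smul, H.geo.t_fix J e]⟩
  have k4 : Nat.card ι.range = 60 := by
    rw [← Nat.card_congr (MonoidHom.ofInjective J.inj).toEquiv, Small.card_alt5]
  have k5 : ι.range ⊓ stabilizer G α = zpowers (g ^ 2) := by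
    refine le_antisymm ?_ (zpowers_le_of_mem ⟨J.hι, h_fix H J e⟩)
    rintro _ ⟨⟨c, rfl⟩, hc⟩
    have c1 := comm_h H J e (mem_cent1_iff.2 (J.cι c).symm.eq) hc (le_norm_self _ (J.mι c))
    obtain ⟨d, hd⟩ := J.hι
    have key : ∀ d c : Equiv.Perm (Fin 5), d ^ 5 = 1 → d ≠ 1 → c * d = d * c →
        ∃ i < 5, c = d ^ i := by decide +kernel
    obtain ⟨i, -, hi⟩ := key d.1 c.1 (congrArg Subtype.val (J.inj (show ι (d ^ 5) = ι 1 by
        rw [map_pow, hd, pow5 J.oh, map_one])))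
      (fun k => ne_one_of_ord J.oh (by rw [← hd, show d = 1 from Subtype.ext k, map_one]))
      (congrArg Subtype.val (J.inj (show ι (c * d) = ι (d * c) by
        rw [map_mul, map_mul, hd]; exact mem_cent1_iff.1 c1)))
    rw [show c = d ^ i from Subtype.ext hi, map_pow, hd]
    exact pow_mem (mem_zpowers _) i
  rw [k3, k4, k5, Nat.card_zpowers, J.oh] at k2
  omega

end

end Cfsg.Agent.H4.O11J
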