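import Cfsg.Agent.H4.O11J3

/-! Piece `J` of S3403. -/

set_option autoImplicit false
set_option linter.unusedSectionVars false

namespace Cfsg.Agent.H4.O11J

open Subgroup MulAction Cfsg.Agent.H7 Cfsg.Agent.H9.O11
open MulAut (conj)
open scoped Pointwise

variable {G : Type*} [Group G] [Finite G] {X R : Subgroup G} {Ω : Type*} [MulAction G Ω]
  {A : Ω → Subgroup G} {α γ δ γ' : Ω} {a g w r u z c k s s' : G}
  {ι : alternatingGroup (Fin 5) →* G}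

theorem exists_ker {Q K : Subgroup G} (hK : K ≤ Q)
    (ti : ∀ c ∈ Q, ∀ k ∈ K, c⁻¹ * k * c ∈ K → k ≠ 1 → c ∈ K) :
    ∃ R : Subgroup G, (∀ c ∈ Q, ∃ s ∈ R, ∃ k ∈ K, s * k = c) ∧
      ∀ x, x ∈ R ↔ x ∈ Q ∧ (x = 1 ∨ ∀ c ∈ Q, c⁻¹ * x * c ∉ K) := by
  obtain ⟨R, hn, hR⟩ := H3.exists_frobeniusKernel_of_TI (K.subgroupOf Q) fun c hc x hx h =>
    Subtype.ext (by_contra fun k1 => hc (ti c c.2 x hx h k1))
  refine ⟨R.map Q.subtype, fun c hc => ?_, fun x => ⟨?_, fun ⟨h1, h2⟩ => ⟨⟨x, h1⟩, ?_, rfl⟩⟩⟩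
  · obtain ⟨s, hs, k, hk, e⟩ := mem_sup_of_normal_left.1
      (H3.frobKer_sup_eq_top hR ▸ mem_top (⟨c, hc⟩ : Q))
    exact ⟨s, ⟨s, hs, rfl⟩, k, hk, congrArg Subtype.val e⟩
  · rintro ⟨x, hx, rfl⟩
    exact ⟨x.2, ((H3.frobKer_mem_iff hR x).1 hx).imp (congrArg Subtype.val)
      fun h c hc => h ⟨c, hc⟩⟩
  · exact (H3.frobKer_mem_iff hR _).2 (h2.imp Subtype.ext fun h c => h c c.2)

/-- The Frobenius kernel. -/
structure Fr (A : Ω → Subgroup G) (X : Subgroup G) (α : Ω) (g : G) (R : Subgroup G) : Prop where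
  le : R ≤ C₁[g ^ 5] ⊓ C[A α]
  dec : ∀ c ∈ C₁[g ^ 5] ⊓ C[A α], ∃ s ∈ R, ∃ k ∈ C[X], s * k = c
  bot : ∀ s ∈ R, s ∈ N[X] → s = 1
  norm : ∀ z ∈ C₁[g ^ 5], z • α = α → z ∈ N[X] → ∀ s ∈ R, z * s * z⁻¹ ∈ R

variable (H : JC A X) (J : JR X a g w r ι) (e : A α = zpowers a)
include H J e

theorem exists_Fr : ∃ R, Fr A X α g R := by
  obtain ⟨R, h1, h2⟩ := exists_ker (K_le H J e) fun c hc k hk => ti H J e hc hk
  refine ⟨R, fun x hx => ((h2 x).1 hx).1, h1, fun s hs hn => ?_, fun z hz hα hn s hs => ?_⟩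
  · obtain ⟨h3, h4⟩ := (h2 s).1 hs
    exact h4.resolve_right fun k => k 1 (one_mem _) (by simpa using mem_K H J e h3 hn)
  · have hq : z ∈ N[C₁[g ^ 5] ⊓ C[A α]] := le_norm_inf (le_norm_cent1 (zpowers_le_of_mem hz))
      (le_norm_cent (zpowers_le_of_mem (H.geo.fix_iff.1 hα))) (mem_zpowers z)
    obtain ⟨h3, h4⟩ := (h2 s).1 hs
    refine (h2 _).2 ⟨conj_mem_of_norm hq h3, h4.imp (fun k => by simp [k]) fun k c hc h5 => ?_⟩
    refine k _ (conj_mem_of_norm' hq hc) ?_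
    have := conj_mem_of_norm' (norm_le_norm_cent X hn) h5
    rwa [show z⁻¹ * (c⁻¹ * (z * s * z⁻¹) * c) * z = (z⁻¹ * c * z)⁻¹ * s * (z⁻¹ * c * z) by group]
      at this

variable (F : Fr A X α g R)
include F

theorem R_fix (hs : s ∈ R) : s • α = α := H.geo.fix_of_cent (F.le hs).2

theorem R_t (hs : s ∈ R) (hγ : g ^ 5 • γ = γ) : g ^ 5 • s • γ = s • γ := by
  rw [smul_smul, ← mem_cent1_iff.1 (F.le hs).1, mul_smul, hγ]

theorem sur (hδ : g ^ 5 • δ = δ) (h1 : δ ≠ α) :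
    ∃ s ∈ R, ∃ γ, A γ ≤ X ∧ g ^ 5 • γ = γ ∧ γ ≠ α ∧ s • γ = δ := by
  obtain ⟨c, hc, h2⟩ := line H J e hδ h1
  obtain ⟨s, hs, k, hk, rfl⟩ := F.dec c hc
  refine ⟨s, hs, s⁻¹ • δ, ?_, R_t H J e F (inv_mem hs) hδ, fun h3 => h1 ?_, smul_inv_smul s δ⟩
  · have := H.geo.smul_le (cent_le_norm X hk) h2
    rwa [mul_inv_rev, mul_smul, smul_inv_smul] at this
  · rw [← smul_inv_smul s δ, h3, R_fix H J e F hs]

theorem inj (hs : s ∈ R) (hs' : s' ∈ R) (hγ : A γ ≤ X) (hγ' : A γ' ≤ X) (h1 : γ ≠ α)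
    (h2 : s • γ = s' • γ') : s = s' ∧ γ = γ' := by
  have h3 : s'⁻¹ * s = 1 := F.bot _ (mul_mem (inv_mem hs') hs) (norm_of H h1 hγ (pα H J e)
    (by rwa [mul_smul, h2, inv_smul_smul])
    (by rw [R_fix H J e F (mul_mem (inv_mem hs') hs)]; exact pα H J e))
  obtain rfl := inv_mul_eq_one.1 h3
  exact ⟨rfl, smul_left_cancel _ h2⟩

theorem R_free (hs : s ∈ R) (hδ : g ^ 5 • δ = δ) (h1 : δ ≠ α) (h2 : s • δ = δ) : s = 1 := by
  obtain ⟨s', hs', γ, h3, -, h4, rfl⟩ := sur H J e F hδ h1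
  rw [smul_smul] at h2
  exact mul_eq_right.1 (inj H J e F (mul_mem hs hs') hs' h3 h3 h4 h2).1

theorem card_F : {γ : Ω | g ^ 5 • γ = γ}.ncard = 11 * Nat.card R + 1 := by
  have := H.geo.finite
  have h1 : ({γ | A γ ≤ X ∧ g ^ 5 • γ = γ} \ {α}).ncard = 11 := by
    rw [Set.ncard_sdiff_singleton_of_mem (show α ∈ {γ | A γ ≤ X ∧ g ^ 5 • γ = γ} from
      ⟨pα H J e, H.geo.t_fix J e⟩), (fix_X H J e).1]
  have h2 : (({γ | A γ ≤ X ∧ g ^ 5 • γ = γ} \ {α}) ×ˢ (R : Set G)).ncard =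
      ({γ : Ω | g ^ 5 • γ = γ} \ {α}).ncard := by
    refine Set.ncard_congr (fun p _ => p.2 • p.1) ?_ ?_ ?_
    · rintro ⟨γ, s⟩ ⟨⟨h2, h3⟩, hs⟩
      exact ⟨R_t H J e F hs h2.2, fun k => h3 (smul_left_cancel s
        ((show s • γ = α from k).trans (R_fix H J e F hs).symm))⟩
    · rintro ⟨γ, s⟩ ⟨γ', s'⟩ ⟨⟨h2, h3⟩, hs⟩ ⟨⟨h2', -⟩, hs'⟩ k
      have := inj H J e F hs hs' h2.1 h2'.1 h3 k
      exact Prod.ext this.2 this.1
    · rintro δ ⟨h2, h3⟩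
      obtain ⟨s, hs, γ, k1, k2, k3, rfl⟩ := sur H J e F h2 h3
      exact ⟨(γ, s), ⟨⟨⟨k1, k2⟩, k3⟩, hs⟩, rfl⟩
  rw [Set.ncard_prod, h1, ← Nat.card_coe_set_eq (R : Set G)] at h2
  rw [← Set.ncard_sdiff_singleton_add_one (show α ∈ {γ : Ω | g ^ 5 • γ = γ} from H.geo.t_fix J e),
    ← h2]
  rfl

theorem D_R (hz : z ∈ C₁[g ^ 5] ⊓ C₁[g ^ 2]) (hs : s ∈ R) : z * s * z⁻¹ ∈ R :=
  F.norm z hz.1 (D_fix H J e hz) (D_norm H J e hz) s hs

theorem R_h (hs : s ∈ R) (hc : s ∈ C₁[g ^ 2]) : s = 1 :=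
  F.bot s hs (D_norm H J e ⟨(F.le hs).1, hc⟩)

theorem card_M : Nat.card C₁[g ^ 5] =
    Nat.card R * (11 * Nat.card R + 1) * Nat.card ↥(C₁[g ^ 5] ⊓ C₁[g ^ 2]) := by
  have h1 := ncard_orbit C₁[g ^ 5] α
  have h2 : {β | ∃ x ∈ C₁[g ^ 5], x • α = β} = {γ : Ω | g ^ 5 • γ = γ} := by
    ext δ
    constructor
    · rintro ⟨x, hx, rfl⟩
      show g ^ 5 • x • α = x • α
      rw [smul_smul, ← mem_cent1_iff.1 hx, mul_smul, H.geo.t_fix J e]
    · intro hδ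
      by_cases k : δ = α
      · exact ⟨1, one_mem _, by rw [k, one_smul]⟩
      obtain ⟨s, hs, γ, k1, k2, -, rfl⟩ := sur H J e F hδ k
      obtain ⟨x, hx, rfl⟩ := (fix_X H J e).2 γ k1 k2
      exact ⟨s * x, mul_mem (F.le hs).1 hx, mul_smul _ _ _⟩
  have hn : C₁[g ^ 5] ⊓ C₁[g ^ 2] ≤ N[R] := le_norm_of_conj fun z hz s hs => D_R H J e F hz hs
  have h3 : C₁[g ^ 5] ⊓ stabilizer G α = R ⊔ C₁[g ^ 5] ⊓ C₁[g ^ 2] := by
    refine le_antisymm (fun z hz => ?_) (sup_le (fun s hs => ⟨(F.le hs).1, R_fix H J e F hs⟩)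
      fun z hz => ⟨hz.1, D_fix H J e hz⟩)
    obtain ⟨s, hs, γ, k1, -, -, k2⟩ := sur H J e F (δ := z • w • α)
      (by rw [smul_smul, ← mem_cent1_iff.1 hz.1, mul_smul, t_fixβ H J e])
      fun k => β_ne H J e (smul_left_cancel z (k.trans hz.2.symm))
    have k3 : s⁻¹ * z ∈ C₁[g ^ 5] := mul_mem (inv_mem (F.le hs).1) hz.1
    have k4 : (s⁻¹ * z) • α = α := by rw [mul_smul, hz.2, R_fix H J e F (inv_mem hs)]
    have k5 := comm_h H J e k3 k4 (norm_of H (β_ne H J e) (pβ H J e) (pα H J e)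
      (by rwa [mul_smul, ← k2, inv_smul_smul]) (by rw [k4]; exact pα H J e))
    rw [← mul_inv_cancel_left s z]
    exact mul_mem_sup hs ⟨k3, k5⟩
  rw [h2, h3, card_F H J e F, card_sup_of_inf_eq_bot hn
    (inf_eq_bot_of_forall fun s hs k => R_h H J e F hs k.2)] at h1
  rw [← h1]; ring

omit F in
theorem hk_mem (hk : k ∈ C[X]) (i : ℕ) : (g ^ 2) ^ i * k ∈ C₁[g ^ 5] ⊓ C₁[g ^ 2] :=
  mul_mem (pow_mem (mem_inf.2 ⟨mem_cent1_iff.2 (Commute.pow_pow_self g 2 5), mem_cent1_self _⟩) i)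
    ⟨cent_le_cent1 (pow_mem J.mg 5) hk, cent_le_cent1 (pow_mem J.mg 2) hk⟩

theorem tr {i : ℕ} (hi : (g ^ 2) ^ i ≠ 1) (hk : k ∈ C[X]) (hδ : g ^ 5 • δ = δ)
    (hx : ((g ^ 2) ^ i * k) • δ = δ) (h1 : δ ≠ α) :
    ∃ s ∈ R, Commute s ((g ^ 2) ^ i * k) ∧ s • w • α = δ := by
  obtain ⟨s, hs, γ, k1, k2, k3, rfl⟩ := sur H J e F hδ h1
  have hD := hk_mem H J e hk i
  obtain ⟨k4, k5⟩ := inj H J e F hs (D_R H J e F hD hs) k1 (H.geo.smul_le (D_norm H J e hD) k1) k3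
    (by rw [mul_smul, mul_smul, inv_smul_smul, hx])
  rw [mul_smul, H.geo.fix_of_centX k1 hk] at k5
  have k6 : g ^ 2 • γ = γ := zpowers_le_of_mem (H := stabilizer G γ) k5.symm
    (zpowers_eq_of_card_prime (B := zpowers (g ^ 2)) (by rw [Nat.card_zpowers, J.oh]; norm_num)
      (pow_mem (mem_zpowers _) i) hi ▸ mem_zpowers _)
  exact ⟨s, hs, (mul_inv_eq_iff_eq_mul.1 k4.symm).symm,
    by rw [(fix_gen H J e k2 k6).resolve_left k3]⟩

theorem fpf {i : ℕ} (hk : k ∈ C[X]) (hs : s ∈ R) (hc : Commute s ((g ^ 2) ^ i * k)) :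
    (g ^ 2) ^ i * k = 1 ∨ s = 1 := by
  by_cases hi : (g ^ 2) ^ i = 1
  · rw [hi, one_mul] at hc ⊢
    refine or_iff_not_imp_left.2 fun k1 => F.bot s hs (cent_le_norm X (ti H J e (F.le hs) hk ?_ k1))
    rwa [mul_assoc, ← hc.eq, inv_mul_cancel_left]
  refine .inr (by_contra fun s1 => ?_)
  set x := (g ^ 2) ^ i * k with hx
  have hD : x ∈ _ := hk_mem H J e hk i
  have xα : x • α = α := D_fix H J e hD
  have xβ : x • w • α = w • α := by
    rw [hx, mul_smul, H.geo.fix_of_centX (pβ H J e) hk]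
    exact pow_mem (mem_stabilizer_iff.2 (h_fixβ H J e)) i
  have wt : w ∈ C₁[g ^ 5] := mem_cent1_iff.2 J.tw.symm
  have wx : w * x * w⁻¹ = (g ^ 2) ^ (4 * i) * k := by
    calc _ = w * (g ^ 2) ^ i * w⁻¹ * (w * k * w⁻¹) := by rw [hx]; group
      _ = ((g ^ 2) ^ 5)⁻¹ ^ i * ((g ^ 2) ^ (4 * i) * k) := by
        rw [← conj_pow, J.wh, comm_of_mem_cent hk J.mw]; group
      _ = _ := by rw [pow5 J.oh]; group
  have hi' : (g ^ 2) ^ (4 * i) ≠ 1 := by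
    rw [Ne]
    rw [← orderOf_dvd_iff_pow_eq_one, J.oh] at hi ⊢
    omega
  obtain ⟨s2, hs2, c2, k2⟩ := tr H J e F hi' hk (δ := w • s • w • α)
    (by rw [smul_smul, J.tw.eq, mul_smul, R_t H J e F hs (t_fixβ H J e)])
    (by rw [← wx, mul_smul, mul_smul, inv_smul_smul, smul_smul x, ← hc.eq, mul_smul, xβ])
    fun k => s1 (R_free H J e F hs (t_fixβ H J e) (β_ne H J e) (by
      have := congrArg (w • ·) k
      simpa only [ww J] using this))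
  have c3 : Commute ((w⁻¹ * s2 * w)⁻¹ * s) x := by
    refine Commute.mul_left (Commute.inv_left ?_) hc
    rw [← wx] at c2
    show _ = _
    calc _ = w⁻¹ * (s2 * (w * x * w⁻¹)) * w := by group
      _ = _ := by rw [c2.eq]; group
  have m3 : (w⁻¹ * s2 * w)⁻¹ * s ∈ C₁[g ^ 5] :=
    mul_mem (inv_mem (mul_mem (mul_mem (inv_mem wt) (F.le hs2).1) wt)) (F.le hs).1
  have e3 : ((w⁻¹ * s2 * w)⁻¹ * s) • w • α = α := by
    rw [mul_smul, inv_smul_eq_iff, mul_smul, mul_smul, k2, inv_smul_smul]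
  generalize (w⁻¹ * s2 * w)⁻¹ * s = c at c3 m3 e3
  obtain ⟨s4, hs4, c4, k4⟩ := tr H J e F hi hk (δ := c • α)
    (by rw [smul_smul, ← mem_cent1_iff.1 m3, mul_smul, H.geo.t_fix J e])
    (by rw [smul_smul, ← c3.eq, mul_smul, xα])
    fun k => β_ne H J e (smul_left_cancel c (e3.trans k.symm))
  have c5 : Commute (s4⁻¹ * c) x := c4.inv_left.mul_left c3
  have m5 : s4⁻¹ * c ∈ C₁[g ^ 5] := mul_mem (inv_mem (F.le hs4).1) m3
  have e5 : (s4⁻¹ * c) • α = w • α := by rw [mul_smul, ← k4, inv_smul_smul]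
  have e6 : (s4⁻¹ * c) • w • α = α := by rw [mul_smul, e3, R_fix H J e F (inv_mem hs4)]
  generalize s4⁻¹ * c = d at c5 m5 e5 e6
  have n1 : d ∈ N[X] := norm_of H (β_ne H J e) (pβ H J e) (pα H J e) (by rw [e6]; exact pα H J e)
    (by rw [e5]; exact pβ H J e)
  have c6 := mem_cent1_iff.1 (comm_h H J e (mul_mem wt m5) (by rw [mul_smul, e5, ww J])
    (mul_mem (le_norm_self _ J.mw) n1))
  have c7 : d * g ^ 2 * d⁻¹ = (g ^ 2)⁻¹ := by
    calc _ = w⁻¹ * (w * d * g ^ 2) * d⁻¹ := by group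
      _ = w * g ^ 2 * w⁻¹ := by rw [c6, inv_of_ord J.ow]; group
      _ = _ := J.wh
  have c8 := (split_eq (bot H) (pow_mem (inv_mem (pow_mem J.mg 2)) i) (pow_mem (pow_mem J.mg 2) i)
    (conj_mem_of_norm (norm_le_norm_cent X n1) hk) hk (by
      rw [← c7, conj_pow, ← hx, ← mul_inv_eq_iff_eq_mul.2 c5.eq, hx]; group)).1
  rw [inv_pow, inv_eq_iff_mul_eq_one, ← pow_add, ← orderOf_dvd_iff_pow_eq_one, J.oh] at c8
  rw [← orderOf_dvd_iff_pow_eq_one, J.oh] at hi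
  omega

theorem five (hR : R ≠ ⊥) : ¬ 5 ∣ Nat.card C[X] := fun h => by
  obtain ⟨y, hy, oy⟩ := exists_orderOf_eq_prime Nat.prime_five h
  have hm : ∀ x ∈ zpowers (g ^ 2) ⊔ C[X], ∃ i : ℕ, ∃ k ∈ C[X], (g ^ 2) ^ i * k = x := fun x hx => by
    obtain ⟨b, hb, k, hk, rfl⟩ := (mem_sup_of_norm' (le_norm_cent (le_norm_of_le
      (zpowers_le_of_mem (pow_mem J.mg 2))))).1 hx
    obtain ⟨i, rfl⟩ := exists_pow_of_mem hb
    exact ⟨i, k, hk, rfl⟩
  have := H3.mem_zpowers_of_fpf (H := zpowers (g ^ 2) ⊔ C[X]) (K := R)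
    (fun x hx s hs => by
      obtain ⟨i, k, hk, rfl⟩ := hm x hx
      exact D_R H J e F (hk_mem H J e hk i) hs)
    (fun x hx s hs c => by
      obtain ⟨i, k, hk, rfl⟩ := hm x hx
      exact fpf H J e F hk hs c.symm) hR Nat.prime_five (mem_sup_left (mem_zpowers _))
    (mem_sup_right hy) (ne_one_of_ord J.oh) (pow5 J.oh) (pow5 oy)
    (comm_of_mem_cent hy (pow_mem J.mg 2))
  exact ne_one_of_ord oy (bot H y (zpowers_le_of_mem (pow_mem J.mg 2) this) hy)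

theorem card_R : Nat.card R = 1 := by
  by_contra hR
  have hD : Nat.card ↥(C₁[g ^ 5] ⊓ C₁[g ^ 2]) ∣ 10 * Nat.card C[X] := by
    refine (card_dvd_of_le (D_le H J e)).trans ?_
    rw [← J.og, ← Nat.card_zpowers]
    exact card_sup_dvd (le_norm_zpowers (cent_le_cent1 J.mg))
  have h2 : ¬ 2 ∣ Nat.card R := fun h => by
    obtain ⟨s, hs, os⟩ := exists_orderOf_eq_prime Nat.prime_two h
    exact ne_one_of_ord os (inv_cent H (sq_of_ord os) (F.le hs).2)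
  have h5 : 5 ∣ Nat.card R - 1 := by
    rw [← J.oh, ← Nat.card_zpowers]
    refine H3.card_dvd_card_sub_one_of_fpf (fun x hx s hs => ?_) fun x hx s hs c => ?_ <;>
      obtain ⟨i, rfl⟩ := exists_pow_of_mem hx
    · simpa using D_R H J e F (hk_mem H J e (one_mem _) i) hs
    · simpa using fpf H J e F (i := i) (one_mem _) hs (by rw [mul_one]; exact c.symm)
  have hK : Nat.card C[X] ∣ Nat.card R - 1 :=
    H3.card_dvd_card_sub_one_of_fpf
      (fun x hx s hs => by simpa using D_R H J e F (hk_mem H J e hx 0) hs)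
      fun x hx s hs c => by simpa using fpf H J e F (i := 0) hx hs (by rw [pow_zero, one_mul]; exact c.symm)
  have q0 : 0 < Nat.card R := Nat.card_pos
  have wt : w ∈ C₁[g ^ 5] := mem_cent1_iff.2 J.tw.symm
  refine hR (dnk' (M := C₁[g ^ 5]) (Z := zpowers g) (h := g ^ 2) (w := w)
    (mem_cent1_iff.2 (Commute.pow_pow_self g 2 5)) wt (fun s hs => (F.le hs).1) J.oh
    (sq_of_ord J.ow) J.wh (fun z hz k => ?_) (fun v hv v2 k => ?_)
    (by rw [Nat.card_zpowers, J.og]) ?_ (card_M H J e F) (fun k => ?_) ?_ (fun s hs z hz c => ?_)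
    (by omega))
  · have o := J.oh
    rcases norm_h H J e hz (mem_norm_of_conj_smul_le (by
      rw [conj_smul_zpowers, k]; exact zpowers_le_of_mem (pow_mem (mem_zpowers _) 2))) with c | c
    · rw [c.2.eq, mul_inv_cancel_right, sq (g ^ 2), left_eq_mul] at k
      exact ne_one_of_ord o k
    · rw [c.2, inv_eq_iff_mul_eq_one, ← pow_succ', ← orderOf_dvd_iff_pow_eq_one, o] at k
      omega
  · have c : w * v ∈ C₁[g ^ 2] := mem_cent1_iff.2 (mul_inv_eq_iff_eq_mul.1 (by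
      calc _ = w * (v * g ^ 2 * v⁻¹) * w⁻¹ := by group
        _ = (w * g ^ 2 * w⁻¹)⁻¹ := by rw [k]; group
        _ = _ := by rw [J.wh, inv_inv]))
    have hv' := inv_mem' H ((mul_mem_cancel_left (le_norm_self _ J.mw)).1
      (D_norm H J e ⟨mul_mem wt hv, c⟩)) v2
    exact J.cent_g (mul_mem J.mw hv') (mem_cent1_iff.1 (mul_mem wt hv)) (mem_cent1_iff.1 c)
  · exact H9.isNilpotent_of_fpf Nat.prime_five (mem_norm_of_conj fun s hs => by
      simpa using D_R H J e F (hk_mem H J e (one_mem _) 1) hs) (pow5 J.oh)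
      fun s hs c => R_h H J e F hs (mem_cent1_iff.2 c)
  · have := k.trans hD
    have := five H J e F fun k => hR (by rw [k, card_bot])
    omega
  · refine Nat.Coprime.coprime_dvd_right hD (Nat.Coprime.mul_right ?_
      (H3.coprime_of_dvd_sub_one q0 hK))
    exact (Nat.prime_two.coprime_iff_not_dvd.2 h2).symm.mul_right (H3.coprime_of_dvd_sub_one q0 h5)
  · by_contra s1
    have m1 : z * w * z⁻¹ ∈ C₁[g ^ 5] := mul_mem (mul_mem hz wt) (inv_mem hz)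
    have o1 : orderOf (z * w * z⁻¹) = 2 := by rw [orderOf_cj, J.ow]
    have k1 : (z * w * z⁻¹) • α = α := by_contra fun k => s1 (R_free H J e F hs
      (by rw [smul_smul, ← mem_cent1_iff.1 m1, mul_smul, H.geo.t_fix J e]) k
      (by rw [smul_smul, c.eq, mul_smul, R_fix H J e F hs]))
    have k2 := inv_cent H (by
      rw [inv_of_ord J.ot, Commute.mul_mul_mul_comm (mem_cent1_iff.1 m1), sq_of_ord J.ot,
        sq_of_ord o1, one_mul]) (H.geo.mul_mem_cent k1 (H.geo.t_fix J e) (sq_of_ord o1)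
        (sq_of_ord J.ot) (fun k => ne_one_of_ord o1 (inv_cent H (sq_of_ord o1) k)) (t_nc H J e))
    have k3 : w = g ^ 5 := by
      calc w = z⁻¹ * (z * w * z⁻¹) * z := by group
        _ = _ := by rw [← inv_mul_eq_one.1 k2, mul_assoc, ← mem_cent1_iff.1 hz, inv_mul_cancel_left]
    exact w_nc J (k3 ▸ Commute.pow_pow_self g 5 2)

end Cfsg.Agent.H4.O11J

namespace Cfsg.Agent.H9.O11

open Cfsg.Agent.H4.O11J

theorem JC.false {G : Type*} [Group G] [Finite G] {X : Subgroup G} {Ω : Type*} [MulAction G Ω]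
    {A : Ω → Subgroup G} (H : JC A X) : False := by
  obtain ⟨α, hα⟩ := H.pt
  obtain ⟨a, g, w, r, ι, J, e⟩ := H.geo.jr_at H.jf hα
  obtain ⟨R, F⟩ := exists_Fr H J e
  refine final H J e fun δ hδ => ?_
  by_cases k : δ = α
  · rwa [k]
  obtain ⟨s, hs, γ, k1, -, -, rfl⟩ := sur H J e F hδ k
  rw [Subgroup.card_eq_one.1 (card_R H J e F), Subgroup.mem_bot] at hs
  rwa [hs, one_smul]

end Cfsg.Agent.H9.O11
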