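import Cfsg.Agent.H4.O11J4

/-! Piece `L2` of S3403: general lemmas. -/

set_option autoImplicit false
set_option linter.unusedSectionVars false

namespace Cfsg.Agent.H4.O11M

open Subgroup MulAction Cfsg.Agent.H7 Cfsg.Agent.H9.O11
open MulAut (conj)
open scoped Pointwise commutatorElement

variable {G : Type*} [Group G] [Finite G]

theorem transfer_sq {N T M : Subgroup G} {x : G} (hT : T ≤ N) (hN : ∀ g ∈ N, g ^ 2 ∈ ⁅N, N⁆)
    (hM : ⁅T, T⁆ ≤ M) (hx : x ∈ T)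
    (h : ∀ (k : ℕ), ∀ g ∈ N, g⁻¹ * x ^ k * g ∈ T → g⁻¹ * x ^ k * g * (x ^ k)⁻¹ ∈ M) :
    x ^ (T.relIndex N * 2) ∈ M := by
  let S := T.subgroupOf N
  let M' : Subgroup S := M.comap (N.subtype.comp S.subtype)
  have hM' : commutator S ≤ M' := commutator_le.2 fun a _ b _ => hM (comm_mem a.2 b.2)
  have : M'.Normal := ⟨fun n hn g => by
    simpa [commutatorElement_def] using
      mul_mem (hM' (commutator_mem_commutator (mem_top g) (mem_top n))) hn⟩
  let _ : CommGroup (S ⧸ M') :=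
    { mul_comm := (Normal.quotient_commutative_iff_commutator_le.2 hM').1.1 }
  let y : N := ⟨x, hT hx⟩
  have k : (QuotientGroup.mk' M').transfer y ^ 2 = 1 := by
    rw [← map_pow]
    refine Abelianization.commutator_subset_ker _ ?_
    have := hN x (hT hx)
    rw [← map_subtype_commutator] at this
    obtain ⟨z, hz, e⟩ := this
    rwa [show y ^ 2 = z from Subtype.ext e.symm]
  have : Fintype (Quotient (orbitRel (zpowers y) (N ⧸ S))) := Fintype.ofFinite _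
  rw [MonoidHom.transfer_eq_prod_quotient_orbitRel_zpowers_quot,
    Finset.prod_congr rfl (g := fun q => QuotientGroup.mk' M' ⟨y, hx⟩ ^
      Function.minimalPeriod (y • ·) q.out) fun q _ => by
      rw [← map_pow, ← mul_inv_eq_one, ← map_inv, ← map_mul]
      exact (QuotientGroup.eq_one_iff _).2 (h _ _ q.out.out.2
        (QuotientGroup.out_conj_pow_minimalPeriod_mem S y q.out)),
    Finset.prod_pow_eq_pow_sum, ← index_eq_sum_minimalPeriod S y, ← map_pow, ← map_pow,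
    ← pow_mul] at k
  exact (QuotientGroup.eq_one_iff (N := M') _).1 k

theorem not_dvd_relIndex {N T : Subgroup G} {y : G} {r : ℕ} (hr : r.Prime) (hT : T ≤ N)
    (hy : y ∈ T) (oy : y ^ r = 1) (ti : ∀ g ∈ N, g⁻¹ * y * g ∈ T → g ∈ T) : ¬ r ∣ T.relIndex N := by
  have := Fact.mk hr
  have h := ncard_modEq (G := N) (Ω := N ⧸ T.subgroupOf N) (x := ⟨y, hT hy⟩) (Subtype.ext oy)
    Set.finite_univ fun _ _ => Set.mem_univ _
  rw [Set.ncard_univ, show {s : N ⧸ T.subgroupOf N | s ∈ Set.univ ∧ (⟨y, hT hy⟩ : N) • s = s} =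
      {((1 : N) : N ⧸ T.subgroupOf N)} from ?_, Set.ncard_singleton] at h
  · intro k
    exact hr.one_lt.ne' (Nat.dvd_one.1 ((h.dvd_iff dvd_rfl).1 k))
  refine Set.eq_singleton_iff_unique_mem.2 ⟨⟨trivial, ?_⟩, fun s hs => ?_⟩
  · show ((⟨y, hT hy⟩ * 1 : N) : N ⧸ T.subgroupOf N) = _
    rw [eq_comm, QuotientGroup.eq]
    simpa [mem_subgroupOf] using hy
  · obtain ⟨g, rfl⟩ := QuotientGroup.mk_surjective s
    have h2 : ((⟨y, hT hy⟩ * g : N) : N ⧸ T.subgroupOf N) = g := hs.2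
    rw [eq_comm, QuotientGroup.eq, ← mul_assoc] at h2
    rw [eq_comm, QuotientGroup.eq]
    simpa [mem_subgroupOf] using ti g g.2 h2

theorem le_der {N T U M : Subgroup G} (hT : T ≤ N) (hU : U ≤ T) (hN : ∀ g ∈ N, g ^ 2 ∈ ⁅N, N⁆)
    (hM : ⁅T, T⁆ ≤ M) (odd : Odd (Nat.card U))
    (ti : ∀ y ∈ U, y ≠ 1 → ∀ g ∈ N, g⁻¹ * y * g ∈ T → g ∈ T) : U ≤ M := fun x hx => by
  refine mem_of_pow_mem_of_coprime (Nat.Coprime.mul_right (Nat.coprime_of_dvd fun r hr h1 => ?_)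
    (odd.of_dvd_nat (orderOf_dvd_card_of_mem hx)).coprime_two_right)
    (transfer_sq hT hN hM (hU hx) fun k g hg h => ?_)
  · have o := orderOf_pow_orderOf_div (orderOf_pos x).ne' h1
    exact not_dvd_relIndex hr hT (pow_mem (hU hx) _) (o ▸ pow_orderOf_eq_one _)
      (ti _ (pow_mem hx _) fun e => hr.ne_one (by rw [← o, e, orderOf_one]))
  · by_cases e : x ^ k = 1
    · simp [e]
    · simpa using hM (comm_mem (inv_mem (ti _ (pow_mem hx k) e g hg h)) (pow_mem (hU hx) k))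

theorem le_der_of_fpf {R N : Subgroup G} {h : G} (hR : R ≤ N) (hh : h ∈ N)
    (hn : ∀ s ∈ R, h * s * h⁻¹ ∈ R) (hf : ∀ s ∈ R, Commute s h → s = 1) : R ≤ ⁅N, N⁆ := by
  let φ : R →* R := ((conj h).toMonoidHom.comp R.subtype).codRestrict R fun s => hn s s.2
  have : MonoidHom.FixedPointFree φ := fun s e => Subtype.ext (hf s s.2
    (mul_inv_eq_iff_eq_mul.1 (congrArg Subtype.val e)).symm)
  intro s hs
  obtain ⟨s', e⟩ := this.commutatorMap_surjective ⟨s, hs⟩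
  have e' : (s' : G) / (h * s' * h⁻¹) = s := congrArg Subtype.val e
  rw [← e', div_eq_mul_inv, show (s' : G) * (h * s' * h⁻¹)⁻¹ = s' * h * (s' : G)⁻¹ * h⁻¹ by group]
  exact comm_mem (hR s'.2) hh

omit [Finite G] in
theorem sq_mem_der {N : Subgroup G} {S : Set G} (hN : N = Subgroup.closure S)
    (h : ∀ g ∈ S, g ^ 2 ∈ ⁅N, N⁆) : ∀ g ∈ N, g ^ 2 ∈ ⁅N, N⁆ := fun g hg => by
  have key : g ∈ N ∧ g ^ 2 ∈ ⁅N, N⁆ := by
    rw [hN] at hg
    induction hg using closure_induction with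
    | mem x hx => exact ⟨hN ▸ subset_closure hx, h x hx⟩
    | one => simp
    | mul a b _ _ ha hb =>
      refine ⟨mul_mem ha.1 hb.1, ?_⟩
      rw [show (a * b) ^ 2 = a ^ 2 * (a⁻¹ * b * a⁻¹⁻¹ * b⁻¹) * b ^ 2 by simp only [sq]; group]
      exact mul_mem (mul_mem ha.2 (comm_mem (inv_mem ha.1) hb.1)) hb.2
    | inv a _ ha => exact ⟨inv_mem ha.1, by rw [inv_pow]; exact inv_mem ha.2⟩
  exact key.2

variable {Ω : Type*} [MulAction G Ω]

theorem count_fix2 [Finite Ω] {α β : Ω} (h1 : β ≠ α)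
    (tr : ∀ γ, γ ≠ α → ∃ g : G, g • α = α ∧ g • β = γ) {U : Set G}
    (hU : ∀ g : G, ∀ u ∈ U, g * u * g⁻¹ ∈ U) {φ : ℕ}
    (hφ : ∀ u ∈ U, {γ : Ω | u • γ = γ}.ncard = φ + 1) :
    (Nat.card Ω - 1) * {u | u ∈ U ∧ u • α = α ∧ u • β = β}.ncard =
      φ * {u | u ∈ U ∧ u • α = α}.ncard := by
  classical
  have := Fintype.ofFinite G
  have := Fintype.ofFinite Ω
  have k : ∀ γ : Ω, γ ≠ α → {u | u ∈ U ∧ u • α = α ∧ u • γ = γ}.ncard =
      {u | u ∈ U ∧ u • α = α ∧ u • β = β}.ncard := fun γ hγ => by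
    obtain ⟨g, e, rfl⟩ := tr γ hγ
    have e' : g⁻¹ • α = α := inv_smul_eq_iff.2 e.symm
    symm
    refine Set.ncard_congr (fun u _ => g * u * g⁻¹) (fun u hu => ⟨hU g u hu.1, ?_, ?_⟩)
      (fun a b _ _ e => by simpa using e) fun u hu => ⟨g⁻¹ * u * g, ⟨by simpa using hU g⁻¹ u hu.1,
        by rw [mul_smul, mul_smul, e, hu.2.1, e'],
        by rw [mul_smul, mul_smul, hu.2.2, inv_smul_smul]⟩, by group⟩
    · rw [mul_smul, mul_smul, e', hu.2.1, e]
    · rw [mul_smul, mul_smul, inv_smul_smul, hu.2.2]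
  have e := Finset.sum_card_bipartiteAbove_eq_sum_card_bipartiteBelow
    (s := (Finset.univ.erase α : Finset Ω)) (t := {u | u ∈ U ∧ u • α = α}.toFinset)
    (fun β u => u • β = β)
  rw [Finset.sum_congr rfl (g := fun _ => {u | u ∈ U ∧ u • α = α ∧ u • β = β}.ncard) fun γ hγ => by
      rw [← k γ (Finset.mem_erase.1 hγ).1, ← Set.ncard_coe_finset]; congr 1; ext u
      simp [Finset.bipartiteAbove, and_assoc],
    Finset.sum_congr (s₁ := {u | u ∈ U ∧ u • α = α}.toFinset) rfl (g := fun _ => φ) fun u hu => by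
      obtain ⟨h2, h3⟩ := Set.mem_toFinset.1 hu
      have h4 := hφ u h2
      rw [← Set.ncard_sdiff_singleton_add_one (show α ∈ {γ : Ω | u • γ = γ} from h3)] at h4
      rw [← Nat.succ_injective h4, ← Set.ncard_coe_finset]; congr 1; ext u
      simp [Finset.bipartiteBelow, and_comm]] at e
  simpa [Set.ncard_eq_toFinset_card', mul_comm, Finset.card_erase_of_mem] using e

end Cfsg.Agent.H4.O11M
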