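import Cfsg.Agent.H4.O11M1

/-! Piece `L2` of S3403: outer involutions. -/

set_option autoImplicit false
set_option linter.unusedSectionVars false

namespace Cfsg.Agent.H4.O11M

open Subgroup MulAction Cfsg.Agent.H7 Cfsg.Agent.H9.O11
open MulAut (conj)
open scoped Pointwise

variable {G : Type*} [Group G] [Finite G] {X : Subgroup G} {Ω : Type*} [MulAction G Ω]
  {A : Ω → Subgroup G} {α β γ δ : Ω} {t h w u z c k g : G}

/-- The configuration of an outer involution. -/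
structure St (A : Ω → Subgroup G) (X : Subgroup G) (α β : Ω) (t h w : G) : Prop where
  ne : α ≠ β
  eX : A α ⊔ A β = X
  odd : Odd (Nat.card C[X])
  t2 : t * t = 1
  tα : t • α = α
  tβ : t • β = β
  tn : t ∉ C[A α]
  hX : h ∈ X
  oh : orderOf h = 5
  hα : h • α = α
  hβ : h • β = β
  wX : w ∈ X
  ow : orderOf w = 2
  wα : w • α = β
  wβ : w • β = α

theorem eq_one_of_odd {K : Subgroup G} (odd : Odd (Nat.card K)) (hk : k ∈ K) (h2 : k ^ 2 = 1) :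
    k = 1 :=
  orderOf_eq_one_iff.1 (Nat.eq_one_of_dvd_coprimes
    (odd.of_dvd_nat (orderOf_dvd_card_of_mem hk)).coprime_two_right dvd_rfl
    (orderOf_dvd_of_pow_eq_one h2))

variable (H : LC A)
include H

theorem exists_St (h1 : α ≠ β) (odd : Odd (Nat.card C[A α ⊔ A β]))
    (eps : ¬ N[A α ⊔ A β] ≤ (A α ⊔ A β) ⊔ C[A α ⊔ A β]) :
    ∃ t h w, St A (A α ⊔ A β) α β t h w := by
  have L := H.lr α β h1
  obtain ⟨z, hz, hz'⟩ := SetLike.not_le_iff_exists.1 eps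
  obtain ⟨x, hx, e1, e2⟩ := H.geo.L_two L le_sup_left le_sup_right (H.geo.smul_le hz le_sup_left)
    (H.geo.smul_le hz le_sup_right) h1 fun e => h1 (smul_left_cancel z e)
  have n1 : x⁻¹ * z ∈ N[A α ⊔ A β] := mul_mem (inv_mem (le_norm_self _ hx)) hz
  have f1 : x⁻¹ * z ∈ stabilizer G α := by rw [mem_stabilizer_iff, mul_smul, ← e1, inv_smul_smul]
  have f2 : x⁻¹ * z ∈ stabilizer G β := by rw [mem_stabilizer_iff, mul_smul, ← e2, inv_smul_smul]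
  have k1 : (x⁻¹ * z) ^ 5 ∉ C[A α] := fun k => hz' ((mul_mem_cancel_left (inv_mem
    (mem_sup_left hx))).1 (H.geo.mem_XK_of_five (.inl L) le_sup_left n1 f1 k))
  generalize x⁻¹ * z = y at n1 f1 f2 k1
  have k2 : (y ^ 5) ^ 2 ∈ C[A α] := by rw [← pow_mul]; exact H.geo.pow_ten f1
  have k3 := H.geo.f2' (.inl L) le_sup_left le_sup_right h1 (pow_mem (pow_mem n1 5) 2) k2
    (pow_mem (pow_mem f2 5) 2)
  obtain ⟨j, hj⟩ := odd.of_dvd_nat (orderOf_dvd_card_of_mem k3)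
  obtain ⟨h, hh, oh, e3, e4⟩ := H.geo.L_h L le_sup_left le_sup_right h1
  obtain ⟨w, hw, ow, e5, e6⟩ := H.geo.L_w L le_sup_left le_sup_right h1
  refine ⟨(y ^ 5) ^ (2 * j + 1), h, w, h1, rfl, odd, ?_, pow_mem (pow_mem f1 5) _,
    pow_mem (pow_mem f2 5) _, fun k => k1 ?_, hh, oh, e3, e4, hw, ow, e5, e6⟩
  · rw [← sq, ← pow_mul, mul_comm, pow_mul, ← hj, pow_orderOf_eq_one]
  · rwa [pow_succ, pow_mul, mul_mem_cancel_left (pow_mem k2 j)] at k

theorem odd_all (h1 : α ≠ β) (odd : Odd (Nat.card C[A α ⊔ A β])) (h2 : γ ≠ δ) :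
    Odd (Nat.card C[A γ ⊔ A δ]) := by
  obtain ⟨g, rfl, rfl⟩ := H.two α β γ δ h1 h2
  rwa [← H.geo.smul_sup, ← conj_smul_cent, card_conj_smul]

theorem inner (h1 : α ≠ β) (odd : Odd (Nat.card C[A α ⊔ A β]))
    (hu : u ∈ (A α ⊔ A β) ⊔ C[A α ⊔ A β]) (u2 : u * u = 1) : u ∈ A α ⊔ A β := by
  obtain ⟨x, hx, k, hk, rfl⟩ := mem_XK.1 hu
  rwa [eq_one_of_odd odd hk (split_pow (H.geo.bot (H.geo.ln h1) le_sup_left) hx hk
    (sq (x * k) ▸ u2)).2, mul_one]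

theorem sq_fix (h1 : α ≠ β) (odd : Odd (Nat.card C[A α ⊔ A β])) (h4 : g * g * (g * g) = 1)
    (hγ : (g * g) • γ = γ) : g * g ∈ C[A γ] := by
  by_cases e : g • γ = γ
  · obtain ⟨a, oa, k⟩ := H.geo.exists_gen γ
    rw [H.geo.fix_iff, k] at e
    rw [k, ← ch_eq_one oa (mul_mem e e), ch_mul oa e e]
    have k1 := ch_mul oa (mul_mem e e) (mul_mem e e)
    rw [h4, ch_one oa, ch_mul oa e e] at k1
    revert k1
    generalize ch a g = i
    revert i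
    decide
  · have h2 : γ ≠ g • γ := Ne.symm e
    have k := inner H h2 (odd_all H h1 odd h2) (H.geo.sq_mem (H.geo.ln h2) le_sup_left
      (H.geo.norm_sup' rfl (by rwa [smul_smul]))) h4
    by_cases e1 : g * g = 1
    · rw [e1]; exact one_mem _
    · exact absurd hγ (H.geo.L_fpf (H.lr _ _ h2) le_sup_left k (ord_two h4 e1))

variable (S : St A X α β t h w)
include S

theorem lr : LR X := S.eX ▸ H.lr α β S.ne

theorem pα : A α ≤ X := S.eX ▸ le_sup_left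

theorem pβ : A β ≤ X := S.eX ▸ le_sup_right

theorem bot : ∀ z ∈ X, z ∈ C[X] → z = 1 := H.geo.bot (.inl (lr H S)) (pα H S)

theorem kfix (hk : k ∈ C[X]) (k1 : k ≠ 1) (e : k • γ = γ) : A γ ≤ X :=
  S.eX ▸ H.kfix α β S.ne k (S.eX ▸ hk) k1 γ e

theorem hfix (e : h • γ = γ) : γ = α ∨ γ = β :=
  H.hfix α β S.ne h (S.eX ▸ S.hX) S.oh S.hα S.hβ γ e

theorem norm2 (e1 : z • α = α) (e2 : z • β = β) : z ∈ N[X] := S.eX ▸ H.geo.norm_sup e1 e2

theorem norm_of (e1 : A (z • α) ≤ X) (e2 : A (z • β) ≤ X) : z ∈ N[X] :=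
  mem_norm_of_conj_smul_le (by
    nth_rewrite 1 [← S.eX]
    rw [H.geo.smul_sup]; exact sup_le e1 e2)

theorem mem_K (hc : z ∈ C[A α]) (e : z • β = β) : z ∈ C[X] :=
  H.geo.f2' (.inl (lr H S)) (pα H S) (pβ H S) S.ne (norm2 H S (H.geo.fix_of_cent hc) e) hc e

theorem tN : t ∈ N[X] := norm2 H S S.tα S.tβ

theorem inner' (hu : u ∈ X ⊔ C[X]) (u2 : u * u = 1) : u ∈ X := by
  have := S.odd
  rw [← S.eX] at hu this ⊢
  exact inner H S.ne this hu u2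

theorem t_out : t ∉ X ⊔ C[X] := fun k => H.geo.L_fpf (lr H S) (pα H S) (inner' H S k S.t2)
  (ord_two S.t2 fun e => S.tn (e ▸ one_mem _)) S.tα

theorem t_fix (hγ : A γ ≤ X) (e : t • γ = γ) : γ = α ∨ γ = β :=
  H.geo.L_fix_two (lr H S) (pα H S) (pβ H S) hγ S.ne S.tn S.tα S.tβ e

theorem h_nc : h ∉ C[A α] :=
  H.geo.not_cent (.inl (lr H S)) (pα H S) S.hX (ne_one_of_ord S.oh) (by rw [S.oh]; omega)

theorem stab (hz : z ∈ X) (e1 : z • α = α) (e2 : z • β = β) : z ∈ zpowers h :=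
  H.geo.L_stab (lr H S) (pα H S) S.ne S.hX S.oh S.hα S.hβ hz e1 e2

omit H in
theorem ti : t⁻¹ = t := inv_eq_of_mul_eq_one_right S.t2

theorem th : Commute t h := by
  refine H.geo.commute_of_fix S.hα S.oh (h_nc H S) S.tα (mem_norm_of_conj_smul_le ?_)
  rw [conj_smul_zpowers]
  refine zpowers_le_of_mem (stab H S (conj_mem_of_norm (tN H S) S.hX) ?_ ?_) <;>
    simp only [mul_smul, ti S, S.tα, S.tβ, S.hα, S.hβ]

theorem wh : w * h * w⁻¹ = h⁻¹ :=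
  H.geo.L_swap (lr H S) (pα H S) S.ne S.hX S.oh S.hα S.hβ S.wX S.ow S.wα S.wβ

theorem tw : Commute t w := by
  obtain ⟨i, e⟩ := exists_pow_of_mem (stab H S (mul_mem S.wX (conj_mem_of_norm (tN H S) S.wX))
    (by simp only [mul_smul, ti S, S.tα, S.tβ, S.wα, S.wβ])
    (by simp only [mul_smul, ti S, S.tα, S.tβ, S.wα, S.wβ]))
  have e1 : t * w * t⁻¹ = w * h ^ i := by
    rw [← e, ← mul_assoc w w, sq_of_ord S.ow, one_mul]
  have c := (th H S).pow_right i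
  have e2 : h ^ i * h ^ i = 1 := by
    calc _ = w⁻¹ * (w * h ^ i * h ^ i) := by group
      _ = w⁻¹ * (t * w * t⁻¹ * (t * h ^ i * t⁻¹)) := by rw [← e1, c.eq, mul_inv_cancel_right]
      _ = w⁻¹ * (t * (w * h ^ i) * t⁻¹) := by group
      _ = w⁻¹ * (t * t * w * (t * t)⁻¹) := by rw [← e1]; group
      _ = 1 := by rw [S.t2]; group
  rw [← pow_add, ← orderOf_dvd_iff_pow_eq_one, S.oh] at e2
  rw [orderOf_dvd_iff_pow_eq_one.1 (show orderOf h ∣ i by rw [S.oh]; omega), mul_one] at e1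
  exact mul_inv_eq_iff_eq_mul.1 e1

theorem conjK (u2 : u * u = 1) (e1 : u • α = α) (e2 : u • β = β) (hn : u ∉ C[A α]) :
    ∃ k ∈ C[X], k * t * k⁻¹ = u := by
  have hk := mem_K H S (H.geo.mul_mem_cent e1 S.tα u2 S.t2 hn S.tn)
    (by rw [mul_smul, e2, ti S, S.tβ])
  obtain ⟨k, rfl⟩ : ∃ k, u = t * k := ⟨t⁻¹ * u, by group⟩
  rw [inv_mul_cancel_left] at hk
  obtain ⟨j, hj⟩ := S.odd.of_dvd_nat (orderOf_dvd_card_of_mem hk)
  have k1 : t⁻¹ * k * t⁻¹⁻¹ = k⁻¹ := by rw [inv_inv, ti S, eq_inv_iff_mul_eq_one, mul_assoc, u2]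
  refine ⟨k ^ j, pow_mem hk j, ?_⟩
  calc _ = t * (t⁻¹ * k ^ j * t⁻¹⁻¹) * (k ^ j)⁻¹ := by group
    _ = t * k * (k ^ (2 * j + 1))⁻¹ := by rw [← conj_pow, k1]; group
    _ = _ := by rw [← hj, pow_orderOf_eq_one, inv_one, mul_one]

theorem dec (e1 : z • α = α) (e2 : z • β = β) :
    ∃ i : ℕ, ∃ k ∈ C[X], z = h ^ i * k ∨ z = h ^ i * (t * k) := by
  have key : ∀ z : G, z • α = α → z • β = β → z ^ 5 ∈ C[A α] → ∃ i : ℕ, ∃ k ∈ C[X],
      z = h ^ i * k := fun z e1 e2 k => by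
    obtain ⟨i, hi⟩ := H.geo.exists_pow_five S.hα (pow5 S.oh) (h_nc H S) e1 k
    exact ⟨i, _, mem_K H S hi (mul_mem (inv_mem (pow_mem (mem_stabilizer_iff.2 S.hβ) i))
      (mem_stabilizer_iff.2 e2)), by group⟩
  by_cases k : z ^ 5 ∈ C[A α]
  · obtain ⟨i, k, hk, e⟩ := key z e1 e2 k
    exact ⟨i, k, hk, .inl e⟩
  obtain ⟨i, k, hk, e⟩ := key (t * z) (by rw [mul_smul, e1, S.tα]) (by rw [mul_smul, e2, S.tβ]) (by
    obtain ⟨a, oa, ea⟩ := H.geo.exists_gen α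
    have n1 := H.geo.fix_iff.1 e1
    have n2 := H.geo.fix_iff.1 S.tα
    have n3 := S.tn
    have n4 := H.geo.pow_ten e1
    rw [ea] at n1 n2 n3 n4 k ⊢
    rw [← ch_eq_one oa (pow_mem (mul_mem n2 n1) 5), ch_pow oa (mul_mem n2 n1), ch_mul oa n2 n1,
      mul_pow, ← ch_pow oa n1, inverts_of_sq oa n2 (S.t2 ▸ one_mem _) n3,
      inverts_of_sq oa (pow_mem n1 5) (by rwa [← pow_add]) k]
    decide)
  refine ⟨i, k, hk, .inr ?_⟩
  rw [← mul_assoc, ← ((th H S).pow_right i).eq, mul_assoc, ← e, ← mul_assoc, S.t2, one_mul]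

theorem U_nc (hu : IsConj t u) (e : u • γ = γ) : u ∉ C[A γ] := fun k => by
  obtain ⟨c, rfl⟩ := isConj_iff.1 hu
  exact S.tn (H.geo.fp (α := c⁻¹ • γ) (by simpa [mul_assoc] using H.geo.cent_smul k c⁻¹) S.tα)

theorem outer (hu : u ∈ N[X]) (u2 : u * u = 1) (hn : u ∉ X ⊔ C[X]) :
    ∃ γ δ, γ ≠ δ ∧ A γ ≤ X ∧ A δ ≤ X ∧ u • γ = γ ∧ u • δ = δ ∧ u ∉ C[A γ] := by
  have := H.geo.finite
  have : Fact (Nat.Prime 2) := ⟨Nat.prime_two⟩
  obtain ⟨γ, h1, h2⟩ : ∃ γ, A γ ≤ X ∧ u • γ = γ := by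
    by_contra! k
    exact hn (H.geo.L_outer (lr H S) (pα H S) hu u2 k)
  have k := ncard_modEq (p := 2) (x := u) (by rw [sq, u2]) {γ | A γ ≤ X}.toFinite
    fun s hs => H.geo.smul_le hu hs
  rw [(H.geo.card_pts_L (lr H S) (pα H S)).1] at k
  obtain ⟨δ, h3, h4⟩ : ∃ δ ∈ {s | s ∈ {γ | A γ ≤ X} ∧ u • s = s}, δ ≠ γ := by
    by_contra! c
    rw [show {s | s ∈ {γ | A γ ≤ X} ∧ u • s = s} = {γ} from
      Set.eq_singleton_iff_unique_mem.2 ⟨⟨h1, h2⟩, c⟩, Set.ncard_singleton] at k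
    exact absurd k (by decide)
  exact ⟨γ, δ, h4.symm, h1, h3.1, h2, h3.2,
    fun c => hn (H.geo.mem_XK_of_cent (.inl (lr H S)) h1 hu c)⟩

theorem outer_conj (hu : u ∈ N[X]) (u2 : u * u = 1) (hn : u ∉ X ⊔ C[X]) : IsConj t u := by
  obtain ⟨γ, δ, h1, h2, h3, h4, h5, h6⟩ := outer H S hu u2 hn
  obtain ⟨x, -, rfl, rfl⟩ := H.geo.L_two (lr H S) (pα H S) (pβ H S) h2 h3 S.ne h1
  obtain ⟨k, -, e⟩ := conjK H S (u := x⁻¹ * u * x) (by
      calc _ = x⁻¹ * (u * u) * x := by group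
        _ = 1 := by rw [u2]; group) (by rw [mul_smul, mul_smul, h4, inv_smul_smul])
    (by rw [mul_smul, mul_smul, h5, inv_smul_smul])
    fun c => h6 (by simpa [mul_assoc] using H.geo.cent_smul c x)
  refine isConj_iff.2 ⟨x * k, ?_⟩
  calc _ = x * (k * t * k⁻¹) * x⁻¹ := by group
    _ = _ := by rw [e]; group

theorem exists_sq : ∃ z : G, z * z ∈ X ∧ orderOf (z * z) = 2 := by
  classical
  have L := lr H S
  obtain ⟨v, hv, ov, c, vw⟩ : ∃ v ∈ X, orderOf v = 2 ∧ Commute w v ∧ v ≠ w := by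
    obtain ⟨x, hx, ox, s, hs, h7⟩ := L.seven
    obtain ⟨y, hy, e⟩ := H.geo.L_conj_inv L (pα H S) hx ox S.wX S.ow
    obtain ⟨v, h1, h2⟩ := Finset.exists_mem_ne (s := s) (by omega) x
    obtain ⟨h3, h4, h5⟩ := h7 v h1
    exact ⟨y * v * y⁻¹, mul_mem (mul_mem hy h3) (inv_mem hy), by rw [orderOf_cj, h4],
      e ▸ h5.map (conj y), fun k => h2 (by simpa [← e] using k)⟩
  have hy : t * v * (t * v) ∈ X := by
    have := mul_mem (conj_mem_of_norm (tN H S) hv) hv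
    rwa [ti S, mul_assoc (t * v)] at this
  have cz : Commute w (t * v) := (tw H S).symm.mul_right c
  have o6 : (t * v * (t * v)) ^ 6 = 1 := by
    have o1 := L.ord _ hy
    have o2 := L.ord _ (mul_mem S.wX hy)
    rw [← orderOf_dvd_iff_pow_eq_one]
    simp only [List.mem_cons, List.not_mem_nil, or_false] at o1 o2
    by_cases k : orderOf (t * v * (t * v)) = 5 ∨ orderOf (t * v * (t * v)) = 11
    · rw [(cz.mul_right cz).orderOf_mul_eq_mul_orderOf_of_coprime (by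
        rcases k with e | e <;> rw [S.ow, e] <;> norm_num), S.ow] at o2
      omega
    · generalize orderOf (t * v * (t * v)) = n at o1 k
      rcases o1 with rfl | rfl | rfl | rfl | rfl | rfl <;> simp at k ⊢
  have e3 : (t * v) ^ 3 * (t * v) ^ 3 = (t * v * (t * v)) ^ 3 := by
    rw [← (Commute.refl (t * v)).mul_pow]
  by_cases o3 : (t * v * (t * v)) ^ 3 = 1
  swap
  · exact ⟨(t * v) ^ 3, e3 ▸ pow_mem hy 3, e3 ▸ ord_two (by rw [← pow_add, o6]) o3⟩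
  exfalso
  have zN : t * v ∈ N[X] := mul_mem (tN H S) (le_norm_self _ hv)
  obtain ⟨γ, δ, h1, h2, h3, h4, h5, h6⟩ := outer H S (pow_mem zN 3) (e3.trans o3) fun k =>
    t_out H S (by
      rw [show (t * v) ^ 3 = t * (v * (t * v * (t * v))) by simp only [pow_succ]; group] at k
      exact (mul_mem_cancel_right (mem_sup_left (mul_mem hv hy))).1 k)
  have f : ∀ ε, A ε ≤ X → (t * v) ^ 3 • ε = ε → (t * v) • ε = γ ∨ (t * v) • ε = δ := fun ε a b =>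
    H.geo.L_fix_two L h2 h3 (H.geo.smul_le zN a) h1 h6 h4 h5 (by
      rw [smul_smul, ← pow_succ, pow_succ', mul_smul, b])
  have f2 : (t * v * (t * v)) • γ = γ := by
    rw [mul_smul]
    rcases f γ h2 h4 with e | e
    · rw [e, e]
    · rw [e]
      exact (f δ h3 h5).resolve_right fun e' => h1 (smul_left_cancel _ (e.trans e'.symm))
  have o55 := orderOf_dvd_card_of_mem (A := X ⊓ N[A γ]) ⟨hy, H.geo.fix_iff.1 f2⟩
  rw [(H.geo.card_pts_L L h2).2] at o55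
  have o1 : t * v * (t * v) = 1 := orderOf_eq_one_iff.1 (Nat.eq_one_of_dvd_coprimes
    (by norm_num) o55 (orderOf_dvd_of_pow_eq_one o3))
  have tv : t * v = v * t := by
    rw [eq_inv_of_mul_eq_one_left o1, mul_inv_rev, ti S, inv_of_ord ov]
  have vα : v • α = β := (t_fix H S (H.geo.smul_le' hv (pα H S)) (by
    rw [smul_smul, tv, mul_smul, S.tα])).resolve_left (H.geo.L_fpf L (pα H S) hv ov)
  refine H.geo.L_fpf L (pα H S) (mul_mem S.wX hv) (ord_two ?_ fun k => vw ?_)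
    (by rw [mul_smul, vα, S.wβ])
  · rw [c.symm.mul_mul_mul_comm, sq_of_ord S.ow, sq_of_ord ov, one_mul]
  · rw [← inv_of_ord S.ow]; exact eq_inv_of_mul_eq_one_right k

theorem U_out (hu : IsConj t u) : u ∉ X := fun k => by
  obtain ⟨z, hz, oz⟩ := exists_sq H S
  obtain ⟨c, rfl⟩ := isConj_iff.1 hu
  have o : orderOf (c * t * c⁻¹) = 2 := by
    rw [orderOf_cj]; exact ord_two S.t2 fun e => S.tn (e ▸ one_mem _)
  obtain ⟨y, -, e⟩ := H.geo.L_conj_inv (lr H S) (pα H S) hz oz k o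
  have e1 : y * z * y⁻¹ * (y * z * y⁻¹) = c * t * c⁻¹ := by rw [← e]; group
  have e2 : (c * t * c⁻¹) • c • α = c • α := by rw [mul_smul, mul_smul, inv_smul_smul, S.tα]
  exact U_nc H S hu e2 (e1 ▸ sq_fix H S.ne (S.eX ▸ S.odd) (by rw [e1, sq_of_ord o]) (e1 ▸ e2))

end Cfsg.Agent.H4.O11M
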