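import Cfsg.Agent.H4.O11M2
import Cfsg.Agent.H9.O11Z5

/-! Piece `L2` of S3403. -/

set_option autoImplicit false
set_option linter.unusedSectionVars false

namespace Cfsg.Agent.H4.O11M

open Subgroup MulAction Cfsg.Agent.H7 Cfsg.Agent.H9.O11
open MulAut (conj)
open scoped Pointwise

variable {G : Type*} [Group G] [Finite G] {X R : Subgroup G} {Ω : Type*} [MulAction G Ω]
  {A : Ω → Subgroup G} {α β γ δ : Ω} {t h w u z c k g s : G}

/-- The Frobenius kernel. -/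
structure Fr (A : Ω → Subgroup G) (X : Subgroup G) (α β : Ω) (t : G) (R : Subgroup G) : Prop where
  le : R ≤ C₁[t] ⊓ C[A α]
  tr : ∀ δ, t • δ = δ → δ ≠ α → ∃ s ∈ R, s • β = δ
  bot : ∀ s ∈ R, s ∈ N[X] → s = 1
  norm : ∀ z ∈ C₁[t], z • α = α → z • β = β → ∀ s ∈ R, z * s * z⁻¹ ∈ R

variable (H : LC A) (S : St A X α β t h w)
include H S

theorem pair (hz : z ∈ C₁[t]) (hn : z ∈ N[X]) (hα : z • α = α) : z • β = β :=
  (t_fix H S (H.geo.smul_le hn (pβ H S)) (by
    rw [smul_smul, ← mem_cent1_iff.1 hz, mul_smul, S.tβ])).resolve_left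
    fun e => S.ne (smul_left_cancel z (hα.trans e.symm))

theorem exists_Fr : ∃ R, Fr A X α β t R := by
  have hK : ∀ c ∈ C₁[t] ⊓ C[A α], c ∈ N[X] → c ∈ C₁[t] ⊓ C[X] := fun c hc hn =>
    ⟨hc.1, mem_K H S hc.2 (pair H S hc.1 hn (H.geo.fix_of_cent hc.2))⟩
  obtain ⟨R, h1, h2⟩ := O11J.exists_ker (Q := C₁[t] ⊓ C[A α]) (K := C₁[t] ⊓ C[X])
    (inf_le_inf_left _ (cent_anti (pα H S))) fun c hc k hk hk' k1 => hK c hc
      (S.eX ▸ H.norm_of_K S.ne (S.eX ▸ hk.2) k1 (S.eX ▸ hk'.2))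
  refine ⟨R, fun x hx => ((h2 x).1 hx).1, fun δ hδ hα => ?_, fun s hs hn => ?_,
    fun z hz hα hβ s hs => ?_⟩
  · obtain ⟨c, hc, e⟩ := H.qtr α β δ S.ne.symm hα
    rw [S.eX] at e
    obtain ⟨b, hb, e2⟩ := H.geo.L_trans (lr H S) (pα H S) (pβ H S) (γ := c⁻¹ • δ)
      ((H.geo.smul_le_smul (g := c)).1 (by rw [smul_inv_smul, e]; exact le_sup_right)) S.ne.symm
      fun k => hα (by rw [← smul_inv_smul c δ, k, H.geo.fix_of_cent hc])
    have m1 : c * b ∈ C[A α] := mul_mem hc (H.geo.le_cent α hb)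
    have e3 : (c * b) • β = δ := by rw [mul_smul, e2, smul_inv_smul]
    generalize c * b = d at m1 e3
    have e4 := H.geo.fix_of_cent m1
    obtain ⟨k, hk, e5⟩ := conjK H S (u := d⁻¹ * t * d) (by
        calc _ = d⁻¹ * (t * t) * d := by group
          _ = 1 := by rw [S.t2]; group)
      (by rw [mul_smul, mul_smul, e4, S.tα, inv_smul_eq_iff, e4])
      (by rw [mul_smul, mul_smul, e3, hδ, inv_smul_eq_iff, e3])
      fun k => S.tn (by simpa [mul_assoc] using mul_mem (mul_mem m1 k) (inv_mem m1))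
    obtain ⟨s, hs, k', hk', e6⟩ := h1 (d * k) ⟨mem_cent1_iff.2 (mul_inv_eq_iff_eq_mul.1 (by
      calc _ = d * (k * t * k⁻¹) * d⁻¹ := by group
        _ = _ := by rw [e5]; group)), mul_mem m1 (cent_anti (pα H S) hk)⟩
    refine ⟨s, hs, ?_⟩
    rw [← H.geo.fix_of_centX (pβ H S) hk'.2, smul_smul, e6, mul_smul,
      H.geo.fix_of_centX (pβ H S) hk, e3]
  · obtain ⟨h3, h4⟩ := (h2 s).1 hs
    exact h4.resolve_right fun k => k 1 (one_mem _) (by simpa using hK s h3 hn)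
  · have hz' := le_norm_cent1 (zpowers_le_of_mem hz)
    have hq : z ∈ N[C₁[t] ⊓ C[A α]] := le_norm_inf hz'
      (le_norm_cent (zpowers_le_of_mem (H.geo.fix_iff.1 hα))) (mem_zpowers z)
    have hq' : z ∈ N[C₁[t] ⊓ C[X]] := le_norm_inf hz'
      (le_norm_cent (zpowers_le_of_mem (norm2 H S hα hβ))) (mem_zpowers z)
    obtain ⟨h3, h4⟩ := (h2 s).1 hs
    refine (h2 _).2 ⟨conj_mem_of_norm hq h3, h4.imp (fun k => by simp [k]) fun k c hc h5 => ?_⟩
    refine k _ (conj_mem_of_norm' hq hc) ?_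
    have := conj_mem_of_norm' hq' h5
    rwa [show z⁻¹ * (c⁻¹ * (z * s * z⁻¹) * c) * z = (z⁻¹ * c * z)⁻¹ * s * (z⁻¹ * c * z) by group]
      at this

theorem count {q : ℕ} (hq : {γ : Ω | t • γ = γ}.ncard = q + 1) :
    Nat.card Ω = (q + 1) * (5 * q + 1) := by
  have := H.geo.finite
  have hU : ∀ g : G, ∀ u ∈ {u | IsConj t u}, g * u * g⁻¹ ∈ {u | IsConj t u} := fun g u hu =>
    IsConj.trans hu (isConj_iff.2 ⟨g, rfl⟩)
  have hφ : ∀ u ∈ {u | IsConj t u}, {γ : Ω | u • γ = γ}.ncard = q + 1 := fun u hu => by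
    obtain ⟨c, rfl⟩ := isConj_iff.1 hu
    rw [← hq]
    symm
    refine Set.ncard_congr (fun γ _ => c • γ) (fun γ hγ => ?_)
      (fun _ _ _ _ e => smul_left_cancel c e) fun γ hγ => ⟨c⁻¹ • γ, ?_, smul_inv_smul c γ⟩
    · show _ = _
      rw [mul_smul, mul_smul, inv_smul_smul, hγ]
    · have : (c * t * c⁻¹) • γ = γ := hγ
      show _ = _
      rwa [mul_smul, mul_smul, ← eq_inv_smul_iff] at this
  have u2 : ∀ u, IsConj t u → u * u = 1 := fun u hu => by
    obtain ⟨c, rfl⟩ := isConj_iff.1 hu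
    rw [_root_.conj_mul, S.t2]; simp
  have k1 := count_fix H.geo.trans hU hφ α
  have k2 := count_fix2 S.ne.symm (fun γ hγ => H.trans2 S.ne.symm hγ) hU hφ
  have wi : ∀ x ∈ zpowers h, w * x * (w * x) = 1 ∧ Commute (w * x) t := fun x hx => by
    obtain ⟨i, rfl⟩ := exists_pow_of_mem hx
    refine ⟨?_, (tw H S).symm.mul_left ((th H S).symm.pow_left i)⟩
    calc _ = w * h ^ i * w⁻¹ * h ^ i := by rw [inv_of_ord S.ow]; group
      _ = 1 := by rw [← conj_pow, wh H S]; group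
  have mX : ∀ x ∈ zpowers h, w * x ∈ X := fun x hx => mul_mem S.wX (zpowers_le_of_mem S.hX hx)
  have k3 : ((zpowers h : Set G) ×ˢ {u | u ∈ {u | IsConj t u} ∧ u • α = α ∧ u • β = β}).ncard =
      {u | u ∈ {u | IsConj t u} ∧ u • α = β}.ncard := by
    refine Set.ncard_congr (fun p _ => w * p.1 * p.2) ?_ ?_ ?_
    · rintro ⟨x, u⟩ ⟨hx, hu, e1, e2⟩
      obtain ⟨k, hk, rfl⟩ := conjK H S (u2 u hu) e1 e2 (U_nc H S hu e1)
      have c := commute_of_mem_cent hk (mX x hx)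
      refine ⟨outer_conj H S (mul_mem (le_norm_self _ (mX x hx)) (norm2 H S e1 e2)) ?_ fun m => ?_,
        ?_⟩
      · rw [(((c.mul_right (wi x hx).2).mul_right c.inv_right).symm).mul_mul_mul_comm, (wi x hx).1,
          u2 _ hu, one_mul]
      · have m2 := (mul_mem_cancel_left (mem_sup_left (mX x hx))).1 m
        exact t_out H S ((mul_mem_cancel_left (mem_sup_right hk)).1
          ((mul_mem_cancel_right (inv_mem (mem_sup_right hk))).1 m2))
      · show (w * x * (k * t * k⁻¹)) • α = β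
        rw [mul_smul, e1, mul_smul, zpowers_le_of_mem (H := stabilizer G α) S.hα hx, S.wα]
    · rintro ⟨x, u⟩ ⟨x', u'⟩ ⟨hx, hu, e1, e2⟩ ⟨hx', hu', e1', e2'⟩ e
      have m := mem_K H S (H.geo.mul_mem_cent (t := u'⁻¹) (t' := u⁻¹) (inv_smul_eq_iff.2 e1'.symm)
        (inv_smul_eq_iff.2 e1.symm) (by rw [← mul_inv_rev, u2 _ hu', inv_one])
        (by rw [← mul_inv_rev, u2 _ hu, inv_one]) (fun k => U_nc H S hu' e1' (inv_mem_iff.1 k))
        fun k => U_nc H S hu e1 (inv_mem_iff.1 k))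
        (by rw [inv_inv, mul_smul, inv_smul_eq_iff.2 e2'.symm, e2])
      have := split_eq (bot H S) (mX x hx) (mX x' hx') m (one_mem _) (by
        rw [inv_inv, ← mul_assoc, e]; group)
      exact Prod.ext (mul_left_cancel this.1) (by simpa [mul_inv_eq_one] using this.2)
    · rintro u ⟨hu, e1⟩
      have e2 : u • β = α := by rw [← e1, smul_smul, u2 u hu, one_smul]
      obtain ⟨i, k, hk, e | e⟩ := dec H S (z := w * u) (by rw [mul_smul, e1, S.wβ])
        (by rw [mul_smul, e2, S.wα])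
      · refine absurd (inner' H S ((mul_mem_cancel_left (mem_sup_left S.wX)).1 ?_) (u2 u hu))
          (U_out H S hu)
        rw [e]
        exact mul_mem_sup (pow_mem S.hX i) hk
      have hx : h ^ i ∈ zpowers h := pow_mem (mem_zpowers h) i
      have e3 : w * h ^ i * (t * k) = u := by
        rw [mul_assoc, ← e, ← mul_assoc, sq_of_ord S.ow, one_mul]
      have e4 : t * k * (t * k) = 1 := by
        have := u2 u hu
        rwa [← e3, (((wi _ hx).2.mul_right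
          (commute_of_mem_cent hk (mX _ hx))).symm).mul_mul_mul_comm, (wi _ hx).1, one_mul] at this
      have e5 : (t * k) • α = α := by rw [mul_smul, H.geo.fix_of_centX (pα H S) hk, S.tα]
      have e6 : (t * k) • β = β := by rw [mul_smul, H.geo.fix_of_centX (pβ H S) hk, S.tβ]
      obtain ⟨k', -, e7⟩ := conjK H S e4 e5 e6 fun m =>
        S.tn ((mul_mem_cancel_right (cent_anti (pα H S) hk)).1 m)
      exact ⟨(h ^ i, t * k), ⟨hx, isConj_iff.2 ⟨k', e7⟩, e5, e6⟩, e3⟩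
  rw [Set.ncard_prod, ← Nat.card_coe_set_eq (zpowers h : Set G), SetLike.coe_sort_coe,
    Nat.card_zpowers, S.oh] at k3
  have k4 := count_move (U := {u | IsConj t u}) α (s := _) fun γ hγ => by
    obtain ⟨g, e, rfl⟩ := H.trans2 S.ne.symm hγ
    have e' : g⁻¹ • α = α := inv_smul_eq_iff.2 e.symm
    refine Eq.trans (Eq.symm ?_) k3.symm
    refine Set.ncard_congr (fun u _ => g * u * g⁻¹) (fun u hu => ⟨hU g u hu.1, ?_⟩)
      (fun a b _ _ e => by simpa using e) fun u hu => ⟨g⁻¹ * u * g, ⟨by simpa using hU g⁻¹ u hu.1,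
        by rw [mul_smul, mul_smul, e, hu.2, inv_smul_smul]⟩, by group⟩
    rw [mul_smul, mul_smul, e', hu.2]
  have f0 : 0 < {u | u ∈ {u | IsConj t u} ∧ u • α = α}.ncard :=
    (Set.ncard_pos (Set.toFinite _)).2 ⟨t, IsConj.refl t, S.tα⟩
  refine Nat.eq_of_mul_eq_mul_right f0 ?_
  rw [k1, k4, mul_left_comm (Nat.card Ω - 1), k2]
  ring

variable (F : Fr A X α β t R)
include F

theorem R_fix (hs : s ∈ R) : s • α = α := H.geo.fix_of_cent (F.le hs).2

theorem R_free (hs : s ∈ R) (e : s • β = β) : s = 1 := F.bot s hs (norm2 H S (R_fix H S F hs) e)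

theorem R_ne (hs : s ∈ R) : s • β ≠ α := fun e =>
  S.ne (smul_left_cancel s ((R_fix H S F hs).trans e.symm))

omit H F in
theorem fixF (hz : z ∈ C₁[t]) (e : t • γ = γ) : t • z • γ = z • γ := by
  rw [smul_smul, ← mem_cent1_iff.1 hz, mul_smul, e]

theorem card_F : {γ : Ω | t • γ = γ}.ncard = Nat.card R + 1 := by
  have := H.geo.finite
  rw [← Set.ncard_sdiff_singleton_add_one (show α ∈ {γ : Ω | t • γ = γ} from S.tα),
    ← SetLike.coe_sort_coe, Nat.card_coe_set_eq]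
  congr 1
  symm
  refine Set.ncard_congr (fun s _ => s • β) (fun s hs => ⟨fixF S (F.le hs).1 S.tβ, R_ne H S F hs⟩)
    (fun s s' hs hs' e => ?_) fun δ hδ => let ⟨s, hs, e⟩ := F.tr δ hδ.1 hδ.2; ⟨s, hs, e⟩
  exact (inv_mul_eq_one.1 (R_free H S F (mul_mem (inv_mem hs') hs)
    (by rw [mul_smul, e, inv_smul_smul]))).symm

theorem comm_free (hs : s ∈ R) (hz : z • β = β) (c : Commute s z)
    (hf : ∀ γ, t • γ = γ → z • γ = γ → γ = α ∨ γ = β) : s = 1 :=
  R_free H S F hs ((hf _ (fixF S (F.le hs).1 S.tβ) (by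
    rw [smul_smul, ← c.eq, mul_smul, hz])).resolve_left (R_ne H S F hs))

theorem twelve (hR : R ≠ ⊥) : Nat.card R = 11 := by
  have := H.geo.finite
  have ht : h ∈ C₁[t] := mem_cent1_iff.2 (th H S).symm
  have wt : w ∈ C₁[t] := mem_cent1_iff.2 (tw H S).symm
  let N : Subgroup G := Subgroup.closure ((R : Set G) ∪ {h, w, t})
  have RN : R ≤ N := fun s hs => subset_closure (.inl hs)
  have hN : h ∈ N := subset_closure (by simp)
  have wN : w ∈ N := subset_closure (by simp)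
  have tN' : t ∈ N := subset_closure (by simp)
  have Nt : N ≤ C₁[t] := (closure_le _).2 (by
    rintro x (hx | rfl | rfl | rfl)
    exacts [(F.le hx).1, ht, wt, mem_cent1_self _])
  have hd : ∀ z ∈ N, z • α = α → z • β = β →
      ∃ i : ℕ, ∃ k ∈ N ⊓ C[X], z = h ^ i * k ∨ z = h ^ i * (t * k) := fun z hz e1 e2 => by
    obtain ⟨i, k, hk, e⟩ := dec H S e1 e2
    refine ⟨i, k, ⟨?_, hk⟩, e⟩
    rcases e with rfl | rfl
    · exact (mul_mem_cancel_left (pow_mem hN i)).1 hz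
    · exact (mul_mem_cancel_left tN').1 ((mul_mem_cancel_left (pow_mem hN i)).1 hz)
  have sw : ∀ z ∈ N ⊓ N[X], (z • α = α ∧ z • β = β) ∨ ((w * z) • α = α ∧ (w * z) • β = β) :=
    fun z hz => by
      rcases t_fix H S (H.geo.smul_le hz.2 (pα H S)) (fixF S (Nt hz.1) S.tα) with e | e
      · exact .inl ⟨e, pair H S (Nt hz.1) hz.2 e⟩
      · have e' : (w * z) • α = α := by rw [mul_smul, e, S.wβ]
        exact .inr ⟨e', pair H S (mul_mem wt (Nt hz.1)) (mul_mem (le_norm_self _ S.wX) hz.2) e'⟩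
  have oU : Odd (Nat.card ↥(N ⊓ C[X])) := S.odd.of_dvd_nat (card_dvd_of_le inf_le_right)
  have hU : N ⊓ C[X] = ⊥ := by
    by_contra hU
    have hZ : IsZGroup ↥(N ⊓ C[X]) := H3.isZGroup_of_fpf_of_odd (K := R)
      (fun y hy => F.norm y (Nt hy.1) (H.geo.fix_of_centX (pα H S) hy.2)
        (H.geo.fix_of_centX (pβ H S) hy.2))
      (fun y hy s hs c => or_iff_not_imp_left.2 fun y1 => comm_free H S F hs
        (H.geo.fix_of_centX (pβ H S) hy.2) c.symm fun γ e1 e2 =>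
          t_fix H S (kfix H S hy.2 y1 e2) e1) hR oU
    have D1 : X ⊓ C₁[t] ⊔ zpowers t ≤ C[N ⊓ C[X]] := sup_le
      (le_cent_symm (inf_le_right.trans (cent_anti inf_le_left)))
      (le_cent_symm (by rw [cent_zpowers]; exact inf_le_left.trans Nt))
    have D2 : N ⊓ N[X] ≤ (X ⊓ C₁[t] ⊔ zpowers t) ⊔ N ⊓ C[X] := by
      have a1 : ∀ z ∈ N, z • α = α → z • β = β → z ∈ (X ⊓ C₁[t] ⊔ zpowers t) ⊔ N ⊓ C[X] :=
        fun z hz e1 e2 => by
          have m1 : ∀ i : ℕ, h ^ i ∈ X ⊓ C₁[t] ⊔ zpowers t := fun i =>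
            pow_mem (mem_sup_left (mem_inf.2 ⟨S.hX, ht⟩)) i
          obtain ⟨i, k, hk, rfl | rfl⟩ := hd z hz e1 e2
          · exact mul_mem_sup (m1 i) hk
          · rw [← mul_assoc]
            exact mul_mem_sup (mul_mem (m1 i) (mem_sup_right (mem_zpowers t))) hk
      intro z hz
      rcases sw z hz with e | e
      · exact a1 z hz.1 e.1 e.2
      · exact (mul_mem_cancel_left (mem_sup_left (mem_sup_left (mem_inf.2 ⟨S.wX, wt⟩)))).1
          (a1 _ (mul_mem wN hz.1) e.1 e.2)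
    have D3 : ⁅N ⊓ N[X], N ⊓ N[X]⁆ ≤ X ⊔ ⁅N ⊓ C[X], N ⊓ C[X]⁆ := by
      refine (der_mono D2).trans ?_
      rw [der_sup_of_cent (le_cent_symm D1), der_sup_of_cent (le_cent_symm (by
        rw [cent_zpowers]; exact inf_le_right)),
        (comm_eq_bot_iff (A := zpowers t) (B := zpowers t)).2 (by
        rw [cent_zpowers]; exact zpowers_le_of_mem (mem_cent1_self t)), sup_bot_eq]
      exact sup_le_sup_right ((der_le _).trans inf_le_left) _
    have D4 := le_der (N := N) (U := N ⊓ C[X]) inf_le_left (inf_le_inf_left _ (cent_le_norm X))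
      (sq_mem_der rfl (by
        rintro x (hx | rfl | rfl | rfl)
        · exact pow_mem (le_der_of_fpf RN hN (F.norm _ ht S.hα S.hβ) (fun s hs c =>
            comm_free H S F hs S.hβ c fun γ _ e => hfix H S e) hx) 2
        · have := comm_mem hN wN
          rwa [mul_assoc, mul_assoc, ← mul_assoc w, ← inv_inv (w * x⁻¹ * w⁻¹),
            show (w * x⁻¹ * w⁻¹)⁻¹ = w * x * w⁻¹ by group, wh H S, inv_inv, ← sq] at this
        · rw [sq, sq_of_ord S.ow]; exact one_mem _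
        · rw [sq, S.t2]; exact one_mem _)) D3 oU fun y hy y1 g hg m => ⟨hg, by
      have y2 : y ^ 2 ≠ 1 := fun e => y1 (eq_one_of_odd oU hy e)
      have e : ((g⁻¹ * y * g) ^ 2) • α = α ∧ ((g⁻¹ * y * g) ^ 2) • β = β := by
        rcases sw _ m with e | e
        · simp only [sq, mul_smul (g⁻¹ * y * g), e.1, e.2, and_self]
        · have e1 := e.1
          have e2 := e.2
          rw [mul_smul, ← eq_inv_smul_iff, inv_of_ord S.ow] at e1 e2
          simp only [sq, mul_smul (g⁻¹ * y * g), e1, e2, S.wα, S.wβ, and_self]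
      rw [show (g⁻¹ * y * g) ^ 2 = g⁻¹ * y ^ 2 * g by simp only [sq]; group, mul_smul, mul_smul,
        mul_smul, mul_smul, inv_smul_eq_iff, inv_smul_eq_iff] at e
      exact norm_of H S (kfix H S (pow_mem hy.2 2) y2 e.1) (kfix H S (pow_mem hy.2 2) y2 e.2)⟩
    have D5 : N ⊓ C[X] ≤ ⁅N ⊓ C[X], N ⊓ C[X]⁆ := fun y hy => by
      obtain ⟨x, hx, k, hk, e⟩ := (mem_sup_of_norm
        ((der_le _).trans (inf_le_right.trans (cent_le_norm X)))).1 (D4 hy)
      rw [← (split_eq (bot H S) hx (one_mem _) (der_le _ hk).2 hy.2 (by rw [e, one_mul])).2]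
      exact hk
    have : Nontrivial ↥(N ⊓ C[X]) := (nontrivial_iff_ne_bot _).2 hU
    have D6 := IsZGroup.commutator_lt (G := ↥(N ⊓ C[X]))
    rw [← map_subtype_lt_map_subtype, map_subtype_commutator, ← MonoidHom.range_eq_map,
      range_subtype] at D6
    exact D6.not_ge D5
  let P : SubMulAction N Ω := ⟨{γ | t • γ = γ}, fun c _ hγ => fixF S (Nt c.2) hγ⟩
  have tr1 : ∀ a : P, ∃ g : N, g • (⟨α, S.tα⟩ : P) = a := fun a => by
    by_cases e : a.1 = α
    · exact ⟨1, Subtype.ext (by rw [one_smul, e])⟩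
    · obtain ⟨s, hs, e'⟩ := F.tr a.1 a.2 e
      exact ⟨⟨s * w, mul_mem (RN hs) wN⟩, Subtype.ext (by
        show (s * w) • α = a.1
        rw [mul_smul, S.wα, e'])⟩
  have tr2 : ∀ a b : P, a ≠ b → ∃ g : N, g • (⟨α, S.tα⟩ : P) = a ∧ g • (⟨β, S.tβ⟩ : P) = b :=
    fun a b hab => by
      obtain ⟨g, rfl⟩ := tr1 a
      obtain ⟨s, hs, e⟩ := F.tr (g⁻¹ • b).1 (g⁻¹ • b).2 fun k => hab (by
        rw [show (⟨α, S.tα⟩ : P) = g⁻¹ • b from Subtype.ext k.symm, smul_inv_smul])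
      refine ⟨g * ⟨s, RN hs⟩, ?_, ?_⟩ <;> rw [mul_smul]
      · rw [show (⟨s, RN hs⟩ : N) • (⟨α, S.tα⟩ : P) = ⟨α, S.tα⟩ from
          Subtype.ext (show s • α = α from R_fix H S F hs)]
      · rw [show (⟨s, RN hs⟩ : N) • (⟨β, S.tβ⟩ : P) = g⁻¹ • b from Subtype.ext e, smul_inv_smul]
  have k := z5 (M := N) (Ω := P) (α := ⟨α, S.tα⟩) (β := ⟨β, S.tβ⟩) (h := ⟨h, hN⟩) (w := ⟨w, wN⟩)
    (fun e => S.ne (congrArg Subtype.val e)) (fun a b c d h1 h2 => by
      obtain ⟨g, rfl, rfl⟩ := tr2 a b h1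
      obtain ⟨g', rfl, rfl⟩ := tr2 c d h2
      exact ⟨g' * g⁻¹, by simp [mul_smul], by simp [mul_smul]⟩)
    (Subtype.ext (pow5 S.oh)) (Subtype.ext S.hα) (Subtype.ext S.hβ)
    (fun γ e => (hfix H S (congrArg Subtype.val e)).imp Subtype.ext Subtype.ext) (by
      obtain ⟨s, hs, s1⟩ := exists_ne_one_of_ne_bot hR
      exact ⟨⟨s • β, fixF S (F.le hs).1 S.tβ⟩, fun e => R_ne H S F hs (congrArg Subtype.val e),
        fun e => s1 (R_free H S F hs (congrArg Subtype.val e))⟩)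
    (fun g e1 e2 => by
      obtain ⟨i, k, hk, e⟩ := hd g g.2 (congrArg Subtype.val e1) (congrArg Subtype.val e2)
      rw [hU, mem_bot] at hk
      refine ⟨i, fun γ => Subtype.ext ?_⟩
      show (g : G) • γ.1 = h ^ i • γ.1
      rcases e with e | e <;> rw [e, hk, mul_one]
      rw [mul_smul, γ.2]) (Subtype.ext S.wα) (Subtype.ext S.wβ) (Subtype.ext (wh H S))
  have k2 := card_F H S F
  rw [← Nat.card_coe_set_eq] at k2
  exact Nat.succ_injective (k2.symm.trans k)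

theorem last (hR : Nat.card R = 11) (hn : Nat.card Ω = 672) : False := by
  classical
  have := H.geo.finite
  have ht : h ∈ C₁[t] := mem_cent1_iff.2 (th H S).symm
  have RC : R ≤ C[A α] := fun s hs => (F.le hs).2
  have RA : ∀ x ∈ A α, x ∈ R → x = 1 := fun x hx hs =>
    F.bot x hs (le_norm_self _ (pα H S hx))
  set E := A α ⊔ R with hE
  have cE : Nat.card E = 121 := by
    rw [card_sup_of_inf_eq_bot (le_norm_of_le_cent RC) (inf_eq_bot_of_forall RA), H.geo.card, hR]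
  have mE : ∀ x ∈ E, ∃ a ∈ A α, ∃ s ∈ R, a * s = x := fun x hx =>
    (mem_sup_of_norm (le_norm_of_le_cent RC)).1 hx
  have EC : E ≤ C[A α] := sup_le (H.geo.le_cent α) RC
  let T : Set Ω := {δ | ∃ x ∈ E, x ≠ 1 ∧ x • δ = δ}
  have inv : ∀ g ∈ N[E], ∀ δ ∈ T, g • δ ∈ T := fun g hg δ ⟨x, hx, x1, e⟩ =>
    ⟨g * x * g⁻¹, conj_mem_of_norm hg hx, by simpa using x1,
      by rw [mul_smul, mul_smul, inv_smul_smul, e]⟩
  let P : SubMulAction E Ω := ⟨Tᶜ, fun c δ hδ k => hδ (by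
    have := inv (c : G)⁻¹ (le_norm_self _ (inv_mem c.2)) _ k
    rwa [show (c : G)⁻¹ • c • δ = δ from inv_smul_smul (c : G) δ] at this)⟩
  have k1 : 121 ∣ Tᶜ.ncard := by
    rw [← cE, ← Nat.card_coe_set_eq]
    exact H3.card_dvd_of_free (A := E) (X := P) fun a x e => Subtype.ext (by_contra fun a1 =>
      x.2 ⟨a, a.2, a1, congrArg Subtype.val e⟩)
  have k2 := Set.ncard_add_ncard_compl T
  obtain ⟨a, oa, ea⟩ := H.geo.exists_gen α
  have ha : a ∈ A α := ea ▸ mem_zpowers a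
  have αT : α ∈ T := ⟨a, mem_sup_left ha, ne_one_of_ord oa, H.geo.fix_of_mem ha⟩
  have k3 : T.ncard ≡ 1 [MOD 5] := by
    have k := ncard_modEq (pow5 S.oh) T.toFinite (inv h (le_norm_sup
      (zpowers_le_of_mem (H.geo.fix_iff.1 S.hα))
      (zpowers_le_of_mem (mem_norm_of_conj (F.norm h ht S.hα S.hβ))) (mem_zpowers h)))
    rwa [show {s | s ∈ T ∧ h • s = s} = {α} from Set.eq_singleton_iff_unique_mem.2
      ⟨⟨αT, S.hα⟩, fun δ hδ => (hfix H S hδ.2).resolve_right fun e => by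
        obtain ⟨x, hx, x1, e'⟩ := hδ.1
        obtain ⟨b, hb, s, hs, rfl⟩ := mE x hx
        have m := mem_K H S (EC hx) (e ▸ e')
        have s1 : s = 1 :=
          F.bot s hs ((mul_mem_cancel_left (le_norm_self _ (pα H S hb))).1 (cent_le_norm X m))
        rw [s1, mul_one] at m x1
        exact x1 (bot H S b (pα H S hb) m)⟩, Set.ncard_singleton] at k
  obtain ⟨ρ, hρ, oρ⟩ := exists_orderOf_eq_prime f11.out hR.symm.dvd
  have k4 : ∀ b ∈ A α, ({δ | (b * ρ) • δ = δ} \ {α}).ncard ≤ 11 := fun b hb => by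
    rcases ({δ | (b * ρ) • δ = δ} \ {α}).eq_empty_or_nonempty with e | ⟨δ, e1, e2⟩
    · simp [e]
    have h2 : α ≠ δ := Ne.symm e2
    have m : b * ρ ∈ C[A α] := EC (mul_mem_sup hb hρ)
    have m2 := H.geo.f2' (H.geo.ln h2) le_sup_left le_sup_right h2
      (H.geo.norm_sup (H.geo.fix_of_cent m) e1) m e1
    refine (Set.ncard_le_ncard (t := {γ | A γ ≤ A α ⊔ A δ} \ {α}) (Set.sdiff_subset_sdiff_left
      fun γ hγ => H.kfix α δ h2 _ m2 (fun e => ne_one_of_ord oρ (RA ρ (by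
        rw [eq_inv_of_mul_eq_one_right e]; exact inv_mem hb) hρ)) γ hγ)).trans_eq ?_
    rw [Set.ncard_sdiff_singleton_of_mem (show α ∈ {γ | A γ ≤ A α ⊔ A δ} from
      (le_sup_left : A α ≤ A α ⊔ A δ)),
      (H.geo.card_pts_L (H.lr α δ h2) le_sup_left).1]
  have k5 : (T \ {α}).ncard ≤ 121 := by
    have := Fintype.ofFinite G
    have := Fintype.ofFinite Ω
    have c := Finset.card_biUnion_le_card_mul (A α : Set G).toFinset
      (fun b => ({δ | (b * ρ) • δ = δ} \ {α}).toFinset) 11 fun b hb => by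
        rw [← Set.ncard_eq_toFinset_card']; exact k4 b (Set.mem_toFinset.1 hb)
    rw [← Set.ncard_eq_toFinset_card', ← Nat.card_coe_set_eq, SetLike.coe_sort_coe, H.geo.card,
      ← Set.ncard_coe_finset] at c
    refine (Set.ncard_le_ncard ?_).trans c
    rintro δ ⟨⟨x, hx, x1, e⟩, h2⟩
    obtain ⟨b, hb, s, hs, rfl⟩ := mE x hx
    have s1 : s ≠ 1 := by
      rintro rfl
      rw [mul_one] at e x1
      exact h2 (H.geo.eq_of_fix hb x1 e)
    obtain ⟨j, rfl⟩ := exists_pow_of_mem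
      (zpowers_eq_of_card_prime (by rw [hR]; norm_num) hs s1 ▸ hρ : ρ ∈ zpowers s)
    simp only [Finset.coe_biUnion, Set.mem_iUnion, Set.coe_toFinset]
    refine ⟨b ^ j, pow_mem hb j, ?_, h2⟩
    show (b ^ j * s ^ j) • δ = δ
    rw [← (commute_of_mem_cent (RC hs) hb).mul_pow]
    exact pow_mem (mem_stabilizer_iff.2 e) j
  rw [Set.ncard_sdiff_singleton_of_mem αT] at k5
  rw [Nat.ModEq] at k3
  omega

end Cfsg.Agent.H4.O11M

namespace Cfsg.Agent.H9.O11

open Cfsg.Agent.H4.O11M Cfsg.Agent.H7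

theorem LC.two' {G : Type*} [Group G] [Finite G] {Ω : Type*} [MulAction G Ω]
    {A : Ω → Subgroup G} {α β : Ω} (H : LC A) (h1 : α ≠ β) (odd : Odd (Nat.card C[A α ⊔ A β]))
    (eps : ¬ N[A α ⊔ A β] ≤ (A α ⊔ A β) ⊔ C[A α ⊔ A β]) : False := by
  have := H.geo.finite
  obtain ⟨t, h, w, S⟩ := exists_St H h1 odd eps
  obtain ⟨R, F⟩ := exists_Fr H S
  have k := count H S (card_F H S F)
  by_cases hR : R = ⊥
  · rw [hR, Subgroup.card_bot] at k
    obtain ⟨γ, hγ⟩ := H.out α β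
    have e := Set.eq_of_subset_of_ncard_le (Set.subset_univ {γ | A γ ≤ A α ⊔ A β}) (by
      rw [Set.ncard_univ, k, (H.geo.card_pts_L (H.lr α β h1) le_sup_left).1])
    exact hγ (e ▸ Set.mem_univ γ : γ ∈ {γ | A γ ≤ A α ⊔ A β})
  · have k2 := twelve H S F hR
    exact last H S F k2 (by rw [k, k2])

end Cfsg.Agent.H9.O11
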