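import Mathlib

/-!
# Semidihedral subgroups of `GL₂(3)`
-/

set_option autoImplicit false

namespace Cfsg.Agent.H4.Sd9

/-- Coordinates. -/
abbrev V := Fin 3 × Fin 3

/-- A linear map. -/
def act (p q u : V) : V := (u.1 * p.1 + u.2 * q.1, u.1 * p.2 + u.2 * q.2)

set_option synthInstance.maxSize 2000 in
theorem gl23 : ∀ p q : V, (∀ u, (act p q)^[8] u = u) → (∃ u, (act p q)^[4] u ≠ u) →
    ∀ p' q' : V, (∀ u, act p' q' (act p' q' u) = u) →
    (∀ u, act p' q' (act p q (act p' q' u)) = (act p q)^[3] u) →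
    (∀ u, (act p q)^[4] u = -u) ∧ (∃ g, g ≠ 0 ∧ act p' q' g = g ∧
      (act p q g = g - (act p q)^[2] g ∨ (act p q)^[5] g = g - (act p q)^[2] g) ∧
      ∀ u, u = 0 ∨ ∃ i : Fin 8, u = (act p q)^[i] g) ∧
    ∀ p'' q'', (∀ u, act p'' q'' u = 0 → u = 0) → ∃ i : Fin 8, ∃ j : Fin 2,
      (fun u => act p'' q'' ((act p q)^[i] ((act p' q')^[j] u)))^[3] (1, 0) = (1, 0) ∧
      (fun u => act p'' q'' ((act p q)^[i] ((act p' q')^[j] u)))^[3] (0, 1) = (0, 1) := by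
  decide +kernel

end Cfsg.Agent.H4.Sd9
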