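import Cfsg.Agent.H4.Nse4
import Cfsg.Agent.H4.SdGL

/-!
# Groups with Sylow `3`-normalizer `3² : SD₁₆`: generators of the normalizer
-/

set_option autoImplicit false
set_option linter.unusedSectionVars false

namespace Cfsg.Agent.H4.Sd9

open Subgroup Nse

variable {G : Type*} [Group G]

/-- The element with given coordinates. -/
def co (x y : G) (u : V) : G := x ^ u.1.val * y ^ u.2.val

section

variable {x y : G} (hx : x ^ 3 = 1) (hy : y ^ 3 = 1) (hc : Commute x y)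
include hx hy hc

theorem co_add (u v : V) : co x y (u + v) = co x y u * co x y v := by
  rw [co, co, co, Prod.fst_add, Prod.snd_add, Fin.val_add, Fin.val_add, ← pow_eq_pow_mod _ hx,
    ← pow_eq_pow_mod _ hy, pow_add, pow_add, (hc.pow_pow _ _).mul_mul_mul_comm]

theorem co_neg (u : V) : co x y (-u) = (co x y u)⁻¹ :=
  eq_inv_of_mul_eq_one_left (by rw [← co_add hx hy hc, neg_add_cancel]; simp [co])

theorem co_act {n : G} {p q : V} (hp : n * x * n⁻¹ = co x y p) (hq : n * y * n⁻¹ = co x y q)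
    (u : V) : co x y (act p q u) = n * co x y u * n⁻¹ := by
  have h : ∀ (v : V) (k : Fin 3), co x y (k * v.1, k * v.2) = co x y v ^ k.val := fun v k => by
    rw [co, co, Fin.val_mul, Fin.val_mul, ← pow_eq_pow_mod _ hx, ← pow_eq_pow_mod _ hy,
      (hc.pow_pow _ _).mul_pow, ← pow_mul, ← pow_mul, mul_comm k.val, mul_comm k.val]
  rw [show act p q u = (u.1 * p.1, u.1 * p.2) + (u.2 * q.1, u.2 * q.2) from rfl, co_add hx hy hc,
    h, h, ← hp, ← hq, conj_pow, conj_pow, conj_mul, co]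

end

theorem iter_conj {f : V → G} {τ : V → V} {n : G} (h : ∀ u, f (τ u) = n * f u * n⁻¹) (k : ℕ)
    (u : V) : f (τ^[k] u) = n ^ k * f u * (n ^ k)⁻¹ := by
  induction k with
  | zero => simp
  | succ k ih => rw [Function.iterate_succ_apply', h, ih]; group

/-- The relations of the normalizer. -/
structure NRel (a s g : G) : Prop where
  e0 : a ^ 8 = 1
  e1 : s * s = 1
  e2 : s * a * s = a ^ 3
  e3 : g ^ 3 = 1
  e4 : s * g = g * s
  e5 : g * (a ^ 2 * g * (a ^ 2)⁻¹) = a ^ 2 * g * (a ^ 2)⁻¹ * g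
  e6 : a ^ 4 * g * (a ^ 4)⁻¹ = g⁻¹
  e7 : a * g * a⁻¹ = g * (a ^ 2 * g * (a ^ 2)⁻¹)⁻¹

/-- The hypotheses in terms of generators. -/
structure Base (a s g : G) : Prop extends NRel a s g where
  g1 : g ≠ 1
  cent : ∀ u, Commute u g → u ∈ closure {a, s, g}
  c3 : ∀ y : G, y ^ 3 = 1 → y ≠ 1 → ∃ c, c * g * c⁻¹ = y
  ab3 : ∀ R : Subgroup G, IsPGroup 3 R → ∀ x ∈ R, x ^ 3 = 1 ∧ ∀ y ∈ R, Commute x y
  n27 : ¬ 27 ∣ Nat.card G
  idx : ∀ L : Subgroup G, closure {a, s, g} ≤ L → (closure {a, s, g}).relIndex L ≡ 1 [MOD 3]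

theorem exists_base [Finite G] (M : Sylow 3 G) (hM9 : Nat.card (M : Subgroup G) = 9)
    (hMel : ∀ m ∈ (M : Subgroup G), m ^ 3 = 1)
    (hCM : centralizer ((M : Subgroup G) : Set G) = (M : Subgroup G))
    (hCg : ∀ g ∈ (M : Subgroup G), g ≠ 1 →
      centralizer ({g} : Set G) ≤ normalizer ((M : Subgroup G) : Set G))
    {a s : G} (haN : a ∈ normalizer ((M : Subgroup G) : Set G))
    (hsN : s ∈ normalizer ((M : Subgroup G) : Set G)) (ha : orderOf a = 8) (hs : s * s = 1)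
    (hsa : s * a * s = a ^ 3) : ∃ a g, Base a s g := by
  have : Fact (Nat.Prime 3) := ⟨Nat.prime_three⟩
  have hab : ∀ x ∈ (M : Subgroup G), ∀ y ∈ (M : Subgroup G), Commute x y := fun x hx y hy =>
    (hCM.ge hy x hx :)
  obtain ⟨x, hx, hx1⟩ := (bot_or_exists_ne_one (M : Subgroup G)).resolve_left (fun e => by
    simp [e] at hM9)
  have hx3 : orderOf x = 3 := orderOf_eq_prime (hMel x hx) hx1
  obtain ⟨y, hy, hxy⟩ : ∃ y ∈ (M : Subgroup G), y ∉ zpowers x := by
    by_contra h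
    push Not at h
    have h1 := card_le_of_le (show (M : Subgroup G) ≤ zpowers x from h)
    rw [Nat.card_zpowers] at h1
    omega
  have x3 := hMel x hx
  have y3 := hMel y hy
  have cxy := hab x hx y hy
  have hm : ∀ u, co x y u ∈ (M : Subgroup G) := fun u => mul_mem (pow_mem hx _) (pow_mem hy _)
  have h0 : ∀ u, co x y u = 1 → u = 0 := by
    rintro ⟨i, j⟩ e
    have h1 : y ^ j.val ∈ zpowers x := by
      rw [eq_inv_of_mul_eq_one_right e]
      exact inv_mem (npow_mem_zpowers x _)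
    have h2 : j = 0 := by
      by_contra h3
      refine hxy ?_
      have := pow_mem h1 j.val
      rwa [← pow_mul, pow_eq_pow_mod _ y3, (by decide : ∀ j : Fin 3, j ≠ 0 → j.val * j.val % 3 = 1)
        j h3, pow_one] at this
    subst h2
    have h3 : x ^ i.val = 1 := by simpa [co] using e
    rw [pow_eq_one_iff' hx3, Nat.mod_eq_of_lt i.2] at h3
    exact Prod.ext (Fin.ext h3) rfl
  have inj : Function.Injective (co x y) := fun u v e => sub_eq_zero.mp (h0 _ (by
    rw [sub_eq_add_neg, co_add x3 y3 cxy, co_neg x3 y3 cxy, e, mul_inv_cancel]))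
  have sur : ∀ m ∈ (M : Subgroup G), ∃ u, co x y u = m := fun m hmM => by
    let f : V → (M : Subgroup G) := fun u => ⟨_, hm u⟩
    obtain ⟨u, hu⟩ := ((show Function.Injective f from fun u v e =>
      inj (congrArg Subtype.val e)).bijective_of_nat_card_le (by rw [hM9]; simp)).2 ⟨m, hmM⟩
    exact ⟨u, congrArg Subtype.val hu⟩
  have hact : ∀ n ∈ normalizer ((M : Subgroup G) : Set G), ∃ p q, ∀ u,
      co x y (act p q u) = n * co x y u * n⁻¹ := fun n hn => by
    obtain ⟨p, hp⟩ := sur _ ((mem_set_normalizer_iff.mp hn x).mp hx)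
    obtain ⟨q, hq⟩ := sur _ ((mem_set_normalizer_iff.mp hn y).mp hy)
    exact ⟨p, q, co_act x3 y3 cxy hp.symm hq.symm⟩
  have hcen : ∀ n, (∀ u, n * co x y u * n⁻¹ = co x y u) → n ∈ (M : Subgroup G) := fun n hn =>
    hCM.le fun m hmM => by
      obtain ⟨u, rfl⟩ := sur m hmM
      exact (mul_inv_eq_iff_eq_mul.mp (hn u)).symm
  obtain ⟨p, q, hA⟩ := hact a haN
  obtain ⟨p', q', hS⟩ := hact s hsN
  have a8 : a ^ 8 = 1 := ha ▸ pow_orderOf_eq_one a
  have si : s⁻¹ = s := inv_eq_of_mul_eq_one_right hs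
  obtain ⟨k1, ⟨u0, k2, k3, k4, k5⟩, k6⟩ := gl23 p q
    (fun u => inj (by rw [iter_conj hA, a8]; simp))
    (by
      by_contra h
      push Not at h
      have h1 := hMel _ (hcen (a ^ 4) fun u => by rw [← iter_conj hA, h])
      rw [← pow_mul, pow_eq_one_iff' ha] at h1
      omega) p' q'
    (fun u => inj (by rw [hS, hS, ← mul_assoc, ← mul_assoc, hs, si, mul_assoc, hs]; simp))
    (fun u => inj (by rw [hS, hA, hS, iter_conj hA, ← hsa]; group))
  obtain ⟨g, hg⟩ : ∃ g, g = co x y u0 := ⟨_, rfl⟩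
  have gM : g ∈ (M : Subgroup G) := hg ▸ hm u0
  have g1 : g ≠ 1 := fun e => k2 (h0 _ (hg ▸ e))
  have hM : ∀ m ∈ (M : Subgroup G), m = 1 ∨ ∃ i : ℕ, a ^ i * g * (a ^ i)⁻¹ = m := fun m hmM => by
    obtain ⟨u, rfl⟩ := sur m hmM
    rcases k5 u with rfl | ⟨i, rfl⟩
    · exact Or.inl (by simp [co])
    · exact Or.inr ⟨i, by rw [iter_conj hA, hg]⟩
  have hN : ∀ L : Subgroup G, a ∈ L → s ∈ L → g ∈ L →
      normalizer ((M : Subgroup G) : Set G) ≤ L := fun L h1 h2 h3 n hn => by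
    obtain ⟨p'', q'', hT⟩ := hact n hn
    obtain ⟨i, j, e⟩ := k6 p'' q'' (fun u e => h0 u (by
      have := hT u
      rw [e] at this
      simpa [co] using this.symm))
    have h4 := hcen ((n * a ^ i.val * s ^ j.val) ^ 3) fun u => by
      have h5 := iter_conj (τ := fun u => act p'' q'' ((act p q)^[i] ((act p' q')^[j] u)))
        (n := n * a ^ i.val * s ^ j.val) (f := co x y)
        (fun u => by rw [hT, iter_conj hA, iter_conj hS]; group) 3
      have h6 := h5 (1, 0)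
      have h7 := h5 (0, 1)
      rw [e.1] at h6
      rw [e.2] at h7
      rw [← co_act x3 y3 cxy (p := (1, 0)) (q := (0, 1)) (by simpa [co] using h6.symm)
        (by simpa [co] using h7.symm)]
      simp [act]
    have h5 : IsPGroup 3 (zpowers (n * a ^ i.val * s ^ j.val)) :=
      IsPGroup.of_card_dvd_pow (n := 2) (by
        rw [Nat.card_zpowers, orderOf_dvd_iff_pow_eq_one, show 3 ^ 2 = 3 * 3 from rfl, pow_mul]
        exact hMel _ h4)
    have h6 := ((h5.inf_normalizer_sylow M).le ⟨mem_zpowers _,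
      mul_mem (mul_mem hn (pow_mem haN _)) (pow_mem hsN _)⟩).2
    have h7 : n * a ^ i.val * s ^ j.val ∈ L := by
      rcases hM _ h6 with e | ⟨k, e⟩
      · exact e ▸ one_mem _
      · exact e ▸ mul_mem (mul_mem (pow_mem h1 _) h3) (inv_mem (pow_mem h1 _))
    exact (mul_mem_cancel_right (pow_mem h1 _)).mp ((mul_mem_cancel_right (pow_mem h2 _)).mp h7)
  have hconj : ∀ R : Subgroup G, IsPGroup 3 R → ∃ c, ∀ y ∈ R, c * y * c⁻¹ ∈ (M : Subgroup G) :=
    fun R hR => by
      obtain ⟨c, -, hc⟩ := exists_conj_le (H := ⊤) (T := M) le_top hR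
        (by rw [relIndex_top_right]; exact M.not_dvd_index)
      exact ⟨c, hc⟩
  have key : ∀ b, b ∈ zpowers a → a ∈ zpowers b → b ^ 8 = 1 → s * b * s = b ^ 3 → b ^ 2 = a ^ 2 →
      b * g * b⁻¹ = g * (a ^ 2 * g * (a ^ 2)⁻¹)⁻¹ → Base b s g := fun b h1 h2 h3 h4 h5 h6 => by
    have h7 : closure {b, s, g} = normalizer ((M : Subgroup G) : Set G) := by
      refine le_antisymm ((closure_le _).mpr ?_) (hN _ (zpowers_le_of_mem
        (subset_closure (by simp)) h2) (subset_closure (by simp)) (subset_closure (by simp)))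
      rintro _ (rfl | rfl | rfl)
      exacts [zpowers_le_of_mem haN h1, hsN, le_normalizer gM]
    refine ⟨⟨h3, hs, h4, hMel g gM, ?_, ?_, ?_, h5 ▸ h6⟩, g1, fun u hu => ?_, fun y y3 y1 => ?_,
      fun R hR x hx => ?_, fun e => ?_, fun L hL => ?_⟩
    · rw [← mul_inv_eq_iff_eq_mul, hg, ← hS, k3]
    · exact hab _ gM _ ((mem_set_normalizer_iff.mp (h5 ▸ pow_mem haN 2) g).mp gM)
    · rw [show 4 = 2 * 2 from rfl, pow_mul, h5, ← pow_mul, hg, ← iter_conj hA, k1, co_neg x3 y3 cxy]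
    · exact h7 ▸ hCg g gM g1 (mem_centralizer_singleton_iff.mpr hu)
    · obtain ⟨c, hc⟩ := hconj (zpowers y) (IsPGroup.of_card_dvd_pow (n := 1) (by
        rw [Nat.card_zpowers]; exact orderOf_dvd_of_pow_eq_one y3))
      rcases hM _ (hc y (mem_zpowers y)) with e | ⟨i, e⟩
      · exact absurd (by simpa using e) y1
      · exact ⟨c⁻¹ * a ^ i, by
          calc _ = c⁻¹ * (a ^ i * g * (a ^ i)⁻¹) * c := by group
            _ = y := by rw [e]; group⟩
    · obtain ⟨c, hc⟩ := hconj R hR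
      refine ⟨by simpa using hMel _ (hc x hx), fun y hy => ?_⟩
      simpa [mul_assoc] using (hab _ (hc x hx) _ (hc y hy)).conj c⁻¹
    · rw [← (M : Subgroup G).card_mul_index, hM9] at e
      exact M.not_dvd_index (by omega)
    · rw [h7] at hL ⊢
      exact relIndex_normalizer_modEq M (le_normalizer.trans hL)
  have e7 : co x y (u0 - (act p q)^[2] u0) = g * (a ^ 2 * g * (a ^ 2)⁻¹)⁻¹ := by
    rw [sub_eq_add_neg, co_add x3 y3 cxy, co_neg x3 y3 cxy, iter_conj hA, hg]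
  rcases k4 with k4 | k4
  · exact ⟨a, g, key a (mem_zpowers a) (mem_zpowers a) a8 hsa rfl (by rw [← e7, ← k4, hA, hg])⟩
  · refine ⟨a ^ 5, g, key _ (npow_mem_zpowers a 5) ?_ ?_ ?_ ?_ (by
      rw [← e7, ← k4, iter_conj hA, hg])⟩
    · have := npow_mem_zpowers (a ^ 5) 5
      rwa [← pow_mul, pow_eq_pow_mod (5 * 5) a8, pow_one] at this
    · rw [← pow_mul, pow_eq_one_iff' ha]
    · conv_lhs => rw [show s * a ^ 5 * s = s * a ^ 5 * s⁻¹ by rw [si], ← conj_pow, si, hsa]
      rw [← pow_mul, ← pow_mul]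
    · rw [← pow_mul, pow_eq_iff ha]

end Cfsg.Agent.H4.Sd9
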