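import Cfsg.Agent.H4.SdM
import Cfsg.Agent.H3.WCom

/-!
# Groups with Sylow `3`-normalizer `3² : SD₁₆`: basic facts and fixed point counts
-/

set_option autoImplicit false
set_option linter.unusedSectionVars false

namespace Cfsg.Agent.H4.Sd9

open Subgroup Nse H7.Asch

variable {G : Type*} [Group G]

theorem cj (c x : G) : IsConj x (c * x * c⁻¹) := isConj_iff.mpr ⟨c, rfl⟩

theorem sq_of_conj {s u : G} (hs : s * s = 1) (h : IsConj s u) : u * u = 1 := by
  obtain ⟨c, rfl⟩ := isConj_iff.mp h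
  rw [conj_mul, hs]; simp

theorem ncard_model {M : Type*} [Group M] {ι : M →* G} (hι : Function.Injective ι) {P : G → Prop}
    {l : List M} (hl : l.Nodup) (h : ∀ e, P (ι e) ↔ e ∈ l) :
    {x | x ∈ ι.range ∧ P x}.ncard = l.length := by
  classical
  rw [← List.toFinset_card_of_nodup hl, ← Set.ncard_coe_finset,
    ← Set.ncard_image_of_injective _ hι]
  congr 1
  ext x
  constructor
  · rintro ⟨⟨e, rfl⟩, he⟩
    exact ⟨e, by simpa using (h e).mp he, rfl⟩
  · rintro ⟨e, he, rfl⟩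
    exact ⟨⟨e, rfl⟩, (h e).mpr (by simpa using he)⟩

theorem card_range {M : Type*} [Group M] {ι : M →* G} (hι : Function.Injective ι) :
    Nat.card ι.range = Nat.card M := (Nat.card_congr (MonoidHom.ofInjective hι).toEquiv).symm

namespace Base

variable {a s g : G} (h : Base a s g)
include h

theorem si : s⁻¹ = s := inv_eq_of_mul_eq_one_right h.e1

theorem gg : g * g ≠ 1 := fun e => h.g1 (by
  have := h.e3
  rwa [pow_succ, sq, e, one_mul] at this)

theorem z1 : a ^ 4 ≠ 1 := fun e => h.gg (by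
  have := h.e6
  rw [e, one_mul, inv_one, mul_one] at this
  exact mul_eq_one_iff_eq_inv.mpr this)

theorem oa : orderOf a = 8 := orderOf_eq_prime_pow (p := 2) (n := 2) h.z1 h.e0

theorem zz : a ^ 4 * a ^ 4 = 1 := by rw [← pow_add, h.e0]

theorem zi : (a ^ 4)⁻¹ = a ^ 4 := inv_eq_of_mul_eq_one_right h.zz

theorem sa (k : ℕ) : s * a ^ k = a ^ (3 * k) * s := by
  rw [pow_mul, ← h.e2]
  conv_rhs => rw [show s * a * s = s * a * s⁻¹ by rw [h.si], conj_pow, inv_mul_cancel_right]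

theorem sz : Commute s (a ^ 4) := by
  rw [Commute, SemiconjBy, h.sa, pow_eq_pow_mod _ h.e0]

theorem s_not : s ∉ zpowers a := by
  rintro ⟨k, e⟩
  have h1 := h.sa 2
  rw [← e, ((Commute.refl a).zpow_left k).pow_right 2 |>.eq, mul_left_inj,
    pow_eq_pow_iff_modEq, h.oa] at h1
  exact absurd h1 (by decide)

theorem s1 : s ≠ 1 := fun e => h.s_not (e ▸ one_mem _)

theorem s_ne : s ≠ a ^ 4 := fun e => h.s_not (e ▸ npow_mem_zpowers a 4)

theorem tt : a ^ 2 * s * (a ^ 2 * s) = 1 := by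
  rw [mul_assoc, ← mul_assoc s, h.sa, mul_assoc, h.e1, mul_one, ← pow_add, h.e0]

theorem tz : Commute (a ^ 2 * s) (a ^ 4) := ((Commute.refl a).pow_pow 2 4).mul_left h.sz

theorem ts : a ^ 2 * s * s * (a ^ 2 * s)⁻¹ = s * a ^ 4 := by
  rw [inv_eq_of_mul_eq_one_right h.tt, mul_assoc (a ^ 2), h.e1, h.sz.eq]
  group

theorem ts' : a ^ 2 * s * (s * a ^ 4) * (a ^ 2 * s)⁻¹ = s := by
  rw [← conj_mul, h.ts, h.tz.eq, mul_inv_cancel_right, mul_assoc, h.zz, mul_one]

theorem cs' : IsConj s (s * a ^ 4) := h.ts ▸ cj _ _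

theorem as : a * s * a⁻¹ = a ^ 6 * s := by
  rw [mul_assoc, inv_eq_of_mul_eq_one_right (show a * a ^ 7 = 1 by rw [← pow_succ', h.e0]), h.sa,
    ← mul_assoc, ← pow_succ', pow_eq_pow_mod _ h.e0]

theorem card_N : Nat.card (closure ({a, s, g} : Set G)) = 144 := by
  obtain ⟨ι, hι, -, -, -, e⟩ := h.toNRel.exists_hom h.g1
  rw [← e, card_range hι, Sd9.card_N]

theorem cent_g {u : G} (hu : Commute u g) : u ^ 6 = 1 ∧ (u * u = 1 → u ≠ 1 → IsConj s u ∧
    ∀ v, Commute v g → Commute v u →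
      (v = 1 ∨ v = u) ∨ (v * g⁻¹ = 1 ∨ v * g⁻¹ = u) ∨ (v * g = 1 ∨ v * g = u)) := by
  obtain ⟨ι, hι, rfl, rfl, rfl, e⟩ := h.toNRel.exists_hom h.g1
  obtain ⟨u, rfl⟩ := e.ge (h.cent u hu)
  obtain ⟨h1, h2⟩ := N_cent u (mem_EN u) (hι (by simpa using hu.eq))
  refine ⟨by simpa using congrArg ι h1, fun h3 h4 => ?_⟩
  obtain ⟨⟨c, -, hc⟩, h5⟩ := h2 (hι (by simpa using h3)) (fun e => h4 (by simp [e]))
  refine ⟨isConj_iff.mpr ⟨ι c, by simpa using congrArg ι hc⟩, fun v h6 h7 => ?_⟩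
  obtain ⟨v, rfl⟩ := e.ge (h.cent v h6)
  have := h5 v (mem_EN v) (hι (by simpa using h6.eq)) (hι (by simpa using h7.eq))
  simpa only [← map_inv, ← map_mul, ← map_one ι, hι.eq_iff] using this

variable {y : G} (y3 : y ^ 3 = 1) (y1 : y ≠ 1)
include y3 y1

theorem pow_six {u : G} (hu : Commute u y) : u ^ 6 = 1 := by
  obtain ⟨c, rfl⟩ := h.c3 y y3 y1
  have := (h.cent_g (u := c⁻¹ * u * c⁻¹⁻¹) (by simpa [mul_assoc] using hu.conj c⁻¹)).1
  rwa [conj_pow, conj_eq_one_iff] at this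

theorem cent_y {u : G} (hu : Commute u y) (uu : u * u = 1) (u1 : u ≠ 1) : IsConj s u ∧
    ∀ v, Commute v y → Commute v u →
      (v = 1 ∨ v = u) ∨ (v * y⁻¹ = 1 ∨ v * y⁻¹ = u) ∨ (v * y = 1 ∨ v * y = u) := by
  obtain ⟨c, rfl⟩ := h.c3 y y3 y1
  obtain ⟨u, rfl⟩ : ∃ u', u = c * u' * c⁻¹ := ⟨c⁻¹ * u * c, by group⟩
  have k : ∀ {p q : G}, Commute (c * p * c⁻¹) (c * q * c⁻¹) → Commute p q := fun e => by
    simpa [mul_assoc] using e.conj c⁻¹
  obtain ⟨h1, h2⟩ := (h.cent_g (k hu)).2 (by simpa using uu) (by simpa using u1)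
  refine ⟨h1.trans (cj c u), fun v h3 h4 => ?_⟩
  obtain ⟨v, rfl⟩ : ∃ v', v = c * v' * c⁻¹ := ⟨c⁻¹ * v * c, by group⟩
  simpa only [conj_inv, conj_mul, conj_eq_one_iff, mul_left_inj, mul_right_inj]
    using h2 v (k h3) (k h4)

theorem eq_of_two {u v : G} (hu : Commute u y) (uu : u * u = 1) (u1 : u ≠ 1) (hv : Commute v y)
    (hvu : Commute v u) {k : ℕ} (hk : v ^ 2 ^ k = 1) : v = 1 ∨ v = u := by
  have key : ∀ y' : G, y' ^ 3 = 1 → y' ≠ 1 → Commute v y' → (v * y') ^ 2 ≠ 1 := fun y' e1 e2 e3 e4 => by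
    have e5 : (v * y') ^ 2 ^ (k + 1) = 1 := by rw [pow_succ', pow_mul, e4, one_pow]
    rw [e3.mul_pow, pow_succ, pow_mul, hk, one_pow, one_mul, ← pow_succ] at e5
    have := pow_gcd_eq_one.mpr ⟨e1, e5⟩
    rw [Nat.Coprime.pow_right _ (by norm_num), pow_one] at this
    exact e2 this
  rcases (h.cent_y y3 y1 hu uu u1).2 v hv hvu with e | e | e
  · exact e
  · refine absurd ?_ (key y⁻¹ (by rw [inv_pow, y3, inv_one]) (inv_ne_one.mpr y1) hv.inv_right)
    rcases e with e | e <;> simp [e, sq, uu]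
  · refine absurd ?_ (key y y3 y1 hv)
    rcases e with e | e <;> simp [e, sq, uu]

theorem eq_one_of_coprime {u : G} (hu : Commute u y) (hc : (orderOf u).Coprime 6) : u = 1 :=
  orderOf_eq_one_iff.mp (Nat.eq_one_of_dvd_coprimes hc dvd_rfl
    (orderOf_dvd_of_pow_eq_one (h.pow_six y3 y1 hu)))

omit y3 y1

variable [Finite G]

theorem not_mem {w : G} (ww : w * w = 1) (w1 : w ≠ 1) (ws : w * s = s * w)
    (wa : w * a ^ 2 = a ^ 2 * w) (wg : (w * g) ^ 3 = 1 ∨ (w * g) ^ 3 = s) :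
    ¬ Nat.card (closure ({a, s, g, w} : Set G)) ≤ 1 * Nat.card (closure ({a, s, g} : Set G)) := by
  intro hc
  have h1 : w ∈ closure {a, s, g} := (eq_of_le_of_card_ge
    (closure_mono (by simp [Set.insert_subset_iff])) (one_mul (Nat.card _) ▸ hc)).ge
    (subset_closure (by simp))
  have h2 : w = a ^ 4 := by
    obtain ⟨ι, hι, rfl, rfl, rfl, e⟩ := h.toNRel.exists_hom h.g1
    obtain ⟨w, rfl⟩ := e.ge h1
    rcases (N_cent2 w (mem_EN w)).1 (hι (by simpa using ws)) (hι (by simpa using wa)) with e | e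
    · exact absurd (by simp [e]) w1
    · simp [e]
  have h3 : w * g * (w * g) = 1 := by
    rw [← mul_assoc, h2]
    nth_rewrite 2 [← h.zi]
    rw [h.e6, inv_mul_cancel]
  rw [pow_succ, sq, h3, one_mul] at wg
  refine h.gg ?_
  rcases wg with e | e <;> rw [eq_inv_mul_of_mul_eq e, inv_eq_of_mul_eq_one_right ww]
  · simpa using ww
  · rw [mul_assoc, ← mul_assoc s, ← ws, mul_assoc w, h.e1, mul_one, ww]

theorem wrel {w : G} (ww : w * w = 1) (w1 : w ≠ 1) (ws : w * s = s * w)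
    (wa : w * a ^ 2 = a ^ 2 * w) (aw : a * w * a⁻¹ = w ∨ a * w * a⁻¹ = w * a ^ 4)
    (wg : (w * g) ^ 3 = 1 ∨ (w * g) ^ 3 = s) : WRel a s g w := by
  have m : ∀ x ∈ ({a, s, g} : Set G), x ∈ closure {a, s, g} := fun x hx => subset_closure hx
  have k := h.not_mem ww w1 ws wa wg
  rcases aw with aw | aw <;> rcases wg with wg | wg
  · exact absurd (c1_card h.e0 h.e1 h.e2 h.e3 h.e4 h.e5 h.e6 h.e7 ww ws wa aw wg _ (m a (by simp))
      (m s (by simp)) (m g (by simp))).2 k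
  · exact absurd (c2_card h.e0 h.e1 h.e2 h.e3 h.e4 h.e5 h.e6 h.e7 ww ws wa aw wg _ (m a (by simp))
      (m s (by simp)) (m g (by simp))).2 k
  · exact absurd (c3_card h.e0 h.e1 h.e2 h.e3 h.e4 h.e5 h.e6 h.e7 ww ws wa aw wg _ (m a (by simp))
      (m s (by simp)) (m g (by simp))).2 k
  · exact ⟨ww, ws, wa, aw, wg⟩

theorem bad {w : G} (ww : w * w = 1) (w1 : w ≠ 1) (ws : w * s = s * w)
    (wa : w * a ^ 2 = a ^ 2 * w) (we : w * (a * w * a⁻¹) = a * w * a⁻¹ * w)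
    (wg : (w * g) ^ 3 = 1 ∨ (w * g) ^ 3 = s) (e1 : (a * w * a⁻¹ * g) ^ 20 = 1)
    (e2 : (a * w * a⁻¹ * a ^ 4 * g) ^ 20 = 1) : False := by
  have m : ∀ x ∈ ({a, s, g} : Set G), x ∈ closure {a, s, g} := fun x hx => subset_closure hx
  refine h.not_mem ww w1 ws wa wg ?_
  rcases wg with wg | wg
  · exact (b1_card h.e0 h.e1 h.e2 h.e3 h.e4 h.e5 h.e6 h.e7 ww ws wa we wg e1 e2 _ (m a (by simp))
      (m s (by simp)) (m g (by simp))).2
  · exact (b2_card h.e0 h.e1 h.e2 h.e3 h.e4 h.e5 h.e6 h.e7 ww ws wa we wg e1 e2 _ (m a (by simp))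
      (m s (by simp)) (m g (by simp))).2

theorem eq_z {u : G} (hu : u ∈ zpowers a) (uu : u * u = 1) : u = 1 ∨ u = a ^ 4 := by
  obtain ⟨k, hk, rfl⟩ := exists_pow h.oa hu
  rw [← pow_add, pow_eq_one_iff' h.oa] at uu
  rw [pow_eq_one_iff' h.oa, pow_eq_iff h.oa]
  omega

theorem not_conj (h4 : ∀ u, Commute u s → u ^ 4 ≠ s) : ¬ IsConj s (a ^ 4) := fun e => by
  obtain ⟨c, hc⟩ := isConj_iff.mp e.symm
  refine h4 (c * a * c⁻¹) ?_ (by rw [conj_pow, hc])
  rw [← hc]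
  exact ((Commute.refl a).pow_right 4).conj c

variable [IsSimpleGroup G]

theorem cnt (K : Subgroup G) : ∃ n k, Nat.card G = (n + 4 * k) * Nat.card K ∧ n * Nat.card K =
    {x | x ∈ K ∧ IsConj s x}.ncard * Nat.card (centralizer ({s} : Set G)) := by
  obtain ⟨n, k, h1, h2⟩ := fix_count (fun f => hom_trivial (by
    have := card_le_card_group (closure ({a, s, g} : Set G))
    rw [h.card_N] at this
    omega) f s) h.e1 K
  exact ⟨n, k, by rw [h1, index_mul_card], h2⟩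

theorem cnt_zero {K : Subgroup G} (hK : ∀ x ∈ K, ¬ IsConj s x) : 4 * Nat.card K ∣ Nat.card G := by
  obtain ⟨n, k, h1, h2⟩ := h.cnt K
  rw [show {x | x ∈ K ∧ IsConj s x} = ∅ from Set.eq_empty_of_forall_notMem fun x hx =>
    hK x hx.1 hx.2, Set.ncard_empty, zero_mul] at h2
  exact ⟨k, by rw [h1, add_mul, h2]; ring⟩

variable (hz : ¬ IsConj s (a ^ 4))
include hz

theorem cnt_a : 32 ∣ Nat.card G := by
  have := h.cnt_zero (K := zpowers a) fun x hx e => by
    rcases h.eq_z hx (sq_of_conj h.e1 e) with rfl | rfl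
    · exact h.s1 (isConj_one_left.mp e)
    · exact hz e
  rwa [Nat.card_zpowers, h.oa] at this

theorem cnt_S : ∃ n k, Nat.card G = (n + 4 * k) * 16 ∧
    4 * n = Nat.card (centralizer ({s} : Set G)) := by
  obtain ⟨ι, hι, e1, e2, -, -⟩ := h.toNRel.exists_hom h.g1
  have h1 : Function.Injective (ι.comp (E.incl S_le)) := hι.comp (E.incl_inj S_le)
  have e3 : ι.comp (E.incl S_le) Sd9.sa = a := e1
  have e4 : ι.comp (E.incl S_le) ss = s := e2
  generalize ι.comp (E.incl S_le) = κ at h1 e3 e4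
  obtain ⟨n, k, h2, h3⟩ := h.cnt κ.range
  rw [card_range h1, card_S] at h2 h3
  rw [ncard_model h1 S_cls.1 (fun u => ⟨fun hu => ?_, fun hu => ?_⟩),
    show l4.length = 4 from rfl] at h3
  · exact ⟨n, k, h2, by omega⟩
  · rcases S_cls.2.2 u (mem_ES u) (h1 (by simpa using sq_of_conj h.e1 hu)) with rfl | rfl | e
    · exact absurd (by simpa using hu) h.s1
    · exact absurd (by simpa [e3] using hu) hz
    · exact e
  · obtain ⟨c, -, rfl⟩ := S_cls.2.1 u hu
    simpa only [map_mul, map_inv, e4] using cj _ _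

theorem cnt_P {w : G} (hw : WRel a s g w) : Nat.card (centralizer ({s} : Set G)) ≠ 48 := by
  intro h48
  obtain ⟨f, κ, h1, e1, e2, e3⟩ := hw.exists_hom h.toNRel h.z1
  have c1 : IsConj s w := isConj_iff.mpr ⟨_, f.cs⟩
  have c2 : ¬ IsConj s (w * s) := fun e => hz (e.trans (isConj_iff.mpr ⟨_, f.cv⟩))
  obtain ⟨n, k, h2, h3⟩ := h.cnt κ.range
  obtain ⟨n', k', h4, h5⟩ := h.cnt_S hz
  rw [card_range h1, card_P] at h2 h3
  obtain ⟨p1, p2, p3, p4, p5, -⟩ := P_cls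
  have k1 : ∀ u, IsConj s (κ u) → u ∈ l10 := fun u hu => by
    rcases p5 u (mem_EP u) (h1 (by simpa using sq_of_conj h.e1 hu)) with rfl | rfl | ⟨c, -, rfl⟩ | e
    · exact absurd (by simpa using hu) h.s1
    · exact absurd (by simpa [e1] using hu) hz
    · exact absurd (hu.trans (by simpa only [map_mul, map_inv, e2, e3] using (cj _ _).symm)) c2
    · exact e
  have k2 : ∀ u ∈ l6, IsConj s (κ u) := fun u hu => by
    obtain ⟨c, -, rfl | rfl⟩ := p3 u hu
    · simpa only [map_mul, map_inv, e2] using cj _ _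
    · simpa only [map_mul, map_inv, e3] using c1.trans (cj _ _)
  by_cases c3 : IsConj s (κ (qa * qs * qw))
  · rw [ncard_model h1 p2 (fun u => ⟨k1 u, fun hu => ?_⟩), show l10.length = 10 from rfl] at h3
    · omega
    · rcases p4 u hu with e | ⟨c, -, rfl⟩
      · exact k2 u e
      · rw [map_mul, map_mul, map_inv]
        exact c3.trans (cj _ _)
  · rw [ncard_model h1 p1 (fun u => ⟨fun hu => ?_, k2 u⟩), show l6.length = 6 from rfl] at h3
    · omega
    · rcases p4 u (k1 u hu) with e | ⟨c, -, rfl⟩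
      · exact e
      · rw [map_mul, map_mul, map_inv] at hu
        exact absurd (hu.trans (cj _ _).symm) c3

end Base

end Cfsg.Agent.H4.Sd9
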