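import Cfsg.Agent.H4.SdW
import Cfsg.Agent.H7.Asch.A5

/-!
# Groups with Sylow `3`-normalizer `3² : SD₁₆`: the case `A₅`
-/

set_option autoImplicit false
set_option linter.unusedSectionVars false
set_option maxRecDepth 100000
set_option synthInstance.maxSize 4000

namespace Cfsg.Agent.H4.Sd9

open Subgroup Nse L0.SC3 H1.T3 H9 H7.Asch

theorem a5_facts : ∀ z ∈ a5E, z * z = 1 → z ≠ 1 → (∃ y ∈ a5E, y ^ 3 = 1 ∧ y ≠ 1 ∧
    (∀ u ∈ a5E, u * z = z * u → y * u * y⁻¹ * z = z * (y * u * y⁻¹) ∧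
      (u = 1 ∨ u = z ∨ u = y * z * y⁻¹ ∨ u = z * (y * z * y⁻¹))) ∧
    ∀ u ∈ a5E, u * z * u⁻¹ * z = z * (u * z * u⁻¹) → u * y * u⁻¹ ≠ y⁻¹) ∧
    (∀ u ∈ a5E, u * u = 1 → u * z * u⁻¹ * z = z * (u * z * u⁻¹) → u * z * u⁻¹ = z) ∧
    (∀ u ∈ a5E, u * z = z * u → u * u = 1 ∧ ∀ v ∈ a5E, v * z = z * v →
      (u = 1 ∨ u = z) ∨ (v = 1 ∨ v = z) ∨ (u * v = 1 ∨ u * v = z)) ∧
    ∀ g ∈ a5E, g ^ 3 = 1 → g ≠ 1 → z * g * z⁻¹ = g⁻¹ → ∀ u ∈ a5E, u * z = z * u →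
      u = 1 ∨ u * z = 1 ∨ ((u * g) ^ 5 = 1 ∧ (u * z * g) ^ 5 = 1) := by decide +kernel

theorem a5_four : ∀ u ∈ a5E, u * u * (u * u) = 1 → u * u = 1 := by decide +kernel

variable {G : Type*} [Group G] [Finite G]

theorem mem_a5E (u : E a5K) : u ∈ a5E := E.mem_lst_all a5lists u

namespace Base

variable {a s g : G} (h : Base a s g)
include h

theorem aconj {u : G} (h1 : Commute u s) (h2 : Commute u (a ^ 2)) :
    Commute (a * u * a⁻¹) s ∧ Commute (a * u * a⁻¹) (a ^ 4) := by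
  have h3 := h2.conj a
  have h4 := h1.conj a
  rw [show a * a ^ 2 * a⁻¹ = a ^ 2 by group] at h3
  rw [h.as, show 6 = 2 * 3 from rfl, pow_mul] at h4
  exact ⟨by simpa using (h3.pow_right 3).inv_right.mul_right h4,
    by simpa [← pow_mul] using h3.pow_right 2⟩

theorem le_of_two {y : G} (y3 : y ^ 3 = 1) (y1 : y ≠ 1) (ys : Commute y s) {B : Subgroup G}
    (hB : TQ s y B) (H : ∀ p ∈ B, ∀ q ∈ B, p ∉ zpowers s → q ∉ zpowers s → p * q ∈ zpowers s) :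
    B ≤ zpowers s := fun u hu => by
  by_contra h1
  have k : ∀ p, p ∉ zpowers s → y * p * y⁻¹ ∉ zpowers s := fun p hp e => hp (by
    have := cent_zp y (mc ys) _ e
    rw [inv_mul_cancel_right, mul_left_cancel_iff] at this
    exact this ▸ e)
  have h2 := (mem_zpowers_two h.e1).mpr (h.norm y3 y1 ys hB hu)
  rw [show (u * y) ^ 3 = u * (y * u * y⁻¹) * (y * (y * u * y⁻¹) * y⁻¹) * y ^ 3 by
    rw [pow_succ, sq, pow_succ, sq]; group, y3, mul_one] at h2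
  exact k _ (k _ h1) ((mul_mem_cancel_left (H _ hu _ (hB.nm _ hu) h1 (k _ h1))).mp h2)

end Base

/-- The data in the case `A₅`. -/
structure C2 (a s g y : G) (Q : Subgroup G) : Prop extends Base a s g where
  tq : ∀ y, Commute y s → TQ s y Q
  sq : ∀ q ∈ Q, q * q = 1 ∨ q * q = s
  card : Nat.card (centralizer ({s} : Set G)) = Nat.card Q * 60
  y3 : y ^ 3 = 1
  y1 : y ≠ 1
  ys : Commute y s
  exT : ∃ T, TQ s y T ∧ ∀ u, Commute u s → Cm s u (a ^ 4) → u ∈ T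
  cos : ∀ u, Commute u s → Commute u (a ^ 4) → u ∈ Q ∨ u * a ^ 4 ∈ Q ∨
    u * (y * a ^ 4 * y⁻¹) ∈ Q ∨ u * (a ^ 4 * (y * a ^ 4 * y⁻¹)) ∈ Q
  ninv : ∀ u, Commute u s → Commute (u * a ^ 4 * u⁻¹) (a ^ 4) → u * y * u⁻¹ ≠ y⁻¹
  inv : ∀ u, Commute u s → u * u = 1 → Commute (u * a ^ 4 * u⁻¹) (a ^ 4) →
    u * a ^ 4 * u⁻¹ * a ^ 4 ∈ Q
  two : ∀ u v, Commute u s → Commute u (a ^ 4) → Commute v s → Commute v (a ^ 4) →
    (u ∈ Q ∨ u * a ^ 4 ∈ Q) ∨ (v ∈ Q ∨ v * a ^ 4 ∈ Q) ∨ (u * v ∈ Q ∨ u * v * a ^ 4 ∈ Q)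
  five : ∀ u, Commute u s → Commute u (a ^ 4) → u ∈ Q ∨ u * a ^ 4 ∈ Q ∨
    ((u * g) ^ 5 ∈ Q ∧ (u * a ^ 4 * g) ^ 5 ∈ Q)
  four : ∀ u, Commute u s → u * u * (u * u) ∈ Q → u * u ∈ Q

theorem Base.exists_c2 {a s g : G} (h : Base a s g) {Q : Subgroup G}
    (tq : ∀ y, Commute y s → TQ s y Q) (sq : ∀ q ∈ Q, q * q = 1 ∨ q * q = s)
    (π : centralizer ({s} : Set G) →* alternatingGroup (Fin 5)) (hπ : Function.Surjective π)
    (hk : ∀ u, π u = 1 ↔ (u : G) ∈ Q) : ∃ y, C2 a s g y Q := by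
  have gs : Commute g s := h.e4.symm
  have hQ := tq g gs
  have hH := card_of_surj π hπ (fun q hq => mc (hQ.cs q hq)) hk
  rw [H1.T3.card_alt5] at hH
  obtain ⟨ρ, hρ, hk⟩ : ∃ ρ : centralizer ({s} : Set G) →* E a5K, Function.Surjective ρ ∧
      ∀ u, ρ u = 1 ↔ (u : G) ∈ Q := by
    let e := (MulEquiv.subgroupCongr a5K_eq.symm).trans (E.iso a5K)
    exact ⟨e.toMonoidHom.comp π, e.surjective.comp hπ, fun u => by rw [← hk]; simp⟩
  let z : centralizer ({s} : Set G) := ⟨a ^ 4, mc h.sz.symm⟩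
  have zz : ρ z * ρ z = 1 := by
    rw [← map_mul, ← map_one ρ]; exact congrArg ρ (Subtype.ext h.zz)
  have zi : (ρ z)⁻¹ = ρ z := inv_eq_of_mul_eq_one_right zz
  have cz : ∀ u : centralizer ({s} : Set G), Commute (u : G) (a ^ 4) → ρ u * ρ z = ρ z * ρ u :=
    fun u hu => by rw [← map_mul, ← map_mul]; exact congrArg ρ (Subtype.ext hu)
  have kz : ∀ u, ρ u = ρ z ↔ (u : G) * a ^ 4 ∈ Q := fun u => by
    rw [← mul_inv_eq_one, zi, ← map_mul, hk]; rfl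
  obtain ⟨⟨y0, -, f1, f2, f3, f4⟩, f5, f6, f7⟩ := a5_facts (ρ z) (mem_a5E _) zz
    (fun e => h.z_not hQ ((hk z).mp e))
  obtain ⟨y, rfl, y3⟩ : ∃ y, ρ y = y0 ∧ y ^ 3 = 1 := by
    obtain ⟨x, rfl⟩ := hρ y0
    obtain ⟨k, hk'⟩ := El2.of_mem hQ.two ((hk (x ^ 3)).mp (by rw [map_pow, f1]))
    refine ⟨x ^ (2 ^ k * 2 ^ k), ?_, Subtype.ext ?_⟩
    · rw [map_pow, pow_eq_pow_mod _ f1, show 2 ^ k * 2 ^ k % 3 = 1 by
        rw [← mul_pow, Nat.pow_mod]; simp, pow_one]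
    · rw [← pow_mul, mul_comm, pow_mul, pow_mul, coe_pow, coe_pow, hk', one_pow, coe_one]
  refine ⟨y, h, tq, sq, hH, congrArg Subtype.val y3, fun e => f2 (by
    rw [show y = 1 from Subtype.ext e, map_one]), cm' y,
    ⟨pre ρ (centralizer {ρ z}), ⟨isPGroup_of_el2 fun u hu => ?_, ?_,
      fun u hu => cm' ⟨u, pre_le _ _ hu⟩, fun u hu => ?_⟩, fun u h1 h2 => ?_⟩,
    fun u h1 h2 => ?_, fun u h1 h2 e => ?_, fun u h1 h2 h3 => ?_, fun u v h1 h2 h3 h4 => ?_,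
    fun u h1 h2 => ?_, fun u h1 h2 => ?_⟩
  · have h1 := (f6 _ (mem_a5E _) (H1.T3.mem_cent.mp ((mem_pre ρ (pre_le _ _ hu)).mp hu))).1
    rw [← map_mul, hk] at h1
    obtain ⟨k, hk'⟩ := El2.of_mem hQ.two h1
    exact ⟨k + 1, by rw [pow_succ', pow_mul, _root_.sq]; exact hk'⟩
  · exact (mem_pre ρ (mc (Commute.refl s))).mpr (H1.T3.mem_cent.mpr (cz _ h.sz))
  · have h1 := (f3 _ (mem_a5E _) (H1.T3.mem_cent.mp ((mem_pre ρ (pre_le _ _ hu)).mp hu))).1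
    rw [← map_inv, ← map_mul, ← map_mul] at h1
    exact (mem_pre ρ (y * ⟨u, pre_le _ _ hu⟩ * y⁻¹).2).mpr (H1.T3.mem_cent.mpr h1)
  · refine (mem_pre ρ (mc h1)).mpr (H1.T3.mem_cent.mpr ?_)
    rcases h2 with h2 | h2
    · exact cz _ h2
    · rw [← mul_one (ρ z * _), ← (hk ⟨s, mc (Commute.refl s)⟩).mpr hQ.sQ, ← map_mul, ← map_mul,
        ← map_mul]
      exact congrArg ρ (Subtype.ext h2)
  · have ee : ρ y * ρ z * (ρ y)⁻¹ * (ρ y * ρ z * (ρ y)⁻¹) = 1 := by rw [conj_mul, zz]; simp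
    rcases (f3 _ (mem_a5E _) (cz ⟨u, mc h1⟩ h2)).2 with e | e | e | e
    · exact Or.inl ((hk _).mp e)
    · exact Or.inr (Or.inl ((kz _).mp e))
    · refine Or.inr (Or.inr (Or.inl ((hk (⟨u, mc h1⟩ * (y * z * y⁻¹))).mp ?_)))
      rw [map_mul, map_mul, map_mul, map_inv, e, ee]
    · refine Or.inr (Or.inr (Or.inr ((hk (⟨u, mc h1⟩ * (z * (y * z * y⁻¹)))).mp ?_)))
      rw [map_mul, map_mul, map_mul, map_mul, map_inv, ← e]
      exact (f6 _ (mem_a5E _) (cz ⟨u, mc h1⟩ h2)).1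
  · refine f4 (ρ ⟨u, mc h1⟩) (mem_a5E _) (by
      simpa only [map_mul, map_inv] using cz (⟨u, mc h1⟩ * z * ⟨u, mc h1⟩⁻¹) h2) ?_
    rw [← map_inv, ← map_inv, ← map_mul, ← map_mul]
    exact congrArg ρ (Subtype.ext e)
  · refine (kz (⟨u, mc h1⟩ * z * ⟨u, mc h1⟩⁻¹)).mp ?_
    rw [map_mul, map_mul, map_inv]
    exact f5 _ (mem_a5E _) (by rw [← map_mul, ← map_one ρ]; exact congrArg ρ (Subtype.ext h2))
      (by simpa only [map_mul, map_inv] using cz (⟨u, mc h1⟩ * z * ⟨u, mc h1⟩⁻¹) h3)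
  · have := (f6 _ (mem_a5E _) (cz ⟨u, mc h1⟩ h2)).2 _ (mem_a5E _) (cz ⟨v, mc h3⟩ h4)
    simp only [← map_mul, hk, kz] at this
    exact this
  · have := f7 (ρ ⟨g, mc gs⟩) (mem_a5E _)
      (by rw [← map_pow, ← map_one ρ]; exact congrArg ρ (Subtype.ext h.e3))
      (fun e => h.g1 (cube_of_two hQ.two g ((hk _).mp e) h.e3))
      (by rw [← map_inv, ← map_inv, ← map_mul, ← map_mul]; exact congrArg ρ (Subtype.ext h.e6))
      _ (mem_a5E _) (cz ⟨u, mc h1⟩ h2)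
    simp only [← map_mul, ← map_pow, hk] at this
    exact this
  · have := a5_four (ρ ⟨u, mc h1⟩) (mem_a5E _) (by simp only [← map_mul, hk]; exact h2)
    simp only [← map_mul, hk] at this
    exact this

namespace C2

variable {a s g y : G} {Q : Subgroup G} (h : C2 a s g y Q)
include h

theorem es : Commute (y * a ^ 4 * y⁻¹) s := (h.ys.mul_left h.sz.symm).mul_left h.ys.inv_left

theorem ee : y * a ^ 4 * y⁻¹ * (y * a ^ 4 * y⁻¹) = 1 := by rw [conj_mul, h.zz]; simp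

theorem yyy (u : G) : y * (y * (y * u * y⁻¹) * y⁻¹) * y⁻¹ = u := by
  calc _ = y ^ 3 * u * (y ^ 3)⁻¹ := by rw [pow_succ, _root_.sq]; group
    _ = u := by simp [h.y3]

theorem cm_e {u : G} (h1 : Commute u s) (h2 : Cm s u (a ^ 4)) :
    Cm s u (y * a ^ 4 * y⁻¹) ∧ Cm s u (y * (y * a ^ 4 * y⁻¹) * y⁻¹) := by
  obtain ⟨T, hT, mT⟩ := h.exT
  have h3 := mT _ h.sz.symm (Or.inl rfl)
  have h4 := h.cm_conj h.y3 h.y1 h.ys hT (mT u h1 h2) h3 h2
  exact ⟨h4, h.cm_conj h.y3 h.y1 h.ys hT (mT u h1 h2) (hT.nm _ h3) h4⟩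

theorem nrm : a ^ 4 * (y * a ^ 4 * y⁻¹) = y * (y * a ^ 4 * y⁻¹) * y⁻¹ ∨
    a ^ 4 * (y * a ^ 4 * y⁻¹) = y * (y * a ^ 4 * y⁻¹) * y⁻¹ * s := by
  obtain ⟨T, hT, mT⟩ := h.exT
  have h1 := h.norm h.y3 h.y1 h.ys hT (mT _ h.sz.symm (Or.inl rfl))
  have h2 : (y * (y * a ^ 4 * y⁻¹) * y⁻¹)⁻¹ = y * (y * a ^ 4 * y⁻¹) * y⁻¹ :=
    inv_eq_of_mul_eq_one_right (by rw [conj_mul, h.ee]; simp)
  rw [show (a ^ 4 * y) ^ 3 = a ^ 4 * (y * a ^ 4 * y⁻¹) * (y * (y * a ^ 4 * y⁻¹) * y⁻¹) * y ^ 3 by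
    rw [pow_succ _ 2, _root_.sq, pow_succ _ 2, _root_.sq]; group, h.y3, mul_one] at h1
  refine h1.imp (fun e => ?_) (fun e => ?_)
  · rw [eq_inv_of_mul_eq_one_left e, h2]
  · rw [eq_mul_inv_of_mul_eq e, h2, ((h.ys.mul_left h.es).mul_left h.ys.inv_left).eq]

theorem ez : Commute (y * a ^ 4 * y⁻¹) (a ^ 4) := by
  have h1 : a ^ 4 * (y * a ^ 4 * y⁻¹) * (a ^ 4 * (y * a ^ 4 * y⁻¹)) = 1 := by
    have h2 : y * (y * a ^ 4 * y⁻¹) * y⁻¹ * (y * (y * a ^ 4 * y⁻¹) * y⁻¹) = 1 := by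
      rw [conj_mul, h.ee]; simp
    rcases h.nrm with e | e <;> rw [e]
    · exact h2
    · rw [((h.ys.mul_left h.es).mul_left h.ys.inv_left).symm.mul_mul_mul_comm, h2, h.e1, mul_one]
  rw [Commute, SemiconjBy, eq_inv_of_mul_eq_one_left h1, mul_inv_rev, h.zi,
    inv_eq_of_mul_eq_one_left h.ee]

theorem sqU {u : G} (h1 : Commute u s) (h2 : Commute u (a ^ 4)) : u * u = 1 := by
  have key : ∀ u, Commute u s → Commute u (a ^ 4) → u * u ∈ zpowers s := fun u h1 h2 => by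
    have k : ∀ f, f * f = 1 → Commute f s → Cm s u f → u * f ∈ Q → u * u ∈ zpowers s :=
      fun f e1 e2 e3 e4 => by
        have e5 := (mem_zpowers_two h.e1).mpr (h.sq _ e4)
        rw [show u * f * (u * f) = u * (f * u * f⁻¹) by
          rw [inv_eq_of_mul_eq_one_right e1]; group] at e5
        rcases e3.conj h.e1 e2 with e | e <;> rw [e] at e5
        · exact e5
        · rwa [← mul_assoc, mul_mem_cancel_right (mem_zpowers s)] at e5
    have h3 := (h.cm_e h1 (Or.inl h2)).1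
    rcases h.cos u h1 h2 with e | e | e | e
    · exact (mem_zpowers_two h.e1).mpr (h.sq _ e)
    · exact k _ h.zz h.sz.symm (Or.inl h2) e
    · exact k _ h.ee h.es h3 e
    · refine k _ (by rw [h.ez.mul_mul_mul_comm, h.zz, h.ee, mul_one]) (h.sz.symm.mul_left h.es)
        (h3.imp (fun e => ?_) (fun e => ?_)) e <;>
      rw [← mul_assoc, h2.eq, mul_assoc, e] <;> simp only [mul_assoc]
  refine ((mem_zpowers_two h.e1).mp (key u h1 h2)).resolve_right fun e => ?_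
  have h3 := key _ (h.comm_t h1 h2) (by
    have := h2.conj (a ^ 2 * s)
    rwa [h.tz.eq, mul_inv_cancel_right] at this)
  rw [conj_mul, e, h.ts, mul_mem_cancel_left (mem_zpowers s), mem_zpowers_two h.e1] at h3
  rcases h3 with e | e
  exacts [h.z1 e, h.s_ne e.symm]

theorem commU {u v : G} (hu : u ∈ centralizer {s, a ^ 4}) (hv : v ∈ centralizer {s, a ^ 4}) :
    Commute u v := by
  have k : ∀ u ∈ centralizer ({s, a ^ 4} : Set G), u * u = 1 := fun u hu =>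
    h.sqU (mem_cent2.mp hu).1 (mem_cent2.mp hu).2
  rw [Commute, SemiconjBy, eq_inv_of_mul_eq_one_left (k _ (mul_mem hu hv)), mul_inv_rev,
    inv_eq_of_mul_eq_one_left (k _ hu), inv_eq_of_mul_eq_one_left (k _ hv)]

theorem sU : s ∈ centralizer ({s, a ^ 4} : Set G) := mem_cent2.mpr ⟨rfl, h.sz⟩

theorem zU : a ^ 4 ∈ centralizer ({s, a ^ 4} : Set G) := mem_cent2.mpr ⟨h.sz.symm, rfl⟩

theorem mem_N {c : G} (h1 : c * s * c⁻¹ ∈ centralizer {s, a ^ 4})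
    (h2 : c * a ^ 4 * c⁻¹ ∈ centralizer {s, a ^ 4}) :
    c ∈ normalizer (centralizer ({s, a ^ 4} : Set G) : Set G) := by
  refine inv_mem_iff.mp (mem_normalizer_fintype fun u hu => mem_cent2.mpr ⟨?_, ?_⟩)
  · simpa [mul_assoc] using ((h.commU hu h1).conj c⁻¹).eq
  · simpa [mul_assoc] using ((h.commU hu h2).conj c⁻¹).eq

theorem yN : y ∈ normalizer (centralizer ({s, a ^ 4} : Set G) : Set G) :=
  h.mem_N (by rw [h.ys.eq, mul_inv_cancel_right]; exact h.sU) (mem_cent2.mpr ⟨h.es, h.ez⟩)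

theorem tN : a ^ 2 * s ∈ normalizer (centralizer ({s, a ^ 4} : Set G) : Set G) :=
  h.mem_N (h.ts ▸ mul_mem h.sU h.zU) (by rw [h.tz.eq, mul_inv_cancel_right]; exact h.zU)

theorem comm_s {c : G} (hc : c ∈ normalizer (centralizer ({s, a ^ 4} : Set G) : Set G))
    (hy : c * y * c⁻¹ = y ∨ c * y * c⁻¹ = y⁻¹) : Commute c s := by
  have h1 := h.ys.symm.conj c
  refine mul_inv_eq_iff_eq_mul.mp ((h.eq_of_two h.y3 h.y1 h.ys.symm h.e1 h.s1 ?_
    (mem_cent2.mp (conj_mem_of_mem_normalizer hc h.sU)).1 (k := 1)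
    (by rw [pow_one, _root_.sq, conj_mul, h.e1]; simp)).resolve_left (by simpa using h.s1))
  rcases hy with e | e <;> rw [e] at h1
  exacts [h1, Commute.inv_right_iff.mp h1]

theorem not_w {w : G} (hw : WRel a s g w) : False := by
  have : Fact (Nat.Prime 3) := ⟨Nat.prime_three⟩
  have f := h.wf hw
  have y1 := h.toBase.y1 hw
  have wU : w ∈ centralizer ({s, a ^ 4} : Set G) := mem_cent2.mpr ⟨hw.ws, Base.wz hw⟩
  have h1 := h.mem_N (by rw [f.ys]; exact mul_mem h.sU h.zU) (by rw [f.yz]; exact mul_mem wU h.sU)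
  have y3 := f.y3
  have ty := f.ty
  generalize g * (w * s) * g⁻¹ * (a ^ 2 * s * (g * (w * s) * g⁻¹) * (a ^ 2 * s)⁻¹) = x
    at y1 h1 y3 ty
  have p3 : ∀ x : G, x ^ 3 = 1 → IsPGroup 3 (zpowers x) := fun x hx =>
    IsPGroup.of_card_dvd_pow (n := 1) (by
      rw [Nat.card_zpowers]; exact orderOf_dvd_of_pow_eq_one hx)
  obtain ⟨R, hR, h2⟩ := exists_isSylowIn_ge (zpowers_le_of_mem h.yN) (p3 y h.y3)
  obtain ⟨c, hc, h3⟩ := Nse.exists_conj_le (zpowers_le_of_mem h1) (p3 x y3) hR.not_dvd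
  have h4 := (h.ab3 R hR.isPGroup _ (h3 x (mem_zpowers x))).2 y (h2 (mem_zpowers y))
  have h5 := h.comm_s (mul_mem (mul_mem hc h1) (inv_mem hc)) (Or.inl (by
    rw [h4.eq, mul_inv_cancel_right]))
  have h6 : c * (a ^ 2 * s) * c⁻¹ * (c * x * c⁻¹) * (c * (a ^ 2 * s) * c⁻¹)⁻¹ = (c * x * c⁻¹)⁻¹ := by
    rw [conj_inv, conj_inv, conj_mul, conj_mul, ty]
  have h7 : (c * x * c⁻¹) ^ 3 = 1 := by rw [conj_pow, y3]; simp
  have h8 : c * x * c⁻¹ ≠ 1 := by simpa using y1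
  have h9 := mul_mem (mul_mem hc h.tN) (inv_mem hc)
  generalize c * x * c⁻¹ = x at h4 h5 h6 h7 h8
  generalize c * (a ^ 2 * s) * c⁻¹ = t at h6 h9
  have k : ∀ p : G, p ^ 3 = 1 → (p = 1 ∨ p = s) → p = 1 := fun p e1 e2 =>
    e2.elim id fun e => two_ne_three e1 (e ▸ h.e1)
  have h10 : t * y * t⁻¹ = y⁻¹ := by
    rcases (h.cent_y h.y3 h.y1 h.ys.symm h.e1 h.s1).2 x h4 h5 with e | e | e
    · exact absurd (k x h7 e) h8
    · rwa [← mul_inv_eq_one.mp (k _ (by rw [h4.inv_right.mul_pow, inv_pow, h7, h.y3]; simp) e)]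
    · rw [eq_inv_of_mul_eq_one_right (k _ (by rw [h4.mul_pow, h7, h.y3]; simp) e), ← conj_inv, h6]
  exact h.ninv t (h.comm_s h9 (Or.inr h10))
    (mem_cent2.mp (conj_mem_of_mem_normalizer h9 h.zU)).2 h10

theorem cap_eq {r : G} (hr : r ∈ cap Q (a ^ 2 * s)) : r = 1 := by
  by_contra r1
  obtain ⟨w, -, hw⟩ := h.exists_w (h.tq g h.e4.symm) hr r1 fun w wQ ww w1 wa => by
    have ws := (h.tq g h.e4.symm).cs w wQ
    obtain ⟨h1, h2⟩ := h.aconj ws wa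
    have k : ∀ p, p ^ 5 ∈ Q → p ^ 20 = 1 := fun p hp => by
      rw [show 20 = 5 * (2 * 2) from rfl, pow_mul, pow_mul, _root_.sq (p ^ 5), _root_.sq]
      rcases h.sq _ hp with e | e <;> rw [e]
      exacts [mul_one 1, h.e1]
    rcases h.five _ h1 h2 with e | e | e
    · exact Or.inl e
    · exact Or.inr e
    · exact (h.bad ww w1 ws wa (h.commU (mem_cent2.mpr ⟨ws, by
        simpa [← pow_mul] using (wa.pow_right 2).eq⟩) (mem_cent2.mpr ⟨h1, h2⟩))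
        (h.norm h.e3 h.g1 h.e4.symm (h.tq g h.e4.symm) wQ) (k _ e.1) (k _ e.2)).elim
  exact h.not_w hw

theorem Q_le : Q ≤ zpowers s := by
  have hQ := h.tq y h.ys
  have k : ∀ p ∈ Q, a ^ 2 * s * p * (a ^ 2 * s)⁻¹ ∈ Q ∨ a ^ 2 * s * p * (a ^ 2 * s)⁻¹ * a ^ 4 ∈ Q →
      p ∈ zpowers s := fun p hp e => by
    rcases e with e | e
    · exact h.cap_eq ⟨hp, e⟩ ▸ one_mem _
    · rw [← mul_mem_cancel_right (mem_zpowers s), h.cap_eq (r := p * s) (mem_cap.mpr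
        ⟨mul_mem hp hQ.sQ, by rw [cmul, h.ts, h.sz.eq, ← mul_assoc]; exact mul_mem e hQ.sQ⟩)]
      exact one_mem _
  have h1 : Q ⊓ centralizer {s, a ^ 4} ≤ zpowers s := h.le_of_two h.y3 h.y1 h.ys
    ⟨hQ.two.to_le inf_le_left, ⟨hQ.sQ, h.sU⟩, fun q hq => hQ.cs q hq.1,
      fun q hq => ⟨hQ.nm q hq.1, conj_mem_of_mem_normalizer h.yN hq.2⟩⟩ fun p hp q hq h1 h2 => by
      have e1 := mem_cent2.mp (conj_mem_of_mem_normalizer h.tN hp.2)
      have e2 := mem_cent2.mp (conj_mem_of_mem_normalizer h.tN hq.2)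
      rcases h.two _ _ e1.1 e1.2 e2.1 e2.2 with e | e | e
      · exact absurd (k p hp.1 e) h1
      · exact absurd (k q hq.1 e) h2
      · exact k _ (Q.mul_mem hp.1 hq.1) (by rwa [conj_mul] at e)
  obtain ⟨A, hA, -, h2, -⟩ := h.star (h.tq g h.e4.symm) (h.tq _ h.sz.symm).nm
  have h3 : A ≤ zpowers s := h.le_of_two h.y3 h.y1 h.ys
    ⟨hQ.two.to_le fun u hu => ((hA u).mp hu).1, (hA s).mpr ⟨hQ.sQ, Or.inl h.sz⟩,
      fun q hq => hQ.cs q ((hA q).mp hq).1, fun q hq => by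
        obtain ⟨e1, e2⟩ := (hA q).mp hq
        refine (hA _).mpr ⟨hQ.nm q e1, (h.cm_e (hQ.cs q e1) e2).2.imp (fun e => ?_) (fun e => ?_)⟩ <;>
        rw [← h.yyy (a ^ 4), conj_mul, conj_mul, e]
        rw [cmul y _ s, h.ys.eq, mul_inv_cancel_right]⟩ fun p hp q hq e1 e2 => by
      obtain ⟨p1, p2⟩ := (hA p).mp hp
      obtain ⟨q1, q2⟩ := (hA q).mp hq
      have p3 := p2.resolve_left fun e => e1 (h1 ⟨p1, mem_cent2.mpr ⟨hQ.cs p p1, e⟩⟩)
      have q3 := q2.resolve_left fun e => e2 (h1 ⟨q1, mem_cent2.mpr ⟨hQ.cs q q1, e⟩⟩)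
      refine h1 ⟨mul_mem p1 q1, mem_cent2.mpr ⟨(hQ.cs p p1).mul_left (hQ.cs q q1), ?_⟩⟩
      rw [mul_assoc, q3, ← mul_assoc, ← mul_assoc, p3, mul_assoc _ s, ← (hQ.cs q q1).eq,
        mul_assoc, mul_assoc q, h.e1, mul_one, mul_assoc]
  intro q hq
  obtain ⟨c, hc, d, hd, rfl⟩ := h2 q hq
  refine mul_mem (h3 hc) ?_
  rw [cent_zp g (mc h.e4.symm) d (h3 hd), mul_inv_cancel_right]
  exact h3 hd

theorem false [IsSimpleGroup G] : False := by
  have hQ : ∀ {q}, q ∈ Q → q = 1 ∨ q = s := fun hq => (mem_zpowers_two h.e1).mp (h.Q_le hq)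
  have hz := h.not_conj fun u hu e => by
    have e1 : u * u * (u * u) = s := Eq.trans (by simp [pow_succ, mul_assoc]) e
    rcases hQ (h.four u hu (e1 ▸ (h.tq s (Commute.refl s)).sQ)) with e2 | e2 <;> rw [e2] at e1
    · exact h.s1 (by simpa using e1.symm)
    · exact h.s1 (e1 ▸ h.e1)
  have hH := h.card
  rw [le_antisymm h.Q_le (zpowers_le_of_mem (h.tq s (Commute.refl s)).sQ), h.card_zp] at hH
  have nrm := h.nrm
  have es := h.es
  have ee := h.ee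
  have ez := h.ez
  have cos := h.cos
  have ye : y * (s * a ^ 4) * y⁻¹ = s * (y * a ^ 4 * y⁻¹) := by
    rw [cmul, h.ys.eq, mul_inv_cancel_right]
  have ce : IsConj (a ^ 4) (y * a ^ 4 * y⁻¹) := cj _ _
  have ez' : y * a ^ 4 * y⁻¹ ≠ a ^ 4 := fun e => by
    rcases h.eq_of_two h.y3 h.y1 h.ys.symm h.e1 h.s1 (mul_inv_eq_iff_eq_mul.mp e).symm h.sz.symm
      (k := 1) (by rw [pow_one, _root_.sq, h.zz]) with e | e
    exacts [h.z1 e, h.s_ne e.symm]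
  obtain ⟨e, he⟩ : ∃ e, e = y * a ^ 4 * y⁻¹ := ⟨_, rfl⟩
  rw [← he] at nrm es ee ez cos ye ce ez'
  have ce' : IsConj (a ^ 4) (y * e * y⁻¹) := ce.trans (cj _ _)
  have cse : IsConj s (s * e) := ye ▸ h.cs'.trans (cj _ _)
  have cse' : IsConj s (s * (y * e * y⁻¹)) := by
    have := cse.trans (cj y _)
    rwa [cmul, h.ys.eq, mul_inv_cancel_right] at this
  have e's : Commute (y * e * y⁻¹) s := (h.ys.mul_left es).mul_left h.ys.inv_left
  have ee' : y * e * y⁻¹ * (y * e * y⁻¹) = 1 := sq_of_conj h.zz ce'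
  have zt : ∀ u ∈ centralizer ({s, a ^ 4} : Set G), IsConj (a ^ 4) u →
      u = a ^ 4 ∨ u = e ∨ u = y * e * y⁻¹ := fun u hu c => by
    have k : ∀ f, f * f = 1 → IsConj s (s * f) → u * f ∈ Q → u = f := fun f e1 e2 e3 => by
      rcases hQ e3 with e4 | e4 <;> rw [eq_mul_inv_of_mul_eq e4, inv_eq_of_mul_eq_one_right e1] at c ⊢
      · exact one_mul f
      · exact absurd (e2.trans c.symm) hz
    rcases cos u (mem_cent2.mp hu).1 (mem_cent2.mp hu).2 with e1 | e1 | e1 | e1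
    · exact absurd (isConj_one_left.mp (k 1 (mul_one 1) (by rw [mul_one]) (by simpa using e1) ▸ c)) h.z1
    · exact Or.inl (k _ h.zz h.cs' e1)
    · exact Or.inr (Or.inl (k _ ee cse e1))
    · refine Or.inr (Or.inr (k _ ee' cse' ?_))
      rcases nrm with e2 | e2 <;> rw [e2] at e1
      · exact e1
      · rwa [← mul_assoc, mul_mem_cancel_right (h.tq s (Commute.refl s)).sQ] at e1
  have eU : e ∈ centralizer ({s, a ^ 4} : Set G) := mem_cent2.mpr ⟨es, ez⟩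
  have e'U := conj_mem_of_mem_normalizer h.yN eU
  have tz : a ^ 2 * s * a ^ 4 * (a ^ 2 * s)⁻¹ = a ^ 4 := by rw [h.tz.eq, mul_inv_cancel_right]
  have ts := h.ts
  have ts' := h.ts'
  have tconj := h.tconj
  have tN := h.tN
  have tt := h.tt
  obtain ⟨t, ht⟩ : ∃ t, t = a ^ 2 * s := ⟨_, rfl⟩
  rw [← ht] at tz ts ts' tconj tN tt
  have k1 : ∀ c u, c * a ^ 4 * c⁻¹ = a ^ 4 → c * u * c⁻¹ = a ^ 4 → u = a ^ 4 := fun c u e1 e2 => by
    rw [← e1] at e2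
    simpa using e2
  have te := (zt _ (conj_mem_of_mem_normalizer tN eU) (ce.trans (cj _ _))).resolve_left
    fun e1 => ez' (k1 _ _ tz e1)
  have h1 : a ^ 4 * e = y * e * y⁻¹ := nrm.resolve_right fun e1 => by
    have e2 : a ^ 4 * (e * (y * e * y⁻¹)) = s := by
      rw [← mul_assoc, e1, mul_assoc, ← e's.eq, ← mul_assoc, ee', one_mul]
    have e3 : t * (e * (y * e * y⁻¹)) * t⁻¹ = e * (y * e * y⁻¹) := by
      rw [cmul]
      rcases te with e3 | e3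
      · rcases zt _ (conj_mem_of_mem_normalizer tN e'U) (ce'.trans (cj _ _)) with e4 | e4 | e4
        · rw [k1 _ _ tz e4, mul_right_inj] at e1
          exact absurd (e1 ▸ ce).symm hz
        · have e5 : y * e * y⁻¹ = e := by simpa using e4.trans e3.symm
          rw [e5, es.eq, mul_left_inj] at e1
          exact absurd e1.symm h.s_ne
        · rw [e3, e4]
      · have e4 := tconj e
        rw [e3] at e4
        rw [e3, e4, (h.commU eU e'U).eq]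
    have e4 : t * s * t⁻¹ = s := by rw [← e2, cmul, e3, tz]
    rw [ts, mul_eq_left] at e4
    exact h.z1 e4
  have h2 : t * e * t⁻¹ = e := te.resolve_right fun e1 => by
    have e2 : t * y⁻¹ * (s * e) * (t * y⁻¹)⁻¹ = s := by
      rw [← ye]
      exact Eq.trans (by group) ts'
    have e3 : Commute t (s * e) := by
      rw [Commute, SemiconjBy, ← mul_inv_eq_iff_eq_mul, cmul, ts, e1, ← h1, mul_assoc,
        ← mul_assoc (a ^ 4), h.zz, one_mul]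
    have e4 := e3.conj (t * y⁻¹)
    rw [e2] at e4
    have cN := mul_mem tN (inv_mem h.yN)
    have e5 := mul_mem (mul_mem cN tN) (inv_mem cN)
    have e6 := mem_cent2.mp (conj_mem_of_mem_normalizer e5 h.zU)
    have e7 : t * y⁻¹ * t * (t * y⁻¹)⁻¹ ∈ centralizer {s, a ^ 4} := by
      refine mem_cent2.mpr ⟨e4, mul_inv_eq_iff_eq_mul.mp ?_⟩
      rcases hQ (h.inv _ e4 (by rw [conj_mul, tt]; simp) e6.2) with e8 | e8
      · rw [eq_inv_of_mul_eq_one_left e8, h.zi]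
      · refine absurd (h.cs'.trans (IsConj.symm ?_)) hz
        rw [← h.zi, ← eq_mul_inv_of_mul_eq e8, h.zi]
        exact cj _ _
    have e8 := (mem_cent2.mp ((mem_normalizer_iff.mp cN t).mpr e7)).1
    rw [e8, mul_inv_cancel_right, eq_comm, mul_eq_left] at ts
    exact h.z1 ts
  have ea : Commute e (a ^ 2) := by
    simpa [ht] using (Commute.symm (mul_inv_eq_iff_eq_mul.mp h2)).mul_right es.inv_right
  obtain ⟨h3, h4⟩ := h.aconj es ea
  have h5 := (zt _ (mem_cent2.mpr ⟨h3, h4⟩) (ce.trans (cj _ _))).resolve_left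
    fun e1 => ez' (k1 a _ (by group) e1)
  have ei : e⁻¹ = e := inv_eq_of_mul_eq_one_right ee
  obtain ⟨m, hm, h6⟩ : ∃ m, (m = 1 ∨ m = 5) ∧ e * a * e⁻¹ = a ^ m := by
    rcases h5 with e1 | e1
    · exact ⟨1, Or.inl rfl, by rw [mul_inv_eq_iff_eq_mul.mp e1 |>.symm]; simp⟩
    · refine ⟨5, Or.inr rfl, ?_⟩
      rw [← h1, mul_inv_eq_iff_eq_mul, mul_assoc] at e1
      rw [mul_inv_eq_iff_eq_mul, pow_succ, mul_assoc, e1, ← mul_assoc, h.zz, one_mul]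
  obtain ⟨K, hK, h7⟩ := H3.exists_ext2 (A := zpowers a) (r := e) (ee ▸ one_mem _)
    (fun e1 => by
      rcases h.eq_z e1 ee with e2 | e2
      · exact h.z1 (isConj_one_left.mp (e2 ▸ ce))
      · exact ez' e2) (by
      rintro _ ⟨k, rfl⟩
      rw [← conj_zpow, h6]
      exact zpow_mem (npow_mem_zpowers a m) k)
  have h8 := h.cnt_zero (K := K) fun x hx c => by
    have e1 := sq_of_conj h.e1 c
    rcases (hK x).mp hx with e2 | e2
    · rcases h.eq_z e2 e1 with rfl | rfl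
      exacts [h.s1 (isConj_one_left.mp c), hz c]
    · obtain ⟨i, hi, e3⟩ := exists_pow h.oa e2
      rw [eq_mul_inv_of_mul_eq e3, ei] at e1 c
      rw [show a ^ i * e * (a ^ i * e) = a ^ i * (e * a ^ i * e⁻¹) by rw [ei]; group, ← conj_pow, h6,
        ← pow_mul, ← pow_add, pow_eq_one_iff' h.oa] at e1
      obtain rfl | rfl : i = 0 ∨ i = 4 := by rcases hm with rfl | rfl <;> omega
      · exact hz (c.trans (by simpa using ce.symm))
      · exact hz (c.trans (h1 ▸ ce'.symm))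
  obtain ⟨n, k, h9, h10⟩ := h.cnt_S hz
  rw [h7, Nat.card_zpowers, h.oa, h9] at h8
  omega

end C2

end Cfsg.Agent.H4.Sd9
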