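import Cfsg.Agent.H4.TC

/-!
# Coset enumerations for overgroups of `3² : SD₁₆`
-/

set_option autoImplicit false
set_option maxRecDepth 100000
set_option linter.unusedSimpArgs false

namespace Cfsg.Agent.H4.Sd9

/-- Certificate data. -/
def c1_par : Trie :=
    (.node (.node (.node (.node (.leaf (nat_lit 0)) (.leaf (nat_lit 1025))) (.leaf (nat_lit 513)))
    (.node (.leaf (nat_lit 260)) (.leaf (nat_lit 769)))) (.node (.node (.leaf (nat_lit 6)) (.leaf
    (nat_lit 514))) (.node (.leaf (nat_lit 261)) (.leaf (nat_lit 770)))))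

/-- Certificate data. -/
def c1_fact : Trie :=
    (.node (.node (.node (.node (.node (.leaf (nat_lit 1)) (.leaf (nat_lit 33793))) (.node (.leaf
    (nat_lit 8966)) (.leaf (nat_lit 4864)))) (.node (.node (.leaf (nat_lit 4354)) (.leaf (nat_lit
    18176))) (.leaf (nat_lit 25345)))) (.node (.node (.node (.leaf (nat_lit 4)) (.leaf (nat_lit
    30213))) (.node (.leaf (nat_lit 20994)) (.leaf (nat_lit 6)))) (.node (.node (.leaf (nat_lit
    12549)) (.leaf (nat_lit 8960))) (.leaf (nat_lit 29442))))) (.node (.node (.node (.node (.leaf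
    (nat_lit 3)) (.leaf (nat_lit 30721))) (.node (.leaf (nat_lit 16897)) (.leaf (nat_lit 256))))
    (.node (.node (.leaf (nat_lit 8452)) (.leaf (nat_lit 14336))) (.leaf (nat_lit 17926)))) (.node
    (.node (.node (.leaf (nat_lit 4102)) (.leaf (nat_lit 22016))) (.leaf (nat_lit 17669))) (.node
    (.node (.leaf (nat_lit 8965)) (.leaf (nat_lit 4608))) (.leaf (nat_lit 22278))))))

/-- Certificate data. -/
def c1_just : Trie :=
    (.node (.node (.node (.node (.node (.leaf (nat_lit 1)) (.leaf (nat_lit 0))) (.node (.leaf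
    (nat_lit 727403688544763909)) (.leaf (nat_lit 12833362411522)))) (.node (.node (.leaf (nat_lit
    105858059141123)) (.leaf (nat_lit 468245924741122))) (.leaf (nat_lit 0)))) (.node (.node (.node
    (.leaf (nat_lit 1)) (.leaf (nat_lit 41713351979507212119244810))) (.node (.leaf (nat_lit 0))
    (.leaf (nat_lit 2143188811778)))) (.node (.node (.leaf (nat_lit 0)) (.leaf (nat_lit
    22105316204478466))) (.leaf (nat_lit 0))))) (.node (.node (.node (.node (.leaf (nat_lit 1))
    (.leaf (nat_lit 34079295035558463848120329))) (.node (.leaf (nat_lit 0)) (.leaf (nat_lit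
    8730599066173442)))) (.node (.node (.leaf (nat_lit 0)) (.leaf (nat_lit 521585123590146)))
    (.leaf (nat_lit 321164769689607)))) (.node (.node (.node (.leaf (nat_lit 0)) (.leaf (nat_lit
    140975448664721195019))) (.leaf (nat_lit 83740075322667040774))) (.node (.node (.leaf (nat_lit
    2804613775364)) (.leaf (nat_lit 15432388725440514))) (.leaf (nat_lit 356366321647624))))))

/-- Certificate data. -/
def c1_rel : Trie :=
    (.node (.node (.node (.node (.leaf (nat_lit 0)) (.leaf (nat_lit 9481771136427097129220)))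
    (.leaf (nat_lit 286981158600964))) (.node (.leaf (nat_lit 263172)) (.leaf (nat_lit 17170950))))
    (.node (.node (.node (.leaf (nat_lit 100795905)) (.leaf (nat_lit 5523412223238))) (.leaf
    (nat_lit 33947910))) (.node (.leaf (nat_lit 4423883817990)) (.leaf (nat_lit
    9481987024435699581442)))))

/-- Certificate data. -/
def c1_rc : Trie :=
    (.node (.node (.node (.node (.leaf (nat_lit 26)) (.leaf (nat_lit 1179660))) (.leaf (nat_lit
    131086))) (.node (.leaf (nat_lit 6)) (.leaf (nat_lit 131094)))) (.node (.node (.node (.leaf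
    (nat_lit 22)) (.leaf (nat_lit 131097))) (.leaf (nat_lit 393238))) (.node (.leaf (nat_lit 24))
    (.leaf (nat_lit 1048589)))))

/-- Certificate data. -/
def c1_lv : Trie :=
    (.leaf (nat_lit 0))

/-- Certificate data. -/
def c1_tb : Trie :=
    (.node (.node (.leaf (nat_lit 0)) (.leaf (nat_lit 4))) (.node (.leaf (nat_lit 3)) (.leaf
    (nat_lit 53))))

/-- Certificate data. -/
def c1_C : TC.Cert := ⟨4, 15, 6, 63, 1693269432009216, 62, c1_par, c1_fact, c1_just, c1_rel, 10⟩

/-- Certificate data. -/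
def c1_rs : List (List ℕ) := [[1, 1, 1, 1, 1, 1, 1, 1], [3, 3], [3, 1, 3, 2, 2, 2], [4, 4, 4], [3, 4, 3, 5], [4, 1, 1, 4, 2, 2, 5, 1, 1, 5, 2, 2], [1, 1, 1, 1, 4, 2, 2, 2, 2, 4], [1, 4, 1, 4, 2, 2, 5], [6, 6], [6, 3, 6, 3], [6, 1, 1, 6, 2, 2], [1, 6, 2, 6], [6, 4, 6, 4, 6, 4]]

/-- Certificate data. -/
def c1_gl : List ℕ := [1, 259, 516, 774]

theorem c1_h1 : allB c1_C.factChk 27 = true := by decide +kernel

theorem c1_h2 : c1_C.finChk 27 1 c1_lv c1_tb c1_gl = true := by decide +kernel

theorem c1_h3 : TC.relChk c1_C.ivc c1_rs c1_C.rel c1_rc c1_C.nrel = true := by decide +kernel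

theorem c1_bound {G : Type*} [Group G] {a r g w : G}
    (r0 : a * a * a * a * a * a * a * a = 1)
    (r1 : r * r = 1)
    (r2 : r * a * r * a⁻¹ * a⁻¹ * a⁻¹ = 1)
    (r3 : g * g * g = 1)
    (r4 : r * g * r * g⁻¹ = 1)
    (r5 : g * a * a * g * a⁻¹ * a⁻¹ * g⁻¹ * a * a * g⁻¹ * a⁻¹ * a⁻¹ = 1)
    (r6 : a * a * a * a * g * a⁻¹ * a⁻¹ * a⁻¹ * a⁻¹ * g = 1)
    (r7 : a * g * a * g * a⁻¹ * a⁻¹ * g⁻¹ = 1)
    (r8 : w * w = 1)
    (r9 : w * r * w * r = 1)
    (r10 : w * a * a * w * a⁻¹ * a⁻¹ = 1)
    (r11 : a * w * a⁻¹ * w = 1)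
    (r12 : w * g * w * g * w * g = 1)
    (H : Subgroup G) [Finite H] (m1 : a ∈ H) (m3 : r ∈ H) (m4 : g ∈ H) :
    Finite (Subgroup.closure ({a, r, g, w} : Set G)) ∧
      Nat.card (Subgroup.closure ({a, r, g, w} : Set G)) ≤ 1 * Nat.card H := by
  have hL : TC.Lett (TC.lett [a, a⁻¹, r, g, g⁻¹, w]) c1_C.ivc :=
    TC.lett_ok (show Nat.shiftRight c1_C.ivc (8 * 7) = 0 by decide +kernel) (by
      intro a ha
      change a < 7 at ha
      interval_cases a
      · exact inv_one.symm
      · rfl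
      · exact (inv_inv _).symm
      · exact (inv_eq_of_mul_eq_one_right r1).symm
      · rfl
      · exact (inv_inv _).symm
      · exact (inv_eq_of_mul_eq_one_right r8).symm)
  have h := TC.card_le c1_h1 c1_h2 c1_h3 (by decide) hL (by
    simp only [c1_rs, List.forall_mem_cons]
    refine ⟨?_, ?_, ?_, ?_, ?_, ?_, ?_, ?_, ?_, ?_, ?_, ?_, ?_, List.forall_mem_nil _⟩
    · show a * (a * (a * (a * (a * (a * (a * (a * 1))))))) = 1
      simp only [mul_assoc, mul_one] at r0 ⊢
      exact r0
    · show r * (r * 1) = 1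
      simp only [mul_one] at r1 ⊢
      exact r1
    · show r * (a * (r * (a⁻¹ * (a⁻¹ * (a⁻¹ * 1))))) = 1
      simp only [mul_assoc, mul_one] at r2 ⊢
      exact r2
    · show g * (g * (g * 1)) = 1
      simp only [mul_assoc, mul_one] at r3 ⊢
      exact r3
    · show r * (g * (r * (g⁻¹ * 1))) = 1
      simp only [mul_assoc, mul_one] at r4 ⊢
      exact r4
    · show g * (a * (a * (g * (a⁻¹ * (a⁻¹ * (g⁻¹ * (a * (a * (g⁻¹ * (a⁻¹ * (a⁻¹ * 1))))))))))) = 1
      simp only [mul_assoc, mul_one] at r5 ⊢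
      exact r5
    · show a * (a * (a * (a * (g * (a⁻¹ * (a⁻¹ * (a⁻¹ * (a⁻¹ * (g * 1))))))))) = 1
      simp only [mul_assoc, mul_one] at r6 ⊢
      exact r6
    · show a * (g * (a * (g * (a⁻¹ * (a⁻¹ * (g⁻¹ * 1)))))) = 1
      simp only [mul_assoc, mul_one] at r7 ⊢
      exact r7
    · show w * (w * 1) = 1
      simp only [mul_one] at r8 ⊢
      exact r8
    · show w * (r * (w * (r * 1))) = 1
      simp only [mul_assoc, mul_one] at r9 ⊢
      exact r9
    · show w * (a * (a * (w * (a⁻¹ * (a⁻¹ * 1))))) = 1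
      simp only [mul_assoc, mul_one] at r10 ⊢
      exact r10
    · show a * (w * (a⁻¹ * (w * 1))) = 1
      simp only [mul_assoc, mul_one] at r11 ⊢
      exact r11
    · show w * (g * (w * (g * (w * (g * 1))))) = 1
      simp only [mul_assoc, mul_one] at r12 ⊢
      exact r12) H
    (TC.forall_subs (K := 7) (by decide +kernel) (by
      intro a ha hb
      interval_cases a
      · exact absurd hb (by decide +kernel)
      · exact m1
      · exact H.inv_mem m1
      · exact m3
      · exact m4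
      · exact H.inv_mem m4
      · exact absurd hb (by decide +kernel)))
  have e : {g₀ | ∃ ak ∈ c1_gl, TC.lett [a, a⁻¹, r, g, g⁻¹, w] (ak % 256) = g₀} =
      {a, r, g, w} := by
    ext g₀
    simp only [c1_gl, List.mem_cons, List.not_mem_nil, or_false, exists_eq_or_imp,
      exists_eq_left, Set.mem_ofPred_eq, Set.mem_insert_iff, Set.mem_singleton_iff]
    exact or_congr eq_comm (or_congr eq_comm (or_congr eq_comm (eq_comm)))
  rw [e] at h
  exact h

theorem c1_card {G : Type*} [Group G] {a r g w : G}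
    (e0 : a ^ 8 = 1)
    (e1 : r * r = 1)
    (e2 : r * a * r = a ^ 3)
    (e3 : g ^ 3 = 1)
    (e4 : r * g = g * r)
    (e5 : g * (a ^ 2 * g * (a ^ 2)⁻¹) = a ^ 2 * g * (a ^ 2)⁻¹ * g)
    (e6 : a ^ 4 * g * (a ^ 4)⁻¹ = g⁻¹)
    (e7 : a * g * a⁻¹ = g * (a ^ 2 * g * (a ^ 2)⁻¹)⁻¹)
    (e8 : w * w = 1)
    (e9 : w * r = r * w)
    (e10 : w * a ^ 2 = a ^ 2 * w)
    (e11 : a * w * a⁻¹ = w)
    (e12 : (w * g) ^ 3 = 1)
    (H : Subgroup G) [Finite H] (ma : a ∈ H) (mr : r ∈ H) (mg : g ∈ H) :
    Finite (Subgroup.closure ({a, r, g, w} : Set G)) ∧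
      Nat.card (Subgroup.closure ({a, r, g, w} : Set G)) ≤ 1 * Nat.card H := by
  have ir : r⁻¹ = r := inv_eq_of_mul_eq_one_right e1
  have iw : w⁻¹ = w := inv_eq_of_mul_eq_one_right e8
  refine c1_bound ?_ ?_ ?_ ?_ ?_ ?_ ?_ ?_ ?_ ?_ ?_ ?_ ?_ H ma mr mg
  · have h := mul_inv_eq_one.mpr e0
    simp only [pow_succ, pow_zero, mul_inv_rev, inv_inv, inv_one, one_mul, mul_one, mul_assoc,
      mul_inv_cancel_left, inv_mul_cancel_left, mul_inv_cancel, inv_mul_cancel, ir, iw] at h ⊢
    exact h
  · have h := mul_inv_eq_one.mpr e1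
    simp only [pow_succ, pow_zero, mul_inv_rev, inv_inv, inv_one, one_mul, mul_one, mul_assoc,
      mul_inv_cancel_left, inv_mul_cancel_left, mul_inv_cancel, inv_mul_cancel, ir, iw] at h ⊢
    exact h
  · have h := mul_inv_eq_one.mpr e2
    simp only [pow_succ, pow_zero, mul_inv_rev, inv_inv, inv_one, one_mul, mul_one, mul_assoc,
      mul_inv_cancel_left, inv_mul_cancel_left, mul_inv_cancel, inv_mul_cancel, ir, iw] at h ⊢
    exact h
  · have h := mul_inv_eq_one.mpr e3
    simp only [pow_succ, pow_zero, mul_inv_rev, inv_inv, inv_one, one_mul, mul_one, mul_assoc,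
      mul_inv_cancel_left, inv_mul_cancel_left, mul_inv_cancel, inv_mul_cancel, ir, iw] at h ⊢
    exact h
  · have h := mul_inv_eq_one.mpr e4
    simp only [pow_succ, pow_zero, mul_inv_rev, inv_inv, inv_one, one_mul, mul_one, mul_assoc,
      mul_inv_cancel_left, inv_mul_cancel_left, mul_inv_cancel, inv_mul_cancel, ir, iw] at h ⊢
    exact h
  · have h := mul_inv_eq_one.mpr e5
    simp only [pow_succ, pow_zero, mul_inv_rev, inv_inv, inv_one, one_mul, mul_one, mul_assoc,
      mul_inv_cancel_left, inv_mul_cancel_left, mul_inv_cancel, inv_mul_cancel, ir, iw] at h ⊢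
    exact h
  · have h := mul_inv_eq_one.mpr e6
    simp only [pow_succ, pow_zero, mul_inv_rev, inv_inv, inv_one, one_mul, mul_one, mul_assoc,
      mul_inv_cancel_left, inv_mul_cancel_left, mul_inv_cancel, inv_mul_cancel, ir, iw] at h ⊢
    exact h
  · have h := mul_inv_eq_one.mpr e7
    simp only [pow_succ, pow_zero, mul_inv_rev, inv_inv, inv_one, one_mul, mul_one, mul_assoc,
      mul_inv_cancel_left, inv_mul_cancel_left, mul_inv_cancel, inv_mul_cancel, ir, iw] at h ⊢
    exact h
  · have h := mul_inv_eq_one.mpr e8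
    simp only [pow_succ, pow_zero, mul_inv_rev, inv_inv, inv_one, one_mul, mul_one, mul_assoc,
      mul_inv_cancel_left, inv_mul_cancel_left, mul_inv_cancel, inv_mul_cancel, ir, iw] at h ⊢
    exact h
  · have h := mul_inv_eq_one.mpr e9
    simp only [pow_succ, pow_zero, mul_inv_rev, inv_inv, inv_one, one_mul, mul_one, mul_assoc,
      mul_inv_cancel_left, inv_mul_cancel_left, mul_inv_cancel, inv_mul_cancel, ir, iw] at h ⊢
    exact h
  · have h := mul_inv_eq_one.mpr e10
    simp only [pow_succ, pow_zero, mul_inv_rev, inv_inv, inv_one, one_mul, mul_one, mul_assoc,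
      mul_inv_cancel_left, inv_mul_cancel_left, mul_inv_cancel, inv_mul_cancel, ir, iw] at h ⊢
    exact h
  · have h := mul_inv_eq_one.mpr e11
    simp only [pow_succ, pow_zero, mul_inv_rev, inv_inv, inv_one, one_mul, mul_one, mul_assoc,
      mul_inv_cancel_left, inv_mul_cancel_left, mul_inv_cancel, inv_mul_cancel, ir, iw] at h ⊢
    exact h
  · have h := mul_inv_eq_one.mpr e12
    simp only [pow_succ, pow_zero, mul_inv_rev, inv_inv, inv_one, one_mul, mul_one, mul_assoc,
      mul_inv_cancel_left, inv_mul_cancel_left, mul_inv_cancel, inv_mul_cancel, ir, iw] at h ⊢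
    exact h

/-- Certificate data. -/
def c2_par : Trie :=
    (.node (.node (.node (.node (.leaf (nat_lit 0)) (.leaf (nat_lit 1025))) (.leaf (nat_lit 513)))
    (.node (.leaf (nat_lit 260)) (.leaf (nat_lit 769)))) (.node (.node (.node (.leaf (nat_lit 6))
    (.leaf (nat_lit 1029))) (.leaf (nat_lit 514))) (.node (.leaf (nat_lit 261)) (.leaf (nat_lit
    770)))))

/-- Certificate data. -/
def c2_fact : Trie :=
    (.node (.node (.node (.node (.node (.node (.leaf (nat_lit 1)) (.leaf (nat_lit 9216))) (.leaf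
    (nat_lit 29442))) (.node (.node (.leaf (nat_lit 8965)) (.leaf (nat_lit 6))) (.leaf (nat_lit
    37893)))) (.node (.node (.node (.leaf (nat_lit 4355)) (.leaf (nat_lit 5632))) (.leaf (nat_lit
    30213))) (.node (.leaf (nat_lit 20994)) (.leaf (nat_lit 38918))))) (.node (.node (.node (.node
    (.leaf (nat_lit 4)) (.leaf (nat_lit 9984))) (.leaf (nat_lit 33793))) (.node (.leaf (nat_lit
    8966)) (.leaf (nat_lit 35075)))) (.node (.node (.node (.leaf (nat_lit 8452)) (.leaf (nat_lit
    5120))) (.leaf (nat_lit 34565))) (.node (.leaf (nat_lit 25345)) (.leaf (nat_lit 18176))))))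
    (.node (.node (.node (.node (.node (.leaf (nat_lit 3)) (.leaf (nat_lit 10240))) (.leaf (nat_lit
    22278))) (.node (.leaf (nat_lit 13059)) (.leaf (nat_lit 22789)))) (.node (.node (.node (.leaf
    (nat_lit 4354)) (.leaf (nat_lit 4608))) (.leaf (nat_lit 29699))) (.node (.leaf (nat_lit 17669))
    (.leaf (nat_lit 30720))))) (.node (.node (.node (.node (.leaf (nat_lit 4102)) (.leaf (nat_lit
    8960))) (.leaf (nat_lit 30721))) (.node (.leaf (nat_lit 16897)) (.leaf (nat_lit 22785))))
    (.node (.node (.node (.leaf (nat_lit 12549)) (.leaf (nat_lit 256))) (.leaf (nat_lit 26629)))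
    (.node (.leaf (nat_lit 17926)) (.leaf (nat_lit 18432)))))))

/-- Certificate data. -/
def c2_just : Trie :=
    (.node (.node (.node (.node (.node (.node (.leaf (nat_lit 1)) (.leaf (nat_lit
    211408868813832194))) (.leaf (nat_lit 0))) (.node (.node (.leaf (nat_lit 6661494407173)) (.leaf
    (nat_lit 4187593244674))) (.leaf (nat_lit 0)))) (.node (.node (.node (.leaf (nat_lit
    423891797475331)) (.leaf (nat_lit 951279421685762))) (.leaf (nat_lit
    11847892321287582277383553036))) (.node (.leaf (nat_lit 0)) (.leaf (nat_lit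
    3889135836397578))))) (.node (.node (.node (.node (.leaf (nat_lit 1)) (.leaf (nat_lit
    35442070257666))) (.leaf (nat_lit 0))) (.node (.leaf (nat_lit 1777841489805633257479)) (.leaf
    (nat_lit 3119524941594630)))) (.node (.node (.node (.leaf (nat_lit 0)) (.leaf (nat_lit
    40956808265730))) (.leaf (nat_lit 5792404522378623057934))) (.node (.leaf (nat_lit 0)) (.leaf
    (nat_lit 337439272456159234)))))) (.node (.node (.node (.node (.node (.leaf (nat_lit 1)) (.leaf
    (nat_lit 35450660192258))) (.leaf (nat_lit 1699986710659082))) (.node (.leaf (nat_lit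
    990174645518342)) (.leaf (nat_lit 15053860503557)))) (.node (.node (.node (.leaf (nat_lit
    422792285847556)) (.leaf (nat_lit 83384508045521649666))) (.leaf (nat_lit
    37066968147157123085))) (.node (.leaf (nat_lit 3260552797962352590856)) (.leaf (nat_lit
    858496790651078613336081))))) (.node (.node (.node (.node (.leaf (nat_lit 0)) (.leaf (nat_lit
    615693045169651714))) (.leaf (nat_lit 9937579657453119906364588043))) (.node (.leaf (nat_lit
    0)) (.leaf (nat_lit 3560522030396501000208)))) (.node (.node (.node (.leaf (nat_lit 0)) (.leaf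
    (nat_lit 68415225547980802))) (.leaf (nat_lit 143298153635244672294001983553551))) (.node
    (.leaf (nat_lit 1559232042434569)) (.leaf (nat_lit 33234457067522)))))))

/-- Certificate data. -/
def c2_rel : Trie :=
    (.node (.node (.node (.node (.leaf (nat_lit 0)) (.leaf (nat_lit 17170950))) (.node (.leaf
    (nat_lit 67306755)) (.leaf (nat_lit 285877402206724)))) (.node (.node (.leaf (nat_lit
    100795905)) (.leaf (nat_lit 9481771136427097129220))) (.node (.leaf (nat_lit 286981158600964))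
    (.leaf (nat_lit 1127016615444994))))) (.node (.node (.node (.leaf (nat_lit 100861443)) (.leaf
    (nat_lit 9481987024435699581442))) (.node (.leaf (nat_lit 848848813949958)) (.leaf (nat_lit
    621411501634544994336440580)))) (.node (.node (.leaf (nat_lit 263172)) (.leaf (nat_lit
    1103823569411))) (.node (.leaf (nat_lit 33947910)) (.leaf (nat_lit 1692165675943428))))))

/-- Certificate data. -/
def c2_rc : Trie :=
    (.node (.node (.node (.node (.leaf (nat_lit 26)) (.leaf (nat_lit 131094))) (.node (.leaf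
    (nat_lit 262152)) (.leaf (nat_lit 393230)))) (.node (.node (.leaf (nat_lit 22)) (.leaf (nat_lit
    1179660))) (.node (.leaf (nat_lit 131086)) (.leaf (nat_lit 524302))))) (.node (.node (.node
    (.leaf (nat_lit 131090)) (.leaf (nat_lit 1048589))) (.node (.leaf (nat_lit 24)) (.leaf (nat_lit
    10)))) (.node (.node (.leaf (nat_lit 6)) (.leaf (nat_lit 393221))) (.node (.leaf (nat_lit
    393238)) (.leaf (nat_lit 131096))))))

/-- Certificate data. -/
def c2_lv : Trie :=
    (.leaf (nat_lit 0))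

/-- Certificate data. -/
def c2_tb : Trie :=
    (.node (.node (.leaf (nat_lit 0)) (.leaf (nat_lit 4))) (.node (.leaf (nat_lit 3)) (.leaf
    (nat_lit 81))))

/-- Certificate data. -/
def c2_C : TC.Cert := ⟨4, 15, 7, 127, 1693269432009216, 62, c2_par, c2_fact, c2_just, c2_rel, 16⟩

/-- Certificate data. -/
def c2_rs : List (List ℕ) := [[1, 1, 1, 1, 1, 1, 1, 1], [3, 3], [3, 1, 3, 2, 2, 2], [4, 4, 4], [3, 4, 3, 5], [4, 1, 1, 4, 2, 2, 5, 1, 1, 5, 2, 2], [1, 1, 1, 1, 4, 2, 2, 2, 2, 4], [1, 4, 1, 4, 2, 2, 5], [6, 6], [6, 3, 6, 3], [6, 1, 1, 6, 2, 2], [1, 6, 2, 6], [6, 4, 6, 4, 6, 4, 3]]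

/-- Certificate data. -/
def c2_gl : List ℕ := [1, 259, 516, 774]

theorem c2_h1 : allB c2_C.factChk 41 = true := by decide +kernel

theorem c2_h2 : c2_C.finChk 41 1 c2_lv c2_tb c2_gl = true := by decide +kernel

theorem c2_h3 : TC.relChk c2_C.ivc c2_rs c2_C.rel c2_rc c2_C.nrel = true := by decide +kernel

theorem c2_bound {G : Type*} [Group G] {a r g w : G}
    (r0 : a * a * a * a * a * a * a * a = 1)
    (r1 : r * r = 1)
    (r2 : r * a * r * a⁻¹ * a⁻¹ * a⁻¹ = 1)
    (r3 : g * g * g = 1)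
    (r4 : r * g * r * g⁻¹ = 1)
    (r5 : g * a * a * g * a⁻¹ * a⁻¹ * g⁻¹ * a * a * g⁻¹ * a⁻¹ * a⁻¹ = 1)
    (r6 : a * a * a * a * g * a⁻¹ * a⁻¹ * a⁻¹ * a⁻¹ * g = 1)
    (r7 : a * g * a * g * a⁻¹ * a⁻¹ * g⁻¹ = 1)
    (r8 : w * w = 1)
    (r9 : w * r * w * r = 1)
    (r10 : w * a * a * w * a⁻¹ * a⁻¹ = 1)
    (r11 : a * w * a⁻¹ * w = 1)
    (r12 : w * g * w * g * w * g * r = 1)
    (H : Subgroup G) [Finite H] (m1 : a ∈ H) (m3 : r ∈ H) (m4 : g ∈ H) :
    Finite (Subgroup.closure ({a, r, g, w} : Set G)) ∧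
      Nat.card (Subgroup.closure ({a, r, g, w} : Set G)) ≤ 1 * Nat.card H := by
  have hL : TC.Lett (TC.lett [a, a⁻¹, r, g, g⁻¹, w]) c2_C.ivc :=
    TC.lett_ok (show Nat.shiftRight c2_C.ivc (8 * 7) = 0 by decide +kernel) (by
      intro a ha
      change a < 7 at ha
      interval_cases a
      · exact inv_one.symm
      · rfl
      · exact (inv_inv _).symm
      · exact (inv_eq_of_mul_eq_one_right r1).symm
      · rfl
      · exact (inv_inv _).symm
      · exact (inv_eq_of_mul_eq_one_right r8).symm)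
  have h := TC.card_le c2_h1 c2_h2 c2_h3 (by decide) hL (by
    simp only [c2_rs, List.forall_mem_cons]
    refine ⟨?_, ?_, ?_, ?_, ?_, ?_, ?_, ?_, ?_, ?_, ?_, ?_, ?_, List.forall_mem_nil _⟩
    · show a * (a * (a * (a * (a * (a * (a * (a * 1))))))) = 1
      simp only [mul_assoc, mul_one] at r0 ⊢
      exact r0
    · show r * (r * 1) = 1
      simp only [mul_one] at r1 ⊢
      exact r1
    · show r * (a * (r * (a⁻¹ * (a⁻¹ * (a⁻¹ * 1))))) = 1
      simp only [mul_assoc, mul_one] at r2 ⊢
      exact r2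
    · show g * (g * (g * 1)) = 1
      simp only [mul_assoc, mul_one] at r3 ⊢
      exact r3
    · show r * (g * (r * (g⁻¹ * 1))) = 1
      simp only [mul_assoc, mul_one] at r4 ⊢
      exact r4
    · show g * (a * (a * (g * (a⁻¹ * (a⁻¹ * (g⁻¹ * (a * (a * (g⁻¹ * (a⁻¹ * (a⁻¹ * 1))))))))))) = 1
      simp only [mul_assoc, mul_one] at r5 ⊢
      exact r5
    · show a * (a * (a * (a * (g * (a⁻¹ * (a⁻¹ * (a⁻¹ * (a⁻¹ * (g * 1))))))))) = 1
      simp only [mul_assoc, mul_one] at r6 ⊢
      exact r6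
    · show a * (g * (a * (g * (a⁻¹ * (a⁻¹ * (g⁻¹ * 1)))))) = 1
      simp only [mul_assoc, mul_one] at r7 ⊢
      exact r7
    · show w * (w * 1) = 1
      simp only [mul_one] at r8 ⊢
      exact r8
    · show w * (r * (w * (r * 1))) = 1
      simp only [mul_assoc, mul_one] at r9 ⊢
      exact r9
    · show w * (a * (a * (w * (a⁻¹ * (a⁻¹ * 1))))) = 1
      simp only [mul_assoc, mul_one] at r10 ⊢
      exact r10
    · show a * (w * (a⁻¹ * (w * 1))) = 1
      simp only [mul_assoc, mul_one] at r11 ⊢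
      exact r11
    · show w * (g * (w * (g * (w * (g * (r * 1)))))) = 1
      simp only [mul_assoc, mul_one] at r12 ⊢
      exact r12) H
    (TC.forall_subs (K := 7) (by decide +kernel) (by
      intro a ha hb
      interval_cases a
      · exact absurd hb (by decide +kernel)
      · exact m1
      · exact H.inv_mem m1
      · exact m3
      · exact m4
      · exact H.inv_mem m4
      · exact absurd hb (by decide +kernel)))
  have e : {g₀ | ∃ ak ∈ c2_gl, TC.lett [a, a⁻¹, r, g, g⁻¹, w] (ak % 256) = g₀} =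
      {a, r, g, w} := by
    ext g₀
    simp only [c2_gl, List.mem_cons, List.not_mem_nil, or_false, exists_eq_or_imp,
      exists_eq_left, Set.mem_ofPred_eq, Set.mem_insert_iff, Set.mem_singleton_iff]
    exact or_congr eq_comm (or_congr eq_comm (or_congr eq_comm (eq_comm)))
  rw [e] at h
  exact h

theorem c2_card {G : Type*} [Group G] {a r g w : G}
    (e0 : a ^ 8 = 1)
    (e1 : r * r = 1)
    (e2 : r * a * r = a ^ 3)
    (e3 : g ^ 3 = 1)
    (e4 : r * g = g * r)
    (e5 : g * (a ^ 2 * g * (a ^ 2)⁻¹) = a ^ 2 * g * (a ^ 2)⁻¹ * g)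
    (e6 : a ^ 4 * g * (a ^ 4)⁻¹ = g⁻¹)
    (e7 : a * g * a⁻¹ = g * (a ^ 2 * g * (a ^ 2)⁻¹)⁻¹)
    (e8 : w * w = 1)
    (e9 : w * r = r * w)
    (e10 : w * a ^ 2 = a ^ 2 * w)
    (e11 : a * w * a⁻¹ = w)
    (e12 : (w * g) ^ 3 = r)
    (H : Subgroup G) [Finite H] (ma : a ∈ H) (mr : r ∈ H) (mg : g ∈ H) :
    Finite (Subgroup.closure ({a, r, g, w} : Set G)) ∧
      Nat.card (Subgroup.closure ({a, r, g, w} : Set G)) ≤ 1 * Nat.card H := by
  have ir : r⁻¹ = r := inv_eq_of_mul_eq_one_right e1
  have iw : w⁻¹ = w := inv_eq_of_mul_eq_one_right e8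
  refine c2_bound ?_ ?_ ?_ ?_ ?_ ?_ ?_ ?_ ?_ ?_ ?_ ?_ ?_ H ma mr mg
  · have h := mul_inv_eq_one.mpr e0
    simp only [pow_succ, pow_zero, mul_inv_rev, inv_inv, inv_one, one_mul, mul_one, mul_assoc,
      mul_inv_cancel_left, inv_mul_cancel_left, mul_inv_cancel, inv_mul_cancel, ir, iw] at h ⊢
    exact h
  · have h := mul_inv_eq_one.mpr e1
    simp only [pow_succ, pow_zero, mul_inv_rev, inv_inv, inv_one, one_mul, mul_one, mul_assoc,
      mul_inv_cancel_left, inv_mul_cancel_left, mul_inv_cancel, inv_mul_cancel, ir, iw] at h ⊢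
    exact h
  · have h := mul_inv_eq_one.mpr e2
    simp only [pow_succ, pow_zero, mul_inv_rev, inv_inv, inv_one, one_mul, mul_one, mul_assoc,
      mul_inv_cancel_left, inv_mul_cancel_left, mul_inv_cancel, inv_mul_cancel, ir, iw] at h ⊢
    exact h
  · have h := mul_inv_eq_one.mpr e3
    simp only [pow_succ, pow_zero, mul_inv_rev, inv_inv, inv_one, one_mul, mul_one, mul_assoc,
      mul_inv_cancel_left, inv_mul_cancel_left, mul_inv_cancel, inv_mul_cancel, ir, iw] at h ⊢
    exact h
  · have h := mul_inv_eq_one.mpr e4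
    simp only [pow_succ, pow_zero, mul_inv_rev, inv_inv, inv_one, one_mul, mul_one, mul_assoc,
      mul_inv_cancel_left, inv_mul_cancel_left, mul_inv_cancel, inv_mul_cancel, ir, iw] at h ⊢
    exact h
  · have h := mul_inv_eq_one.mpr e5
    simp only [pow_succ, pow_zero, mul_inv_rev, inv_inv, inv_one, one_mul, mul_one, mul_assoc,
      mul_inv_cancel_left, inv_mul_cancel_left, mul_inv_cancel, inv_mul_cancel, ir, iw] at h ⊢
    exact h
  · have h := mul_inv_eq_one.mpr e6
    simp only [pow_succ, pow_zero, mul_inv_rev, inv_inv, inv_one, one_mul, mul_one, mul_assoc,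
      mul_inv_cancel_left, inv_mul_cancel_left, mul_inv_cancel, inv_mul_cancel, ir, iw] at h ⊢
    exact h
  · have h := mul_inv_eq_one.mpr e7
    simp only [pow_succ, pow_zero, mul_inv_rev, inv_inv, inv_one, one_mul, mul_one, mul_assoc,
      mul_inv_cancel_left, inv_mul_cancel_left, mul_inv_cancel, inv_mul_cancel, ir, iw] at h ⊢
    exact h
  · have h := mul_inv_eq_one.mpr e8
    simp only [pow_succ, pow_zero, mul_inv_rev, inv_inv, inv_one, one_mul, mul_one, mul_assoc,
      mul_inv_cancel_left, inv_mul_cancel_left, mul_inv_cancel, inv_mul_cancel, ir, iw] at h ⊢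
    exact h
  · have h := mul_inv_eq_one.mpr e9
    simp only [pow_succ, pow_zero, mul_inv_rev, inv_inv, inv_one, one_mul, mul_one, mul_assoc,
      mul_inv_cancel_left, inv_mul_cancel_left, mul_inv_cancel, inv_mul_cancel, ir, iw] at h ⊢
    exact h
  · have h := mul_inv_eq_one.mpr e10
    simp only [pow_succ, pow_zero, mul_inv_rev, inv_inv, inv_one, one_mul, mul_one, mul_assoc,
      mul_inv_cancel_left, inv_mul_cancel_left, mul_inv_cancel, inv_mul_cancel, ir, iw] at h ⊢
    exact h
  · have h := mul_inv_eq_one.mpr e11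
    simp only [pow_succ, pow_zero, mul_inv_rev, inv_inv, inv_one, one_mul, mul_one, mul_assoc,
      mul_inv_cancel_left, inv_mul_cancel_left, mul_inv_cancel, inv_mul_cancel, ir, iw] at h ⊢
    exact h
  · have h := mul_inv_eq_one.mpr e12
    simp only [pow_succ, pow_zero, mul_inv_rev, inv_inv, inv_one, one_mul, mul_one, mul_assoc,
      mul_inv_cancel_left, inv_mul_cancel_left, mul_inv_cancel, inv_mul_cancel, ir, iw] at h ⊢
    exact h

/-- Certificate data. -/
def c3_par : Trie :=
    (.node (.node (.node (.node (.leaf (nat_lit 0)) (.leaf (nat_lit 1025))) (.leaf (nat_lit 513)))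
    (.node (.leaf (nat_lit 260)) (.leaf (nat_lit 769)))) (.node (.node (.leaf (nat_lit 6)) (.leaf
    (nat_lit 514))) (.node (.leaf (nat_lit 261)) (.leaf (nat_lit 770)))))

/-- Certificate data. -/
def c3_fact : Trie :=
    (.node (.node (.node (.node (.node (.node (.leaf (nat_lit 1)) (.leaf (nat_lit 6))) (.leaf
    (nat_lit 33793))) (.node (.leaf (nat_lit 8965)) (.leaf (nat_lit 34565)))) (.node (.node (.leaf
    (nat_lit 4355)) (.leaf (nat_lit 26118))) (.node (.leaf (nat_lit 20994)) (.leaf (nat_lit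
    8960))))) (.node (.node (.node (.leaf (nat_lit 4)) (.leaf (nat_lit 30213))) (.node (.leaf
    (nat_lit 8966)) (.leaf (nat_lit 34822)))) (.node (.node (.leaf (nat_lit 8452)) (.leaf (nat_lit
    17414))) (.node (.leaf (nat_lit 25345)) (.leaf (nat_lit 4864)))))) (.node (.node (.node (.node
    (.leaf (nat_lit 3)) (.leaf (nat_lit 30721))) (.node (.leaf (nat_lit 13059)) (.leaf (nat_lit
    26629)))) (.node (.node (.leaf (nat_lit 4353)) (.leaf (nat_lit 21766))) (.node (.leaf (nat_lit
    17669)) (.leaf (nat_lit 4608))))) (.node (.node (.node (.leaf (nat_lit 4102)) (.leaf (nat_lit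
    29699))) (.node (.leaf (nat_lit 16897)) (.leaf (nat_lit 17920)))) (.node (.node (.leaf (nat_lit
    12549)) (.leaf (nat_lit 30470))) (.node (.leaf (nat_lit 29442)) (.leaf (nat_lit 256)))))))

/-- Certificate data. -/
def c3_just : Trie :=
    (.node (.node (.node (.node (.node (.node (.leaf (nat_lit 1)) (.leaf (nat_lit 4118873767938)))
    (.leaf (nat_lit 0))) (.node (.leaf (nat_lit 6661494407173)) (.leaf (nat_lit
    5199802798633369600016)))) (.node (.node (.leaf (nat_lit 423891797475331)) (.leaf (nat_lit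
    533519327732445059940364))) (.node (.leaf (nat_lit 0)) (.leaf (nat_lit 1648288189317122)))))
    (.node (.node (.node (.leaf (nat_lit 1)) (.leaf (nat_lit 10600280875408973597579477002)))
    (.node (.leaf (nat_lit 13889386638502854663)) (.leaf (nat_lit 59161913847894573063)))) (.node
    (.node (.leaf (nat_lit 0)) (.leaf (nat_lit 25592421862898728974))) (.node (.leaf (nat_lit 0))
    (.leaf (nat_lit 32126355505154)))))) (.node (.node (.node (.node (.leaf (nat_lit 1)) (.leaf
    (nat_lit 9318590599608616979616301065))) (.node (.leaf (nat_lit 990174645518342)) (.leaf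
    (nat_lit 143220153703583042627971737911313)))) (.node (.node (.leaf (nat_lit
    113336795588901550358532)) (.leaf (nat_lit 456334710482698758455309))) (.node (.leaf (nat_lit
    3260561875530351509512)) (.leaf (nat_lit 139128048145661954))))) (.node (.node (.node (.leaf
    (nat_lit 0)) (.leaf (nat_lit 34760982184251949067))) (.node (.leaf (nat_lit 0)) (.leaf (nat_lit
    4930182143307072012306)))) (.node (.node (.leaf (nat_lit 0)) (.leaf (nat_lit
    2698369038483471))) (.node (.leaf (nat_lit 0)) (.leaf (nat_lit 67284317709271042)))))))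

/-- Certificate data. -/
def c3_rel : Trie :=
    (.node (.node (.node (.node (.node (.leaf (nat_lit 0)) (.leaf (nat_lit 2224809903618))) (.leaf
    (nat_lit 9481771136427097129220))) (.node (.leaf (nat_lit 67306755)) (.leaf (nat_lit
    2207713919238)))) (.node (.node (.leaf (nat_lit 432628143027717634)) (.leaf (nat_lit
    145805141759557894))) (.node (.leaf (nat_lit 286981158600964)) (.leaf (nat_lit
    285877402206724))))) (.node (.node (.node (.leaf (nat_lit 100861443)) (.leaf (nat_lit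
    1103823569411))) (.node (.leaf (nat_lit 4423883817990)) (.leaf (nat_lit 50725638)))) (.node
    (.node (.leaf (nat_lit 263172)) (.leaf (nat_lit 72340172838404614))) (.node (.leaf (nat_lit
    9481987024435699581442)) (.leaf (nat_lit 621411501634544994336440580))))))

/-- Certificate data. -/
def c3_rc : Trie :=
    (.node (.node (.node (.node (.node (.leaf (nat_lit 26)) (.leaf (nat_lit 655380))) (.leaf
    (nat_lit 1179660))) (.node (.leaf (nat_lit 262152)) (.leaf (nat_lit 20)))) (.node (.node (.leaf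
    (nat_lit 917527)) (.leaf (nat_lit 23))) (.node (.leaf (nat_lit 131086)) (.leaf (nat_lit
    393230))))) (.node (.node (.node (.leaf (nat_lit 131090)) (.leaf (nat_lit 393221))) (.node
    (.leaf (nat_lit 24)) (.leaf (nat_lit 18)))) (.node (.node (.leaf (nat_lit 6)) (.leaf (nat_lit
    786455))) (.node (.leaf (nat_lit 1048589)) (.leaf (nat_lit 10))))))

/-- Certificate data. -/
def c3_lv : Trie :=
    (.leaf (nat_lit 0))

/-- Certificate data. -/
def c3_tb : Trie :=
    (.node (.node (.leaf (nat_lit 0)) (.leaf (nat_lit 4))) (.node (.leaf (nat_lit 3)) (.leaf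
    (nat_lit 65))))

/-- Certificate data. -/
def c3_C : TC.Cert := ⟨4, 15, 7, 127, 1693269432009216, 62, c3_par, c3_fact, c3_just, c3_rel, 17⟩

/-- Certificate data. -/
def c3_rs : List (List ℕ) := [[1, 1, 1, 1, 1, 1, 1, 1], [3, 3], [3, 1, 3, 2, 2, 2], [4, 4, 4], [3, 4, 3, 5], [4, 1, 1, 4, 2, 2, 5, 1, 1, 5, 2, 2], [1, 1, 1, 1, 4, 2, 2, 2, 2, 4], [1, 4, 1, 4, 2, 2, 5], [6, 6], [6, 3, 6, 3], [6, 1, 1, 6, 2, 2], [1, 6, 2, 2, 2, 2, 2, 6], [6, 4, 6, 4, 6, 4]]

/-- Certificate data. -/
def c3_gl : List ℕ := [1, 259, 516, 774]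

theorem c3_h1 : allB c3_C.factChk 33 = true := by decide +kernel

theorem c3_h2 : c3_C.finChk 33 1 c3_lv c3_tb c3_gl = true := by decide +kernel

theorem c3_h3 : TC.relChk c3_C.ivc c3_rs c3_C.rel c3_rc c3_C.nrel = true := by decide +kernel

theorem c3_bound {G : Type*} [Group G] {a r g w : G}
    (r0 : a * a * a * a * a * a * a * a = 1)
    (r1 : r * r = 1)
    (r2 : r * a * r * a⁻¹ * a⁻¹ * a⁻¹ = 1)
    (r3 : g * g * g = 1)
    (r4 : r * g * r * g⁻¹ = 1)
    (r5 : g * a * a * g * a⁻¹ * a⁻¹ * g⁻¹ * a * a * g⁻¹ * a⁻¹ * a⁻¹ = 1)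
    (r6 : a * a * a * a * g * a⁻¹ * a⁻¹ * a⁻¹ * a⁻¹ * g = 1)
    (r7 : a * g * a * g * a⁻¹ * a⁻¹ * g⁻¹ = 1)
    (r8 : w * w = 1)
    (r9 : w * r * w * r = 1)
    (r10 : w * a * a * w * a⁻¹ * a⁻¹ = 1)
    (r11 : a * w * a⁻¹ * a⁻¹ * a⁻¹ * a⁻¹ * a⁻¹ * w = 1)
    (r12 : w * g * w * g * w * g = 1)
    (H : Subgroup G) [Finite H] (m1 : a ∈ H) (m3 : r ∈ H) (m4 : g ∈ H) :
    Finite (Subgroup.closure ({a, r, g, w} : Set G)) ∧
      Nat.card (Subgroup.closure ({a, r, g, w} : Set G)) ≤ 1 * Nat.card H := by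
  have hL : TC.Lett (TC.lett [a, a⁻¹, r, g, g⁻¹, w]) c3_C.ivc :=
    TC.lett_ok (show Nat.shiftRight c3_C.ivc (8 * 7) = 0 by decide +kernel) (by
      intro a ha
      change a < 7 at ha
      interval_cases a
      · exact inv_one.symm
      · rfl
      · exact (inv_inv _).symm
      · exact (inv_eq_of_mul_eq_one_right r1).symm
      · rfl
      · exact (inv_inv _).symm
      · exact (inv_eq_of_mul_eq_one_right r8).symm)
  have h := TC.card_le c3_h1 c3_h2 c3_h3 (by decide) hL (by
    simp only [c3_rs, List.forall_mem_cons]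
    refine ⟨?_, ?_, ?_, ?_, ?_, ?_, ?_, ?_, ?_, ?_, ?_, ?_, ?_, List.forall_mem_nil _⟩
    · show a * (a * (a * (a * (a * (a * (a * (a * 1))))))) = 1
      simp only [mul_assoc, mul_one] at r0 ⊢
      exact r0
    · show r * (r * 1) = 1
      simp only [mul_one] at r1 ⊢
      exact r1
    · show r * (a * (r * (a⁻¹ * (a⁻¹ * (a⁻¹ * 1))))) = 1
      simp only [mul_assoc, mul_one] at r2 ⊢
      exact r2
    · show g * (g * (g * 1)) = 1
      simp only [mul_assoc, mul_one] at r3 ⊢
      exact r3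
    · show r * (g * (r * (g⁻¹ * 1))) = 1
      simp only [mul_assoc, mul_one] at r4 ⊢
      exact r4
    · show g * (a * (a * (g * (a⁻¹ * (a⁻¹ * (g⁻¹ * (a * (a * (g⁻¹ * (a⁻¹ * (a⁻¹ * 1))))))))))) = 1
      simp only [mul_assoc, mul_one] at r5 ⊢
      exact r5
    · show a * (a * (a * (a * (g * (a⁻¹ * (a⁻¹ * (a⁻¹ * (a⁻¹ * (g * 1))))))))) = 1
      simp only [mul_assoc, mul_one] at r6 ⊢
      exact r6
    · show a * (g * (a * (g * (a⁻¹ * (a⁻¹ * (g⁻¹ * 1)))))) = 1
      simp only [mul_assoc, mul_one] at r7 ⊢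
      exact r7
    · show w * (w * 1) = 1
      simp only [mul_one] at r8 ⊢
      exact r8
    · show w * (r * (w * (r * 1))) = 1
      simp only [mul_assoc, mul_one] at r9 ⊢
      exact r9
    · show w * (a * (a * (w * (a⁻¹ * (a⁻¹ * 1))))) = 1
      simp only [mul_assoc, mul_one] at r10 ⊢
      exact r10
    · show a * (w * (a⁻¹ * (a⁻¹ * (a⁻¹ * (a⁻¹ * (a⁻¹ * (w * 1))))))) = 1
      simp only [mul_assoc, mul_one] at r11 ⊢
      exact r11
    · show w * (g * (w * (g * (w * (g * 1))))) = 1
      simp only [mul_assoc, mul_one] at r12 ⊢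
      exact r12) H
    (TC.forall_subs (K := 7) (by decide +kernel) (by
      intro a ha hb
      interval_cases a
      · exact absurd hb (by decide +kernel)
      · exact m1
      · exact H.inv_mem m1
      · exact m3
      · exact m4
      · exact H.inv_mem m4
      · exact absurd hb (by decide +kernel)))
  have e : {g₀ | ∃ ak ∈ c3_gl, TC.lett [a, a⁻¹, r, g, g⁻¹, w] (ak % 256) = g₀} =
      {a, r, g, w} := by
    ext g₀
    simp only [c3_gl, List.mem_cons, List.not_mem_nil, or_false, exists_eq_or_imp,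
      exists_eq_left, Set.mem_ofPred_eq, Set.mem_insert_iff, Set.mem_singleton_iff]
    exact or_congr eq_comm (or_congr eq_comm (or_congr eq_comm (eq_comm)))
  rw [e] at h
  exact h

theorem c3_card {G : Type*} [Group G] {a r g w : G}
    (e0 : a ^ 8 = 1)
    (e1 : r * r = 1)
    (e2 : r * a * r = a ^ 3)
    (e3 : g ^ 3 = 1)
    (e4 : r * g = g * r)
    (e5 : g * (a ^ 2 * g * (a ^ 2)⁻¹) = a ^ 2 * g * (a ^ 2)⁻¹ * g)
    (e6 : a ^ 4 * g * (a ^ 4)⁻¹ = g⁻¹)
    (e7 : a * g * a⁻¹ = g * (a ^ 2 * g * (a ^ 2)⁻¹)⁻¹)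
    (e8 : w * w = 1)
    (e9 : w * r = r * w)
    (e10 : w * a ^ 2 = a ^ 2 * w)
    (e11 : a * w * a⁻¹ = w * a ^ 4)
    (e12 : (w * g) ^ 3 = 1)
    (H : Subgroup G) [Finite H] (ma : a ∈ H) (mr : r ∈ H) (mg : g ∈ H) :
    Finite (Subgroup.closure ({a, r, g, w} : Set G)) ∧
      Nat.card (Subgroup.closure ({a, r, g, w} : Set G)) ≤ 1 * Nat.card H := by
  have ir : r⁻¹ = r := inv_eq_of_mul_eq_one_right e1
  have iw : w⁻¹ = w := inv_eq_of_mul_eq_one_right e8
  refine c3_bound ?_ ?_ ?_ ?_ ?_ ?_ ?_ ?_ ?_ ?_ ?_ ?_ ?_ H ma mr mg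
  · have h := mul_inv_eq_one.mpr e0
    simp only [pow_succ, pow_zero, mul_inv_rev, inv_inv, inv_one, one_mul, mul_one, mul_assoc,
      mul_inv_cancel_left, inv_mul_cancel_left, mul_inv_cancel, inv_mul_cancel, ir, iw] at h ⊢
    exact h
  · have h := mul_inv_eq_one.mpr e1
    simp only [pow_succ, pow_zero, mul_inv_rev, inv_inv, inv_one, one_mul, mul_one, mul_assoc,
      mul_inv_cancel_left, inv_mul_cancel_left, mul_inv_cancel, inv_mul_cancel, ir, iw] at h ⊢
    exact h
  · have h := mul_inv_eq_one.mpr e2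
    simp only [pow_succ, pow_zero, mul_inv_rev, inv_inv, inv_one, one_mul, mul_one, mul_assoc,
      mul_inv_cancel_left, inv_mul_cancel_left, mul_inv_cancel, inv_mul_cancel, ir, iw] at h ⊢
    exact h
  · have h := mul_inv_eq_one.mpr e3
    simp only [pow_succ, pow_zero, mul_inv_rev, inv_inv, inv_one, one_mul, mul_one, mul_assoc,
      mul_inv_cancel_left, inv_mul_cancel_left, mul_inv_cancel, inv_mul_cancel, ir, iw] at h ⊢
    exact h
  · have h := mul_inv_eq_one.mpr e4
    simp only [pow_succ, pow_zero, mul_inv_rev, inv_inv, inv_one, one_mul, mul_one, mul_assoc,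
      mul_inv_cancel_left, inv_mul_cancel_left, mul_inv_cancel, inv_mul_cancel, ir, iw] at h ⊢
    exact h
  · have h := mul_inv_eq_one.mpr e5
    simp only [pow_succ, pow_zero, mul_inv_rev, inv_inv, inv_one, one_mul, mul_one, mul_assoc,
      mul_inv_cancel_left, inv_mul_cancel_left, mul_inv_cancel, inv_mul_cancel, ir, iw] at h ⊢
    exact h
  · have h := mul_inv_eq_one.mpr e6
    simp only [pow_succ, pow_zero, mul_inv_rev, inv_inv, inv_one, one_mul, mul_one, mul_assoc,
      mul_inv_cancel_left, inv_mul_cancel_left, mul_inv_cancel, inv_mul_cancel, ir, iw] at h ⊢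
    exact h
  · have h := mul_inv_eq_one.mpr e7
    simp only [pow_succ, pow_zero, mul_inv_rev, inv_inv, inv_one, one_mul, mul_one, mul_assoc,
      mul_inv_cancel_left, inv_mul_cancel_left, mul_inv_cancel, inv_mul_cancel, ir, iw] at h ⊢
    exact h
  · have h := mul_inv_eq_one.mpr e8
    simp only [pow_succ, pow_zero, mul_inv_rev, inv_inv, inv_one, one_mul, mul_one, mul_assoc,
      mul_inv_cancel_left, inv_mul_cancel_left, mul_inv_cancel, inv_mul_cancel, ir, iw] at h ⊢
    exact h
  · have h := mul_inv_eq_one.mpr e9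
    simp only [pow_succ, pow_zero, mul_inv_rev, inv_inv, inv_one, one_mul, mul_one, mul_assoc,
      mul_inv_cancel_left, inv_mul_cancel_left, mul_inv_cancel, inv_mul_cancel, ir, iw] at h ⊢
    exact h
  · have h := mul_inv_eq_one.mpr e10
    simp only [pow_succ, pow_zero, mul_inv_rev, inv_inv, inv_one, one_mul, mul_one, mul_assoc,
      mul_inv_cancel_left, inv_mul_cancel_left, mul_inv_cancel, inv_mul_cancel, ir, iw] at h ⊢
    exact h
  · have h := mul_inv_eq_one.mpr e11
    simp only [pow_succ, pow_zero, mul_inv_rev, inv_inv, inv_one, one_mul, mul_one, mul_assoc,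
      mul_inv_cancel_left, inv_mul_cancel_left, mul_inv_cancel, inv_mul_cancel, ir, iw] at h ⊢
    exact h
  · have h := mul_inv_eq_one.mpr e12
    simp only [pow_succ, pow_zero, mul_inv_rev, inv_inv, inv_one, one_mul, mul_one, mul_assoc,
      mul_inv_cancel_left, inv_mul_cancel_left, mul_inv_cancel, inv_mul_cancel, ir, iw] at h ⊢
    exact h

/-- Certificate data. -/
def cL_par : Trie :=
    (.node (.node (.node (.node (.leaf (nat_lit 0)) (.leaf (nat_lit 1025))) (.leaf (nat_lit 513)))
    (.node (.leaf (nat_lit 260)) (.leaf (nat_lit 769)))) (.node (.node (.node (.leaf (nat_lit 6))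
    (.leaf (nat_lit 1029))) (.leaf (nat_lit 514))) (.node (.leaf (nat_lit 261)) (.leaf (nat_lit
    770)))))

/-- Certificate data. -/
def cL_fact : Trie :=
    (.node (.node (.node (.node (.node (.node (.leaf (nat_lit 1)) (.leaf (nat_lit 22785))) (.leaf
    (nat_lit 29442))) (.node (.leaf (nat_lit 12549)) (.leaf (nat_lit 30470)))) (.node (.node (.leaf
    (nat_lit 4355)) (.leaf (nat_lit 29699))) (.node (.leaf (nat_lit 16897)) (.leaf (nat_lit
    37893))))) (.node (.node (.node (.leaf (nat_lit 4)) (.leaf (nat_lit 30721))) (.node (.leaf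
    (nat_lit 13059)) (.leaf (nat_lit 34565)))) (.node (.node (.leaf (nat_lit 8452)) (.leaf (nat_lit
    21766))) (.node (.leaf (nat_lit 17669)) (.leaf (nat_lit 35075)))))) (.node (.node (.node (.node
    (.node (.leaf (nat_lit 3)) (.leaf (nat_lit 38918))) (.leaf (nat_lit 33793))) (.node (.leaf
    (nat_lit 8965)) (.leaf (nat_lit 22019)))) (.node (.node (.leaf (nat_lit 4353)) (.leaf (nat_lit
    26118))) (.node (.leaf (nat_lit 20994)) (.leaf (nat_lit 22789))))) (.node (.node (.node (.leaf
    (nat_lit 4102)) (.leaf (nat_lit 30213))) (.node (.leaf (nat_lit 8966)) (.leaf (nat_lit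
    26629)))) (.node (.node (.leaf (nat_lit 8707)) (.leaf (nat_lit 17414))) (.node (.leaf (nat_lit
    25345)) (.leaf (nat_lit 26882)))))))

/-- Certificate data. -/
def cL_just : Trie :=
    (.node (.node (.node (.node (.node (.node (.leaf (nat_lit 1)) (.leaf (nat_lit
    3857976340469869051924))) (.leaf (nat_lit 0))) (.node (.leaf (nat_lit 0)) (.leaf (nat_lit
    2840214628401168)))) (.node (.node (.leaf (nat_lit 423891797475331)) (.leaf (nat_lit
    37084981437565042700))) (.node (.leaf (nat_lit 0)) (.leaf (nat_lit 0))))) (.node (.node (.node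
    (.leaf (nat_lit 1)) (.leaf (nat_lit 9942396322529766741866250250))) (.node (.leaf (nat_lit
    1130920723808263)) (.leaf (nat_lit 5497274562328547164177)))) (.node (.node (.leaf (nat_lit 0))
    (.leaf (nat_lit 494411114250088586084366))) (.node (.leaf (nat_lit 3555709780718294269961))
    (.leaf (nat_lit 3681409743126535)))))) (.node (.node (.node (.node (.node (.leaf (nat_lit 1))
    (.leaf (nat_lit 8759009218205655105544))) (.leaf (nat_lit 0))) (.node (.leaf (nat_lit
    6670084341766)) (.leaf (nat_lit 2063396778475525)))) (.node (.node (.leaf (nat_lit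
    113336795588901550358532)) (.leaf (nat_lit 571595731499834887569421))) (.node (.leaf (nat_lit
    0)) (.leaf (nat_lit 16187731869702))))) (.node (.node (.node (.leaf (nat_lit 0)) (.leaf
    (nat_lit 11224124674733889641555492875))) (.node (.leaf (nat_lit 1777841490913734819848))
    (.leaf (nat_lit 153441829481739785785575121551378)))) (.node (.node (.leaf (nat_lit
    849428567228421)) (.leaf (nat_lit 27916421116211822607))) (.node (.leaf (nat_lit 0)) (.leaf
    (nat_lit 4445765329738187276307)))))))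

/-- Certificate data. -/
def cL_rel : Trie :=
    (.node (.node (.node (.node (.node (.leaf (nat_lit 0)) (.leaf (nat_lit
    621411501634544994336440580))) (.leaf (nat_lit 9481987024435699581442))) (.node (.leaf (nat_lit
    263172)) (.leaf (nat_lit 72340172838404614)))) (.node (.node (.node (.leaf (nat_lit
    432628143027717634)) (.leaf (nat_lit 1127016615444994))) (.leaf (nat_lit 1103823569411)))
    (.node (.leaf (nat_lit 848848813949958)) (.leaf (nat_lit 50725638))))) (.node (.node (.node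
    (.node (.leaf (nat_lit 100861443)) (.leaf (nat_lit 1128120438817025))) (.leaf (nat_lit
    9481771136427097129220))) (.node (.leaf (nat_lit 67306755)) (.leaf (nat_lit 2207713919238))))
    (.node (.node (.leaf (nat_lit 84083715)) (.leaf (nat_lit 145805141759557894))) (.node (.leaf
    (nat_lit 286981158600964)) (.leaf (nat_lit 285877402206724))))))

/-- Certificate data. -/
def cL_rc : Trie :=
    (.node (.node (.node (.node (.node (.leaf (nat_lit 26)) (.leaf (nat_lit 10))) (.leaf (nat_lit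
    1048589))) (.node (.leaf (nat_lit 6)) (.leaf (nat_lit 786455)))) (.node (.node (.node (.leaf
    (nat_lit 917527)) (.leaf (nat_lit 524302))) (.leaf (nat_lit 393221))) (.node (.leaf (nat_lit
    24)) (.leaf (nat_lit 18))))) (.node (.node (.node (.node (.leaf (nat_lit 131090)) (.leaf
    (nat_lit 131087))) (.leaf (nat_lit 1179660))) (.node (.leaf (nat_lit 262152)) (.leaf (nat_lit
    20)))) (.node (.node (.leaf (nat_lit 8)) (.leaf (nat_lit 23))) (.node (.leaf (nat_lit 131086))
    (.leaf (nat_lit 393230))))))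

/-- Certificate data. -/
def cL_lv : Trie :=
    (.node (.node (.node (.node (.leaf (nat_lit 0)) (.leaf (nat_lit 8))) (.leaf (nat_lit 4)))
    (.node (.leaf (nat_lit 2)) (.leaf (nat_lit 6)))) (.node (.node (.node (.leaf (nat_lit 1))
    (.leaf (nat_lit 9))) (.leaf (nat_lit 5))) (.node (.leaf (nat_lit 3)) (.leaf (nat_lit 7)))))

/-- Certificate data. -/
def cL_tb : Trie :=
    (.node (.node (.node (.node (.node (.node (.leaf (nat_lit 0)) (.leaf (nat_lit 407))) (.leaf
    (nat_lit 690))) (.node (.leaf (nat_lit 932)) (.leaf (nat_lit 669)))) (.node (.node (.node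
    (.leaf (nat_lit 1058)) (.leaf (nat_lit 811))) (.leaf (nat_lit 4))) (.node (.leaf (nat_lit 271))
    (.leaf (nat_lit 949))))) (.node (.node (.node (.node (.leaf (nat_lit 536)) (.leaf (nat_lit
    559))) (.leaf (nat_lit 1213))) (.node (.leaf (nat_lit 3)) (.leaf (nat_lit 1079)))) (.node
    (.node (.node (.leaf (nat_lit 1215)) (.leaf (nat_lit 1218))) (.leaf (nat_lit 403))) (.node
    (.leaf (nat_lit 936)) (.leaf (nat_lit 134)))))) (.node (.node (.node (.node (.node (.leaf
    (nat_lit 138)) (.leaf (nat_lit 278))) (.leaf (nat_lit 553))) (.node (.leaf (nat_lit 704))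
    (.leaf (nat_lit 1211)))) (.node (.node (.node (.leaf (nat_lit 283)) (.leaf (nat_lit 945)))
    (.leaf (nat_lit 268))) (.node (.leaf (nat_lit 405)) (.leaf (nat_lit 569))))) (.node (.node
    (.node (.node (.leaf (nat_lit 798)) (.leaf (nat_lit 685))) (.leaf (nat_lit 1084))) (.node
    (.leaf (nat_lit 137)) (.leaf (nat_lit 807)))) (.node (.node (.node (.leaf (nat_lit 417)) (.leaf
    (nat_lit 1091))) (.leaf (nat_lit 145))) (.node (.leaf (nat_lit 819)) (.leaf (nat_lit 7)))))))

/-- Certificate data. -/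
def cL_C : TC.Cert := ⟨4, 15, 7, 127, 1693269432009216, 62, cL_par, cL_fact, cL_just, cL_rel, 19⟩

/-- Certificate data. -/
def cL_rs : List (List ℕ) := [[1, 1, 1, 1, 1, 1, 1, 1], [3, 3], [3, 1, 3, 2, 2, 2], [4, 4, 4], [3, 4, 3, 5], [4, 1, 1, 4, 2, 2, 5, 1, 1, 5, 2, 2], [1, 1, 1, 1, 4, 2, 2, 2, 2, 4], [1, 4, 1, 4, 2, 2, 5], [6, 6], [6, 3, 6, 3], [6, 1, 1, 6, 2, 2], [1, 6, 2, 2, 2, 2, 2, 6], [6, 4, 6, 4, 6, 4, 3]]

/-- Certificate data. -/
def cL_gl : List ℕ := [1, 2563, 5124, 7686]

theorem cL_h1 : allB cL_C.factChk 34 = true := by decide +kernel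

theorem cL_h2 : cL_C.finChk 34 10 cL_lv cL_tb cL_gl = true := by decide +kernel

theorem cL_h3 : TC.relChk cL_C.ivc cL_rs cL_C.rel cL_rc cL_C.nrel = true := by decide +kernel

theorem cL_bound {G : Type*} [Group G] {a r g w : G}
    (r0 : a * a * a * a * a * a * a * a = 1)
    (r1 : r * r = 1)
    (r2 : r * a * r * a⁻¹ * a⁻¹ * a⁻¹ = 1)
    (r3 : g * g * g = 1)
    (r4 : r * g * r * g⁻¹ = 1)
    (r5 : g * a * a * g * a⁻¹ * a⁻¹ * g⁻¹ * a * a * g⁻¹ * a⁻¹ * a⁻¹ = 1)
    (r6 : a * a * a * a * g * a⁻¹ * a⁻¹ * a⁻¹ * a⁻¹ * g = 1)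
    (r7 : a * g * a * g * a⁻¹ * a⁻¹ * g⁻¹ = 1)
    (r8 : w * w = 1)
    (r9 : w * r * w * r = 1)
    (r10 : w * a * a * w * a⁻¹ * a⁻¹ = 1)
    (r11 : a * w * a⁻¹ * a⁻¹ * a⁻¹ * a⁻¹ * a⁻¹ * w = 1)
    (r12 : w * g * w * g * w * g * r = 1)
    (H : Subgroup G) [Finite H] (m1 : a ∈ H) (m3 : r ∈ H) (m4 : g ∈ H) :
    Finite (Subgroup.closure ({a, r, g, w} : Set G)) ∧
      Nat.card (Subgroup.closure ({a, r, g, w} : Set G)) ≤ 10 * Nat.card H := by
  have hL : TC.Lett (TC.lett [a, a⁻¹, r, g, g⁻¹, w]) cL_C.ivc :=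
    TC.lett_ok (show Nat.shiftRight cL_C.ivc (8 * 7) = 0 by decide +kernel) (by
      intro a ha
      change a < 7 at ha
      interval_cases a
      · exact inv_one.symm
      · rfl
      · exact (inv_inv _).symm
      · exact (inv_eq_of_mul_eq_one_right r1).symm
      · rfl
      · exact (inv_inv _).symm
      · exact (inv_eq_of_mul_eq_one_right r8).symm)
  have h := TC.card_le cL_h1 cL_h2 cL_h3 (by decide) hL (by
    simp only [cL_rs, List.forall_mem_cons]
    refine ⟨?_, ?_, ?_, ?_, ?_, ?_, ?_, ?_, ?_, ?_, ?_, ?_, ?_, List.forall_mem_nil _⟩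
    · show a * (a * (a * (a * (a * (a * (a * (a * 1))))))) = 1
      simp only [mul_assoc, mul_one] at r0 ⊢
      exact r0
    · show r * (r * 1) = 1
      simp only [mul_one] at r1 ⊢
      exact r1
    · show r * (a * (r * (a⁻¹ * (a⁻¹ * (a⁻¹ * 1))))) = 1
      simp only [mul_assoc, mul_one] at r2 ⊢
      exact r2
    · show g * (g * (g * 1)) = 1
      simp only [mul_assoc, mul_one] at r3 ⊢
      exact r3
    · show r * (g * (r * (g⁻¹ * 1))) = 1
      simp only [mul_assoc, mul_one] at r4 ⊢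
      exact r4
    · show g * (a * (a * (g * (a⁻¹ * (a⁻¹ * (g⁻¹ * (a * (a * (g⁻¹ * (a⁻¹ * (a⁻¹ * 1))))))))))) = 1
      simp only [mul_assoc, mul_one] at r5 ⊢
      exact r5
    · show a * (a * (a * (a * (g * (a⁻¹ * (a⁻¹ * (a⁻¹ * (a⁻¹ * (g * 1))))))))) = 1
      simp only [mul_assoc, mul_one] at r6 ⊢
      exact r6
    · show a * (g * (a * (g * (a⁻¹ * (a⁻¹ * (g⁻¹ * 1)))))) = 1
      simp only [mul_assoc, mul_one] at r7 ⊢
      exact r7
    · show w * (w * 1) = 1
      simp only [mul_one] at r8 ⊢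
      exact r8
    · show w * (r * (w * (r * 1))) = 1
      simp only [mul_assoc, mul_one] at r9 ⊢
      exact r9
    · show w * (a * (a * (w * (a⁻¹ * (a⁻¹ * 1))))) = 1
      simp only [mul_assoc, mul_one] at r10 ⊢
      exact r10
    · show a * (w * (a⁻¹ * (a⁻¹ * (a⁻¹ * (a⁻¹ * (a⁻¹ * (w * 1))))))) = 1
      simp only [mul_assoc, mul_one] at r11 ⊢
      exact r11
    · show w * (g * (w * (g * (w * (g * (r * 1)))))) = 1
      simp only [mul_assoc, mul_one] at r12 ⊢
      exact r12) H
    (TC.forall_subs (K := 7) (by decide +kernel) (by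
      intro a ha hb
      interval_cases a
      · exact absurd hb (by decide +kernel)
      · exact m1
      · exact H.inv_mem m1
      · exact m3
      · exact m4
      · exact H.inv_mem m4
      · exact absurd hb (by decide +kernel)))
  have e : {g₀ | ∃ ak ∈ cL_gl, TC.lett [a, a⁻¹, r, g, g⁻¹, w] (ak % 256) = g₀} =
      {a, r, g, w} := by
    ext g₀
    simp only [cL_gl, List.mem_cons, List.not_mem_nil, or_false, exists_eq_or_imp,
      exists_eq_left, Set.mem_ofPred_eq, Set.mem_insert_iff, Set.mem_singleton_iff]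
    exact or_congr eq_comm (or_congr eq_comm (or_congr eq_comm (eq_comm)))
  rw [e] at h
  exact h

theorem cL_card {G : Type*} [Group G] {a r g w : G}
    (e0 : a ^ 8 = 1)
    (e1 : r * r = 1)
    (e2 : r * a * r = a ^ 3)
    (e3 : g ^ 3 = 1)
    (e4 : r * g = g * r)
    (e5 : g * (a ^ 2 * g * (a ^ 2)⁻¹) = a ^ 2 * g * (a ^ 2)⁻¹ * g)
    (e6 : a ^ 4 * g * (a ^ 4)⁻¹ = g⁻¹)
    (e7 : a * g * a⁻¹ = g * (a ^ 2 * g * (a ^ 2)⁻¹)⁻¹)
    (e8 : w * w = 1)
    (e9 : w * r = r * w)
    (e10 : w * a ^ 2 = a ^ 2 * w)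
    (e11 : a * w * a⁻¹ = w * a ^ 4)
    (e12 : (w * g) ^ 3 = r)
    (H : Subgroup G) [Finite H] (ma : a ∈ H) (mr : r ∈ H) (mg : g ∈ H) :
    Finite (Subgroup.closure ({a, r, g, w} : Set G)) ∧
      Nat.card (Subgroup.closure ({a, r, g, w} : Set G)) ≤ 10 * Nat.card H := by
  have ir : r⁻¹ = r := inv_eq_of_mul_eq_one_right e1
  have iw : w⁻¹ = w := inv_eq_of_mul_eq_one_right e8
  refine cL_bound ?_ ?_ ?_ ?_ ?_ ?_ ?_ ?_ ?_ ?_ ?_ ?_ ?_ H ma mr mg
  · have h := mul_inv_eq_one.mpr e0
    simp only [pow_succ, pow_zero, mul_inv_rev, inv_inv, inv_one, one_mul, mul_one, mul_assoc,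
      mul_inv_cancel_left, inv_mul_cancel_left, mul_inv_cancel, inv_mul_cancel, ir, iw] at h ⊢
    exact h
  · have h := mul_inv_eq_one.mpr e1
    simp only [pow_succ, pow_zero, mul_inv_rev, inv_inv, inv_one, one_mul, mul_one, mul_assoc,
      mul_inv_cancel_left, inv_mul_cancel_left, mul_inv_cancel, inv_mul_cancel, ir, iw] at h ⊢
    exact h
  · have h := mul_inv_eq_one.mpr e2
    simp only [pow_succ, pow_zero, mul_inv_rev, inv_inv, inv_one, one_mul, mul_one, mul_assoc,
      mul_inv_cancel_left, inv_mul_cancel_left, mul_inv_cancel, inv_mul_cancel, ir, iw] at h ⊢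
    exact h
  · have h := mul_inv_eq_one.mpr e3
    simp only [pow_succ, pow_zero, mul_inv_rev, inv_inv, inv_one, one_mul, mul_one, mul_assoc,
      mul_inv_cancel_left, inv_mul_cancel_left, mul_inv_cancel, inv_mul_cancel, ir, iw] at h ⊢
    exact h
  · have h := mul_inv_eq_one.mpr e4
    simp only [pow_succ, pow_zero, mul_inv_rev, inv_inv, inv_one, one_mul, mul_one, mul_assoc,
      mul_inv_cancel_left, inv_mul_cancel_left, mul_inv_cancel, inv_mul_cancel, ir, iw] at h ⊢
    exact h
  · have h := mul_inv_eq_one.mpr e5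
    simp only [pow_succ, pow_zero, mul_inv_rev, inv_inv, inv_one, one_mul, mul_one, mul_assoc,
      mul_inv_cancel_left, inv_mul_cancel_left, mul_inv_cancel, inv_mul_cancel, ir, iw] at h ⊢
    exact h
  · have h := mul_inv_eq_one.mpr e6
    simp only [pow_succ, pow_zero, mul_inv_rev, inv_inv, inv_one, one_mul, mul_one, mul_assoc,
      mul_inv_cancel_left, inv_mul_cancel_left, mul_inv_cancel, inv_mul_cancel, ir, iw] at h ⊢
    exact h
  · have h := mul_inv_eq_one.mpr e7
    simp only [pow_succ, pow_zero, mul_inv_rev, inv_inv, inv_one, one_mul, mul_one, mul_assoc,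
      mul_inv_cancel_left, inv_mul_cancel_left, mul_inv_cancel, inv_mul_cancel, ir, iw] at h ⊢
    exact h
  · have h := mul_inv_eq_one.mpr e8
    simp only [pow_succ, pow_zero, mul_inv_rev, inv_inv, inv_one, one_mul, mul_one, mul_assoc,
      mul_inv_cancel_left, inv_mul_cancel_left, mul_inv_cancel, inv_mul_cancel, ir, iw] at h ⊢
    exact h
  · have h := mul_inv_eq_one.mpr e9
    simp only [pow_succ, pow_zero, mul_inv_rev, inv_inv, inv_one, one_mul, mul_one, mul_assoc,
      mul_inv_cancel_left, inv_mul_cancel_left, mul_inv_cancel, inv_mul_cancel, ir, iw] at h ⊢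
    exact h
  · have h := mul_inv_eq_one.mpr e10
    simp only [pow_succ, pow_zero, mul_inv_rev, inv_inv, inv_one, one_mul, mul_one, mul_assoc,
      mul_inv_cancel_left, inv_mul_cancel_left, mul_inv_cancel, inv_mul_cancel, ir, iw] at h ⊢
    exact h
  · have h := mul_inv_eq_one.mpr e11
    simp only [pow_succ, pow_zero, mul_inv_rev, inv_inv, inv_one, one_mul, mul_one, mul_assoc,
      mul_inv_cancel_left, inv_mul_cancel_left, mul_inv_cancel, inv_mul_cancel, ir, iw] at h ⊢
    exact h
  · have h := mul_inv_eq_one.mpr e12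
    simp only [pow_succ, pow_zero, mul_inv_rev, inv_inv, inv_one, one_mul, mul_one, mul_assoc,
      mul_inv_cancel_left, inv_mul_cancel_left, mul_inv_cancel, inv_mul_cancel, ir, iw] at h ⊢
    exact h

/-- Certificate data. -/
def b1_par : Trie :=
    (.node (.node (.node (.node (.node (.leaf (nat_lit 0)) (.leaf (nat_lit 1797))) (.node (.leaf
    (nat_lit 770)) (.leaf (nat_lit 4866)))) (.node (.node (.leaf (nat_lit 261)) (.leaf (nat_lit
    3078))) (.leaf (nat_lit 1282)))) (.node (.node (.node (.leaf (nat_lit 257)) (.leaf (nat_lit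
    2308))) (.leaf (nat_lit 1026))) (.node (.node (.leaf (nat_lit 517)) (.leaf (nat_lit 3590)))
    (.leaf (nat_lit 1538))))) (.node (.node (.node (.node (.leaf (nat_lit 6)) (.leaf (nat_lit
    2050))) (.node (.leaf (nat_lit 1025)) (.leaf (nat_lit 5122)))) (.node (.node (.leaf (nat_lit
    516)) (.leaf (nat_lit 3334))) (.leaf (nat_lit 1537)))) (.node (.node (.node (.leaf (nat_lit
    260)) (.leaf (nat_lit 2822))) (.leaf (nat_lit 1281))) (.node (.node (.leaf (nat_lit 769))
    (.leaf (nat_lit 4865))) (.leaf (nat_lit 1793))))))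

/-- Certificate data. -/
def b1_fact : Trie :=
    (.node (.node (.node (.node (.node (.node (.node (.leaf (nat_lit 1)) (.leaf (nat_lit 209922)))
    (.leaf (nat_lit 126469))) (.node (.node (.leaf (nat_lit 50691)) (.leaf (nat_lit 25600))) (.leaf
    (nat_lit 86532)))) (.node (.node (.node (.leaf (nat_lit 24836)) (.leaf (nat_lit 80128))) (.leaf
    (nat_lit 93699))) (.node (.node (.leaf (nat_lit 93189)) (.leaf (nat_lit 256))) (.leaf (nat_lit
    183814))))) (.node (.node (.node (.node (.leaf (nat_lit 8451)) (.leaf (nat_lit 194308))) (.leaf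
    (nat_lit 69637))) (.node (.node (.leaf (nat_lit 74753)) (.leaf (nat_lit 28416))) (.leaf
    (nat_lit 166918)))) (.node (.node (.node (.leaf (nat_lit 25606)) (.leaf (nat_lit 27392)))
    (.leaf (nat_lit 127238))) (.node (.leaf (nat_lit 85761)) (.leaf (nat_lit 186113)))))) (.node
    (.node (.node (.node (.node (.leaf (nat_lit 4)) (.leaf (nat_lit 178434))) (.leaf (nat_lit
    118021))) (.node (.node (.leaf (nat_lit 66306)) (.leaf (nat_lit 61440))) (.leaf (nat_lit
    94722)))) (.node (.node (.node (.leaf (nat_lit 25605)) (.leaf (nat_lit 93952))) (.leaf (nat_lit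
    78082))) (.node (.leaf (nat_lit 116226)) (.leaf (nat_lit 169476))))) (.node (.node (.node
    (.node (.leaf (nat_lit 8705)) (.leaf (nat_lit 144128))) (.leaf (nat_lit 102401))) (.node (.node
    (.leaf (nat_lit 91393)) (.leaf (nat_lit 12032))) (.leaf (nat_lit 169219)))) (.node (.node
    (.node (.leaf (nat_lit 49669)) (.leaf (nat_lit 37120))) (.leaf (nat_lit 142085))) (.node (.leaf
    (nat_lit 83715)) (.leaf (nat_lit 202755))))))) (.node (.node (.node (.node (.node (.node (.leaf
    (nat_lit 3)) (.leaf (nat_lit 194819))) (.leaf (nat_lit 110341))) (.node (.node (.leaf (nat_lit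
    58113)) (.leaf (nat_lit 59392))) (.leaf (nat_lit 119297)))) (.node (.node (.node (.leaf
    (nat_lit 33029)) (.leaf (nat_lit 69632))) (.leaf (nat_lit 141314))) (.node (.node (.leaf
    (nat_lit 108033)) (.leaf (nat_lit 6))) (.leaf (nat_lit 161283))))) (.node (.node (.node (.node
    (.leaf (nat_lit 16641)) (.leaf (nat_lit 71424))) (.leaf (nat_lit 110594))) (.node (.node (.leaf
    (nat_lit 82946)) (.leaf (nat_lit 8960))) (.leaf (nat_lit 175366)))) (.node (.node (.node (.leaf
    (nat_lit 41476)) (.leaf (nat_lit 37888))) (.leaf (nat_lit 102661))) (.node (.leaf (nat_lit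
    84229)) (.leaf (nat_lit 201474)))))) (.node (.node (.node (.node (.node (.leaf (nat_lit 8198))
    (.leaf (nat_lit 211205))) (.leaf (nat_lit 132869))) (.node (.node (.leaf (nat_lit 59397))
    (.leaf (nat_lit 27904))) (.leaf (nat_lit 158470)))) (.node (.node (.node (.leaf (nat_lit
    33795)) (.leaf (nat_lit 95488))) (.leaf (nat_lit 127235))) (.node (.leaf (nat_lit 124673))
    (.leaf (nat_lit 193281))))) (.node (.node (.node (.node (.leaf (nat_lit 16899)) (.leaf (nat_lit
    30208))) (.leaf (nat_lit 109571))) (.node (.node (.leaf (nat_lit 99586)) (.leaf (nat_lit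
    12544))) (.leaf (nat_lit 161029)))) (.node (.node (.node (.leaf (nat_lit 42501)) (.leaf
    (nat_lit 29952))) (.leaf (nat_lit 149764))) (.node (.leaf (nat_lit 67843)) (.leaf (nat_lit
    169986))))))))

/-- Certificate data. -/
def b1_just : Trie :=
    (.node (.node (.node (.node (.node (.node (.node (.leaf (nat_lit 1)) (.leaf (nat_lit 0)))
    (.leaf (nat_lit 269950953221171452444686))) (.node (.node (.leaf (nat_lit 7897916576563207))
    (.leaf (nat_lit 11422414155903401986))) (.leaf (nat_lit 64179696435222)))) (.node (.node (.node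
    (.leaf (nat_lit 0)) (.leaf (nat_lit 17885214483349506))) (.leaf (nat_lit 13597956653645831)))
    (.node (.node (.leaf (nat_lit 208264680467016752431113)) (.leaf (nat_lit 552914362902511618)))
    (.leaf (nat_lit 0))))) (.node (.node (.node (.node (.leaf (nat_lit 1692178460114947)) (.leaf
    (nat_lit 9387143978136707305993274982429))) (.leaf (nat_lit 43185896292358))) (.node (.node
    (.leaf (nat_lit 0)) (.leaf (nat_lit 167761422712834))) (.leaf (nat_lit 0)))) (.node (.node
    (.node (.leaf (nat_lit 295581384421673336840)) (.leaf (nat_lit 2627764066050296315906))) (.leaf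
    (nat_lit 1054497909063868022804))) (.node (.leaf (nat_lit 3333168110331472923031069327370))
    (.leaf (nat_lit 2073125523204633591812)))))) (.node (.node (.node (.node (.node (.leaf (nat_lit
    1)) (.leaf (nat_lit 2019809685447236714524))) (.leaf (nat_lit 71756018745350))) (.node (.node
    (.leaf (nat_lit 0)) (.leaf (nat_lit 178747949056002))) (.leaf (nat_lit
    440752319418627575382040)))) (.node (.node (.node (.leaf (nat_lit 17673790554118)) (.leaf
    (nat_lit 29147335992999938))) (.leaf (nat_lit 739538697711014707219))) (.node (.leaf (nat_lit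
    0)) (.leaf (nat_lit 1924971689256209940506))))) (.node (.node (.node (.node (.leaf (nat_lit
    110680472186083672068)) (.leaf (nat_lit 23233187501244418))) (.leaf (nat_lit
    217786097942251033722897))) (.node (.node (.leaf (nat_lit 0)) (.leaf (nat_lit
    187638531358722))) (.leaf (nat_lit 29360718558199811)))) (.node (.node (.node (.leaf (nat_lit
    0)) (.leaf (nat_lit 11133339543800119298))) (.leaf (nat_lit
    442157958886663784456097507129884693))) (.node (.leaf (nat_lit 776432740987251785740)) (.leaf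
    (nat_lit 2258751249980747743244))))))) (.node (.node (.node (.node (.node (.node (.leaf
    (nat_lit 1)) (.leaf (nat_lit 2240377417847380705292))) (.leaf (nat_lit
    260694978157804016064441216028835855))) (.node (.node (.leaf (nat_lit 0)) (.leaf (nat_lit
    5157545794467004418))) (.leaf (nat_lit 307952401199692077465623)))) (.node (.node (.node (.leaf
    (nat_lit 0)) (.leaf (nat_lit 9982381715420872706))) (.leaf (nat_lit 0))) (.node (.node (.leaf
    (nat_lit 0)) (.leaf (nat_lit 8456790736898))) (.leaf (nat_lit 28798893886210051))))) (.node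
    (.node (.node (.node (.leaf (nat_lit 0)) (.leaf (nat_lit
    6379917674083928546174815102827446317574521948364584215748395184317620692438458951136162232105334608660223130158005557846033563276680760626424515716359042192353492469693763750350175122880496361098182686)))
    (.leaf (nat_lit 236635774550131075317776))) (.node (.node (.leaf (nat_lit 0)) (.leaf (nat_lit
    1272341279271026690))) (.leaf (nat_lit 0)))) (.node (.node (.node (.leaf (nat_lit 0)) (.leaf
    (nat_lit 6067607673438210))) (.leaf (nat_lit 360249068982621308321801))) (.node (.leaf (nat_lit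
    4453530570257984579494425985035)) (.leaf (nat_lit 0)))))) (.node (.node (.node (.node (.node
    (.leaf (nat_lit 0)) (.leaf (nat_lit 630130939855204180688905))) (.leaf (nat_lit 0))) (.node
    (.node (.leaf (nat_lit 160856404634307016392713)) (.leaf (nat_lit 10032266214572034))) (.leaf
    (nat_lit 0)))) (.node (.node (.node (.leaf (nat_lit 5076526790017031)) (.leaf (nat_lit
    26331576908578818))) (.leaf (nat_lit 1055797479031341121548))) (.node (.leaf (nat_lit 0))
    (.leaf (nat_lit 0))))) (.node (.node (.node (.node (.leaf (nat_lit 185334955458655748101))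
    (.leaf (nat_lit 10566826434166786))) (.leaf (nat_lit 924729541207114711058))) (.node (.node
    (.leaf (nat_lit 0)) (.leaf (nat_lit 48027337916350466))) (.leaf (nat_lit
    1888294377163669700633)))) (.node (.node (.node (.leaf (nat_lit 28711856504838)) (.leaf
    (nat_lit 167770012647426))) (.leaf (nat_lit 0))) (.node (.leaf (nat_lit 11044843409309709))
    (.leaf (nat_lit 1921788813143468998683))))))))

/-- Certificate data. -/
def b1_rel : Trie :=
    (.node (.node (.node (.node (.node (.leaf (nat_lit 0)) (.leaf (nat_lit 2207646941443))) (.node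
    (.leaf (nat_lit 9481987024435699581442)) (.leaf (nat_lit 6618645595653)))) (.node (.node (.leaf
    (nat_lit 263172)) (.leaf (nat_lit 328965))) (.node (.leaf (nat_lit 285877402206724)) (.leaf
    (nat_lit
    71429002023156538144253654255838235716982858318362199975942458964434588989212027480746602668263420014980063506129792276365326118257982925344412983081456882860749098461328224831999316250985985)))))
    (.node (.node (.node (.leaf (nat_lit 2224809903618)) (.leaf (nat_lit 1103907389958))) (.node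
    (.leaf (nat_lit 1103823569411)) (.leaf (nat_lit 1103857058561)))) (.node (.node (.leaf (nat_lit
    4423883817990)) (.leaf (nat_lit 1409582563918849))) (.leaf (nat_lit 1128120438817025)))))
    (.node (.node (.node (.node (.leaf (nat_lit 100861443)) (.leaf (nat_lit 1112430280961))) (.node
    (.leaf (nat_lit 9481771136427097129220)) (.leaf (nat_lit 1125315118593)))) (.node (.node (.leaf
    (nat_lit 67306755)) (.leaf (nat_lit 1409595398489090))) (.leaf (nat_lit
    621411501634544994336440580)))) (.node (.node (.node (.leaf (nat_lit 2211925000451)) (.leaf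
    (nat_lit 621406779268062124708004100))) (.node (.leaf (nat_lit 84083715)) (.leaf (nat_lit
    9481771137526608756997)))) (.node (.node (.leaf (nat_lit 286981158600964)) (.leaf (nat_lit
    6614350562820))) (.leaf (nat_lit 1127016615444994))))))

/-- Certificate data. -/
def b1_rc : Trie :=
    (.node (.node (.node (.node (.node (.leaf (nat_lit 30)) (.leaf (nat_lit 4))) (.node (.leaf
    (nat_lit 1048589)) (.leaf (nat_lit 25)))) (.node (.node (.leaf (nat_lit 6)) (.leaf (nat_lit
    7))) (.node (.leaf (nat_lit 393230)) (.leaf (nat_lit 26))))) (.node (.node (.node (.leaf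
    (nat_lit 655380)) (.leaf (nat_lit 393236))) (.node (.leaf (nat_lit 393221)) (.leaf (nat_lit
    262149)))) (.node (.node (.leaf (nat_lit 24)) (.leaf (nat_lit 14))) (.leaf (nat_lit 131087)))))
    (.node (.node (.node (.node (.leaf (nat_lit 131090)) (.leaf (nat_lit 131077))) (.node (.leaf
    (nat_lit 1179660)) (.leaf (nat_lit 262164)))) (.node (.node (.leaf (nat_lit 262152)) (.leaf
    (nat_lit 786447))) (.leaf (nat_lit 10)))) (.node (.node (.node (.leaf (nat_lit 655365)) (.leaf
    (nat_lit 655371))) (.node (.leaf (nat_lit 8)) (.leaf (nat_lit 13)))) (.node (.node (.leaf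
    (nat_lit 131086)) (.leaf (nat_lit 131096))) (.leaf (nat_lit 524302))))))

/-- Certificate data. -/
def b1_lv : Trie :=
    (.leaf (nat_lit 0))

/-- Certificate data. -/
def b1_tb : Trie :=
    (.node (.node (.leaf (nat_lit 0)) (.leaf (nat_lit 4))) (.node (.leaf (nat_lit 3)) (.leaf
    (nat_lit 179))))

/-- Certificate data. -/
def b1_C : TC.Cert := ⟨5, 31, 8, 255, 1693269432009216, 62, b1_par, b1_fact, b1_just, b1_rel, 29⟩

/-- Certificate data. -/
def b1_rs : List (List ℕ) := [[1, 1, 1, 1, 1, 1, 1, 1], [3, 3], [3, 1, 3, 2, 2, 2], [4, 4, 4], [3, 4, 3, 5], [4, 1, 1, 4, 2, 2, 5, 1, 1, 5, 2, 2], [1, 1, 1, 1, 4, 2, 2, 2, 2, 4], [1, 4, 1, 4, 2, 2, 5], [6, 6], [6, 3, 6, 3], [6, 1, 1, 6, 2, 2], [6, 1, 6, 2, 6, 1, 6, 2], [6, 4, 6, 4, 6, 4], [1, 6, 2, 4, 1, 6, 2, 4, 1, 6, 2, 4, 1, 6, 2, 4, 1, 6, 2, 4, 1, 6, 2, 4, 1, 6, 2, 4, 1, 6, 2, 4, 1, 6, 2, 4, 1, 6, 2, 4, 1, 6, 2, 4, 1, 6, 2, 4, 1, 6, 2, 4, 1, 6, 2, 4, 1, 6, 2, 4, 1, 6, 2, 4, 1, 6, 2, 4, 1, 6, 2, 4, 1, 6, 2, 4, 1, 6, 2, 4],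 [1, 6, 1, 1, 1, 4, 1, 6, 1, 1, 1, 4, 1, 6, 1, 1, 1, 4, 1, 6, 1, 1, 1, 4, 1, 6, 1, 1, 1, 4, 1, 6, 1, 1, 1, 4, 1, 6, 1, 1, 1, 4, 1, 6, 1, 1, 1, 4, 1, 6, 1, 1, 1, 4, 1, 6, 1, 1, 1, 4, 1, 6, 1, 1, 1, 4, 1, 6, 1, 1, 1, 4, 1, 6, 1, 1, 1, 4, 1, 6, 1, 1, 1, 4, 1, 6, 1, 1, 1, 4, 1, 6, 1, 1, 1, 4, 1, 6, 1, 1, 1, 4, 1, 6, 1, 1, 1, 4, 1, 6, 1, 1, 1, 4, 1, 6, 1, 1, 1, 4]]

/-- Certificate data. -/
def b1_gl : List ℕ := [1, 259, 516, 774]

theorem b1_h1 : allB b1_C.factChk 90 = true := by decide +kernel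

theorem b1_h2 : b1_C.finChk 90 1 b1_lv b1_tb b1_gl = true := by decide +kernel

theorem b1_h3 : TC.relChk b1_C.ivc b1_rs b1_C.rel b1_rc b1_C.nrel = true := by decide +kernel

theorem b1_bound {G : Type*} [Group G] {a r g w : G}
    (r0 : a * a * a * a * a * a * a * a = 1)
    (r1 : r * r = 1)
    (r2 : r * a * r * a⁻¹ * a⁻¹ * a⁻¹ = 1)
    (r3 : g * g * g = 1)
    (r4 : r * g * r * g⁻¹ = 1)
    (r5 : g * a * a * g * a⁻¹ * a⁻¹ * g⁻¹ * a * a * g⁻¹ * a⁻¹ * a⁻¹ = 1)
    (r6 : a * a * a * a * g * a⁻¹ * a⁻¹ * a⁻¹ * a⁻¹ * g = 1)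
    (r7 : a * g * a * g * a⁻¹ * a⁻¹ * g⁻¹ = 1)
    (r8 : w * w = 1)
    (r9 : w * r * w * r = 1)
    (r10 : w * a * a * w * a⁻¹ * a⁻¹ = 1)
    (r11 : w * a * w * a⁻¹ * w * a * w * a⁻¹ = 1)
    (r12 : w * g * w * g * w * g = 1)
    (r13 : a * w * a⁻¹ * g * a * w * a⁻¹ * g * a * w * a⁻¹ * g * a * w * a⁻¹ * g * a * w * a⁻¹ * g
    * a * w * a⁻¹ * g * a * w * a⁻¹ * g * a * w * a⁻¹ * g * a * w * a⁻¹ * g * a * w * a⁻¹ * g * a *
    w * a⁻¹ * g * a * w * a⁻¹ * g * a * w * a⁻¹ * g * a * w * a⁻¹ * g * a * w * a⁻¹ * g * a * w *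
    a⁻¹ * g * a * w * a⁻¹ * g * a * w * a⁻¹ * g * a * w * a⁻¹ * g * a * w * a⁻¹ * g = 1)
    (r14 : a * w * a * a * a * g * a * w * a * a * a * g * a * w * a * a * a * g * a * w * a * a *
    a * g * a * w * a * a * a * g * a * w * a * a * a * g * a * w * a * a * a * g * a * w * a * a *
    a * g * a * w * a * a * a * g * a * w * a * a * a * g * a * w * a * a * a * g * a * w * a * a *
    a * g * a * w * a * a * a * g * a * w * a * a * a * g * a * w * a * a * a * g * a * w * a * a *
    a * g * a * w * a * a * a * g * a * w * a * a * a * g * a * w * a * a * a * g * a * w * a * a *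
    a * g = 1)
    (H : Subgroup G) [Finite H] (m1 : a ∈ H) (m3 : r ∈ H) (m4 : g ∈ H) :
    Finite (Subgroup.closure ({a, r, g, w} : Set G)) ∧
      Nat.card (Subgroup.closure ({a, r, g, w} : Set G)) ≤ 1 * Nat.card H := by
  have hL : TC.Lett (TC.lett [a, a⁻¹, r, g, g⁻¹, w]) b1_C.ivc :=
    TC.lett_ok (show Nat.shiftRight b1_C.ivc (8 * 7) = 0 by decide +kernel) (by
      intro a ha
      change a < 7 at ha
      interval_cases a
      · exact inv_one.symm
      · rfl
      · exact (inv_inv _).symm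
      · exact (inv_eq_of_mul_eq_one_right r1).symm
      · rfl
      · exact (inv_inv _).symm
      · exact (inv_eq_of_mul_eq_one_right r8).symm)
  have h := TC.card_le b1_h1 b1_h2 b1_h3 (by decide) hL (by
    simp only [b1_rs, List.forall_mem_cons]
    refine ⟨?_, ?_, ?_, ?_, ?_, ?_, ?_, ?_, ?_, ?_, ?_, ?_, ?_, ?_, ?_, List.forall_mem_nil _⟩
    · show a * (a * (a * (a * (a * (a * (a * (a * 1))))))) = 1
      simp only [mul_assoc, mul_one] at r0 ⊢
      exact r0
    · show r * (r * 1) = 1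
      simp only [mul_one] at r1 ⊢
      exact r1
    · show r * (a * (r * (a⁻¹ * (a⁻¹ * (a⁻¹ * 1))))) = 1
      simp only [mul_assoc, mul_one] at r2 ⊢
      exact r2
    · show g * (g * (g * 1)) = 1
      simp only [mul_assoc, mul_one] at r3 ⊢
      exact r3
    · show r * (g * (r * (g⁻¹ * 1))) = 1
      simp only [mul_assoc, mul_one] at r4 ⊢
      exact r4
    · show g * (a * (a * (g * (a⁻¹ * (a⁻¹ * (g⁻¹ * (a * (a * (g⁻¹ * (a⁻¹ * (a⁻¹ * 1))))))))))) = 1
      simp only [mul_assoc, mul_one] at r5 ⊢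
      exact r5
    · show a * (a * (a * (a * (g * (a⁻¹ * (a⁻¹ * (a⁻¹ * (a⁻¹ * (g * 1))))))))) = 1
      simp only [mul_assoc, mul_one] at r6 ⊢
      exact r6
    · show a * (g * (a * (g * (a⁻¹ * (a⁻¹ * (g⁻¹ * 1)))))) = 1
      simp only [mul_assoc, mul_one] at r7 ⊢
      exact r7
    · show w * (w * 1) = 1
      simp only [mul_one] at r8 ⊢
      exact r8
    · show w * (r * (w * (r * 1))) = 1
      simp only [mul_assoc, mul_one] at r9 ⊢
      exact r9
    · show w * (a * (a * (w * (a⁻¹ * (a⁻¹ * 1))))) = 1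
      simp only [mul_assoc, mul_one] at r10 ⊢
      exact r10
    · show w * (a * (w * (a⁻¹ * (w * (a * (w * (a⁻¹ * 1))))))) = 1
      simp only [mul_assoc, mul_one] at r11 ⊢
      exact r11
    · show w * (g * (w * (g * (w * (g * 1))))) = 1
      simp only [mul_assoc, mul_one] at r12 ⊢
      exact r12
    · show a * (w * (a⁻¹ * (g * (a * (w * (a⁻¹ * (g * (a * (w * (a⁻¹ * (g * (a * (w * (a⁻¹ * (g *
    (a * (w * (a⁻¹ * (g * (a * (w * (a⁻¹ * (g * (a * (w * (a⁻¹ * (g * (a * (w * (a⁻¹ * (g * (a * (w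
    * (a⁻¹ * (g * (a * (w * (a⁻¹ * (g * (a * (w * (a⁻¹ * (g * (a * (w * (a⁻¹ * (g * (a * (w * (a⁻¹
    * (g * (a * (w * (a⁻¹ * (g * (a * (w * (a⁻¹ * (g * (a * (w * (a⁻¹ * (g * (a * (w * (a⁻¹ * (g *
    (a * (w * (a⁻¹ * (g * (a * (w * (a⁻¹ * (g * (a * (w * (a⁻¹ * (g *
    1))))))))))))))))))))))))))))))))))))))))))))))))))))))))))))))))))))))))))))))) = 1
      simp only [mul_assoc, mul_one] at r13 ⊢
      exact r13
    · show a * (w * (a * (a * (a * (g * (a * (w * (a * (a * (a * (g * (a * (w * (a * (a * (a * (g *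
    (a * (w * (a * (a * (a * (g * (a * (w * (a * (a * (a * (g * (a * (w * (a * (a * (a * (g * (a *
    (w * (a * (a * (a * (g * (a * (w * (a * (a * (a * (g * (a * (w * (a * (a * (a * (g * (a * (w *
    (a * (a * (a * (g * (a * (w * (a * (a * (a * (g * (a * (w * (a * (a * (a * (g * (a * (w * (a *
    (a * (a * (g * (a * (w * (a * (a * (a * (g * (a * (w * (a * (a * (a * (g * (a * (w * (a * (a *
    (a * (g * (a * (w * (a * (a * (a * (g * (a * (w * (a * (a * (a * (g * (a * (w * (a * (a * (a *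
    (g * (a * (w * (a * (a * (a * (g *
    1)))))))))))))))))))))))))))))))))))))))))))))))))))))))))))))))))))))))))))))))))))))))))))))))))))))))))))))))))))))))
    = 1
      simp only [mul_assoc, mul_one] at r14 ⊢
      exact r14) H
    (TC.forall_subs (K := 7) (by decide +kernel) (by
      intro a ha hb
      interval_cases a
      · exact absurd hb (by decide +kernel)
      · exact m1
      · exact H.inv_mem m1
      · exact m3
      · exact m4
      · exact H.inv_mem m4
      · exact absurd hb (by decide +kernel)))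
  have e : {g₀ | ∃ ak ∈ b1_gl, TC.lett [a, a⁻¹, r, g, g⁻¹, w] (ak % 256) = g₀} =
      {a, r, g, w} := by
    ext g₀
    simp only [b1_gl, List.mem_cons, List.not_mem_nil, or_false, exists_eq_or_imp,
      exists_eq_left, Set.mem_ofPred_eq, Set.mem_insert_iff, Set.mem_singleton_iff]
    exact or_congr eq_comm (or_congr eq_comm (or_congr eq_comm (eq_comm)))
  rw [e] at h
  exact h

theorem b1_card {G : Type*} [Group G] {a r g w : G}
    (e0 : a ^ 8 = 1)
    (e1 : r * r = 1)
    (e2 : r * a * r = a ^ 3)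
    (e3 : g ^ 3 = 1)
    (e4 : r * g = g * r)
    (e5 : g * (a ^ 2 * g * (a ^ 2)⁻¹) = a ^ 2 * g * (a ^ 2)⁻¹ * g)
    (e6 : a ^ 4 * g * (a ^ 4)⁻¹ = g⁻¹)
    (e7 : a * g * a⁻¹ = g * (a ^ 2 * g * (a ^ 2)⁻¹)⁻¹)
    (e8 : w * w = 1)
    (e9 : w * r = r * w)
    (e10 : w * a ^ 2 = a ^ 2 * w)
    (e11 : w * (a * w * a⁻¹) = a * w * a⁻¹ * w)
    (e12 : (w * g) ^ 3 = 1)
    (e13 : (a * w * a⁻¹ * g) ^ 20 = 1)
    (e14 : (a * w * a⁻¹ * a ^ 4 * g) ^ 20 = 1)
    (H : Subgroup G) [Finite H] (ma : a ∈ H) (mr : r ∈ H) (mg : g ∈ H) :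
    Finite (Subgroup.closure ({a, r, g, w} : Set G)) ∧
      Nat.card (Subgroup.closure ({a, r, g, w} : Set G)) ≤ 1 * Nat.card H := by
  have ir : r⁻¹ = r := inv_eq_of_mul_eq_one_right e1
  have iw : w⁻¹ = w := inv_eq_of_mul_eq_one_right e8
  refine b1_bound ?_ ?_ ?_ ?_ ?_ ?_ ?_ ?_ ?_ ?_ ?_ ?_ ?_ ?_ ?_ H ma mr mg
  · have h := mul_inv_eq_one.mpr e0
    simp only [pow_succ, pow_zero, mul_inv_rev, inv_inv, inv_one, one_mul, mul_one, mul_assoc,
      mul_inv_cancel_left, inv_mul_cancel_left, mul_inv_cancel, inv_mul_cancel, ir, iw] at h ⊢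
    exact h
  · have h := mul_inv_eq_one.mpr e1
    simp only [pow_succ, pow_zero, mul_inv_rev, inv_inv, inv_one, one_mul, mul_one, mul_assoc,
      mul_inv_cancel_left, inv_mul_cancel_left, mul_inv_cancel, inv_mul_cancel, ir, iw] at h ⊢
    exact h
  · have h := mul_inv_eq_one.mpr e2
    simp only [pow_succ, pow_zero, mul_inv_rev, inv_inv, inv_one, one_mul, mul_one, mul_assoc,
      mul_inv_cancel_left, inv_mul_cancel_left, mul_inv_cancel, inv_mul_cancel, ir, iw] at h ⊢
    exact h
  · have h := mul_inv_eq_one.mpr e3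
    simp only [pow_succ, pow_zero, mul_inv_rev, inv_inv, inv_one, one_mul, mul_one, mul_assoc,
      mul_inv_cancel_left, inv_mul_cancel_left, mul_inv_cancel, inv_mul_cancel, ir, iw] at h ⊢
    exact h
  · have h := mul_inv_eq_one.mpr e4
    simp only [pow_succ, pow_zero, mul_inv_rev, inv_inv, inv_one, one_mul, mul_one, mul_assoc,
      mul_inv_cancel_left, inv_mul_cancel_left, mul_inv_cancel, inv_mul_cancel, ir, iw] at h ⊢
    exact h
  · have h := mul_inv_eq_one.mpr e5
    simp only [pow_succ, pow_zero, mul_inv_rev, inv_inv, inv_one, one_mul, mul_one, mul_assoc,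
      mul_inv_cancel_left, inv_mul_cancel_left, mul_inv_cancel, inv_mul_cancel, ir, iw] at h ⊢
    exact h
  · have h := mul_inv_eq_one.mpr e6
    simp only [pow_succ, pow_zero, mul_inv_rev, inv_inv, inv_one, one_mul, mul_one, mul_assoc,
      mul_inv_cancel_left, inv_mul_cancel_left, mul_inv_cancel, inv_mul_cancel, ir, iw] at h ⊢
    exact h
  · have h := mul_inv_eq_one.mpr e7
    simp only [pow_succ, pow_zero, mul_inv_rev, inv_inv, inv_one, one_mul, mul_one, mul_assoc,
      mul_inv_cancel_left, inv_mul_cancel_left, mul_inv_cancel, inv_mul_cancel, ir, iw] at h ⊢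
    exact h
  · have h := mul_inv_eq_one.mpr e8
    simp only [pow_succ, pow_zero, mul_inv_rev, inv_inv, inv_one, one_mul, mul_one, mul_assoc,
      mul_inv_cancel_left, inv_mul_cancel_left, mul_inv_cancel, inv_mul_cancel, ir, iw] at h ⊢
    exact h
  · have h := mul_inv_eq_one.mpr e9
    simp only [pow_succ, pow_zero, mul_inv_rev, inv_inv, inv_one, one_mul, mul_one, mul_assoc,
      mul_inv_cancel_left, inv_mul_cancel_left, mul_inv_cancel, inv_mul_cancel, ir, iw] at h ⊢
    exact h
  · have h := mul_inv_eq_one.mpr e10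
    simp only [pow_succ, pow_zero, mul_inv_rev, inv_inv, inv_one, one_mul, mul_one, mul_assoc,
      mul_inv_cancel_left, inv_mul_cancel_left, mul_inv_cancel, inv_mul_cancel, ir, iw] at h ⊢
    exact h
  · have h := mul_inv_eq_one.mpr e11
    simp only [pow_succ, pow_zero, mul_inv_rev, inv_inv, inv_one, one_mul, mul_one, mul_assoc,
      mul_inv_cancel_left, inv_mul_cancel_left, mul_inv_cancel, inv_mul_cancel, ir, iw] at h ⊢
    exact h
  · have h := mul_inv_eq_one.mpr e12
    simp only [pow_succ, pow_zero, mul_inv_rev, inv_inv, inv_one, one_mul, mul_one, mul_assoc,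
      mul_inv_cancel_left, inv_mul_cancel_left, mul_inv_cancel, inv_mul_cancel, ir, iw] at h ⊢
    exact h
  · have h := mul_inv_eq_one.mpr e13
    simp only [pow_succ, pow_zero, mul_inv_rev, inv_inv, inv_one, one_mul, mul_one, mul_assoc,
      mul_inv_cancel_left, inv_mul_cancel_left, mul_inv_cancel, inv_mul_cancel, ir, iw] at h ⊢
    exact h
  · have h := mul_inv_eq_one.mpr e14
    simp only [pow_succ, pow_zero, mul_inv_rev, inv_inv, inv_one, one_mul, mul_one, mul_assoc,
      mul_inv_cancel_left, inv_mul_cancel_left, mul_inv_cancel, inv_mul_cancel, ir, iw] at h ⊢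
    exact h

/-- Certificate data. -/
def b2_par : Trie :=
    (.node (.node (.node (.node (.node (.node (.leaf (nat_lit 0)) (.leaf (nat_lit 6660))) (.leaf
    (nat_lit 1797))) (.node (.leaf (nat_lit 770)) (.leaf (nat_lit 4866)))) (.node (.node (.leaf
    (nat_lit 261)) (.leaf (nat_lit 3078))) (.node (.leaf (nat_lit 1282)) (.leaf (nat_lit 5380)))))
    (.node (.node (.node (.node (.leaf (nat_lit 257)) (.leaf (nat_lit 7937))) (.leaf (nat_lit
    2308))) (.node (.leaf (nat_lit 1026)) (.leaf (nat_lit 5122)))) (.node (.node (.leaf (nat_lit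
    517)) (.leaf (nat_lit 3590))) (.node (.leaf (nat_lit 1538)) (.leaf (nat_lit 5893)))))) (.node
    (.node (.node (.node (.node (.leaf (nat_lit 6)) (.leaf (nat_lit 7425))) (.leaf (nat_lit 2050)))
    (.node (.leaf (nat_lit 1025)) (.leaf (nat_lit 4869)))) (.node (.node (.leaf (nat_lit 516))
    (.leaf (nat_lit 3334))) (.node (.leaf (nat_lit 1537)) (.leaf (nat_lit 5892))))) (.node (.node
    (.node (.leaf (nat_lit 260)) (.leaf (nat_lit 2822))) (.node (.leaf (nat_lit 1281)) (.leaf
    (nat_lit 5378)))) (.node (.node (.leaf (nat_lit 769)) (.leaf (nat_lit 4865))) (.node (.leaf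
    (nat_lit 1793)) (.leaf (nat_lit 6401)))))))

/-- Certificate data. -/
def b2_fact : Trie :=
    (.node (.node (.node (.node (.node (.node (.node (.leaf (nat_lit 1)) (.leaf (nat_lit 414469)))
    (.node (.leaf (nat_lit 249349)) (.leaf (nat_lit 218112)))) (.node (.node (.leaf (nat_lit
    99843)) (.leaf (nat_lit 497922))) (.node (.leaf (nat_lit 168452)) (.leaf (nat_lit 256)))))
    (.node (.node (.node (.leaf (nat_lit 49412)) (.leaf (nat_lit 464132))) (.node (.leaf (nat_lit
    183811)) (.leaf (nat_lit 202240)))) (.node (.node (.leaf (nat_lit 183301)) (.leaf (nat_lit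
    499969))) (.leaf (nat_lit 364038))))) (.node (.node (.node (.node (.leaf (nat_lit 16643))
    (.leaf (nat_lit 350722))) (.node (.leaf (nat_lit 135173)) (.leaf (nat_lit 220160)))) (.node
    (.node (.leaf (nat_lit 148481)) (.leaf (nat_lit 530948))) (.leaf (nat_lit 330758)))) (.node
    (.node (.node (.leaf (nat_lit 50182)) (.leaf (nat_lit 481028))) (.node (.leaf (nat_lit 250118))
    (.leaf (nat_lit 71168)))) (.node (.node (.leaf (nat_lit 167681)) (.leaf (nat_lit 252160)))
    (.leaf (nat_lit 366337)))))) (.node (.node (.node (.node (.node (.leaf (nat_lit 4)) (.leaf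
    (nat_lit 431106))) (.node (.leaf (nat_lit 232709)) (.leaf (nat_lit 217344)))) (.node (.node
    (.leaf (nat_lit 131842)) (.leaf (nat_lit 433924))) (.leaf (nat_lit 184834)))) (.node (.node
    (.node (.leaf (nat_lit 50181)) (.leaf (nat_lit 416771))) (.node (.leaf (nat_lit 151810)) (.leaf
    (nat_lit 68864)))) (.node (.node (.leaf (nat_lit 230914)) (.leaf (nat_lit 549382))) (.leaf
    (nat_lit 349700))))) (.node (.node (.node (.node (.leaf (nat_lit 16897)) (.leaf (nat_lit
    367362))) (.node (.leaf (nat_lit 200705)) (.leaf (nat_lit 217856)))) (.node (.node (.leaf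
    (nat_lit 181505)) (.leaf (nat_lit 466945))) (.leaf (nat_lit 347398)))) (.node (.node (.node
    (.leaf (nat_lit 98821)) (.leaf (nat_lit 497413))) (.node (.leaf (nat_lit 281349)) (.leaf
    (nat_lit 20736)))) (.node (.node (.leaf (nat_lit 165635)) (.leaf (nat_lit 303104))) (.leaf
    (nat_lit 399363))))))) (.node (.node (.node (.node (.node (.node (.leaf (nat_lit 3)) (.leaf
    (nat_lit 334085))) (.node (.leaf (nat_lit 216837)) (.leaf (nat_lit 285696)))) (.node (.node
    (.leaf (nat_lit 115457)) (.leaf (nat_lit 514305))) (.node (.leaf (nat_lit 233985)) (.leaf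
    (nat_lit 6))))) (.node (.node (.node (.leaf (nat_lit 65797)) (.leaf (nat_lit 367620))) (.node
    (.leaf (nat_lit 280578)) (.leaf (nat_lit 68608)))) (.node (.node (.leaf (nat_lit 214529))
    (.leaf (nat_lit 564993))) (.leaf (nat_lit 316931))))) (.node (.node (.node (.node (.leaf
    (nat_lit 33025)) (.leaf (nat_lit 447746))) (.node (.leaf (nat_lit 217090)) (.leaf (nat_lit
    216576)))) (.node (.node (.leaf (nat_lit 164866)) (.leaf (nat_lit 516100))) (.leaf (nat_lit
    316421)))) (.node (.node (.node (.leaf (nat_lit 82436)) (.leaf (nat_lit 466178))) (.node (.leaf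
    (nat_lit 200965)) (.leaf (nat_lit 17408)))) (.node (.node (.leaf (nat_lit 166149)) (.leaf
    (nat_lit 154112))) (.leaf (nat_lit 398082)))))) (.node (.node (.node (.node (.node (.leaf
    (nat_lit 16390)) (.leaf (nat_lit 383491))) (.node (.leaf (nat_lit 263941)) (.leaf (nat_lit
    70912)))) (.node (.node (.leaf (nat_lit 116741)) (.leaf (nat_lit 515587))) (.leaf (nat_lit
    314118)))) (.node (.node (.node (.leaf (nat_lit 66563)) (.leaf (nat_lit 416774))) (.node (.leaf
    (nat_lit 250115)) (.leaf (nat_lit 72704)))) (.node (.node (.leaf (nat_lit 247553)) (.leaf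
    (nat_lit 171776))) (.leaf (nat_lit 381697))))) (.node (.node (.node (.node (.leaf (nat_lit
    33283)) (.leaf (nat_lit 400133))) (.node (.leaf (nat_lit 216067)) (.leaf (nat_lit 216832))))
    (.node (.node (.leaf (nat_lit 197890)) (.leaf (nat_lit 548097))) (.leaf (nat_lit 333059))))
    (.node (.node (.node (.leaf (nat_lit 83461)) (.leaf (nat_lit 482821))) (.node (.leaf (nat_lit
    297220)) (.leaf (nat_lit 20224)))) (.node (.node (.leaf (nat_lit 133379)) (.leaf (nat_lit
    234240))) (.leaf (nat_lit 333826))))))))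

/-- Certificate data. -/
def b2_just : Trie :=
    (.node (.node (.node (.node (.node (.node (.node (.leaf (nat_lit 1)) (.leaf (nat_lit 0)))
    (.node (.leaf (nat_lit 269950953221171452444686)) (.leaf (nat_lit 18780221243326466)))) (.node
    (.node (.leaf (nat_lit 7897916576563207)) (.leaf (nat_lit 753725930827530744758296))) (.node
    (.leaf (nat_lit 64179696435222)) (.leaf (nat_lit 566426467454681090))))) (.node (.node (.node
    (.leaf (nat_lit 0)) (.leaf (nat_lit 0))) (.node (.leaf (nat_lit 13597956653645831)) (.leaf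
    (nat_lit 22461313158676482)))) (.node (.node (.leaf (nat_lit 208264680467016752431113)) (.leaf
    (nat_lit 3092321418916602904607))) (.leaf (nat_lit 0))))) (.node (.node (.node (.node (.leaf
    (nat_lit 1692178460114947)) (.leaf (nat_lit 2056703173611835686940))) (.node (.leaf (nat_lit
    43185896292358)) (.leaf (nat_lit 216337502830594)))) (.node (.node (.leaf (nat_lit 0)) (.leaf
    (nat_lit 0))) (.leaf (nat_lit 0)))) (.node (.node (.node (.leaf (nat_lit
    75668834412042780016648)) (.leaf (nat_lit 0))) (.node (.leaf (nat_lit 1054497909063868022804))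
    (.leaf (nat_lit 231790795161602)))) (.node (.node (.leaf (nat_lit
    3333168110331472923031069327370)) (.leaf (nat_lit 16244880573661186))) (.leaf (nat_lit
    2073125523204633591812)))))) (.node (.node (.node (.node (.node (.leaf (nat_lit 1)) (.leaf
    (nat_lit 0))) (.node (.leaf (nat_lit 71756018745350)) (.leaf (nat_lit 13872700196636590082))))
    (.node (.node (.leaf (nat_lit 0)) (.leaf (nat_lit 625335076329705389293598))) (.leaf (nat_lit
    440752319418627575382040)))) (.node (.node (.node (.leaf (nat_lit 17673790554118)) (.leaf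
    (nat_lit 36994790998605837))) (.node (.leaf (nat_lit 739538697711014707219)) (.leaf (nat_lit
    3662960330938490617858)))) (.node (.node (.leaf (nat_lit 0)) (.leaf (nat_lit
    3220945078612018921504))) (.leaf (nat_lit 511460936493261444743194))))) (.node (.node (.node
    (.node (.leaf (nat_lit 110680472186083672068)) (.leaf (nat_lit 2223302282686434181139))) (.node
    (.leaf (nat_lit 217786097942251033722897)) (.leaf (nat_lit 222917392728066)))) (.node (.node
    (.leaf (nat_lit 0)) (.leaf (nat_lit 682595064163065592676375))) (.leaf (nat_lit 0)))) (.node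
    (.node (.node (.leaf (nat_lit 0)) (.leaf (nat_lit 0))) (.node (.leaf (nat_lit
    442157958886663784456097507129884693)) (.leaf (nat_lit 61595483201798146)))) (.node (.node
    (.leaf (nat_lit 776432740987251785740)) (.leaf (nat_lit 27503914001825794))) (.leaf (nat_lit
    2258751249980747743244))))))) (.node (.node (.node (.node (.node (.node (.leaf (nat_lit 1))
    (.leaf (nat_lit 118201795084294))) (.node (.leaf (nat_lit
    260694978157804016064441216028835855)) (.leaf (nat_lit 24691268768694274)))) (.node (.node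
    (.leaf (nat_lit 0)) (.leaf (nat_lit 0))) (.node (.leaf (nat_lit 307952401199692077465623))
    (.leaf (nat_lit 8662949167106))))) (.node (.node (.node (.leaf (nat_lit 0)) (.leaf (nat_lit
    129265630838806))) (.node (.leaf (nat_lit 0)) (.leaf (nat_lit 14298014469903876098)))) (.node
    (.node (.leaf (nat_lit 0)) (.leaf (nat_lit 0))) (.leaf (nat_lit 28798893886210051))))) (.node
    (.node (.node (.node (.leaf (nat_lit 0)) (.leaf (nat_lit 0))) (.node (.leaf (nat_lit
    236635774550131075317776)) (.leaf (nat_lit 14460140736479494146)))) (.node (.node (.leaf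
    (nat_lit 0)) (.leaf (nat_lit 182145268187158))) (.leaf (nat_lit 483403360522464494223385))))
    (.node (.node (.node (.leaf (nat_lit 0)) (.leaf (nat_lit 682595209666868134936600))) (.node
    (.leaf (nat_lit 360249068982621308321801)) (.leaf (nat_lit 1429492491954159618)))) (.node
    (.node (.leaf (nat_lit 4453530570257984579494425985035)) (.leaf (nat_lit 16807843411984386)))
    (.leaf (nat_lit 0)))))) (.node (.node (.node (.node (.node (.leaf (nat_lit 0)) (.leaf (nat_lit
    2240377417864560574476))) (.node (.leaf (nat_lit 0)) (.leaf (nat_lit 11745571618619394))))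
    (.node (.node (.leaf (nat_lit 160856404634307016392713)) (.leaf (nat_lit 46592479537070087)))
    (.leaf (nat_lit 0)))) (.node (.node (.node (.leaf (nat_lit 5076526790017031)) (.leaf (nat_lit
    701630000554842998046749))) (.node (.leaf (nat_lit 1055797479031341121548)) (.leaf (nat_lit
    233955458678786)))) (.node (.node (.leaf (nat_lit 0)) (.leaf (nat_lit
    9190623323241623542324475824582930740577135456204637719082562670336409093584029438603421464284169274581833452575288608580429396073414395809189811243957854076385750153395137274259175313306897317062804144627085597354770223347093044356117774894126908515159227063603027355464489593213372465599422660641)))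
    (.leaf (nat_lit 0))))) (.node (.node (.node (.node (.leaf (nat_lit 185334955458655748101))
    (.leaf (nat_lit 601722953981734420873225))) (.node (.leaf (nat_lit 924729541207114711058))
    (.leaf (nat_lit 13865401561142001666)))) (.node (.node (.leaf (nat_lit 0)) (.leaf (nat_lit 0)))
    (.leaf (nat_lit 29360727148134403)))) (.node (.node (.node (.leaf (nat_lit 28711856504838))
    (.leaf (nat_lit 167800077418502))) (.node (.leaf (nat_lit 0)) (.leaf (nat_lit
    61595526151471106)))) (.node (.node (.leaf (nat_lit 11044843409309709)) (.leaf (nat_lit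
    18498733381713922))) (.leaf (nat_lit 1921788813143468998683))))))))

/-- Certificate data. -/
def b2_rel : Trie :=
    (.node (.node (.node (.node (.node (.leaf (nat_lit 0)) (.leaf (nat_lit 2207646941443))) (.node
    (.leaf (nat_lit 9481987024435699581442)) (.leaf (nat_lit 1694373272290821)))) (.node (.node
    (.leaf (nat_lit 263172)) (.leaf (nat_lit 328965))) (.node (.leaf (nat_lit 285877402206724))
    (.leaf (nat_lit 568451823567365))))) (.node (.node (.node (.leaf (nat_lit 2224809903618))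
    (.leaf (nat_lit 1103907389958))) (.node (.leaf (nat_lit 1103823569411)) (.leaf (nat_lit
    1103857058561)))) (.node (.node (.leaf (nat_lit 848848813949958)) (.leaf (nat_lit
    1409582563918849))) (.node (.leaf (nat_lit 1128120438817025)) (.leaf (nat_lit
    2207713919238)))))) (.node (.node (.node (.node (.leaf (nat_lit 100861443)) (.leaf (nat_lit
    1112430280961))) (.node (.leaf (nat_lit 9481771136427097129220)) (.leaf (nat_lit
    1125315118593)))) (.node (.node (.leaf (nat_lit 67306755)) (.leaf (nat_lit 1409595398489090)))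
    (.node (.leaf (nat_lit 621411501634544994336440580)) (.leaf (nat_lit 2207663588098))))) (.node
    (.node (.node (.leaf (nat_lit 2211925000451)) (.leaf (nat_lit 621406779268062124708004100)))
    (.node (.leaf (nat_lit 84083715)) (.leaf (nat_lit 1413993529148166)))) (.node (.node (.leaf
    (nat_lit 286981158600964)) (.leaf (nat_lit 1692165675943428))) (.node (.leaf (nat_lit
    1127016615444994)) (.leaf (nat_lit
    38960432953026798098799404400452668426245132701194880877736906733568076828421428843027031506299530804959784191808114240665946768080685499630074330447972964316103467060168405218071686978969678881640615086333279691411957460863078149964654485423943551785322055968806462392249315258116866305)))))))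

/-- Certificate data. -/
def b2_rc : Trie :=
    (.node (.node (.node (.node (.node (.leaf (nat_lit 30)) (.leaf (nat_lit 4))) (.node (.leaf
    (nat_lit 1048589)) (.leaf (nat_lit 655385)))) (.node (.node (.leaf (nat_lit 6)) (.leaf (nat_lit
    7))) (.node (.leaf (nat_lit 393230)) (.leaf (nat_lit 655375))))) (.node (.node (.node (.leaf
    (nat_lit 655380)) (.leaf (nat_lit 393236))) (.node (.leaf (nat_lit 393221)) (.leaf (nat_lit
    262149)))) (.node (.node (.leaf (nat_lit 24)) (.leaf (nat_lit 14))) (.node (.leaf (nat_lit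
    131087)) (.leaf (nat_lit 20)))))) (.node (.node (.node (.node (.leaf (nat_lit 131090)) (.leaf
    (nat_lit 131077))) (.node (.leaf (nat_lit 1179660)) (.leaf (nat_lit 262164)))) (.node (.node
    (.leaf (nat_lit 262152)) (.leaf (nat_lit 786447))) (.node (.leaf (nat_lit 10)) (.leaf (nat_lit
    655364))))) (.node (.node (.node (.leaf (nat_lit 655365)) (.leaf (nat_lit 655371))) (.node
    (.leaf (nat_lit 8)) (.leaf (nat_lit 786457)))) (.node (.node (.leaf (nat_lit 131086)) (.leaf
    (nat_lit 131096))) (.node (.leaf (nat_lit 524302)) (.leaf (nat_lit 393244)))))))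

/-- Certificate data. -/
def b2_lv : Trie :=
    (.leaf (nat_lit 0))

/-- Certificate data. -/
def b2_tb : Trie :=
    (.node (.node (.leaf (nat_lit 0)) (.leaf (nat_lit 4))) (.node (.leaf (nat_lit 3)) (.leaf
    (nat_lit 227))))

/-- Certificate data. -/
def b2_C : TC.Cert := ⟨6, 63, 8, 255, 1693269432009216, 62, b2_par, b2_fact, b2_just, b2_rel, 32⟩

/-- Certificate data. -/
def b2_rs : List (List ℕ) := [[1, 1, 1, 1, 1, 1, 1, 1], [3, 3], [3, 1, 3, 2, 2, 2], [4, 4, 4], [3, 4, 3, 5], [4, 1, 1, 4, 2, 2, 5, 1, 1, 5, 2, 2], [1, 1, 1, 1, 4, 2, 2, 2, 2, 4], [1, 4, 1, 4, 2, 2, 5], [6, 6], [6, 3, 6, 3], [6, 1, 1, 6, 2, 2], [6, 1, 6, 2, 6, 1, 6, 2], [6, 4, 6, 4, 6, 4, 3], [1, 6, 2, 4, 1, 6, 2, 4, 1, 6, 2, 4, 1, 6, 2, 4, 1, 6, 2, 4, 1, 6, 2, 4, 1, 6, 2, 4, 1, 6, 2, 4, 1, 6, 2, 4, 1, 6, 2, 4, 1, 6, 2, 4, 1, 6, 2, 4, 1, 6, 2, 4, 1, 6, 2, 4, 1, 6, 2, 4, 1, 6, 2, 4, 1, 6, 2, 4, 1, 6, 2, 4, 1, 6, 2, 4, 1, 6, 2, 4], [1, 6, 1, 1, 1, 4, 1, 6, 1, 1, 1, 4, 1, 6, 1, 1, 1, 4, 1, 6, 1, 1, 1, 4, 1,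 6, 1, 1, 1, 4, 1, 6, 1, 1, 1, 4, 1, 6, 1, 1, 1, 4, 1, 6, 1, 1, 1, 4, 1, 6, 1, 1, 1, 4, 1, 6, 1, 1, 1, 4, 1, 6, 1, 1, 1, 4, 1, 6, 1, 1, 1, 4, 1, 6, 1, 1, 1, 4, 1, 6, 1, 1, 1, 4, 1, 6, 1, 1, 1, 4, 1, 6, 1, 1, 1, 4, 1, 6, 1, 1, 1, 4, 1, 6, 1, 1, 1, 4, 1, 6, 1, 1, 1, 4, 1, 6, 1, 1, 1, 4]]

/-- Certificate data. -/
def b2_gl : List ℕ := [1, 259, 516, 774]

theorem b2_h1 : allB b2_C.factChk 114 = true := by decide +kernel

theorem b2_h2 : b2_C.finChk 114 1 b2_lv b2_tb b2_gl = true := by decide +kernel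

theorem b2_h3 : TC.relChk b2_C.ivc b2_rs b2_C.rel b2_rc b2_C.nrel = true := by decide +kernel

theorem b2_bound {G : Type*} [Group G] {a r g w : G}
    (r0 : a * a * a * a * a * a * a * a = 1)
    (r1 : r * r = 1)
    (r2 : r * a * r * a⁻¹ * a⁻¹ * a⁻¹ = 1)
    (r3 : g * g * g = 1)
    (r4 : r * g * r * g⁻¹ = 1)
    (r5 : g * a * a * g * a⁻¹ * a⁻¹ * g⁻¹ * a * a * g⁻¹ * a⁻¹ * a⁻¹ = 1)
    (r6 : a * a * a * a * g * a⁻¹ * a⁻¹ * a⁻¹ * a⁻¹ * g = 1)
    (r7 : a * g * a * g * a⁻¹ * a⁻¹ * g⁻¹ = 1)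
    (r8 : w * w = 1)
    (r9 : w * r * w * r = 1)
    (r10 : w * a * a * w * a⁻¹ * a⁻¹ = 1)
    (r11 : w * a * w * a⁻¹ * w * a * w * a⁻¹ = 1)
    (r12 : w * g * w * g * w * g * r = 1)
    (r13 : a * w * a⁻¹ * g * a * w * a⁻¹ * g * a * w * a⁻¹ * g * a * w * a⁻¹ * g * a * w * a⁻¹ * g
    * a * w * a⁻¹ * g * a * w * a⁻¹ * g * a * w * a⁻¹ * g * a * w * a⁻¹ * g * a * w * a⁻¹ * g * a *
    w * a⁻¹ * g * a * w * a⁻¹ * g * a * w * a⁻¹ * g * a * w * a⁻¹ * g * a * w * a⁻¹ * g * a * w *
    a⁻¹ * g * a * w * a⁻¹ * g * a * w * a⁻¹ * g * a * w * a⁻¹ * g * a * w * a⁻¹ * g = 1)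
    (r14 : a * w * a * a * a * g * a * w * a * a * a * g * a * w * a * a * a * g * a * w * a * a *
    a * g * a * w * a * a * a * g * a * w * a * a * a * g * a * w * a * a * a * g * a * w * a * a *
    a * g * a * w * a * a * a * g * a * w * a * a * a * g * a * w * a * a * a * g * a * w * a * a *
    a * g * a * w * a * a * a * g * a * w * a * a * a * g * a * w * a * a * a * g * a * w * a * a *
    a * g * a * w * a * a * a * g * a * w * a * a * a * g * a * w * a * a * a * g * a * w * a * a *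
    a * g = 1)
    (H : Subgroup G) [Finite H] (m1 : a ∈ H) (m3 : r ∈ H) (m4 : g ∈ H) :
    Finite (Subgroup.closure ({a, r, g, w} : Set G)) ∧
      Nat.card (Subgroup.closure ({a, r, g, w} : Set G)) ≤ 1 * Nat.card H := by
  have hL : TC.Lett (TC.lett [a, a⁻¹, r, g, g⁻¹, w]) b2_C.ivc :=
    TC.lett_ok (show Nat.shiftRight b2_C.ivc (8 * 7) = 0 by decide +kernel) (by
      intro a ha
      change a < 7 at ha
      interval_cases a
      · exact inv_one.symm
      · rfl
      · exact (inv_inv _).symm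
      · exact (inv_eq_of_mul_eq_one_right r1).symm
      · rfl
      · exact (inv_inv _).symm
      · exact (inv_eq_of_mul_eq_one_right r8).symm)
  have h := TC.card_le b2_h1 b2_h2 b2_h3 (by decide) hL (by
    simp only [b2_rs, List.forall_mem_cons]
    refine ⟨?_, ?_, ?_, ?_, ?_, ?_, ?_, ?_, ?_, ?_, ?_, ?_, ?_, ?_, ?_, List.forall_mem_nil _⟩
    · show a * (a * (a * (a * (a * (a * (a * (a * 1))))))) = 1
      simp only [mul_assoc, mul_one] at r0 ⊢
      exact r0
    · show r * (r * 1) = 1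
      simp only [mul_one] at r1 ⊢
      exact r1
    · show r * (a * (r * (a⁻¹ * (a⁻¹ * (a⁻¹ * 1))))) = 1
      simp only [mul_assoc, mul_one] at r2 ⊢
      exact r2
    · show g * (g * (g * 1)) = 1
      simp only [mul_assoc, mul_one] at r3 ⊢
      exact r3
    · show r * (g * (r * (g⁻¹ * 1))) = 1
      simp only [mul_assoc, mul_one] at r4 ⊢
      exact r4
    · show g * (a * (a * (g * (a⁻¹ * (a⁻¹ * (g⁻¹ * (a * (a * (g⁻¹ * (a⁻¹ * (a⁻¹ * 1))))))))))) = 1
      simp only [mul_assoc, mul_one] at r5 ⊢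
      exact r5
    · show a * (a * (a * (a * (g * (a⁻¹ * (a⁻¹ * (a⁻¹ * (a⁻¹ * (g * 1))))))))) = 1
      simp only [mul_assoc, mul_one] at r6 ⊢
      exact r6
    · show a * (g * (a * (g * (a⁻¹ * (a⁻¹ * (g⁻¹ * 1)))))) = 1
      simp only [mul_assoc, mul_one] at r7 ⊢
      exact r7
    · show w * (w * 1) = 1
      simp only [mul_one] at r8 ⊢
      exact r8
    · show w * (r * (w * (r * 1))) = 1
      simp only [mul_assoc, mul_one] at r9 ⊢
      exact r9
    · show w * (a * (a * (w * (a⁻¹ * (a⁻¹ * 1))))) = 1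
      simp only [mul_assoc, mul_one] at r10 ⊢
      exact r10
    · show w * (a * (w * (a⁻¹ * (w * (a * (w * (a⁻¹ * 1))))))) = 1
      simp only [mul_assoc, mul_one] at r11 ⊢
      exact r11
    · show w * (g * (w * (g * (w * (g * (r * 1)))))) = 1
      simp only [mul_assoc, mul_one] at r12 ⊢
      exact r12
    · show a * (w * (a⁻¹ * (g * (a * (w * (a⁻¹ * (g * (a * (w * (a⁻¹ * (g * (a * (w * (a⁻¹ * (g *
    (a * (w * (a⁻¹ * (g * (a * (w * (a⁻¹ * (g * (a * (w * (a⁻¹ * (g * (a * (w * (a⁻¹ * (g * (a * (w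
    * (a⁻¹ * (g * (a * (w * (a⁻¹ * (g * (a * (w * (a⁻¹ * (g * (a * (w * (a⁻¹ * (g * (a * (w * (a⁻¹
    * (g * (a * (w * (a⁻¹ * (g * (a * (w * (a⁻¹ * (g * (a * (w * (a⁻¹ * (g * (a * (w * (a⁻¹ * (g *
    (a * (w * (a⁻¹ * (g * (a * (w * (a⁻¹ * (g * (a * (w * (a⁻¹ * (g *
    1))))))))))))))))))))))))))))))))))))))))))))))))))))))))))))))))))))))))))))))) = 1
      simp only [mul_assoc, mul_one] at r13 ⊢
      exact r13
    · show a * (w * (a * (a * (a * (g * (a * (w * (a * (a * (a * (g * (a * (w * (a * (a * (a * (g *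
    (a * (w * (a * (a * (a * (g * (a * (w * (a * (a * (a * (g * (a * (w * (a * (a * (a * (g * (a *
    (w * (a * (a * (a * (g * (a * (w * (a * (a * (a * (g * (a * (w * (a * (a * (a * (g * (a * (w *
    (a * (a * (a * (g * (a * (w * (a * (a * (a * (g * (a * (w * (a * (a * (a * (g * (a * (w * (a *
    (a * (a * (g * (a * (w * (a * (a * (a * (g * (a * (w * (a * (a * (a * (g * (a * (w * (a * (a *
    (a * (g * (a * (w * (a * (a * (a * (g * (a * (w * (a * (a * (a * (g * (a * (w * (a * (a * (a *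
    (g * (a * (w * (a * (a * (a * (g *
    1)))))))))))))))))))))))))))))))))))))))))))))))))))))))))))))))))))))))))))))))))))))))))))))))))))))))))))))))))))))))
    = 1
      simp only [mul_assoc, mul_one] at r14 ⊢
      exact r14) H
    (TC.forall_subs (K := 7) (by decide +kernel) (by
      intro a ha hb
      interval_cases a
      · exact absurd hb (by decide +kernel)
      · exact m1
      · exact H.inv_mem m1
      · exact m3
      · exact m4
      · exact H.inv_mem m4
      · exact absurd hb (by decide +kernel)))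
  have e : {g₀ | ∃ ak ∈ b2_gl, TC.lett [a, a⁻¹, r, g, g⁻¹, w] (ak % 256) = g₀} =
      {a, r, g, w} := by
    ext g₀
    simp only [b2_gl, List.mem_cons, List.not_mem_nil, or_false, exists_eq_or_imp,
      exists_eq_left, Set.mem_ofPred_eq, Set.mem_insert_iff, Set.mem_singleton_iff]
    exact or_congr eq_comm (or_congr eq_comm (or_congr eq_comm (eq_comm)))
  rw [e] at h
  exact h

theorem b2_card {G : Type*} [Group G] {a r g w : G}
    (e0 : a ^ 8 = 1)
    (e1 : r * r = 1)
    (e2 : r * a * r = a ^ 3)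
    (e3 : g ^ 3 = 1)
    (e4 : r * g = g * r)
    (e5 : g * (a ^ 2 * g * (a ^ 2)⁻¹) = a ^ 2 * g * (a ^ 2)⁻¹ * g)
    (e6 : a ^ 4 * g * (a ^ 4)⁻¹ = g⁻¹)
    (e7 : a * g * a⁻¹ = g * (a ^ 2 * g * (a ^ 2)⁻¹)⁻¹)
    (e8 : w * w = 1)
    (e9 : w * r = r * w)
    (e10 : w * a ^ 2 = a ^ 2 * w)
    (e11 : w * (a * w * a⁻¹) = a * w * a⁻¹ * w)
    (e12 : (w * g) ^ 3 = r)
    (e13 : (a * w * a⁻¹ * g) ^ 20 = 1)
    (e14 : (a * w * a⁻¹ * a ^ 4 * g) ^ 20 = 1)
    (H : Subgroup G) [Finite H] (ma : a ∈ H) (mr : r ∈ H) (mg : g ∈ H) :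
    Finite (Subgroup.closure ({a, r, g, w} : Set G)) ∧
      Nat.card (Subgroup.closure ({a, r, g, w} : Set G)) ≤ 1 * Nat.card H := by
  have ir : r⁻¹ = r := inv_eq_of_mul_eq_one_right e1
  have iw : w⁻¹ = w := inv_eq_of_mul_eq_one_right e8
  refine b2_bound ?_ ?_ ?_ ?_ ?_ ?_ ?_ ?_ ?_ ?_ ?_ ?_ ?_ ?_ ?_ H ma mr mg
  · have h := mul_inv_eq_one.mpr e0
    simp only [pow_succ, pow_zero, mul_inv_rev, inv_inv, inv_one, one_mul, mul_one, mul_assoc,
      mul_inv_cancel_left, inv_mul_cancel_left, mul_inv_cancel, inv_mul_cancel, ir, iw] at h ⊢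
    exact h
  · have h := mul_inv_eq_one.mpr e1
    simp only [pow_succ, pow_zero, mul_inv_rev, inv_inv, inv_one, one_mul, mul_one, mul_assoc,
      mul_inv_cancel_left, inv_mul_cancel_left, mul_inv_cancel, inv_mul_cancel, ir, iw] at h ⊢
    exact h
  · have h := mul_inv_eq_one.mpr e2
    simp only [pow_succ, pow_zero, mul_inv_rev, inv_inv, inv_one, one_mul, mul_one, mul_assoc,
      mul_inv_cancel_left, inv_mul_cancel_left, mul_inv_cancel, inv_mul_cancel, ir, iw] at h ⊢
    exact h
  · have h := mul_inv_eq_one.mpr e3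
    simp only [pow_succ, pow_zero, mul_inv_rev, inv_inv, inv_one, one_mul, mul_one, mul_assoc,
      mul_inv_cancel_left, inv_mul_cancel_left, mul_inv_cancel, inv_mul_cancel, ir, iw] at h ⊢
    exact h
  · have h := mul_inv_eq_one.mpr e4
    simp only [pow_succ, pow_zero, mul_inv_rev, inv_inv, inv_one, one_mul, mul_one, mul_assoc,
      mul_inv_cancel_left, inv_mul_cancel_left, mul_inv_cancel, inv_mul_cancel, ir, iw] at h ⊢
    exact h
  · have h := mul_inv_eq_one.mpr e5
    simp only [pow_succ, pow_zero, mul_inv_rev, inv_inv, inv_one, one_mul, mul_one, mul_assoc,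
      mul_inv_cancel_left, inv_mul_cancel_left, mul_inv_cancel, inv_mul_cancel, ir, iw] at h ⊢
    exact h
  · have h := mul_inv_eq_one.mpr e6
    simp only [pow_succ, pow_zero, mul_inv_rev, inv_inv, inv_one, one_mul, mul_one, mul_assoc,
      mul_inv_cancel_left, inv_mul_cancel_left, mul_inv_cancel, inv_mul_cancel, ir, iw] at h ⊢
    exact h
  · have h := mul_inv_eq_one.mpr e7
    simp only [pow_succ, pow_zero, mul_inv_rev, inv_inv, inv_one, one_mul, mul_one, mul_assoc,
      mul_inv_cancel_left, inv_mul_cancel_left, mul_inv_cancel, inv_mul_cancel, ir, iw] at h ⊢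
    exact h
  · have h := mul_inv_eq_one.mpr e8
    simp only [pow_succ, pow_zero, mul_inv_rev, inv_inv, inv_one, one_mul, mul_one, mul_assoc,
      mul_inv_cancel_left, inv_mul_cancel_left, mul_inv_cancel, inv_mul_cancel, ir, iw] at h ⊢
    exact h
  · have h := mul_inv_eq_one.mpr e9
    simp only [pow_succ, pow_zero, mul_inv_rev, inv_inv, inv_one, one_mul, mul_one, mul_assoc,
      mul_inv_cancel_left, inv_mul_cancel_left, mul_inv_cancel, inv_mul_cancel, ir, iw] at h ⊢
    exact h
  · have h := mul_inv_eq_one.mpr e10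
    simp only [pow_succ, pow_zero, mul_inv_rev, inv_inv, inv_one, one_mul, mul_one, mul_assoc,
      mul_inv_cancel_left, inv_mul_cancel_left, mul_inv_cancel, inv_mul_cancel, ir, iw] at h ⊢
    exact h
  · have h := mul_inv_eq_one.mpr e11
    simp only [pow_succ, pow_zero, mul_inv_rev, inv_inv, inv_one, one_mul, mul_one, mul_assoc,
      mul_inv_cancel_left, inv_mul_cancel_left, mul_inv_cancel, inv_mul_cancel, ir, iw] at h ⊢
    exact h
  · have h := mul_inv_eq_one.mpr e12
    simp only [pow_succ, pow_zero, mul_inv_rev, inv_inv, inv_one, one_mul, mul_one, mul_assoc,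
      mul_inv_cancel_left, inv_mul_cancel_left, mul_inv_cancel, inv_mul_cancel, ir, iw] at h ⊢
    exact h
  · have h := mul_inv_eq_one.mpr e13
    simp only [pow_succ, pow_zero, mul_inv_rev, inv_inv, inv_one, one_mul, mul_one, mul_assoc,
      mul_inv_cancel_left, inv_mul_cancel_left, mul_inv_cancel, inv_mul_cancel, ir, iw] at h ⊢
    exact h
  · have h := mul_inv_eq_one.mpr e14
    simp only [pow_succ, pow_zero, mul_inv_rev, inv_inv, inv_one, one_mul, mul_one, mul_assoc,
      mul_inv_cancel_left, inv_mul_cancel_left, mul_inv_cancel, inv_mul_cancel, ir, iw] at h ⊢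
    exact h

end Cfsg.Agent.H4.Sd9
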