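import Cfsg.Agent.H7.Asch.Elt
import Cfsg.Agent.H4.M11Pres
import Cfsg.Agent.H4.SdTC
import Cfsg.Agent.H4.SdA

/-!
# A model of `PΓL₂(9)` and some of its subgroups
-/

set_option autoImplicit false
set_option maxRecDepth 100000
set_option synthInstance.maxSize 4000

namespace Cfsg.Agent.H4.Sd9

open Subgroup Equiv L0.Code H7.Asch

instance instFactTen : Fact (10 ≤ 16) := ⟨by decide⟩

/-- A generator. -/
def pa : Perm (Fin 10) :=
  ⟨![0, 1, 6, 9, 2, 4, 7, 8, 3, 5], ![0, 1, 4, 8, 5, 9, 2, 6, 7, 3], by decide, by decide⟩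

theorem enc_pa : enc pa = 358751573520 := by decide +kernel

/-- A generator. -/
def ps : Perm (Fin 10) :=
  ⟨![0, 1, 2, 3, 9, 7, 8, 5, 6, 4], ![0, 1, 2, 3, 9, 7, 8, 5, 6, 4], by decide, by decide⟩

theorem enc_ps : enc ps = 302132048400 := by decide +kernel

/-- A generator. -/
def pg : Perm (Fin 10) :=
  ⟨![0, 3, 1, 2, 6, 4, 5, 9, 7, 8], ![0, 2, 3, 1, 5, 6, 4, 8, 9, 7], by decide, by decide⟩

theorem enc_pg : enc pg = 582324986160 := by decide +kernel

/-- A generator. -/
def pw : Perm (Fin 10) :=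
  ⟨![1, 0, 3, 2, 4, 7, 6, 5, 8, 9], ![1, 0, 3, 2, 4, 7, 6, 5, 8, 9], by decide, by decide⟩

theorem enc_pw : enc pw = 654285480705 := by decide +kernel

/-- The model. -/
def KN : Subgroup (Perm (Fin 10)) := closure {pa, ps, pg}

/-- Its elements. -/
def LN : List ℕ :=
    [654820258320, 358751573520, 302132048400, 582324986160, 314474649360, 495625324560,
    285504275760, 168636552720, 434992849200, 241930035600, 521912259360, 161386809360,
    636563780880, 447332305200, 590362321680, 628482991920, 165447546000, 419167433760,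
    447367894800, 109025985840, 498892759440, 362547712800, 632474333520, 233960735040,
    168679789440, 572077119840, 430997775120, 88086243120, 354727199760, 576147919920,
    495667389840, 374085019680, 229818984720, 517917184560, 370477725840, 555232745760,
    443262538320, 173532068160, 92150113920, 486728630880, 576133362960, 374067317040,
    92182557840, 241886983200, 560011506000, 382897193280, 644635317120, 285434452320,
    290221085040, 559978877760, 650777997600, 161465267040, 109072368240, 225863406960,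
    443226330240, 498779699280, 490792511760, 370585047600, 78219933840, 233828800800,
    281476757040, 237902516880, 502850487840, 590341104720, 358732080960, 628528387200,
    309599564640, 237877167120, 156521551920, 564102698640, 305589748560, 517848782400,
    297982465920, 211116705120, 572193325680, 427219326240, 100281821280, 555277956720,
    349831455360, 502882931760, 309563172240, 314456762400, 88167846480, 100267080000,
    225845520000, 632456446560, 423114330480, 486713889600, 298089787680, 165432989040,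
    419097426000, 177540120960, 423078740880, 378837045600, 430890453360, 246027523920,
    382810470000, 644572587840, 624455473200, 305535653520, 97025033040, 78258853440,
    211080746880, 650706634080, 142627735440, 654748894800, 229933216320, 567247452000,
    150665070960, 177461294640, 96961316640, 427167389760, 490852464000, 640625501040,
    451332502080, 564093077280, 624518571120, 150751175760, 521891042400, 104239555440,
    567328068240, 636545893920, 104211060000, 246009636960, 290203198080, 507767832960,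
    349813752720, 156635599200, 173564696400, 507636885840, 640545069120, 451278222720,
    378786096240, 142666655040, 82215008640, 302024726640, 582256584000, 215123007600,
    434885527440, 354671933280, 362440391040, 281424636240, 215158965840, 82301113440]

/-- Words for its elements. -/
def WN : List (List ℕ) :=
    [[], [0], [1], [2], [0, 0], [1, 0], [2, 0], [0, 1], [2, 1], [0, 2], [2, 2], [0, 0, 0], [1, 0,
    0], [2, 0, 0], [0, 1, 0], [2, 1, 0], [0, 2, 0], [2, 2, 0], [0, 0, 1], [2, 0, 1], [0, 2, 1],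
    [2, 2, 1], [0, 0, 2], [1, 0, 2], [2, 0, 2], [0, 2, 2], [0, 0, 0, 0], [2, 0, 0, 0], [0, 1, 0,
    0], [2, 1, 0, 0], [0, 2, 0, 0], [2, 2, 0, 0], [0, 0, 1, 0], [2, 0, 1, 0], [0, 2, 1, 0], [2, 2,
    1, 0], [0, 0, 2, 0], [1, 0, 2, 0], [2, 0, 2, 0], [0, 2, 2, 0], [1, 0, 0, 1], [2, 0, 0, 1], [0,
    2, 0, 1], [2, 2, 0, 1], [0, 0, 2, 1], [1, 0, 2, 1], [2, 0, 2, 1], [0, 2, 2, 1], [1, 0, 0, 2],
    [2, 0, 0, 2], [0, 1, 0, 2], [2, 1, 0, 2], [2, 2, 0, 2], [0, 0, 2, 2], [1, 0, 2, 2], [2, 0, 2,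
    2], [0, 0, 0, 0, 0], [2, 0, 0, 0, 0], [0, 2, 0, 0, 0], [2, 2, 0, 0, 0], [2, 0, 1, 0, 0], [0,
    2, 1, 0, 0], [2, 2, 1, 0, 0], [0, 0, 2, 0, 0], [1, 0, 2, 0, 0], [2, 0, 2, 0, 0], [0, 2, 2, 0,
    0], [1, 0, 0, 1, 0], [2, 0, 0, 1, 0], [0, 2, 0, 1, 0], [0, 0, 2, 1, 0], [1, 0, 2, 1, 0], [2,
    0, 2, 1, 0], [0, 2, 2, 1, 0], [1, 0, 0, 2, 0], [0, 1, 0, 2, 0], [2, 1, 0, 2, 0], [0, 0, 2, 2,
    0], [1, 0, 2, 2, 0], [2, 1, 0, 0, 1], [0, 2, 0, 0, 1], [2, 2, 0, 0, 1], [0, 0, 2, 0, 1], [1,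
    0, 2, 0, 1], [2, 0, 2, 0, 1], [0, 2, 2, 0, 1], [1, 0, 0, 2, 1], [2, 0, 0, 2, 1], [0, 1, 0, 2,
    1], [0, 0, 2, 2, 1], [2, 0, 2, 2, 1], [0, 1, 0, 0, 2], [2, 1, 0, 0, 2], [0, 0, 1, 0, 2], [0,
    2, 1, 0, 2], [1, 0, 0, 2, 2], [2, 1, 0, 2, 2], [2, 2, 0, 2, 2], [2, 0, 0, 0, 0, 0], [0, 2, 0,
    0, 0, 0], [0, 0, 2, 0, 0, 0], [1, 0, 2, 0, 0, 0], [2, 0, 2, 0, 0, 0], [0, 2, 2, 0, 0, 0], [0,
    2, 0, 1, 0, 0], [0, 0, 2, 1, 0, 0], [1, 0, 2, 1, 0, 0], [0, 2, 2, 1, 0, 0], [0, 0, 2, 2, 0,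
    0], [2, 1, 0, 0, 1, 0], [2, 2, 0, 0, 1, 0], [1, 0, 2, 0, 1, 0], [2, 0, 2, 0, 1, 0], [1, 0, 0,
    2, 1, 0], [2, 0, 0, 2, 1, 0], [0, 1, 0, 2, 1, 0], [0, 0, 2, 2, 1, 0], [2, 0, 2, 2, 1, 0], [0,
    0, 1, 0, 2, 0], [0, 2, 1, 0, 2, 0], [0, 2, 1, 0, 0, 1], [2, 2, 1, 0, 0, 1], [0, 1, 0, 2, 0,
    1], [2, 1, 0, 2, 0, 1], [1, 0, 2, 2, 0, 1], [0, 1, 0, 0, 2, 1], [2, 1, 0, 0, 2, 1], [0, 0, 1,
    0, 2, 1], [1, 0, 0, 2, 2, 1], [0, 2, 1, 0, 0, 2], [0, 1, 0, 0, 2, 2], [2, 0, 2, 0, 0, 0, 0],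
    [0, 0, 2, 2, 0, 0, 0], [1, 0, 2, 0, 1, 0, 0], [2, 0, 2, 0, 1, 0, 0], [1, 0, 0, 2, 1, 0, 0],
    [2, 0, 0, 2, 1, 0, 0], [0, 0, 2, 2, 1, 0, 0], [0, 2, 1, 0, 0, 1, 0], [2, 1, 0, 2, 0, 1, 0],
    [0, 1, 0, 0, 2, 1, 0], [1, 0, 0, 2, 2, 1, 0], [0, 0, 2, 1, 0, 0, 1], [0, 0, 1, 0, 2, 0, 1]]

theorem listsN : Lists KN LN :=
  lists_of_words (by decide) _ 654820258320 [358751573520, 302132048400, 582324986160] LN WN (by decide +kernel)
    (by simp [enc_pa, enc_ps, enc_pg]) (by simp [← enc_pa, ← enc_ps, ← enc_pg])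
    (by decide +kernel) (by decide +kernel) (by decide +kernel) (by decide +kernel)

/-- The elements of the model. -/
def EN : List (E KN) := E.lst LN listsN.cd

theorem mem_EN (u : E KN) : u ∈ EN := E.mem_lst_all listsN u

/-- A generator. -/
def na : E KN := ⟨358751573520, pa, subset_closure (by simp), enc_pa⟩

/-- A generator. -/
def ns : E KN := ⟨302132048400, ps, subset_closure (by simp), enc_ps⟩

/-- A generator. -/
def ng : E KN := ⟨582324986160, pg, subset_closure (by simp), enc_pg⟩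

/-- The model. -/
def KS : Subgroup (Perm (Fin 10)) := closure {pa, ps}

/-- Its elements. -/
def LS : List ℕ :=
    [654820258320, 358751573520, 302132048400, 314474649360, 495625324560, 168636552720,
    161386809360, 636563780880, 590362321680, 447367894800, 430997775120, 354727199760,
    229818984720, 576133362960, 490792511760, 237877167120]

/-- Words for its elements. -/
def WS : List (List ℕ) :=
    [[], [0], [1], [0, 0], [1, 0], [0, 1], [0, 0, 0], [1, 0, 0], [0, 1, 0], [0, 0, 1], [0, 0, 0,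
    0], [0, 1, 0, 0], [0, 0, 1, 0], [1, 0, 0, 1], [0, 0, 0, 0, 0], [1, 0, 0, 1, 0]]

theorem listsS : Lists KS LS :=
  lists_of_words (by decide) _ 654820258320 [358751573520, 302132048400] LS WS (by decide +kernel)
    (by simp [enc_pa, enc_ps]) (by simp [← enc_pa, ← enc_ps])
    (by decide +kernel) (by decide +kernel) (by decide +kernel) (by decide +kernel)

/-- The elements of the model. -/
def ES : List (E KS) := E.lst LS listsS.cd

theorem mem_ES (u : E KS) : u ∈ ES := E.mem_lst_all listsS u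

/-- A generator. -/
def sa : E KS := ⟨358751573520, pa, subset_closure (by simp), enc_pa⟩

/-- A generator. -/
def ss : E KS := ⟨302132048400, ps, subset_closure (by simp), enc_ps⟩

/-- The model. -/
def KP : Subgroup (Perm (Fin 10)) := closure {pa, ps, pw}

/-- Its elements. -/
def LP : List ℕ :=
    [654820258320, 358751573520, 302132048400, 654285480705, 314474649360, 495625324560,
    491862070785, 168636552720, 302666818305, 357682014465, 161386809360, 636563780880,
    314207270145, 590362321680, 353925023745, 576400742145, 447367894800, 228749448705,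
    169706088705, 496427500545, 490792511760, 430997775120, 238679312385, 354727199760,
    636296386305, 160584664065, 229818984720, 589827551745, 447635289345, 576133362960,
    431532552705, 237877167120]

/-- Words for its elements. -/
def WP : List (List ℕ) :=
    [[], [0], [1], [2], [0, 0], [1, 0], [2, 0], [0, 1], [2, 1], [0, 2], [0, 0, 0], [1, 0, 0], [2,
    0, 0], [0, 1, 0], [2, 1, 0], [0, 2, 0], [0, 0, 1], [2, 0, 1], [0, 2, 1], [1, 0, 2], [2, 0, 2],
    [0, 0, 0, 0], [2, 0, 0, 0], [0, 1, 0, 0], [2, 1, 0, 0], [0, 2, 0, 0], [0, 0, 1, 0], [2, 0, 1,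
    0], [1, 0, 2, 0], [2, 0, 2, 0], [2, 0, 0, 0, 0], [2, 0, 2, 0, 0]]

theorem listsP : Lists KP LP :=
  lists_of_words (by decide) _ 654820258320 [358751573520, 302132048400, 654285480705] LP WP (by decide +kernel)
    (by simp [enc_pa, enc_ps, enc_pw]) (by simp [← enc_pa, ← enc_ps, ← enc_pw])
    (by decide +kernel) (by decide +kernel) (by decide +kernel) (by decide +kernel)

/-- The elements of the model. -/
def EP : List (E KP) := E.lst LP listsP.cd

theorem mem_EP (u : E KP) : u ∈ EP := E.mem_lst_all listsP u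

/-- A generator. -/
def qa : E KP := ⟨358751573520, pa, subset_closure (by simp), enc_pa⟩

/-- A generator. -/
def qs : E KP := ⟨302132048400, ps, subset_closure (by simp), enc_ps⟩

/-- A generator. -/
def qw : E KP := ⟨654285480705, pw, subset_closure (by simp), enc_pw⟩

/-- The model. -/
def KL : Subgroup (Perm (Fin 10)) := closure {pa, ps, pg, pw}

/-- A generator. -/
def la : E KL := ⟨358751573520, pa, subset_closure (by simp), enc_pa⟩

/-- A generator. -/
def ls : E KL := ⟨302132048400, ps, subset_closure (by simp), enc_ps⟩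

/-- A generator. -/
def lg : E KL := ⟨582324986160, pg, subset_closure (by simp), enc_pg⟩

/-- A generator. -/
def lw : E KL := ⟨654285480705, pw, subset_closure (by simp), enc_pw⟩

/-- A transversal. -/
noncomputable def tr : Fin 10 → E KL :=
  ![1, lw, lg * lg * lw, lg * lw, ls * la * lg * lw, la * la * lg * lw, la * lg * lg * lw, ls * la * la * lg * lw, lg * la * lg * lw, la * lg * lw]

theorem tr_inj : ∀ i j : Fin 10, memb ((tr j)⁻¹ * tr i).c LN = true → i = j := by decide +kernel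

theorem N_le : KN ≤ KL := closure_mono (by simp [Set.insert_subset_iff])

theorem S_le : KS ≤ KN := closure_mono (by simp [Set.insert_subset_iff])

theorem P_le : KP ≤ KL := closure_mono (by simp [Set.insert_subset_iff])

theorem card_N : Nat.card (E KN) = 144 := E.card_of_lists listsN

theorem card_S : Nat.card (E KS) = 16 := E.card_of_lists listsS

theorem card_P : Nat.card (E KP) = 32 := E.card_of_lists listsP

theorem card_L : 1440 ≤ Nat.card (E KL) := by
  have h : Function.Injective (fun x : Fin 10 × E KN => tr x.1 * E.incl N_le x.2) := by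
    rintro ⟨i, n⟩ ⟨j, m⟩ e
    have e' : tr i * E.incl N_le n = tr j * E.incl N_le m := e
    have h1 : (tr j)⁻¹ * tr i = E.incl N_le (m * n⁻¹) := by
      rw [map_mul, map_inv, eq_mul_inv_iff_mul_eq, mul_assoc, e', inv_mul_cancel_left]
    obtain rfl := tr_inj i j (by
      rw [h1, memb_iff]
      exact (E.mem_lst (e := m * n⁻¹)).1 (mem_EN (m * n⁻¹)))
    rw [E.incl_inj N_le (mul_left_cancel e')]
  have := Nat.card_le_card_of_injective _ h
  rwa [Nat.card_prod, card_N, Nat.card_fin] at this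

theorem top_N : closure {na, ns, ng} = ⊤ := E.closure_eq_top (by
  rintro _ (rfl | rfl | rfl)
  exacts [⟨na, subset_closure (.inl rfl), enc_pa.symm⟩,
    ⟨ns, subset_closure (.inr (.inl rfl)), enc_ps.symm⟩,
    ⟨ng, subset_closure (.inr (.inr rfl)), enc_pg.symm⟩])

theorem top_L : closure {la, ls, lg, lw} = ⊤ := E.closure_eq_top (by
  rintro _ (rfl | rfl | rfl | rfl)
  exacts [⟨la, subset_closure (.inl rfl), enc_pa.symm⟩,
    ⟨ls, subset_closure (.inr (.inl rfl)), enc_ps.symm⟩,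
    ⟨lg, subset_closure (.inr (.inr (.inl rfl))), enc_pg.symm⟩,
    ⟨lw, subset_closure (.inr (.inr (.inr rfl))), enc_pw.symm⟩])

theorem rel_N : NRel na ns ng :=
  ⟨by decide +kernel, by decide +kernel, by decide +kernel, by decide +kernel, by decide +kernel,
    by decide +kernel, by decide +kernel, by decide +kernel⟩

theorem rel_L : NRel la ls lg :=
  ⟨by decide +kernel, by decide +kernel, by decide +kernel, by decide +kernel, by decide +kernel,
    by decide +kernel, by decide +kernel, by decide +kernel⟩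

theorem N_ker : ∀ u ∈ EN, u ≠ 1 → ∃ c ∈ EN, c * u * c⁻¹ = ng ∨
    c * (ng * u * ng⁻¹ * u⁻¹) * c⁻¹ = ng ∨
    c * (na * ng * na⁻¹ * u * (na * ng * na⁻¹)⁻¹ * u⁻¹) * c⁻¹ = ng := by decide +kernel

theorem N_cent : ∀ u ∈ EN, u * ng = ng * u → u ^ 6 = 1 ∧ (u * u = 1 → u ≠ 1 →
    (∃ c ∈ EN, c * ns * c⁻¹ = u) ∧ ∀ v ∈ EN, v * ng = ng * v → v * u = u * v →
      (v = 1 ∨ v = u) ∨ (v * ng⁻¹ = 1 ∨ v * ng⁻¹ = u) ∨ (v * ng = 1 ∨ v * ng = u)) := by
  decide +kernel

theorem N_cent2 : ∀ u ∈ EN, (u * ns = ns * u → u * na ^ 2 = na ^ 2 * u → u = 1 ∨ u = na ^ 4) ∧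
    u * na ^ 4 * u⁻¹ ≠ ns := by decide +kernel

/-- The noncentral involutions. -/
noncomputable def l4 : List (E KS) := [ss, sa ^ 2 * ss, sa ^ 4 * ss, sa ^ 6 * ss]

theorem S_cls : l4.Nodup ∧ (∀ u ∈ l4, ∃ c ∈ ES, c * ss * c⁻¹ = u) ∧
    ∀ u ∈ ES, u * u = 1 → u = 1 ∨ u = sa ^ 4 ∨ u ∈ l4 := by decide +kernel

/-- Some involutions. -/
noncomputable def l6 : List (E KP) :=
  [qs, qa ^ 2 * qs, qa ^ 4 * qs, qa ^ 6 * qs, qw, qw * qa ^ 4]

/-- Some involutions. -/
noncomputable def l10 : List (E KP) :=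
  l6 ++ [qa * qs * qw, qa ^ 3 * qs * qw, qa ^ 5 * qs * qw, qa ^ 7 * qs * qw]

theorem P_cls : l6.Nodup ∧ l10.Nodup ∧ (∀ u ∈ l6, ∃ c ∈ EP, c * qs * c⁻¹ = u ∨ c * qw * c⁻¹ = u) ∧
    (∀ u ∈ l10, u ∈ l6 ∨ ∃ c ∈ EP, c * (qa * qs * qw) * c⁻¹ = u) ∧
    (∀ u ∈ EP, u * u = 1 → u = 1 ∨ u = qa ^ 4 ∨ (∃ c ∈ EP, c * (qw * qs) * c⁻¹ = u) ∨ u ∈ l10) ∧
    ∀ u ∈ EP, u = 1 ∨ u = qa ^ 4 ∨ ∃ c ∈ EP, c * u * c⁻¹ * u⁻¹ = qa ^ 4 ∨
      (c * u * c⁻¹ * u⁻¹) ^ 2 = qa ^ 4 := by decide +kernel

variable {G : Type*} [Group G]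

theorem NRel.prod {M : Type*} [Group M] {a s g : G} {a' s' g' : M} (h : NRel a s g)
    (h' : NRel a' s' g') : NRel (a, a') (s, s') (g, g') :=
  ⟨Prod.ext h.e0 h'.e0, Prod.ext h.e1 h'.e1, Prod.ext h.e2 h'.e2, Prod.ext h.e3 h'.e3,
    Prod.ext h.e4 h'.e4, Prod.ext h.e5 h'.e5, Prod.ext h.e6 h'.e6, Prod.ext h.e7 h'.e7⟩

theorem NRel.card_le {a s g : G} (h : NRel a s g) : Finite (closure ({a, s, g} : Set G)) ∧
    Nat.card (closure ({a, s, g} : Set G)) ≤ 144 := by
  obtain ⟨hf, hc⟩ := TC.finite_zpowers_of_pow (by norm_num) h.e0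
  have h1 := M11P.pn_card h.e0 h.e1 h.e2 h.e3 h.e4 h.e5 h.e6 h.e7 _ (mem_zpowers a)
  exact ⟨h1.1, h1.2.trans (by omega)⟩

theorem NRel.exists_hom {a s g : G} (h : NRel a s g) (g1 : g ≠ 1) : ∃ ι : E KN →* G,
    Function.Injective ι ∧ ι na = a ∧ ι ns = s ∧ ι ng = g ∧ ι.range = closure {a, s, g} := by
  obtain ⟨h1, h2⟩ := (h.prod rel_N).card_le
  obtain ⟨φ, hφ⟩ := TC.exists_hom_of_card_le (card_N ▸ h2) (by
    rw [MonoidHom.map_closure, ← top_N]
    simp only [Set.image_insert_eq, Set.image_singleton, MonoidHom.coe_snd])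
  have e1 := hφ a na (subset_closure (by simp))
  have e2 := hφ s ns (subset_closure (by simp))
  have e3 := hφ g ng (subset_closure (by simp))
  refine ⟨φ, (injective_iff_map_eq_one φ).2 fun u hu => ?_, e1, e2, e3, ?_⟩
  · by_contra h3
    obtain ⟨c, -, e | e | e⟩ := N_ker u (mem_EN u) h3 <;>
      exact g1 (by simpa [hu, e3] using (congrArg φ e).symm)
  · rw [MonoidHom.range_eq_map, ← top_N, MonoidHom.map_closure]
    simp only [Set.image_insert_eq, Set.image_singleton, e1, e2, e3]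

/-- The relations of the fourth generator. -/
structure WRel (a s g w : G) : Prop where
  ww : w * w = 1
  ws : w * s = s * w
  wa : w * a ^ 2 = a ^ 2 * w
  aw : a * w * a⁻¹ = w * a ^ 4
  wg : (w * g) ^ 3 = s

/-- Consequences of the relations. -/
structure WF (a s g w x t : G) : Prop where
  xz : x * a ^ 4 * x⁻¹ = w * s * a ^ 4
  xw : x * w = w * x
  xs : x * s = s * x
  xx : x * x = 1
  y3 : (x * (t * x * t⁻¹)) ^ 3 = 1
  cs : a * x * a ^ 2 * s * (a * x * a ^ 2)⁻¹ = w
  cv : a * x * a ^ 2 * (w * s) * (a * x * a ^ 2)⁻¹ = a ^ 4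
  cx : a * x * a ^ 2 * x * (a * x * a ^ 2)⁻¹ = w * s * a ^ 4
  ys : x * (t * x * t⁻¹) * s * (x * (t * x * t⁻¹))⁻¹ = s * a ^ 4
  yz : x * (t * x * t⁻¹) * a ^ 4 * (x * (t * x * t⁻¹))⁻¹ = w * s
  yw : x * (t * x * t⁻¹) * w = w * (x * (t * x * t⁻¹))
  ty : t * (x * (t * x * t⁻¹)) * t⁻¹ = (x * (t * x * t⁻¹))⁻¹

theorem wrel_L : WRel la ls lg lw :=
  ⟨by decide +kernel, by decide +kernel, by decide +kernel, by decide +kernel, by decide +kernel⟩

theorem wf_L : WF la ls lg lw (lg * (lw * ls) * lg⁻¹) (la ^ 2 * ls) :=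
  ⟨by decide +kernel, by decide +kernel, by decide +kernel, by decide +kernel, by decide +kernel,
    by decide +kernel, by decide +kernel, by decide +kernel, by decide +kernel, by decide +kernel,
    by decide +kernel, by decide +kernel⟩

theorem WF.map {M : Type*} [Group M] (φ : M →* G) {a s g w x t : M} (h : WF a s g w x t) :
    WF (φ a) (φ s) (φ g) (φ w) (φ x) (φ t) :=
  ⟨by simpa using congrArg φ h.xz, by simpa using congrArg φ h.xw, by simpa using congrArg φ h.xs,
    by simpa using congrArg φ h.xx,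
    by simpa only [map_mul, map_pow, map_inv, map_one] using congrArg φ h.y3,
    by simpa only [map_mul, map_pow, map_inv] using congrArg φ h.cs,
    by simpa only [map_mul, map_pow, map_inv] using congrArg φ h.cv,
    by simpa only [map_mul, map_pow, map_inv] using congrArg φ h.cx,
    by simpa only [map_mul, map_pow, map_inv] using congrArg φ h.ys,
    by simpa only [map_mul, map_pow, map_inv] using congrArg φ h.yz,
    by simpa only [map_mul, map_pow, map_inv] using congrArg φ h.yw,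
    by simpa only [map_mul, map_pow, map_inv] using congrArg φ h.ty⟩

theorem WRel.exists_hom {a s g w : G} (h : NRel a s g) (hw : WRel a s g w) (z1 : a ^ 4 ≠ 1) :
    WF a s g w (g * (w * s) * g⁻¹) (a ^ 2 * s) ∧ ∃ ι : E KP →* G,
      Function.Injective ι ∧ ι qa = a ∧ ι qs = s ∧ ι qw = w := by
  have hp := h.prod rel_L
  obtain ⟨h1, h2⟩ := hp.card_le
  obtain ⟨h3, h4⟩ := cL_card (w := (w, lw)) hp.e0 hp.e1 hp.e2 hp.e3 hp.e4 hp.e5 hp.e6 hp.e7
    (Prod.ext hw.ww wrel_L.ww) (Prod.ext hw.ws wrel_L.ws) (Prod.ext hw.wa wrel_L.wa)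
    (Prod.ext hw.aw wrel_L.aw) (Prod.ext hw.wg wrel_L.wg) (closure {(a, la), (s, ls), (g, lg)})
    (subset_closure (by simp)) (subset_closure (by simp)) (subset_closure (by simp))
  obtain ⟨φ, hφ⟩ := TC.exists_hom_of_card_le (h4.trans (le_trans (by omega) card_L)) (by
    rw [MonoidHom.map_closure, ← top_L]
    simp only [Set.image_insert_eq, Set.image_singleton, MonoidHom.coe_snd])
  have e1 := hφ a la (subset_closure (by simp))
  have e2 := hφ s ls (subset_closure (by simp))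
  have e3 := hφ g lg (subset_closure (by simp))
  have e4 := hφ w lw (subset_closure (by simp))
  refine ⟨by simpa only [map_mul, map_pow, map_inv, e1, e2, e3, e4] using wf_L.map φ,
    φ.comp (E.incl P_le), (injective_iff_map_eq_one _).2 fun u hu => ?_, e1, e2, e4⟩
  have e5 : φ.comp (E.incl P_le) qa = a := e1
  generalize φ.comp (E.incl P_le) = ι at hu e5
  rcases P_cls.2.2.2.2.2 u (mem_EP u) with e | e | ⟨c, -, e | e⟩
  · exact e
  all_goals exact absurd (by simpa [hu, e5] using (congrArg ι e).symm) z1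

end Cfsg.Agent.H4.Sd9
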