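import Cfsg.Agent.H4.SdW
import Cfsg.Agent.H4.M11Nse
import Cfsg.Agent.H3.WSD

/-!
# Groups with Sylow `3`-normalizer `3² : SD₁₆`: identification of `M₁₁`
-/

set_option autoImplicit false
set_option linter.unusedSectionVars false
set_option synthInstance.maxSize 4000

namespace Cfsg.Agent.H4.Sd9

open Subgroup Nse H3 M11P

theorem gam_chk : ∀ α γ : Gam, α ^ 2 = Gam.ga ^ 2 → γ ^ 3 = 1 → γ ≠ 1 →
    γ * α ^ 2 * γ⁻¹ = α ^ 1 * Gam.gr ∨ γ * α ^ 2 * γ⁻¹ = α ^ 3 * Gam.gr ∨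
    γ⁻¹ * α ^ 2 * γ⁻¹⁻¹ = α ^ 1 * Gam.gr ∨ γ⁻¹ * α ^ 2 * γ⁻¹⁻¹ = α ^ 3 * Gam.gr ∨
      ¬ (Gam.gr * γ * Gam.gr⁻¹ = γ⁻¹) := by decide +kernel

variable {G : Type*} [Group G] [Finite G] [IsSimpleGroup G]

theorem Base.m11 {a s g w : G} (h : Base a s g) (f : Fr (a ^ 2) s w a⁻¹) : Cfsg.Spor.IsoM11 G := by
  obtain ⟨b, j, h1⟩ := f.exists_sy
  have z2 : (a ^ 2) ^ 2 = a ^ 4 := by rw [← pow_mul]
  obtain ⟨b', g', W, h2⟩ := h1.exists_sd (h1.ra.resolve_left fun e => by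
    obtain ⟨W, h2⟩ := h1.exists_sv
    obtain ⟨x, hx, i, e1⟩ := h2.dec a ((Commute.refl a).pow_right 2)
    refine h2.z_not ?_
    have e2 : a ^ 3 = x⁻¹ * (b ^ i)⁻¹ := by
      rw [← h.e2]
      nth_rewrite 2 [← h.si]
      rw [e1, cmul, h2.rW hx, ← conj_pow, e, inv_pow]
    have e3 := mul_mem (inv_mem hx) (h2.conj_mem' (h1.ay.pow_left i).inv_left hx)
    rw [z2, pow_succ, e2]
    nth_rewrite 1 [e1]
    simpa [mul_assoc] using e3)
  obtain ⟨φ, h3⟩ := h2.exists_sg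
  have hG : Nat.card G = 7920 := h3.card.resolve_left fun e => h.n27 (by rw [e]; norm_num)
  have hR : Rel a s g w := ⟨h.e0, h.e1, h.e2, h.e3, h.e4, h.e5, h.e6, h.e7, f.w3, z2 ▸ f.wz, f.sw⟩
  have top : ∀ g', g ∈ zpowers g' → closure {a, s, g', w} = ⊤ := fun g' hg' => by
    obtain ⟨L, hL⟩ : ∃ L, L = closure ({a, s, g', w} : Set G) := ⟨_, rfl⟩
    have h4 : closure {a, s, g} ≤ L := by
      rw [closure_le, hL]
      rintro _ (rfl | rfl | rfl)
      exacts [subset_closure (by simp), subset_closure (by simp),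
        zpowers_le_of_mem (subset_closure (by simp)) hg']
    have h5 := h.idx L h4
    have h6 := relIndex_mul_card h4
    have h7 := L.card_subgroup_dvd_card
    rw [← h6, h.card_N, hG] at h7
    have h8 : ∀ n ∈ Nat.divisors 55, n ≡ 1 [MOD 3] → n = 1 ∨ n = 55 := by decide
    rw [← hL]
    rcases h8 _ (Nat.mem_divisors.mpr ⟨Nat.dvd_of_mul_dvd_mul_right (k := 144) (by norm_num) h7,
      by norm_num⟩) h5 with e | e
    · have h9 : w ∈ closure {a, s, g} := relIndex_eq_one.mp e (hL ▸ subset_closure (by simp))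
      obtain ⟨ι, hι, rfl, rfl, rfl, e⟩ := h.toNRel.exists_hom h.g1
      obtain ⟨w, rfl⟩ := e.ge h9
      exact absurd (hι (by simpa using hR.e9)) (N_cent2 w (mem_EN w)).2
    · rw [e, h.card_N] at h6
      exact eq_top_of_card_eq _ (by rw [← h6, hG])
  have t1 := top g (mem_zpowers g)
  have t2 := top g⁻¹ (by simp)
  have fin : ∀ g', Rel a s g' w → closure {a, s, g', w} = ⊤ →
      w⁻¹ * g' * w * a ^ 2 * (w⁻¹ * g' * w)⁻¹ = a ^ 3 * s → Cfsg.Spor.IsoM11 G := fun g' r t e => by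
    obtain ⟨a', r', g'', w', hR', hk', ht'⟩ := M11R.hyp_M11.exists_gens
    obtain ⟨ψ, e1, e2, e3, e4⟩ := r.exists_hom e hR' hk' M11R.hyp_M11.card ht'
    have hs : Function.Surjective ψ := by
      rw [← MonoidHom.range_eq_top, eq_top_iff, ← t, closure_le]
      rintro x (rfl | rfl | rfl | rfl)
      exacts [⟨_, e1⟩, ⟨_, e2⟩, ⟨_, e3⟩, ⟨_, e4⟩]
    exact ⟨(MulEquiv.ofBijective ψ
      (hs.bijective_of_nat_card_le (by rw [hG, M11R.hyp_M11.card]))).symm⟩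
  have c1 : Commute (w⁻¹ * g * w) ((a ^ 2) ^ 2) := by
    have := (Commute.symm h.e4).conj w⁻¹
    rwa [inv_inv, f.wr] at this
  have c2 : s * (w⁻¹ * g * w) * s⁻¹ = (w⁻¹ * g * w)⁻¹ := by
    have e : s = w⁻¹ * (a ^ 4 * s) * w := by
      rw [← mul_assoc, show w⁻¹ * a ^ 4 * s * w = w⁻¹ * a ^ 4 * w * (w⁻¹ * s * w) by group, ← z2,
        f.wz', f.wr, mul_assoc, f.rz.eq, ← mul_assoc, f.zz, one_mul]
    calc _ = w⁻¹ * (a ^ 4 * (s * g * s⁻¹) * (a ^ 4)⁻¹) * w := by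
          conv_lhs => rw [e]
          group
      _ = _ := by rw [h.e4, mul_inv_cancel_right, h.e6]; group
  obtain ⟨γ, hγ⟩ := h3.range _ c1
  obtain ⟨α, hα⟩ := h3.range a (((Commute.refl a).pow_right 2).pow_right 2)
  have e0 : w⁻¹ * g⁻¹ * w = φ γ⁻¹ := by rw [map_inv, hγ]; group
  rcases gam_chk α γ (h3.inj (by rw [map_pow, map_pow, hα, h3.a2]))
    (h3.inj (by
      rw [map_pow, hγ, map_one, show w⁻¹ * g * w = w⁻¹ * g * w⁻¹⁻¹ by simp, conj_pow, h.e3]; simp))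
    (fun e => h.g1 (by
      rw [e, map_one, eq_comm, mul_assoc, inv_mul_eq_one, eq_comm, mul_eq_right] at hγ
      exact hγ)) with e | e | e | e | e
  · have := hR.card_one (by
      simpa only [map_mul, map_inv, map_pow, hα, hγ, h3.r_eq] using congrArg φ e)
    rw [t1, card_top, hG] at this
    omega
  · exact fin g hR t1 (by simpa only [map_mul, map_inv, map_pow, hα, hγ, h3.r_eq] using congrArg φ e)
  · have := hR.inv.card_one (by
      rw [e0]; simpa only [map_mul, map_inv, map_pow, hα, h3.r_eq] using congrArg φ e)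
    rw [t2, card_top, hG] at this
    omega
  · exact fin g⁻¹ hR.inv t2 (by
      rw [e0]; simpa only [map_mul, map_inv, map_pow, hα, h3.r_eq] using congrArg φ e)
  · exact absurd (h3.inj (by simpa only [map_mul, map_inv, hγ, h3.r_eq] using c2)) e

end Cfsg.Agent.H4.Sd9
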