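import Cfsg.Agent.H4.SdB
import Cfsg.Agent.H1.T3Quot

/-!
# Groups with Sylow `3`-normalizer `3² : SD₁₆`: the centralizer of a noncentral involution
-/

set_option autoImplicit false
set_option linter.unusedSectionVars false

namespace Cfsg.Agent.H4.Sd9

open Subgroup Nse L0.SC3 H1.T3 H9

universe u

section SC

variable {X : Type*} [Group X] [Finite X] {x z : X} (h : SC x) {B : Subgroup X} (hB : Inv x B)
  (hz : z * x * z⁻¹ = x⁻¹) (zB : ∀ b ∈ B, z * b * z⁻¹ ∈ B)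
include h hB hz zB

theorem sc_dec {q : X} (hq : q ∈ B) : ∃ c ∈ B ⊓ centralizer {z}, ∃ d ∈ B ⊓ centralizer {z},
    q = c * (x * d * x⁻¹) := by
  have zz := (h.invol hz).2
  have zi : z⁻¹ = z := inv_eq_of_mul_eq_one_right zz
  have e1 : x * z * x⁻¹ = x⁻¹ * z := by
    calc _ = x * (z * x * z⁻¹)⁻¹ * z := by group
      _ = _ := by rw [hz, inv_inv, h.mul_self]
  obtain ⟨c, hc, e2⟩ := h.inv.surj (hB.inv h)
    (B.mul_mem hq (hB.conj _ (zB _ (hB.conj' h (B.inv_mem hq)))))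
  have e3 : c * x⁻¹ * c⁻¹ = q * (x * z * x⁻¹) * q⁻¹ * z := by
    rw [e2]
    calc _ = q * (x * z * x⁻¹) * q⁻¹ * (x * z * x⁻¹) * x⁻¹ := by rw [zi]; group
      _ = q * (x * z * x⁻¹) * q⁻¹ * (x⁻¹ * (z * x * z⁻¹)⁻¹ * z) := by
        nth_rewrite 2 [e1]
        group
      _ = _ := by rw [hz]; group
  have e4 : z * c * z⁻¹ * x⁻¹ * (z * c * z⁻¹)⁻¹ = c * x⁻¹ * c⁻¹ := by
    calc _ = z * (c * (z⁻¹ * x⁻¹ * z) * c⁻¹) * z⁻¹ := by group
      _ = z * (c * x⁻¹ * c⁻¹)⁻¹ * z⁻¹ := by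
        rw [show z⁻¹ * x⁻¹ * z = x by rw [← hz]; group]; group
      _ = z * z⁻¹ * (q * (x * z⁻¹ * x⁻¹) * q⁻¹) * z⁻¹ := by rw [e3]; group
      _ = _ := by rw [e3, mul_inv_cancel, one_mul, zi]
  have e5 : c⁻¹ * (z * c * z⁻¹) = 1 := h.fpf hB (B.mul_mem (B.inv_mem hc) (zB c hc)) (by
    refine Commute.inv_left_iff.mp (Commute.symm (mul_inv_eq_iff_eq_mul.mp ?_))
    calc _ = c⁻¹ * (z * c * z⁻¹ * x⁻¹ * (z * c * z⁻¹)⁻¹) * c := by group
      _ = _ := by rw [e4]; group)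
  have e6 : z * c = c * z := by rw [inv_mul_eq_one, eq_mul_inv_iff_mul_eq] at e5; exact e5.symm
  refine ⟨c, ⟨hc, H1.T3.mem_cent.mpr e6.symm⟩, x⁻¹ * (c⁻¹ * q) * x,
    ⟨hB.conj' h (B.mul_mem (B.inv_mem hc) hq), H1.T3.mem_cent.mpr (conj_eq_iff.mp ?_)⟩, by group⟩
  calc _ = x⁻¹ * c⁻¹ * (q * (x * z * x⁻¹) * q⁻¹ * z) * (z⁻¹ * c) * x := by group
    _ = x⁻¹ * (x⁻¹ * z) * x := by
      rw [← e3, zi, e6]; group
    _ = z := by rw [← e1]; group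

theorem sc_card : Nat.card B = Nat.card (B ⊓ centralizer {z} : Subgroup X) ^ 2 := by
  let f : (B ⊓ centralizer {z} : Subgroup X) × (B ⊓ centralizer {z} : Subgroup X) → B :=
    fun p => ⟨p.1 * (x * p.2 * x⁻¹), B.mul_mem p.1.2.1 (hB.conj _ p.2.2.1)⟩
  rw [sq, ← Nat.card_prod]
  refine (Nat.card_eq_of_bijective f ⟨?_, fun q => ?_⟩).symm
  · rintro ⟨c, d⟩ ⟨c', d'⟩ e
    have e1 : (c : X) * (x * d * x⁻¹) = c' * (x * d' * x⁻¹) := congrArg Subtype.val e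
    have e2 : ((c'⁻¹ * c : (B ⊓ centralizer {z} : Subgroup X)) : X) =
        x * (d' * d⁻¹ : (B ⊓ centralizer {z} : Subgroup X)) * x⁻¹ := by
      rw [coe_mul, coe_mul, coe_inv, coe_inv, inv_mul_eq_iff_eq_mul, eq_mul_inv_of_mul_eq e1]
      group
    have e3 := H1.T3.mem_cent.mp (c'⁻¹ * c).2.2
    have e4 := H1.T3.mem_cent.mp (d' * d⁻¹).2.2
    have e5 := (d' * d⁻¹).2.1
    have e6 : d' * d⁻¹ = 1 := by
      refine Subtype.ext ?_
      rw [e2] at e3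
      generalize ((d' * d⁻¹ : (B ⊓ centralizer {z} : Subgroup X)) : X) = k at e3 e4 e5 ⊢
      refine h.fpf hB e5 (Commute.inv_left_iff.mp ?_)
      rw [← h.mul_self, Commute, SemiconjBy, ← mul_inv_eq_iff_eq_mul]
      calc _ = x * (x * k * x⁻¹ * z) * z⁻¹ * x⁻¹ := by group
        _ = x * (z * x * z⁻¹) * (z * k * z⁻¹) * (z * x * z⁻¹)⁻¹ * x⁻¹ := by rw [e3]; group
        _ = k := by rw [hz, ← e4]; group
    obtain rfl : d' = d := mul_inv_eq_one.mp e6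
    rw [Subtype.ext (mul_right_cancel e1)]
  · obtain ⟨c, hc, d, hd, e⟩ := sc_dec h hB hz zB q.2
    exact ⟨(⟨c, hc⟩, ⟨d, hd⟩), Subtype.ext e.symm⟩

theorem sc_comm (hc : ∀ c ∈ B ⊓ centralizer {z}, ∀ d ∈ B ⊓ centralizer {z}, Commute c d)
    {p q : X} (hp : p ∈ B) (hq : q ∈ B) : Commute p q := by
  obtain ⟨c, h1, d, h2, rfl⟩ := sc_dec h hB hz zB hp
  obtain ⟨c', h3, d', h4, rfl⟩ := sc_dec h hB hz zB hq
  exact ((hc c h1 c' h3).mul_right (h.comm_conj hB h1.1 h4.1 (hc c h1 d' h4))).mul_left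
    ((h.comm_conj hB h3.1 h2.1 (hc c' h3 d h2)).symm.mul_right ((hc d h2 d' h4).conj x))

end SC

variable {G : Type u} [Group G]

/-- Commuting modulo `s`. -/
def Cm (s p q : G) : Prop := p * q = q * p ∨ p * q = q * p * s

theorem mc {u s : G} (h : Commute u s) : u ∈ centralizer ({s} : Set G) :=
  mem_centralizer_singleton_iff.mpr h

theorem cm' {s : G} (u : centralizer ({s} : Set G)) : Commute (u : G) s :=
  mem_centralizer_singleton_iff.mp u.2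

theorem cent_zp {s : G} : ∀ u ∈ centralizer ({s} : Set G), ∀ ζ ∈ zpowers s, u * ζ = ζ * u := by
  rintro u hu _ ⟨k, rfl⟩
  exact (cm' ⟨u, hu⟩).zpow_right k

theorem zp_le {s : G} : zpowers s ≤ centralizer ({s} : Set G) :=
  zpowers_le_of_mem (mc (Commute.refl s))

theorem exists_quot [Finite G] (s : G) : ∃ (X : Type u) (_ : Group X) (_ : Finite X)
    (β : centralizer ({s} : Set G) →* X), Function.Surjective β ∧
      ∀ u, β u = 1 ↔ (u : G) ∈ zpowers s := by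
  have := normal_subgroupOf (le_normalizer_of_cent (cent_zp (s := s)))
  exact ⟨_, inferInstance, inferInstance, QuotientGroup.mk' ((zpowers s).subgroupOf _),
    QuotientGroup.mk'_surjective _, fun u => QuotientGroup.eq_one_iff u⟩

/-- A `2`-subgroup of the centralizer of `s` containing `s` and normalized by `y`. -/
structure TQ (s y : G) (Q : Subgroup G) : Prop where
  two : IsPGroup 2 Q
  sQ : s ∈ Q
  cs : ∀ q ∈ Q, Commute q s
  nm : ∀ q ∈ Q, y * q * y⁻¹ ∈ Q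

section Quot

variable {s : G} {X : Type*} [Group X] {β : centralizer ({s} : Set G) →* X}
  (hk : ∀ u, β u = 1 ↔ (u : G) ∈ zpowers s)
include hk

theorem cm_iff (ss : s * s = 1) (p q : centralizer ({s} : Set G)) :
    Commute (β p) (β q) ↔ Cm s p q := by
  rw [Commute, SemiconjBy, ← map_mul, ← map_mul, eq_comm, ← inv_mul_eq_one, ← map_inv, ← map_mul,
    hk, mem_zpowers_two ss, Cm]
  simp only [coe_mul, coe_inv, inv_mul_eq_iff_eq_mul, mul_one]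

theorem mem_im {Q : Subgroup G} (sQ : s ∈ Q) (u : centralizer ({s} : Set G)) :
    β u ∈ (Q.subgroupOf _).map β ↔ (u : G) ∈ Q := by
  refine ⟨fun ⟨v, hv, e⟩ => ?_, fun hu => ⟨u, hu, rfl⟩⟩
  rw [← inv_mul_eq_one, ← map_inv, ← map_mul, hk] at e
  exact (mul_mem_cancel_left (inv_mem hv)).mp (zpowers_le_of_mem sQ e)

omit hk in
theorem TQ.inv {y : G} {Q : Subgroup G} (hQ : TQ s y Q) (ys : Commute y s) :
    Inv (β ⟨y, mc ys⟩) ((Q.subgroupOf _).map β) :=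
  ⟨by
    rintro _ ⟨v, hv, rfl⟩
    exact ⟨⟨y, mc ys⟩ * v * ⟨y, mc ys⟩⁻¹, hQ.nm v hv, by simp only [map_mul, map_inv]⟩,
    cube_of_two (hQ.two.comap_subtype.map β)⟩

end Quot

namespace Base

variable {a s g : G} (h : Base a s g)
include h

theorem two_zp : IsPGroup 2 (zpowers s) :=
  IsPGroup.of_card (n := 1) (by rw [Nat.card_zpowers, orderOf_two h.e1 h.s1]; rfl)

theorem card_zp : Nat.card (zpowers s) = 2 := by rw [Nat.card_zpowers, orderOf_two h.e1 h.s1]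

section

variable {y : G} (y3 : y ^ 3 = 1) (y1 : y ≠ 1) (ys : Commute y s)
include y3 y1 ys

theorem hc : ∀ u ∈ centralizer ({s} : Set G), u * y = y * u →
    u ∈ zpowers s ∨ u * y⁻¹ ∈ zpowers s ∨ u * y ∈ zpowers s := fun u hu e => by
  simpa only [mem_zpowers_two h.e1] using
    (h.cent_y y3 y1 ys.symm h.e1 h.s1).2 u e (cm' ⟨u, hu⟩)

theorem sc {X : Type*} [Group X] {β : centralizer ({s} : Set G) →* X} (hβ : Function.Surjective β)
    (hk : ∀ u, β u = 1 ↔ (u : G) ∈ zpowers s) : SC (β ⟨y, mc ys⟩) :=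
  have hZ3 := cube_of_two h.two_zp
  sc_quot β hβ hk (mc ys) y3 (fun e => y1 (hZ3 y e y3))
    (fun u hu e => h.hc y3 y1 ys u hu (comm_of_cube hZ3 (cent_zp y (mc ys)) y3 e))

variable [Finite G] {Q : Subgroup G} (hQ : TQ s y Q)
include hQ

theorem cm_conj {p q : G} (hp : p ∈ Q) (hq : q ∈ Q) (hc : Cm s p q) : Cm s p (y * q * y⁻¹) := by
  obtain ⟨X, _, _, β, hβ, hk⟩ := exists_quot s
  have := (h.sc y3 y1 ys hβ hk).comm_conj (hQ.inv ys) ((mem_im hk hQ.sQ ⟨p, mc (hQ.cs p hp)⟩).mpr hp)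
    ((mem_im hk hQ.sQ ⟨q, mc (hQ.cs q hq)⟩).mpr hq) ((cm_iff hk h.e1 _ _).mpr hc)
  rw [← map_inv, ← map_mul, ← map_mul, cm_iff hk h.e1] at this
  exact this

theorem norm {q : G} (hq : q ∈ Q) : (q * y) ^ 3 = 1 ∨ (q * y) ^ 3 = s := by
  obtain ⟨X, _, _, β, hβ, hk⟩ := exists_quot s
  obtain ⟨w, -, hw⟩ := (h.sc y3 y1 ys hβ hk).surj (hQ.inv ys)
    ((mem_im hk hQ.sQ ⟨q, mc (hQ.cs q hq)⟩).mpr hq)
  have := ((h.sc y3 y1 ys hβ hk).conj w).cube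
  rw [hw, ← map_mul, ← map_pow, hk, mem_zpowers_two h.e1] at this
  exact this

end

theorem star [Finite G] {Q : Subgroup G} (hQ : TQ s g Q)
    (zQ : ∀ q ∈ Q, a ^ 4 * q * (a ^ 4)⁻¹ ∈ Q) : ∃ A : Subgroup G,
    (∀ u, u ∈ A ↔ u ∈ Q ∧ Cm s u (a ^ 4)) ∧ 2 * Nat.card Q = Nat.card A ^ 2 ∧
    (∀ q ∈ Q, ∃ c ∈ A, ∃ d ∈ A, q = c * (g * d * g⁻¹)) ∧
    (Nat.card A = 8 → ∀ p ∈ Q, ∀ q ∈ Q, Cm s p q) := by
  obtain ⟨X, _, _, β, hβ, hk⟩ := exists_quot s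
  have gs : Commute g s := h.e4.symm
  have h1 := h.sc h.e3 h.g1 gs hβ hk
  have h2 := hQ.inv (β := β) gs
  have h3 : β ⟨a ^ 4, mc h.sz.symm⟩ * β ⟨g, mc gs⟩ * (β ⟨a ^ 4, mc h.sz.symm⟩)⁻¹ =
      (β ⟨g, mc gs⟩)⁻¹ := by
    rw [← map_inv, ← map_inv, ← map_mul, ← map_mul]
    exact congrArg β (Subtype.ext h.e6)
  have h4 : ∀ b ∈ (Q.subgroupOf _).map β, β ⟨a ^ 4, mc h.sz.symm⟩ * b *
      (β ⟨a ^ 4, mc h.sz.symm⟩)⁻¹ ∈ (Q.subgroupOf _).map β := by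
    rintro _ ⟨v, hv, rfl⟩
    exact ⟨⟨a ^ 4, mc h.sz.symm⟩ * v * ⟨a ^ 4, mc h.sz.symm⟩⁻¹, zQ v hv,
      by simp only [map_mul, map_inv]⟩
  have h5 : ∀ u : centralizer ({s} : Set G), β u ∈ (Q.subgroupOf _).map β ⊓
      centralizer {β ⟨a ^ 4, mc h.sz.symm⟩} ↔ (u : G) ∈ Q ∧ Cm s u (a ^ 4) := fun u => by
    rw [mem_inf, mem_im hk hQ.sQ, L0.SC3.mem_cent, cm_iff hk h.e1]
  have h6 : pre β ((Q.subgroupOf _).map β) = Q := by
    ext u
    exact ⟨fun hu => (mem_im hk hQ.sQ ⟨u, pre_le β _ hu⟩).mp ((mem_pre β _).mp hu),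
      fun hu => (mem_pre β (mc (hQ.cs u hu))).mpr ((mem_im hk hQ.sQ _).mpr hu)⟩
  have h7 := card_pre β hβ zp_le hk
  have h8 : ∀ u, u ∈ pre β ((Q.subgroupOf _).map β ⊓ centralizer {β ⟨a ^ 4, mc h.sz.symm⟩}) ↔
      u ∈ Q ∧ Cm s u (a ^ 4) := fun u =>
    ⟨fun hu => (h5 ⟨u, pre_le β _ hu⟩).mp ((mem_pre β _).mp hu),
      fun hu => (mem_pre β (mc (hQ.cs u hu.1))).mpr ((h5 _).mpr hu)⟩
  refine ⟨_, h8, ?_, fun q hq => ?_, fun h9 p hp q hq => ?_⟩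
  · rw [← h6, h7, h7, h6, sc_card h1 h2 h3 h4, h.card_zp]
    ring
  · obtain ⟨c, hc, d, hd, e⟩ := sc_dec h1 h2 h3 h4
      ((mem_im hk hQ.sQ ⟨q, mc (hQ.cs q hq)⟩).mpr hq)
    obtain ⟨c, rfl⟩ := hβ c
    obtain ⟨d, rfl⟩ := hβ d
    rw [← mul_inv_eq_one, ← map_inv, ← map_mul, ← map_mul, ← map_mul, ← map_inv, ← map_mul, hk] at e
    have e1 : ∀ ζ ∈ zpowers s, ζ ∈ pre β ((Q.subgroupOf _).map β ⊓
        centralizer {β ⟨a ^ 4, mc h.sz.symm⟩}) := fun ζ hζ =>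
      (mem_pre β (zp_le hζ)).mpr (by rw [(hk ⟨ζ, zp_le hζ⟩).mpr hζ]; exact one_mem _)
    refine ⟨_, mul_mem (e1 _ e) ((mem_pre β c.2).mpr hc), d, (mem_pre β d.2).mpr hd, ?_⟩
    simp only [coe_mul, coe_inv]
    group
  · rw [h7, h.card_zp] at h9
    have := IsPGroup.isMulCommutative_of_card_eq_prime_sq (p := 2)
      (G := ((Q.subgroupOf _).map β ⊓ centralizer {β ⟨a ^ 4, mc h.sz.symm⟩} : Subgroup X)) (by omega)
    exact (cm_iff hk h.e1 ⟨p, mc (hQ.cs p hp)⟩ ⟨q, mc (hQ.cs q hq)⟩).mp (sc_comm h1 h2 h3 h4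
      (fun c hc d hd => congrArg Subtype.val (this.is_comm.comm (⟨c, hc⟩ : (_ ⊓ _ : Subgroup X))
        ⟨d, hd⟩)) ((mem_im hk hQ.sQ _).mpr hp) ((mem_im hk hQ.sQ _).mpr hq))

theorem tri [Finite G] :
    (∃ Q O : Subgroup G, (∀ y, Commute y s → TQ s y Q) ∧ (∀ o ∈ O, Commute o s) ∧
      (∀ y, Commute y s → ∀ o ∈ O, y * o * y⁻¹ ∈ O) ∧ (Nat.card O).Coprime 6 ∧
      (∀ o ∈ O, ∀ q ∈ Q, Commute o q) ∧
      Nat.card (centralizer ({s} : Set G)) = Nat.card Q * Nat.card O * 6 ∧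
      ∃ π : centralizer ({s} : Set G) →* Equiv.Perm (Fin 3),
        ∀ u, π u = 1 ↔ ∃ q ∈ Q, ∃ o ∈ O, (u : G) = q * o) ∨
    (∃ Q : Subgroup G, (∀ y, Commute y s → TQ s y Q) ∧ (∀ q ∈ Q, q * q = 1 ∨ q * q = s) ∧
      ∃ π : centralizer ({s} : Set G) →* alternatingGroup (Fin 5), Function.Surjective π ∧
        ∀ u, π u = 1 ↔ (u : G) ∈ Q) ∨
    (∃ π : centralizer ({s} : Set G) →* Matrix.ProjectiveSpecialLinearGroup (Fin 2) (ZMod 7),
      Function.Surjective π ∧ ∀ u, π u = 1 ↔ (u : G) ∈ zpowers s) := by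
  have gs : Commute g s := h.e4.symm
  have tq : ∀ Q : Subgroup G, zpowers s ≤ Q → Q ≤ centralizer {s} →
      centralizer {s} ≤ normalizer (Q : Set G) → IsPGroup 2 Q → ∀ y, Commute y s → TQ s y Q :=
    fun Q h1 h2 h3 h4 y hy => ⟨h4, h1 (mem_zpowers s), fun q hq => cm' ⟨q, h2 hq⟩,
      fun q hq => conj_mem_of_mem_normalizer (h3 (mc hy)) hq⟩
  rcases sc3_mod zp_le cent_zp h.two_zp (mc gs) h.e3 h.g1 (h.hc h.e3 h.g1 gs) with
    ⟨Q, O, h1, h2, h3, h4, h5, h6, h7, h8, h9⟩ | ⟨Q, h1, h2, h3, h4, -, h5, h6⟩ | h1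
  · left
    have k1 : centralizer {s} ≤ normalizer ((O ⊔ Q : Subgroup G) : Set G) := fun u hu =>
      mem_norm_sup (h6 hu) (h3 hu)
    have := normal_subgroupOf k1
    let β := QuotientGroup.mk' ((O ⊔ Q).subgroupOf (centralizer {s}))
    have hβ : Function.Surjective β := QuotientGroup.mk'_surjective _
    have hk : ∀ u, β u = 1 ↔ (u : G) ∈ O ⊔ Q := fun u => QuotientGroup.eq_one_iff u
    have k2 : O ⊓ Q = ⊥ := eq_bot_iff.mpr fun u hu => eq_one_of_mem_pgroup_of_coprime h4 hu.2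
      ((h7.coprime_dvd_right (by norm_num)).coprime_dvd_left (O.orderOf_dvd_natCard hu.1))
    have k3 := H7.card_sup_of_inf_eq_bot (h2.trans h6) k2
    have k4 := card_of_surj β hβ (sup_le h5 h2) hk
    have k5 : β ⟨g, mc gs⟩ ≠ 1 := fun e => by
      have e1 := (O ⊔ Q).orderOf_dvd_natCard ((hk _).mp e)
      obtain ⟨k, hk'⟩ := h4.exists_card_eq
      rw [k3, hk', orderOf_three h.e3 h.g1, Nat.prime_three.dvd_mul] at e1
      rcases e1 with e1 | e1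
      · exact absurd (Nat.eq_one_of_dvd_coprimes h7 e1 (by norm_num)) (by norm_num)
      · exact absurd (Nat.prime_three.dvd_of_dvd_pow e1) (by norm_num)
    have k6 : β ⟨a ^ 4, mc h.sz.symm⟩ * β ⟨g, mc gs⟩ * (β ⟨a ^ 4, mc h.sz.symm⟩)⁻¹ =
        (β ⟨g, mc gs⟩)⁻¹ := by
      rw [← map_inv, ← map_inv, ← map_mul, ← map_mul]
      exact congrArg β (Subtype.ext h.e6)
    have k7 : β ⟨g, mc gs⟩ ^ 3 = 1 := by
      rw [← map_pow, ← map_one β]; exact congrArg β (Subtype.ext h.e3)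
    have k8 : β ⟨a ^ 4, mc h.sz.symm⟩ * β ⟨a ^ 4, mc h.sz.symm⟩ = 1 := by
      rw [← map_mul, ← map_one β]; exact congrArg β (Subtype.ext h.zz)
    generalize β ⟨a ^ 4, mc h.sz.symm⟩ = z at k6 k8
    generalize β ⟨g, mc gs⟩ = x at k5 k6 k7
    have k9 : ¬ z * x * z⁻¹ = x := fun e => k5 (two_ne_three k7 (by
      nth_rewrite 1 [← e]
      rw [k6, inv_mul_cancel]))
    have k10 : orderOf z = 2 := orderOf_two k8 (fun e => k9 (by simp [e]))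
    have k11 := orderOf_dvd_natCard z
    have k12 : 0 < Nat.card O * Nat.card Q := Nat.mul_pos Nat.card_pos Nat.card_pos
    rw [k3] at k4
    have k13 : Nat.card (centralizer {s} ⧸ (O ⊔ Q).subgroupOf (centralizer {s})) = 6 := by
      rcases h9 with h9 | h9 <;> rw [h9, mul_comm (Nat.card Q)] at k4
      · rw [← Nat.eq_of_mul_eq_mul_left k12 k4, k10] at k11
        omega
      · exact (Nat.eq_of_mul_eq_mul_left k12 k4).symm
    obtain ⟨e⟩ := H7.nonempty_mulEquiv_perm_of_normalCore (n := 3) (zpowers z) (by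
      have := (zpowers z).card_mul_index
      rw [Nat.card_zpowers, k10, k13] at this
      omega) (eq_bot_iff.mpr fun u hu => by
        rcases (mem_zpowers_two k8).mp (hu 1) with e | e
        · simpa using e
        rcases (mem_zpowers_two k8).mp (hu x⁻¹) with e' | e'
        · exact conj_eq_one_iff.mp e'
        · refine absurd ?_ k9
          rw [one_mul, inv_one, mul_one] at e
          rw [e, inv_inv, mul_assoc, inv_mul_eq_iff_eq_mul] at e'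
          rw [e', mul_inv_cancel_right]) k13
    refine ⟨Q, O, tq Q h1 h2 h3 h4, fun o ho => cm' ⟨o, h5 ho⟩,
      fun y hy o ho => conj_mem_of_mem_normalizer (h6 (mc hy)) ho, h7, h8,
      by rw [k4, k13, mul_comm (Nat.card Q)], e.toMonoidHom.comp β, fun u => ?_⟩
    rw [MonoidHom.comp_apply, MulEquiv.coe_toMonoidHom, MulEquiv.map_eq_one_iff, hk]
    refine ⟨fun hu => ?_, ?_⟩
    · obtain ⟨o, ho, q, hq, e⟩ := (H7.mem_sup_of_norm (h2.trans h6)).mp hu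
      exact ⟨q, hq, o, ho, by rw [← h8 o ho q hq, e]⟩
    · rintro ⟨q, hq, o, ho, e⟩
      exact e ▸ mul_mem (mem_sup_right hq) (mem_sup_left ho)
  · exact Or.inr (Or.inl ⟨Q, tq Q h1 h2 h3 h4,
      fun q hq => (mem_zpowers_two h.e1).mp (h5 q hq), h6⟩)
  · exact Or.inr (Or.inr h1)

end Base

end Cfsg.Agent.H4.Sd9
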