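import Cfsg.Agent.H4.SdQ

/-!
# Groups with Sylow `3`-normalizer `3² : SD₁₆`: the subgroup `PΓL₂(9)`
-/

set_option autoImplicit false
set_option linter.unusedSectionVars false

namespace Cfsg.Agent.H4.Sd9

open Subgroup Nse L0.SC3 H1.T3 H9

variable {G : Type*} [Group G]

theorem exists_fix [Finite G] {R : Subgroup G} (hR : IsPGroup 2 R) {r : G} (hr : r ∈ R)
    (r1 : r ≠ 1) (f : G → G) (f1 : f 1 = 1)
    (hf : ∀ u ∈ R, u * u = 1 → f u ∈ R ∧ f u * f u = 1 ∧ f (f u) = u) :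
    ∃ u ∈ R, u ≠ 1 ∧ u * u = 1 ∧ f u = u := by
  classical
  have := Fintype.ofFinite {x : R // x ^ 2 = 1}
  have h1 : 2 ∣ Nat.card R := by
    obtain ⟨k, hk⟩ := hR.exists_card_eq
    rcases k with _ | k
    · rw [pow_zero, card_eq_one] at hk
      exact absurd (mem_bot.mp (hk ▸ hr)) r1
    · exact hk ▸ dvd_pow_self 2 k.succ_ne_zero
  have h2 := H3.frobenius_dvd h1
  rw [Nat.card_eq_fintype_card] at h2
  have k : ∀ x : {x : R // x ^ 2 = 1}, (x.1 : G) * x.1 = 1 := fun x =>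
    sq (x.1 : G) ▸ congrArg Subtype.val x.2
  let F : {x : R // x ^ 2 = 1} → {x : R // x ^ 2 = 1} := fun x =>
    ⟨⟨f x.1, (hf _ x.1.2 (k x)).1⟩, Subtype.ext ((sq _).trans (hf _ x.1.2 (k x)).2.1)⟩
  have hF : Function.Involutive F := fun x => Subtype.ext (Subtype.ext (hf _ x.1.2 (k x)).2.2)
  obtain ⟨b, h3, h4⟩ := Equiv.Perm.exists_fixed_point_of_prime' (n := 1) h2 (σ := hF.toPerm)
    (Equiv.ext hF) (a := ⟨1, one_pow 2⟩) (Subtype.ext (Subtype.ext f1))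
  exact ⟨b.1, b.1.2, fun e => h4 (Subtype.ext (Subtype.ext e)), k b,
    congrArg (fun x => (x.1 : G)) h3⟩

theorem cmul (c x y : G) : c * (x * y) * c⁻¹ = c * x * c⁻¹ * (c * y * c⁻¹) := conj_mul.symm

theorem comm_norm {y u e : G} (y3 : y ^ 3 = 1) (h1 : y * u * y⁻¹ = u * e) (ee : e * e = 1)
    (c1 : Commute u e) (c3 : Commute e (y * e * y⁻¹)) : Commute (u ^ 3 * (y * e * y⁻¹)) y := by
  have h2 : u * (e * (y * e * y⁻¹) * (y * (y * e * y⁻¹) * y⁻¹)) = u := by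
    calc _ = y * (u * e * (y * e * y⁻¹)) * y⁻¹ := by
          rw [cmul y (u * e), cmul y u e, h1]; simp only [mul_assoc]
      _ = y * (y * (y * u * y⁻¹) * y⁻¹) * y⁻¹ := by rw [h1, cmul y u e, h1]
      _ = y ^ 3 * u * (y ^ 3)⁻¹ := by rw [pow_succ, sq]; group
      _ = u := by simp [y3]
  have h3 : y * e * y⁻¹ * (y * e * y⁻¹) = 1 := by rw [conj_mul, ee]; simp
  refine Commute.symm (mul_inv_eq_iff_eq_mul.mp ?_)
  rw [cmul y, ← conj_pow, h1, eq_inv_of_mul_eq_one_right (mul_eq_left.mp h2), c1.mul_pow,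
    pow_succ e, sq, ee, one_mul, c3.eq, mul_inv_rev, mul_assoc, mul_inv_cancel_left,
    inv_eq_of_mul_eq_one_right h3]

theorem Cm.conj {s p q : G} (h : Cm s p q) (ss : s * s = 1) (hq : Commute q s) :
    q * p * q⁻¹ = p ∨ q * p * q⁻¹ = p * s := by
  rcases h with e | e
  · exact Or.inl (by rw [← e, mul_inv_cancel_right])
  · refine Or.inr ?_
    rw [mul_inv_eq_iff_eq_mul, mul_assoc, ← hq.eq, ← mul_assoc, e, mul_assoc, ss, mul_one]

/-- The intersection of `Q` with a conjugate. -/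
def cap (Q : Subgroup G) (t : G) : Subgroup G := Q ⊓ Q.comap (MulAut.conj t).toMonoidHom

theorem mem_cap {Q : Subgroup G} {t u : G} : u ∈ cap Q t ↔ u ∈ Q ∧ t * u * t⁻¹ ∈ Q := Iff.rfl

namespace Base

variable {a s g : G} (h : Base a s g)
include h

theorem ti : (a ^ 2 * s)⁻¹ = a ^ 2 * s := inv_eq_of_mul_eq_one_right h.tt

theorem tconj (u : G) : a ^ 2 * s * (a ^ 2 * s * u * (a ^ 2 * s)⁻¹) * (a ^ 2 * s)⁻¹ = u := by
  calc _ = a ^ 2 * s * (a ^ 2 * s) * u * (a ^ 2 * s * (a ^ 2 * s))⁻¹ := by group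
    _ = u := by simp [h.tt]

theorem comm_z {u : G} (h1 : Commute u s) (h2 : Commute (a ^ 2 * s * u * (a ^ 2 * s)⁻¹) s) :
    Commute u (a ^ 4) := by
  have := h2.conj (a ^ 2 * s)
  rw [h.tconj, h.ts] at this
  simpa using h1.inv_right.mul_right this

theorem comm_t {u : G} (h1 : Commute u s) (h2 : Commute u (a ^ 4)) :
    Commute (a ^ 2 * s * u * (a ^ 2 * s)⁻¹) s := by
  have := (h1.mul_right h2).conj (a ^ 2 * s)
  rwa [h.ts'] at this

theorem z_not {Q : Subgroup G} (hQ : TQ s g Q) : a ^ 4 ∉ Q := fun e => by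
  have h1 := mul_mem (hQ.nm _ e) (inv_mem e)
  rw [show g * a ^ 4 * g⁻¹ * (a ^ 4)⁻¹ = g * (a ^ 4 * g * (a ^ 4)⁻¹)⁻¹ by group, h.e6, inv_inv] at h1
  exact h.gg (cube_of_two hQ.two _ h1 (by rw [← sq, ← pow_mul, mul_comm, pow_mul, h.e3, one_pow]))

variable [Finite G] {Q : Subgroup G} (hQ : TQ s g Q)
include hQ

theorem exists_w {r : G} (hr : r ∈ cap Q (a ^ 2 * s)) (r1 : r ≠ 1)
    (H : ∀ w ∈ Q, w * w = 1 → w ≠ 1 → Commute w (a ^ 2) →
      a * w * a⁻¹ ∈ Q ∨ a * w * a⁻¹ * a ^ 4 ∈ Q) : ∃ w ∈ Q, WRel a s g w := by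
  classical
  obtain ⟨u, hu, u1, -, e⟩ := exists_fix (hQ.two.to_le inf_le_left) hr r1
    (fun u => a ^ 2 * s * u * (a ^ 2 * s)⁻¹) (by simp) fun u hu uu =>
      ⟨⟨hu.2, by
        change a ^ 2 * s * (a ^ 2 * s * u * (a ^ 2 * s)⁻¹) * (a ^ 2 * s)⁻¹ ∈ Q
        rw [h.tconj]; exact hu.1⟩, by rw [conj_mul, uu]; simp, h.tconj u⟩
  have h1 : Commute u (a ^ 2) := by
    simpa using (Commute.symm (mul_inv_eq_iff_eq_mul.mp e)).mul_right (hQ.cs u hu.1).inv_right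
  obtain ⟨w, hw, w1, ww, e⟩ := exists_fix (R := Q ⊓ centralizer {a ^ 2}) (hQ.two.to_le inf_le_left)
    ⟨hu.1, mc h1⟩ u1 (fun u => if a * u * a⁻¹ ∈ Q then a * u * a⁻¹ else a * u * a⁻¹ * a ^ 4)
    (by simp) fun u hu uu => by
      have h2 : Commute u (a ^ 2) := cm' ⟨u, hu.2⟩
      have h3 : Commute (a * u * a⁻¹) (a ^ 2) := by
        have := h2.conj a
        rwa [show a * a ^ 2 * a⁻¹ = a ^ 2 by group] at this
      have h4 : a * (a * u * a⁻¹) * a⁻¹ = u := by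
        calc _ = a ^ 2 * u * (a ^ 2)⁻¹ := by rw [sq]; group
          _ = u := by rw [← h2.eq, mul_inv_cancel_right]
      have h5 : a * u * a⁻¹ * (a * u * a⁻¹) = 1 := by rw [conj_mul, uu]; simp
      by_cases h6 : a * u * a⁻¹ ∈ Q
      · have h7 : u ∈ Q := hu.1
        simp only [h6, if_true, h4, h7]
        exact ⟨⟨h6, mc h3⟩, h5, trivial⟩
      · have h7 : a * (a * u * a⁻¹ * a ^ 4) * a⁻¹ = u * a ^ 4 := by
          rw [cmul a, h4]; group
        have h8 : u * a ^ 4 ∉ Q := fun e => h.z_not hQ ((Q.mul_mem_cancel_left hu.1).mp e)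
        simp only [h6, if_false, h7, h8]
        refine ⟨⟨(H u hu.1 uu (fun e => h6 (by simp [e])) h2).resolve_left h6,
          mc (h3.mul_left ((Commute.refl a).pow_pow 4 2))⟩, ?_, by rw [mul_assoc, h.zz, mul_one]⟩
        have h9 := h3.pow_right 2
        rw [← pow_mul] at h9
        rw [h9.symm.mul_mul_mul_comm, h5, h.zz, mul_one]
  refine ⟨w, hw.1, h.wrel ww w1 (hQ.cs w hw.1) (cm' ⟨w, hw.2⟩) ?_
    (h.norm h.e3 h.g1 h.e4.symm hQ hw.1)⟩
  split_ifs at e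
  · exact Or.inl e
  · exact Or.inr (by rw [← h.zi, ← eq_mul_inv_of_mul_eq e])

variable {w : G} (hw : WRel a s g w)
include hw

omit hQ in
theorem wf : WF a s g w (g * (w * s) * g⁻¹) (a ^ 2 * s) := (hw.exists_hom h.toNRel h.z1).1

omit hQ h in
theorem wz : Commute w (a ^ 4) := by
  simpa [← pow_mul] using (show Commute w (a ^ 2) from hw.wa).pow_right 2

omit hQ h in
theorem wt : a ^ 2 * s * w * (a ^ 2 * s)⁻¹ = w :=
  mul_inv_eq_iff_eq_mul.mpr (Commute.mul_right hw.wa hw.ws).symm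

omit hQ in
theorem w1 : w ≠ 1 := fun e => h.z1 (by simpa [e] using hw.aw.symm)

omit hQ in
theorem y1 : g * (w * s) * g⁻¹ * (a ^ 2 * s * (g * (w * s) * g⁻¹) * (a ^ 2 * s)⁻¹) ≠ 1 := fun e =>
  h.z1 (by
    have := (h.wf hw).ys
    rw [e] at this
    simpa using this)

theorem cap_eq (wQ : w ∈ Q) {u : G} (hu : u ∈ cap Q (a ^ 2 * s)) : u = 1 ∨ u = w := by
  have f := h.wf hw
  have y1 := h.y1 hw
  have wc : w ∈ cap Q (a ^ 2 * s) := mem_cap.mpr ⟨wQ, by rw [wt hw]; exact wQ⟩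
  have key : ∀ u ∈ Q, Commute u w → g * (w * s) * g⁻¹ * u * (g * (w * s) * g⁻¹)⁻¹ = u ∨
      g * (w * s) * g⁻¹ * u * (g * (w * s) * g⁻¹)⁻¹ = u * s := fun u hu c =>
    (h.cm_conj h.e3 h.g1 h.e4.symm hQ hu (mul_mem wQ hQ.sQ)
      (Or.inl (c.mul_right (hQ.cs u hu)))).conj h.e1 f.xs
  generalize g * (w * s) * g⁻¹ = x at f y1 key
  have key2 : ∀ u ∈ cap Q (a ^ 2 * s), Commute u w → u = 1 ∨ u = w := fun u hu c => by
    have us := hQ.cs u hu.1
    have uz := h.comm_z us (hQ.cs _ hu.2)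
    have k1 := key u hu.1 c
    have k2 : a ^ 2 * s * x * (a ^ 2 * s)⁻¹ * u * (a ^ 2 * s * x * (a ^ 2 * s)⁻¹)⁻¹ = u ∨
        a ^ 2 * s * x * (a ^ 2 * s)⁻¹ * u * (a ^ 2 * s * x * (a ^ 2 * s)⁻¹)⁻¹ = u * (s * a ^ 4) := by
      have e : a ^ 2 * s * x * (a ^ 2 * s)⁻¹ * u * (a ^ 2 * s * x * (a ^ 2 * s)⁻¹)⁻¹ =
          a ^ 2 * s * (x * (a ^ 2 * s * u * (a ^ 2 * s)⁻¹) * x⁻¹) * (a ^ 2 * s)⁻¹ := by
        nth_rewrite 1 [← h.tconj u]
        group
      rw [e]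
      refine (key _ (mem_cap.mp hu).2 (wt hw ▸ c.conj _)).imp (fun e => ?_) (fun e => ?_) <;> rw [e]
      · exact h.tconj u
      · rw [cmul (a ^ 2 * s), h.tconj, h.ts]
    have ys := f.ys
    have yz := f.yz
    have yw := f.yw
    have y3 := f.y3
    have k3 : ∀ p, a ^ 2 * s * x * (a ^ 2 * s)⁻¹ * u * (a ^ 2 * s * x * (a ^ 2 * s)⁻¹)⁻¹ = p →
        x * (a ^ 2 * s * x * (a ^ 2 * s)⁻¹) * u * (x * (a ^ 2 * s * x * (a ^ 2 * s)⁻¹))⁻¹ =
          x * p * x⁻¹ := fun p e => by rw [← e]; group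
    generalize x * (a ^ 2 * s * x * (a ^ 2 * s)⁻¹) = y at y1 ys yz yw y3 k3
    have sw : Commute s w := hw.ws.symm
    have xsz : x * (s * a ^ 4) * x⁻¹ = w * a ^ 4 := by
      rw [cmul x, f.xz, f.xs, mul_inv_cancel_right, ← mul_assoc, ← mul_assoc, sw.eq,
        mul_assoc w, h.e1, mul_one]
    have ywz : y * (w * a ^ 4) * y⁻¹ = s := by
      rw [cmul y, yz, yw, mul_inv_cancel_right, ← mul_assoc, hw.ww, one_mul]
    have wzs : Commute (w * a ^ 4) s := sw.symm.mul_left h.sz.symm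
    have wz2 : w * a ^ 4 * (w * a ^ 4) = 1 := by
      rw [(wz hw).symm.mul_mul_mul_comm, hw.ww, h.zz, mul_one]
    obtain ⟨e, e1, e2, e3, e4, e5, e6⟩ : ∃ e, y * u * y⁻¹ = u * e ∧ e * e = 1 ∧ Commute u e ∧
        Commute e s ∧ Commute e (a ^ 4) ∧ (y * e * y⁻¹ = 1 ∨ y * e * y⁻¹ = s ∨
          y * e * y⁻¹ = a ^ 4 ∨ y * e * y⁻¹ = s * a ^ 4) := by
      rcases k1 with k1 | k1 <;> rcases k2 with k2 | k2
      · exact ⟨1, by rw [k3 _ k2, k1, mul_one], by simp⟩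
      · exact ⟨w * a ^ 4, by rw [k3 _ k2, cmul x, k1, xsz], wz2, c.mul_right uz, wzs,
          (wz hw).mul_left (Commute.refl _), Or.inr (Or.inl ywz)⟩
      · exact ⟨s, by rw [k3 _ k2, k1], h.e1, us, Commute.refl s, h.sz, Or.inr (Or.inr (Or.inr ys))⟩
      · refine ⟨s * (w * a ^ 4), by rw [k3 _ k2, cmul x, k1, xsz, mul_assoc],
          by rw [wzs.mul_mul_mul_comm, h.e1, wz2, mul_one], us.mul_right (c.mul_right uz),
          (Commute.refl s).mul_left wzs, h.sz.mul_left ((wz hw).mul_left (Commute.refl _)),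
          Or.inr (Or.inr (Or.inl ?_))⟩
        rw [cmul y, ys, ywz, h.sz.eq, mul_assoc, h.e1, mul_one]
    have k4 : ∀ p, Commute p s → Commute p (a ^ 4) → Commute p (y * e * y⁻¹) := fun p c1 c2 => by
      rcases e6 with e6 | e6 | e6 | e6 <;> rw [e6]
      exacts [Commute.one_right p, c1, c2, c1.mul_right c2]
    have k5 := comm_norm y3 e1 e2 e3 (k4 e e4 e5)
    have k6 : y * e * y⁻¹ * (y * e * y⁻¹) = 1 := by rw [conj_mul, e2]; simp
    have k7 := k4 u us uz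
    have k8 := k4 w sw.symm (wz hw)
    generalize y * e * y⁻¹ = d at e6 k5 k6 k7 k8
    obtain ⟨k, hk⟩ := El2.of_mem hQ.two hu.1
    have k9 := h.eq_of_two y3 y1 yw.symm hw.ww (h.w1 hw) k5
      ((c.pow_left 3).mul_left k8.symm) (k := k + 1) (by
        rw [(k7.pow_left 3).mul_pow, ← pow_mul, mul_comm 3, pow_mul, pow_succ 2, pow_mul, hk,
          mul_comm _ 2, pow_mul, sq d, k6]
        simp)
    have k10 : u ^ 6 = 1 := by
      have : (u ^ 3 * d) * (u ^ 3 * d) = 1 := by rcases k9 with e | e <;> simp [e, hw.ww]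
      rwa [(k7.pow_left 3).symm.mul_mul_mul_comm, k6, mul_one, ← pow_add] at this
    have k11 : u ^ 3 = u := by
      have := El2.cube (g := u ^ 2) ⟨k, by rw [← pow_mul, mul_comm, pow_mul, hk, one_pow]⟩
        (by rw [← pow_mul, k10])
      rw [pow_succ, this, one_mul]
    rw [k11] at k9
    have k12 : d ∈ cap Q (a ^ 2 * s) := (mul_mem_cancel_left hu).mp (by
      rcases k9 with e | e <;> rw [e]
      · exact one_mem _
      · exact wc)
    have zn := h.z_not hQ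
    have zn' : s * a ^ 4 ∉ Q := fun e => zn ((mul_mem_cancel_left hQ.sQ).mp e)
    rcases e6 with rfl | rfl | rfl | rfl
    · simpa using k9
    · exact absurd (h.ts ▸ (mem_cap.mp k12).2) zn'
    · exact absurd k12.1 zn
    · exact absurd k12.1 zn'
  by_cases u1 : u = 1
  · exact Or.inl u1
  obtain ⟨ζ, h1, h2, -, h3⟩ := exists_invol_center (P := cap Q (a ^ 2 * s))
    (hQ.two.to_le inf_le_left) (fun e => u1 (mem_bot.mp (e ▸ hu)))
  obtain rfl := (key2 ζ h1 (h3 w wc)).resolve_left h2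
  exact key2 u hu (h3 u hu).symm

end Base

end Cfsg.Agent.H4.Sd9
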