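import Cfsg.Agent.H4.U3L2
import Cfsg.Agent.L0.Sp2b
import Cfsg.Agent.H2.SzLie
import Cfsg.Agent.S0333

/-! `Sz(8)` and `Sz(32)` are determined by their order and one vertex of the degree graph. -/

set_option autoImplicit false

namespace Cfsg.Agent.H4.U3L

open Cfsg Cfsg.Agent.H3 Cfsg.Agent.H2.D1 Finset Subgroup MulAction

universe u v

variable {G : Type u} [Group G] [Finite G] {p : ℕ}

theorem not_pp' {m : ℕ} {l : List ℕ} (h : chk m p l = true) (m0 : 0 < m)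
    (hl : ∀ d ∈ l, d = 1 ∨ ∃ r ∈ [2, 5, 7, 31], ∃ s ∈ [2, 5, 7, 31], r ≠ s ∧ r ∣ d ∧ s ∣ d)
    (d : ℕ) (h1 : IsPrimePow d) (h2 : d ∣ m * p) : d % p ≠ 1 := fun h3 => by
  have k : ∀ r ∈ [2, 5, 7, 31], Nat.Prime r := by simp; norm_num
  rcases hl d (mem_of_chk h m0 h2 h3) with e | ⟨r, hr, s, hs, e, e1, e2⟩
  · exact h1.ne_one e
  · exact e ((isPrimePow_iff_unique_prime_dvd.1 h1).unique ⟨k r hr, e1⟩ ⟨k s hs, e2⟩)

theorem hasDeg_of [hp : Fact p.Prime] [NS G] {U : Subgroup G} {e n : ℕ} (hn : Nat.card G = n)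
    (h1 : Nat.card U = p) (h2 : ∀ u ∈ U, u ≠ 1 → centralizer {u} = U)
    (h3 : Nat.card (normalizer (U : Set G)) = e * p) (h4 : p ≠ 2 ∧ ¬ p ^ 2 ∣ n) (s : ℕ)
    (hs : n ≤ s * s) (Ls : List (List Ent))
    (hP : blk n p e 0 ((List.range' 2 s).filter fun d => n % d == 0)
      (fun l => (l.map fun a : Ent => a.1 * (a.2.1 : ℤ)).sum == 1 && !Ls.contains l) = false)
    (hL : ∀ L ∈ Ls, (L.map fun a : Ent => (a.2.2 : ℤ) * (a.2.1 : ℤ) ^ 2).sum + 1 < (n : ℤ)) :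
    HasDeg G p := by
  obtain ⟨x, hx, ox⟩ := exists_orderOf_eq_mem hp.out h1.symm.dvd
  have h : Ctx p x := ⟨h4.1, ox, hn ▸ h4.2⟩
  have e1 := h.card_C
  have e2 := h.card_N
  rw [h2 x hx h.ne_one, h1] at e1 e2
  rw [eq_of_le_of_card_ge (zpowers_le.2 hx) (by rw [h1, h.card_zp]), h3] at e2
  exact (mk_shape h ⟨hn, rfl, (Nat.eq_of_mul_eq_mul_right hp.out.pos e2).symm,
    (Nat.eq_of_mul_eq_mul_left hp.out.pos (e1.symm.trans (mul_one p).symm))⟩ s hs Ls hP).hasDeg hn hL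

theorem sz_iso [NS G] {F : Type v} [Field F] [Fintype F] {m : ℕ} [H2.SzField F m]
    (hm : m = 1 ∨ m = 2) (hd : Nat.card G ∣ Nat.card (Sz F m)) : Nonempty (G ≃* Sz F m) := by
  obtain ⟨k, E, _, _, hE, ⟨f⟩⟩ :=
    H6.S3.isSz_of_simple G NS.nc fun e => H2.not_three_dvd m (e.trans hd)
  rw [Nat.card_congr f.toEquiv, H2.card_Sz, H2.card_Sz, hE.card_eq, H2.SzField.card_eq (m := m)]
    at hd
  have h1 := hE.one_le
  have h2 : k < 3 := lt_of_not_ge fun e => by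
    have := ((pow_dvd_pow_of_dvd (pow_dvd_pow 2 (show 7 ≤ 2 * k + 1 by omega)) 2).mul_right
      _).trans ((dvd_mul_right _ _).trans hd)
    rcases hm with rfl | rfl <;> exact absurd this (by decide)
  obtain rfl : k = m := by
    rcases hm with rfl | rfl <;> interval_cases k <;> first | rfl | exact absurd hd (by decide)
  exact ⟨f.trans (L0.Sp.nonempty_equiv k).some⟩

end Cfsg.Agent.H4.U3L

namespace Cfsg.Agent.L0.U3

open Cfsg Cfsg.Agent.H2.D1 Cfsg.Agent.H4.U3L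

theorem sz {F : Type*} [Field F] [Fintype F] {m : ℕ} (hm : m ∈ ({1, 2} : Finset ℕ))
    (hF : Fintype.card F = 2 ^ (2 * m + 1)) {G : Type*} [Group G] [Finite G]
    (hc : Nat.card G = Nat.card ↥(Lie.Sz F (2 ^ (m + 1))))
    (hd : degreePrimes G = degreePrimes ↥(Lie.Sz F (2 ^ (m + 1)))) :
    Nonempty (G ≃* ↥(Lie.Sz F (2 ^ (m + 1)))) := by
  simp only [Finset.mem_insert, Finset.mem_singleton] at hm
  have h1 : 1 ≤ m := by omega
  have : H2.SzField F m := ⟨h1, hF⟩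
  let e := H2.szEquiv F m
  have h2 := Nat.card_congr e.toEquiv
  have h3 := H2.card_Sz (F := F) m
  obtain ⟨U, -, u1, u2, u3⟩ := S0333.result h1 hF _ (Or.inl rfl)
  have k : ∀ {p : ℕ}, HasDeg (Sz F m) p → HasDeg (Lie.Sz F (2 ^ (m + 1))) p := fun ⟨χ, h⟩ =>
    ⟨⟨_, H3.isIrrCharacter_comp e.symm.toMonoidHom e.symm.surjective χ.2⟩, by
      rwa [dg_of (d := dg χ) (by simp [dg_eq])]⟩
  suffices NS G from ⟨(sz_iso hm (hc.trans h2.symm).dvd).some.trans e⟩
  rw [hF] at h3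
  rcases id hm with rfl | rfl
  · have hn : Nat.card (Sz F 1) = 2240 * 13 := h3
    have := ns_of_simple (H2.isSimpleGroup (F := F) 1) (by rw [hn]; norm_num)
    exact reduce (p := 13) ((hc.trans h2.symm).trans hn) hd (k (hasDeg_of hn u1 u2 u3 (by decide)
      171 (by norm_num) [[(1, 64, 1), (-1, 14, 1), (-1, 14, 1), (-1, 35, 3)]]
      (by decide +kernel) (by decide))) (by decide)
      (not_pp' (l := [1, 14, 40, 560]) (by decide +kernel) (by norm_num) (by decide))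
      fun T _ _ _ _ _ hT => (Nat.card_congr (sz_iso hm (hn ▸ hT)).some.toEquiv).trans hn
  · have hn : Nat.card (Sz F 2) = 793600 * 41 := h3
    have := ns_of_simple (H2.isSimpleGroup (F := F) 2) (by rw [hn]; norm_num)
    exact reduce (p := 41) ((hc.trans h2.symm).trans hn) hd (k (hasDeg_of hn u1 u2 u3 (by decide)
      5705 (by norm_num) [[(1, 1024, 1), (-1, 124, 1), (-1, 124, 1), (-1, 775, 10)]]
      (by decide +kernel) (by decide))) (by decide)
      (not_pp' (l := [1, 124, 1600, 198400]) (by decide +kernel) (by norm_num) (by decide))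
      fun T _ _ _ _ _ hT => (Nat.card_congr (sz_iso hm (hn ▸ hT)).some.toEquiv).trans hn

end Cfsg.Agent.L0.U3
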